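import Mathlib

/-!
Abelian Sylow subgroups of symmetric groups for odd primes: inversion on orbits normalizes them.
-/

namespace Cfsg.Agent.Perm.AbSylowAlt

open Equiv Equiv.Perm

variable {X : Type*} [Fintype X] [DecidableEq X]

/-- The orbit of a point. -/
def Orb (Q : Subgroup (Perm X)) (o : X) : Set X := {y | ∃ g ∈ Q, g o = y}

lemma mem_orb_self (Q : Subgroup (Perm X)) (o : X) : o ∈ Orb Q o := ⟨1, Q.one_mem, rfl⟩

lemma mem_orb_apply {Q : Subgroup (Perm X)} {o y : X} (hy : y ∈ Orb Q o) {g : Perm X} (hg : g ∈ Q) :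
    g y ∈ Orb Q o := by
  obtain ⟨k, hk, rfl⟩ := hy
  exact ⟨g * k, Q.mul_mem hg hk, rfl⟩

lemma not_mem_orb_apply {Q : Subgroup (Perm X)} {o y : X} (hy : y ∉ Orb Q o) {g : Perm X}
    (hg : g ∈ Q) : g y ∉ Orb Q o := by
  intro h
  apply hy
  have := mem_orb_apply h (Q.inv_mem hg)
  simpa using this

lemma inv_indep {Q : Subgroup (Perm X)} (hab : ∀ g ∈ Q, ∀ h ∈ Q, g * h = h * g) {o : X}
    {g h : Perm X} (hg : g ∈ Q) (hh : h ∈ Q) (e : g o = h o) : g⁻¹ o = h⁻¹ o := by
  have h1 : h⁻¹ * g⁻¹ = g⁻¹ * h⁻¹ := hab _ (Q.inv_mem hh) _ (Q.inv_mem hg)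
  have h2 : h⁻¹ o = h⁻¹ (g⁻¹ (g o)) := by simp
  rw [h2, e, ← Perm.mul_apply, ← Perm.mul_apply, h1]
  simp

open Classical in
/-- The inversion map on an orbit. -/
noncomputable def invF (Q : Subgroup (Perm X)) (o y : X) : X :=
  if h : y ∈ Orb Q o then (h.choose)⁻¹ o else y

lemma invF_apply {Q : Subgroup (Perm X)} (hab : ∀ g ∈ Q, ∀ h ∈ Q, g * h = h * g) {o : X}
    {g : Perm X} (hg : g ∈ Q) : invF Q o (g o) = g⁻¹ o := by
  have hm : g o ∈ Orb Q o := ⟨g, hg, rfl⟩
  unfold invF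
  rw [dif_pos hm]
  exact inv_indep hab hm.choose_spec.1 hg hm.choose_spec.2

lemma invF_off {Q : Subgroup (Perm X)} {o y : X} (hy : y ∉ Orb Q o) : invF Q o y = y := by
  unfold invF
  rw [dif_neg hy]

lemma invF_invol {Q : Subgroup (Perm X)} (hab : ∀ g ∈ Q, ∀ h ∈ Q, g * h = h * g) (o : X) :
    Function.Involutive (invF Q o) := by
  intro y
  by_cases hy : y ∈ Orb Q o
  · obtain ⟨g, hg, rfl⟩ := hy
    rw [invF_apply hab hg, invF_apply hab (Q.inv_mem hg), inv_inv]
  · rw [invF_off hy, invF_off hy]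

/-- The inversion on an orbit as a permutation. -/
noncomputable def tau (Q : Subgroup (Perm X)) (hab : ∀ g ∈ Q, ∀ h ∈ Q, g * h = h * g) (o : X) :
    Perm X := (invF_invol hab o).toPerm

lemma tau_apply {Q : Subgroup (Perm X)} (hab : ∀ g ∈ Q, ∀ h ∈ Q, g * h = h * g) {o : X}
    {g : Perm X} (hg : g ∈ Q) : tau Q hab o (g o) = g⁻¹ o := invF_apply hab hg

lemma tau_self {Q : Subgroup (Perm X)} (hab : ∀ g ∈ Q, ∀ h ∈ Q, g * h = h * g) (o : X) :
    tau Q hab o o = o := by
  have := tau_apply hab (o := o) Q.one_mem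
  simpa using this

lemma tau_off {Q : Subgroup (Perm X)} (hab : ∀ g ∈ Q, ∀ h ∈ Q, g * h = h * g) {o y : X}
    (hy : y ∉ Orb Q o) : tau Q hab o y = y := invF_off hy

lemma tau_mul_self {Q : Subgroup (Perm X)} (hab : ∀ g ∈ Q, ∀ h ∈ Q, g * h = h * g) (o : X) :
    tau Q hab o * tau Q hab o = 1 := by
  ext y
  exact invF_invol hab o y

lemma tau_inv {Q : Subgroup (Perm X)} (hab : ∀ g ∈ Q, ∀ h ∈ Q, g * h = h * g) (o : X) :
    (tau Q hab o)⁻¹ = tau Q hab o := by
  rw [inv_eq_iff_mul_eq_one]; exact tau_mul_self hab o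

open Classical in
/-- The restriction of an element to an orbit. -/
noncomputable def restr (Q : Subgroup (Perm X)) (o : X) (g : Perm X) (hg : g ∈ Q) : Perm X where
  toFun y := if y ∈ Orb Q o then g y else y
  invFun y := if y ∈ Orb Q o then g⁻¹ y else y
  left_inv := by
    intro y
    by_cases hy : y ∈ Orb Q o
    · simp only [if_pos hy, if_pos (mem_orb_apply hy hg)]
      exact g.symm_apply_apply y
    · simp only [if_neg hy, if_neg hy]
  right_inv := by
    intro y
    by_cases hy : y ∈ Orb Q o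
    · simp only [if_pos hy, if_pos (mem_orb_apply hy (Q.inv_mem hg))]
      exact g.apply_symm_apply y
    · simp only [if_neg hy, if_neg hy]

lemma restr_on {Q : Subgroup (Perm X)} {o y : X} {g : Perm X} (hg : g ∈ Q) (hy : y ∈ Orb Q o) :
    restr Q o g hg y = g y := if_pos hy

lemma restr_off {Q : Subgroup (Perm X)} {o y : X} {g : Perm X} (hg : g ∈ Q) (hy : y ∉ Orb Q o) :
    restr Q o g hg y = y := if_neg hy

lemma restr_pow {Q : Subgroup (Perm X)} {o : X} {g : Perm X} (hg : g ∈ Q) (m : ℕ) :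
    (restr Q o g hg) ^ m = restr Q o (g ^ m) (Q.pow_mem hg m) := by
  induction m with
  | zero =>
    ext y
    by_cases hy : y ∈ Orb Q o
    · simp [restr_on _ hy]
    · simp [restr_off _ hy]
  | succ m ih =>
    ext y
    rw [pow_succ, ih, Perm.mul_apply]
    by_cases hy : y ∈ Orb Q o
    · rw [restr_on hg hy, restr_on _ (mem_orb_apply hy hg), restr_on _ hy, pow_succ, Perm.mul_apply]
    · rw [restr_off hg hy, restr_off _ hy, restr_off _ hy]

lemma restr_commute {Q : Subgroup (Perm X)} (hab : ∀ g ∈ Q, ∀ h ∈ Q, g * h = h * g) {o : X}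
    {g h : Perm X} (hg : g ∈ Q) (hh : h ∈ Q) : h * restr Q o g hg = restr Q o g hg * h := by
  ext y
  rw [Perm.mul_apply, Perm.mul_apply]
  by_cases hy : y ∈ Orb Q o
  · rw [restr_on hg hy, restr_on hg (mem_orb_apply hy hh), ← Perm.mul_apply, ← Perm.mul_apply,
      hab h hh g hg]
  · rw [restr_off hg hy, restr_off hg (not_mem_orb_apply hy hh)]

/-- Restrictions of elements of an abelian Sylow subgroup to orbits lie in it. -/
lemma restr_mem {p : ℕ} {Q : Subgroup (Perm X)} (hQ : IsPGroup p Q)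
    (hmax : ∀ R : Subgroup (Perm X), IsPGroup p R → Q ≤ R → R = Q)
    (hab : ∀ g ∈ Q, ∀ h ∈ Q, g * h = h * g) {o : X} {g : Perm X} (hg : g ∈ Q) :
    restr Q o g hg ∈ Q := by
  set z := restr Q o g hg with hz
  have hz2 : IsPGroup p (Subgroup.zpowers z) := by
    rintro ⟨x, i, rfl⟩
    obtain ⟨k, hk⟩ := hQ ⟨g, hg⟩
    have hk' : g ^ p ^ k = 1 := by
      have := congrArg Subtype.val hk
      simpa using this
    refine ⟨k, Subtype.ext ?_⟩
    have h1 : z ^ p ^ k = 1 := by
      rw [hz, restr_pow]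
      ext y
      by_cases hy : y ∈ Orb Q o
      · rw [restr_on _ hy, hk']
      · rw [restr_off _ hy]; rfl
    show ((fun n : ℤ => z ^ n) i) ^ p ^ k = 1
    simp only
    rw [← zpow_natCast, ← zpow_mul, mul_comm, zpow_mul, zpow_natCast, h1, one_zpow]
  have hN : Q ≤ Subgroup.normalizer ((Subgroup.zpowers z : Subgroup (Perm X)) : Set (Perm X)) := by
    intro h hh
    rw [Subgroup.mem_normalizer_iff]
    have hc : Commute h z := restr_commute hab hg hh
    intro x
    constructor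
    · rintro ⟨i, rfl⟩
      have h2 : h * (fun n : ℤ => z ^ n) i * h⁻¹ = z ^ i := by
        simp only
        rw [(hc.zpow_right i).eq, mul_inv_cancel_right]
      rw [h2]
      exact ⟨i, rfl⟩
    · rintro ⟨i, hi⟩
      have h2 : x = z ^ i := by
        have h3 : x = h⁻¹ * (h * x * h⁻¹) * h := by group
        rw [h3, ← hi]
        simp only
        rw [mul_assoc, ← (hc.zpow_right i).eq, inv_mul_cancel_left]
      rw [h2]
      exact ⟨i, rfl⟩
  have hsup := hQ.to_sup_of_normal_right' hz2 hN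
  have hR := hmax _ hsup le_sup_left
  have : z ∈ Q ⊔ Subgroup.zpowers z := (le_sup_right : Subgroup.zpowers z ≤ _) (Subgroup.mem_zpowers z)
  rwa [hR] at this

/-- Conjugation by the inversion. -/
lemma tau_conj_mem {p : ℕ} {Q : Subgroup (Perm X)} (hQ : IsPGroup p Q)
    (hmax : ∀ R : Subgroup (Perm X), IsPGroup p R → Q ≤ R → R = Q)
    (hab : ∀ g ∈ Q, ∀ h ∈ Q, g * h = h * g) (o : X) {h : Perm X} (hh : h ∈ Q) :
    tau Q hab o * h * (tau Q hab o)⁻¹ ∈ Q := by
  have hi := Q.inv_mem hh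
  have h1 : tau Q hab o * h * (tau Q hab o)⁻¹ =
      h * restr Q o h⁻¹ hi * restr Q o h⁻¹ hi := by
    rw [tau_inv]
    ext y
    rw [Perm.mul_apply, Perm.mul_apply, Perm.mul_apply, Perm.mul_apply]
    by_cases hy : y ∈ Orb Q o
    · rw [restr_on hi hy, restr_on hi (mem_orb_apply hy hi)]
      obtain ⟨k, hk, rfl⟩ := hy
      rw [tau_apply hab hk, ← Perm.mul_apply h, tau_apply hab (Q.mul_mem hh (Q.inv_mem hk))]
      have e1 : (h * k⁻¹)⁻¹ = h⁻¹ * k := by rw [mul_inv_rev, inv_inv, hab k hk _ hi]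
      rw [e1, Perm.mul_apply, ← Perm.mul_apply h, mul_inv_cancel, Perm.one_apply]
    · rw [tau_off hab hy, tau_off hab (not_mem_orb_apply hy hh), restr_off hi hy, restr_off hi hy]
  rw [h1]
  exact Q.mul_mem (Q.mul_mem hh (restr_mem hQ hmax hab hi)) (restr_mem hQ hmax hab hi)

lemma odd_fix {p : ℕ} [hp : Fact p.Prime] (hp2 : p ≠ 2) {Q : Subgroup (Perm X)} (hQ : IsPGroup p Q)
    {g : Perm X} (hg : g ∈ Q) {o : X} (h : g (g o) = o) : g o = o := by
  obtain ⟨k, hk⟩ := hQ ⟨g, hg⟩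
  have hk' : g ^ p ^ k = 1 := by
    have := congrArg Subtype.val hk
    simpa using this
  have h1 : (g ^ 2) o = o := by rw [pow_two, Perm.mul_apply, h]
  have h2 : (g ^ p ^ k) o = o := by rw [hk']; rfl
  have hcop : Nat.Coprime 2 (p ^ k) :=
    Nat.Coprime.pow_right _ ((Nat.coprime_primes Nat.prime_two hp.out).2 (Ne.symm hp2))
  have hf : ∀ m : ℕ, (g ^ m) o = o ↔ Function.minimalPeriod g o ∣ m := by
    intro m
    rw [← Function.isPeriodicPt_iff_minimalPeriod_dvd, Function.IsPeriodicPt, Function.IsFixedPt,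
      Equiv.Perm.iterate_eq_pow]
  have h3 : Function.minimalPeriod g o ∣ Nat.gcd 2 (p ^ k) :=
    Nat.dvd_gcd ((hf 2).1 h1) ((hf _).1 h2)
  rw [hcop] at h3
  have h4 := (hf 1).2 h3
  simpa using h4

/-- Data of a normalizing non-centralizing involution. -/
def GoodInv (Q : Subgroup (Perm X)) (τ : Perm X) : Prop :=
  τ * τ = 1 ∧ (∀ h ∈ Q, τ * h * τ⁻¹ ∈ Q) ∧ ∃ g ∈ Q, τ * g * τ⁻¹ ≠ g

lemma goodInv_tau {p : ℕ} [hp : Fact p.Prime] (hp2 : p ≠ 2) {Q : Subgroup (Perm X)}
    (hQ : IsPGroup p Q) (hmax : ∀ R : Subgroup (Perm X), IsPGroup p R → Q ≤ R → R = Q)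
    (hab : ∀ g ∈ Q, ∀ h ∈ Q, g * h = h * g) {o : X} {g : Perm X} (hg : g ∈ Q) (ho : g o ≠ o) :
    GoodInv Q (tau Q hab o) := by
  refine ⟨tau_mul_self hab o, fun h hh => tau_conj_mem hQ hmax hab o hh, g, hg, ?_⟩
  intro h
  rw [tau_inv] at h
  have h1 := congrArg (fun f : Perm X => f o) h
  simp only [Perm.mul_apply] at h1
  rw [tau_self, tau_apply hab hg] at h1
  apply ho
  apply odd_fix hp2 hQ hg
  rw [← h1]
  simp

lemma tau_disjoint {Q : Subgroup (Perm X)} (hab : ∀ g ∈ Q, ∀ h ∈ Q, g * h = h * g) {a b : X}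
    (hn : b ∉ Orb Q a) : Disjoint (tau Q hab a) (tau Q hab b) := by
  intro y
  by_cases hy : y ∈ Orb Q a
  · right
    apply tau_off hab
    intro hyb
    obtain ⟨l, hl, hl2⟩ := hy
    obtain ⟨k, hk, hk2⟩ := hyb
    apply hn
    refine ⟨k⁻¹ * l, Q.mul_mem (Q.inv_mem hk) hl, ?_⟩
    rw [Perm.mul_apply, hl2, ← hk2]; simp
  · left
    exact tau_off hab hy

lemma exists_even_good {p : ℕ} [hp : Fact p.Prime] (hp2 : p ≠ 2) {Q : Subgroup (Perm X)}
    (hQ : IsPGroup p Q) (hmax : ∀ R : Subgroup (Perm X), IsPGroup p R → Q ≤ R → R = Q)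
    (hab : ∀ g ∈ Q, ∀ h ∈ Q, g * h = h * g) {a b : X} {g g' : Perm X} (hg : g ∈ Q) (hg' : g' ∈ Q)
    (ha : g a ≠ a) (hb : g' b ≠ b) (hn : b ∉ Orb Q a) :
    ∃ τ : Perm X, Perm.sign τ = 1 ∧ GoodInv Q τ := by
  by_cases h1 : Perm.sign (tau Q hab a) = 1
  · exact ⟨_, h1, goodInv_tau hp2 hQ hmax hab hg ha⟩
  by_cases h2 : Perm.sign (tau Q hab b) = 1
  · exact ⟨_, h2, goodInv_tau hp2 hQ hmax hab hg' hb⟩
  have h1' : Perm.sign (tau Q hab a) = -1 := (Int.units_eq_one_or _).resolve_left h1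
  have h2' : Perm.sign (tau Q hab b) = -1 := (Int.units_eq_one_or _).resolve_left h2
  have hd := tau_disjoint hab hn
  refine ⟨tau Q hab a * tau Q hab b, by rw [Perm.sign_mul, h1', h2']; rfl, ?_, ?_, g, hg, ?_⟩
  · calc tau Q hab a * tau Q hab b * (tau Q hab a * tau Q hab b)
        = tau Q hab a * (tau Q hab b * tau Q hab a) * tau Q hab b := by group
      _ = tau Q hab a * (tau Q hab a * tau Q hab b) * tau Q hab b := by rw [hd.symm.commute.eq]
      _ = (tau Q hab a * tau Q hab a) * (tau Q hab b * tau Q hab b) := by group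
      _ = 1 := by rw [tau_mul_self, tau_mul_self, one_mul]
  · intro h hh
    have e : tau Q hab a * tau Q hab b * h * (tau Q hab a * tau Q hab b)⁻¹
        = tau Q hab a * (tau Q hab b * h * (tau Q hab b)⁻¹) * (tau Q hab a)⁻¹ := by group
    rw [e]
    exact tau_conj_mem hQ hmax hab a (tau_conj_mem hQ hmax hab b hh)
  · intro h
    have hna : a ∉ Orb Q b := by
      rintro ⟨k, hk, hk2⟩
      apply hn
      refine ⟨k⁻¹, Q.inv_mem hk, ?_⟩
      rw [← hk2]; simp
    have hga : g a ∉ Orb Q b := by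
      intro hh
      have := mem_orb_apply hh (Q.inv_mem hg)
      apply hna
      simpa using this
    have e : (tau Q hab a * tau Q hab b)⁻¹ = tau Q hab b * tau Q hab a := by
      rw [mul_inv_rev, tau_inv, tau_inv]
    rw [e] at h
    have h3 := congrArg (fun f : Perm X => f a) h
    simp only [Perm.mul_apply] at h3
    rw [tau_self, tau_off hab hna, tau_off hab hga, tau_apply hab hg] at h3
    apply ha
    apply odd_fix hp2 hQ hg
    rw [← h3]
    simp

lemma mul_dvd_factorial {a b : ℕ} (ha : 0 < a) (hab : a < b) : a * b ∣ b.factorial := by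
  obtain ⟨c, rfl⟩ : ∃ c, b = c + 1 := ⟨b - 1, by omega⟩
  rw [Nat.factorial_succ, mul_comm]
  exact Nat.mul_dvd_mul_left _ (Nat.dvd_factorial ha (by omega))

/-- Abelian Sylow `p`-subgroups of symmetric groups, `p` odd, are cyclic or admit a normalizing
non-centralizing even involution. -/
theorem cyclic_or_good {p : ℕ} [hp : Fact p.Prime] (hp2 : p ≠ 2) (P : Sylow p (Perm X))
    (hab : ∀ g ∈ (P : Subgroup (Perm X)), ∀ h ∈ (P : Subgroup (Perm X)), g * h = h * g) :
    IsCyclic (P : Subgroup (Perm X)) ∨ ∃ τ : Perm X, Perm.sign τ = 1 ∧ GoodInv (P : Subgroup (Perm X)) τ := by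
  set Q : Subgroup (Perm X) := (P : Subgroup (Perm X)) with hQdef
  have hQ : IsPGroup p Q := P.isPGroup'
  have hmax : ∀ R : Subgroup (Perm X), IsPGroup p R → Q ≤ R → R = Q := fun R h1 h2 => P.is_maximal' h1 h2
  by_cases hex : ∃ a b : X, ∃ g ∈ Q, ∃ g' ∈ Q, g a ≠ a ∧ g' b ≠ b ∧ b ∉ Orb Q a
  · obtain ⟨a, b, g, hg, g', hg', ha, hb, hn⟩ := hex
    exact Or.inr (exists_even_good hp2 hQ hmax hab hg hg' ha hb hn)
  left
  push Not at hex
  by_cases hmv : ∃ o : X, ∃ g ∈ Q, g o ≠ o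
  · obtain ⟨o, g0, hg0, ho⟩ := hmv
    have hfix : ∀ z ∈ Q, z o = o → z = 1 := by
      intro z hz hzo
      ext y
      by_contra hy
      obtain ⟨k, hk, rfl⟩ := hex o y g0 hg0 z hz ho hy
      apply hy
      rw [Perm.one_apply, ← Perm.mul_apply, hab z hz k hk, Perm.mul_apply, hzo]
    have hinj : Function.Injective (fun g : Q => (g : Perm X) o) := by
      intro g h hgh
      have h1 := hfix ((h : Perm X)⁻¹ * g) (Q.mul_mem (Q.inv_mem h.2) g.2) (by
        show (h : Perm X)⁻¹ ((g : Perm X) o) = o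
        have hgh' : (g : Perm X) o = (h : Perm X) o := hgh
        rw [hgh']; simp)
      apply Subtype.ext
      rw [inv_mul_eq_one] at h1
      exact h1.symm
    have hle : Nat.card Q ≤ Nat.card X := Nat.card_le_card_of_injective _ hinj
    obtain ⟨j, hj⟩ := IsPGroup.iff_card.1 hQ
    have hj2 : j < 2 := by
      by_contra hcon
      push Not at hcon
      have hp1 : p < p ^ j := by
        calc p = p ^ 1 := (pow_one p).symm
          _ < p ^ j := Nat.pow_lt_pow_right hp.out.one_lt (by omega)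
      have h1 : p * p ^ j ∣ (p ^ j).factorial := mul_dvd_factorial hp.out.pos hp1
      have h2 : (p ^ j).factorial ∣ (Fintype.card X).factorial := by
        apply Nat.factorial_dvd_factorial
        rw [← hj, ← Nat.card_eq_fintype_card]
        exact hle
      have h3 : p ^ (j + 1) ∣ Nat.card (Perm X) := by
        rw [Nat.card_eq_fintype_card, Fintype.card_perm, pow_succ, mul_comm]
        exact h1.trans h2
      have h4 := P.pow_dvd_card_of_pow_dvd_card h3
      have h5 : p ^ (j + 1) ∣ p ^ j := by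
        rw [← hj]; exact h4
      have h6 := (Nat.pow_dvd_pow_iff_le_right hp.out.one_lt).1 h5
      omega
    interval_cases j
    · have : Subsingleton Q := (Nat.card_eq_one_iff_unique.1 (by simpa using hj)).1
      exact isCyclic_of_subsingleton
    · have : Fact (Nat.card Q).Prime := ⟨by rw [hj]; simpa using hp.out⟩
      exact isCyclic_of_prime_card rfl
  · push Not at hmv
    have : Subsingleton Q := by
      constructor
      rintro ⟨g, hg⟩ ⟨h, hh⟩
      apply Subtype.ext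
      ext y
      simp only
      rw [hmv y g hg, hmv y h hh]
    exact isCyclic_of_subsingleton

/-- An element of the normalizer outside the centralizer with square one gives an even index. -/
lemma two_dvd_index {G : Type*} [Group G] (P : Subgroup G) {t : G}
    (hN : t ∈ Subgroup.normalizer (P : Set G)) (hC : t ∉ Subgroup.centralizer (P : Set G))
    (h2 : t * t = 1) :
    2 ∣ ((Subgroup.centralizer (P : Set G)).subgroupOf (Subgroup.normalizer (P : Set G))).index := by
  set N := Subgroup.normalizer (P : Set G) with hNdef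
  set C := Subgroup.centralizer (P : Set G) with hCdef
  have hnorm : (C.subgroupOf N).Normal := by
    constructor
    intro c hc g
    rw [Subgroup.mem_subgroupOf] at hc ⊢
    rw [hCdef, Subgroup.mem_centralizer_iff] at hc ⊢
    intro x hx
    have hg : (g : G) ∈ Subgroup.normalizer (P : Set G) := g.2
    rw [Subgroup.mem_normalizer_iff] at hg
    have h1 : (g : G)⁻¹ * x * g ∈ P := by
      have := (hg ((g : G)⁻¹ * x * g)).2
      apply this
      have e : (g : G) * ((g : G)⁻¹ * x * g) * (g : G)⁻¹ = x := by group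
      rw [e]; exact hx
    have h3 := hc _ h1
    simp only [Subgroup.coe_mul, InvMemClass.coe_inv]
    calc x * ((g : G) * c * (g : G)⁻¹)
        = (g : G) * (((g : G)⁻¹ * x * g) * c) * (g : G)⁻¹ := by group
      _ = (g : G) * (c * ((g : G)⁻¹ * x * g)) * (g : G)⁻¹ := by rw [h3]
      _ = (g : G) * c * (g : G)⁻¹ * x := by group
  have ht : ((⟨t, hN⟩ : N) : N ⧸ C.subgroupOf N) ≠ 1 := by
    rw [Ne, QuotientGroup.eq_one_iff]
    rw [Subgroup.mem_subgroupOf]
    exact hC
  have ht2 : ((⟨t, hN⟩ : N) : N ⧸ C.subgroupOf N) ^ 2 = 1 := by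
    rw [← QuotientGroup.mk_pow, QuotientGroup.eq_one_iff, Subgroup.mem_subgroupOf]
    have : (((⟨t, hN⟩ : N) ^ 2 : N) : G) = 1 := by
      rw [pow_two]; exact h2
    rw [this]
    exact C.one_mem
  have h3 : orderOf ((⟨t, hN⟩ : N) : N ⧸ C.subgroupOf N) = 2 :=
    orderOf_eq_prime ht2 ht
  have h4 := orderOf_dvd_natCard ((⟨t, hN⟩ : N) : N ⧸ C.subgroupOf N)
  rw [h3] at h4
  exact h4

end Cfsg.Agent.Perm.AbSylowAlt
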