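import Cfsg.Agent.Lib.Perm.AbSylowAlt
import Cfsg.Agent.Lib.Perm.SymSylow

/-!
Abelian Sylow subgroups of alternating groups.
-/

namespace Cfsg.Agent.Perm.AbSylowAlt

open Equiv Equiv.Perm

variable {X : Type*} [Fintype X] [DecidableEq X]

lemma sign_of_pow {p : ℕ} [hp : Fact p.Prime] (hp2 : p ≠ 2) {r : Perm X} {k : ℕ}
    (h : r ^ p ^ k = 1) : Perm.sign r = 1 := by
  have h1 : Perm.sign r ^ p ^ k = 1 := by rw [← map_pow, h, map_one]
  rcases Int.units_eq_one_or (Perm.sign r) with h2 | h2
  · exact h2
  · rw [h2, Odd.neg_one_pow ((hp.out.odd_of_ne_two hp2).pow)] at h1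
    exact absurd h1 (by decide)

/-- Sylow subgroups for odd primes of the alternating group are Sylow in the symmetric group. -/
theorem exists_perm_sylow_odd {p : ℕ} [hp : Fact p.Prime] (hp2 : p ≠ 2)
    (P : Sylow p (alternatingGroup X)) :
    ∃ S : Sylow p (Perm X), (S : Subgroup (Perm X)) =
      (P : Subgroup (alternatingGroup X)).map (alternatingGroup X).subtype := by
  refine ⟨⟨(P : Subgroup (alternatingGroup X)).map (alternatingGroup X).subtype,
    P.isPGroup'.map _, ?_⟩, rfl⟩
  intro R hR hle
  have hRA : ∀ r ∈ R, r ∈ alternatingGroup X := by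
    intro r hr
    obtain ⟨k, hk⟩ := hR ⟨r, hr⟩
    have hk' : r ^ p ^ k = 1 := by
      have := congrArg Subtype.val hk
      simpa using this
    exact Equiv.Perm.mem_alternatingGroup.2 (sign_of_pow hp2 hk')
  have hR' : IsPGroup p (R.comap (alternatingGroup X).subtype) :=
    hR.comap_of_injective _ (Subgroup.subtype_injective _)
  have hPR : (P : Subgroup (alternatingGroup X)) ≤ R.comap (alternatingGroup X).subtype := by
    intro x hx
    exact hle ⟨x, hx, rfl⟩
  have h := P.is_maximal' hR' hPR
  apply le_antisymm _ hle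
  intro r hr
  refine ⟨⟨r, hRA r hr⟩, ?_, rfl⟩
  rw [← h]
  exact hr

theorem odd_case {p : ℕ} [hp : Fact p.Prime] (hp2 : p ≠ 2) (P : Sylow p (alternatingGroup X))
    (hP : IsMulCommutative (P : Subgroup (alternatingGroup X))) :
    2 ∣ ((Subgroup.centralizer ((P : Subgroup (alternatingGroup X)) : Set (alternatingGroup X))).subgroupOf
      (Subgroup.normalizer ((P : Subgroup (alternatingGroup X)) : Set (alternatingGroup X)))).index ∨
      IsCyclic (P : Subgroup (alternatingGroup X)) := by
  obtain ⟨S, hS⟩ := exists_perm_sylow_odd hp2 P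
  have hab : ∀ g ∈ (S : Subgroup (Perm X)), ∀ h ∈ (S : Subgroup (Perm X)), g * h = h * g := by
    intro g hg h hh
    rw [hS] at hg hh
    obtain ⟨x, hx, rfl⟩ := hg
    obtain ⟨y, hy, rfl⟩ := hh
    have := hP.is_comm.comm ⟨x, hx⟩ ⟨y, hy⟩
    have h2 : x * y = y * x := congrArg Subtype.val this
    simp only [Subgroup.subtype_apply]
    exact congrArg Subtype.val h2
  rcases cyclic_or_good hp2 S hab with hc | ⟨τ, hs, h2, hconj, g, hg, hne⟩
  · right
    rw [hS] at hc
    exact (Subgroup.equivMapOfInjective (P : Subgroup (alternatingGroup X))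
      (alternatingGroup X).subtype (Subgroup.subtype_injective _)).isCyclic.2 hc
  · left
    have hτ : τ ∈ alternatingGroup X := Equiv.Perm.mem_alternatingGroup.2 hs
    set t : alternatingGroup X := ⟨τ, hτ⟩ with ht
    have hinv : τ⁻¹ = τ := by rw [inv_eq_iff_mul_eq_one]; exact h2
    have hmem : ∀ x : alternatingGroup X, x ∈ (P : Subgroup (alternatingGroup X)) →
        t * x * t⁻¹ ∈ (P : Subgroup (alternatingGroup X)) := by
      intro x hx
      have h1 : (x : Perm X) ∈ (S : Subgroup (Perm X)) := by
        rw [hS]; exact ⟨x, hx, rfl⟩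
      have h3 := hconj _ h1
      rw [hS] at h3
      obtain ⟨y, hy, hy2⟩ := h3
      have : y = t * x * t⁻¹ := Subtype.ext hy2
      rw [← this]; exact hy
    have htt : t * t = 1 := Subtype.ext h2
    have htinv : t⁻¹ = t := by rw [inv_eq_iff_mul_eq_one]; exact htt
    apply two_dvd_index (P : Subgroup (alternatingGroup X)) (t := t) _ _ htt
    · rw [Subgroup.mem_normalizer_iff]
      intro x
      refine ⟨hmem x, fun hx => ?_⟩
      have := hmem _ hx
      have e : t * (t * x * t⁻¹) * t⁻¹ = x := by
        rw [htinv]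
        calc t * (t * x * t) * t = (t * t) * x * (t * t) := by group
          _ = x := by rw [htt]; group
      rwa [e] at this
    · intro hcen
      rw [hS] at hg
      obtain ⟨x, hx, rfl⟩ := hg
      rw [Subgroup.mem_centralizer_iff] at hcen
      have h3 := hcen x hx
      apply hne
      have h4 : (x : Perm X) * τ = τ * (x : Perm X) := congrArg Subtype.val h3
      simp only [Subgroup.subtype_apply]
      rw [← h4]
      simp

/-- A group with a nonabelian two-subgroup has no abelian Sylow 2-subgroup. -/
lemma no_ab_sylow2 {G : Type*} [Group G] [Finite G] {a b c : G} (haa : a * a = 1) (hbb : b * b = 1)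
    (hcc : c * c = 1) (hab : a * b = b * a) (hca : c * a * c = b) (hcb : c * b * c = a)
    (hne : a * c ≠ c * a) (P : Sylow 2 G) (hP : IsMulCommutative (P : Subgroup G)) : False := by
  have hV : IsPGroup 2 (Subgroup.closure ({a, b} : Set G)) := by
    apply Cfsg.Agent.Perm.SymSylow.isPGroup_closure_of_comm
    · rintro x (rfl | rfl) y (rfl | rfl)
      · rfl
      · exact hab
      · exact hab.symm
      · rfl
    · rintro x (rfl | rfl)
      · exact haa
      · exact hbb
  have hH : IsPGroup 2 (Subgroup.closure ({c} : Set G)) := by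
    apply Cfsg.Agent.Perm.SymSylow.isPGroup_closure_of_comm
    · rintro x rfl y rfl
      rfl
    · rintro x rfl
      exact hcc
  have hcinv : c⁻¹ = c := by rw [inv_eq_iff_mul_eq_one]; exact hcc
  have hN : Subgroup.closure ({c} : Set G) ≤
      Subgroup.normalizer ((Subgroup.closure ({a, b} : Set G) : Subgroup G) : Set G) := by
    rw [Subgroup.closure_le, Set.singleton_subset_iff]
    have key : ∀ y ∈ Subgroup.closure ({a, b} : Set G), c * y * c ∈ Subgroup.closure ({a, b} : Set G) := by
      intro y hy
      induction hy using Subgroup.closure_induction with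
      | mem y hy =>
        rcases hy with rfl | rfl
        · rw [hca]; exact Subgroup.subset_closure (by simp)
        · rw [hcb]; exact Subgroup.subset_closure (by simp)
      | one => simp [hcc]
      | mul y z _ _ h1 h2 =>
        have e : c * (y * z) * c = (c * y * c) * (c * z * c) := by
          calc c * (y * z) * c = c * y * 1 * z * c := by group
            _ = c * y * (c * c) * z * c := by rw [hcc]
            _ = _ := by group
        rw [e]
        exact Subgroup.mul_mem _ h1 h2
      | inv y _ h1 =>
        have e : c * y⁻¹ * c = (c * y * c)⁻¹ := by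
          rw [mul_inv_rev, mul_inv_rev, hcinv]; group
        rw [e]
        exact Subgroup.inv_mem _ h1
    rw [SetLike.mem_coe, Subgroup.mem_normalizer_iff]
    intro y
    rw [hcinv]
    refine ⟨key y, fun hy => ?_⟩
    have := key _ hy
    have e : c * (c * y * c) * c = y := by
      calc c * (c * y * c) * c = (c * c) * y * (c * c) := by group
        _ = y := by rw [hcc]; group
    rwa [e] at this
  have hsup := hH.to_sup_of_normal_right' hV hN
  obtain ⟨S, hS⟩ := hsup.exists_le_sylow
  obtain ⟨g, hg⟩ := MulAction.exists_smul_eq G P S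
  have ha : a ∈ (S : Subgroup G) :=
    hS (Subgroup.mem_sup_right (Subgroup.subset_closure (by simp)))
  have hc : c ∈ (S : Subgroup G) :=
    hS (Subgroup.mem_sup_left (Subgroup.subset_closure (by simp)))
  rw [← hg, Cfsg.Agent.Perm.SymSylow.mem_sylow_smul] at ha hc
  have h1 := hP.is_comm.comm ⟨_, ha⟩ ⟨_, hc⟩
  have h2 : g⁻¹ * a * g * (g⁻¹ * c * g) = g⁻¹ * c * g * (g⁻¹ * a * g) := congrArg Subtype.val h1
  apply hne
  have h3 : g⁻¹ * (a * c) * g = g⁻¹ * (c * a) * g := by
    calc g⁻¹ * (a * c) * g = g⁻¹ * a * g * (g⁻¹ * c * g) := by group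
      _ = g⁻¹ * c * g * (g⁻¹ * a * g) := h2
      _ = g⁻¹ * (c * a) * g := by group
  simpa using h3

/-- The embedding of `A₆` into `A_n`. -/
noncomputable def altEmb {n : ℕ} (hn : 6 ≤ n) : alternatingGroup (Fin 6) →* alternatingGroup (Fin n) := by
  classical
  let f : Fin 6 ≃ Set.range (Fin.castLE hn) := Equiv.ofInjective _ (Fin.castLE_injective hn)
  exact ((Equiv.Perm.extendDomainHom f).comp (alternatingGroup (Fin 6)).subtype).codRestrict
    (alternatingGroup (Fin n)) (fun x => by
      rw [Equiv.Perm.mem_alternatingGroup]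
      show Perm.sign (Equiv.Perm.extendDomain _ f) = 1
      rw [Equiv.Perm.sign_extendDomain]
      exact x.2)

lemma altEmb_injective {n : ℕ} (hn : 6 ≤ n) : Function.Injective (altEmb hn) := by
  classical
  intro x y h
  have h1 := congrArg Subtype.val h
  exact Subtype.ext (Equiv.Perm.extendDomainHom_injective _ h1)

/-- Generators of a nonabelian subgroup of `A₆`. -/
def a6a : alternatingGroup (Fin 6) := ⟨swap 0 1 * swap 4 5, Equiv.Perm.mem_alternatingGroup.2 (by decide)⟩
/-- Generators of a nonabelian subgroup of `A₆`. -/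
def a6b : alternatingGroup (Fin 6) := ⟨swap 2 3 * swap 4 5, Equiv.Perm.mem_alternatingGroup.2 (by decide)⟩
/-- Generators of a nonabelian subgroup of `A₆`. -/
def a6c : alternatingGroup (Fin 6) := ⟨swap 0 2 * swap 1 3, Equiv.Perm.mem_alternatingGroup.2 (by decide)⟩

/-- Sylow 2-subgroups of `A_n` are nonabelian for `n ≥ 6`. -/
theorem two_case {n : ℕ} (hn : 6 ≤ n) (P : Sylow 2 (alternatingGroup (Fin n)))
    (hP : IsMulCommutative (P : Subgroup (alternatingGroup (Fin n)))) : False := by
  have haa : a6a * a6a = 1 := by decide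
  have hbb : a6b * a6b = 1 := by decide
  have hcc : a6c * a6c = 1 := by decide
  have hab : a6a * a6b = a6b * a6a := by decide
  have hca : a6c * a6a * a6c = a6b := by decide
  have hcb : a6c * a6b * a6c = a6a := by decide
  have hne : a6a * a6c ≠ a6c * a6a := by decide
  set φ := altEmb hn
  refine no_ab_sylow2 (a := φ a6a) (b := φ a6b) (c := φ a6c) ?_ ?_ ?_ ?_ ?_ ?_ ?_ P hP
  · rw [← map_mul, haa, map_one]
  · rw [← map_mul, hbb, map_one]
  · rw [← map_mul, hcc, map_one]
  · rw [← map_mul, hab, map_mul]
  · rw [← map_mul, ← map_mul, hca]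
  · rw [← map_mul, ← map_mul, hcb]
  · intro h
    rw [← map_mul, ← map_mul] at h
    exact hne (altEmb_injective hn h)

/-- Finite verification in `A₅`. -/
theorem a5_check : ∀ a b : alternatingGroup (Fin 5), a ≠ 1 → b ≠ 1 → a ≠ b → a * a = 1 → b * b = 1 →
    a * b = b * a →
    (Finset.univ.filter (fun g : alternatingGroup (Fin 5) =>
      (g * a * g⁻¹ = a ∨ g * a * g⁻¹ = b ∨ g * a * g⁻¹ = a * b) ∧
      (g * b * g⁻¹ = a ∨ g * b * g⁻¹ = b ∨ g * b * g⁻¹ = a * b))).card = 12 ∧
    (Finset.univ.filter (fun g : alternatingGroup (Fin 5) => a * g = g * a ∧ b * g = g * b)).card = 4 := by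
  decide +kernel

theorem a5_exp : ∀ x : alternatingGroup (Fin 5), x ^ 4 = 1 → x * x = 1 := by
  decide +kernel

theorem a5_card : Nat.card (alternatingGroup (Fin 5)) = 60 := by
  rw [Nat.card_eq_fintype_card]
  decide +kernel

theorem five_case (P : Sylow 2 (alternatingGroup (Fin 5))) :
    ((Subgroup.centralizer ((P : Subgroup (alternatingGroup (Fin 5))) : Set (alternatingGroup (Fin 5)))).subgroupOf
      (Subgroup.normalizer ((P : Subgroup (alternatingGroup (Fin 5))) : Set (alternatingGroup (Fin 5))))).index = 3 ∧
      IsKleinFour (P : Subgroup (alternatingGroup (Fin 5))) := by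
  classical
  set Q : Subgroup (alternatingGroup (Fin 5)) := (P : Subgroup (alternatingGroup (Fin 5))) with hQ
  have hcard : Nat.card Q = 4 := by
    obtain ⟨k, hk⟩ := IsPGroup.iff_card.1 P.isPGroup'
    have h1 : (2 : ℕ) ^ 2 ∣ Nat.card (alternatingGroup (Fin 5)) := by rw [a5_card]; norm_num
    have h2 := P.pow_dvd_card_of_pow_dvd_card h1
    have h3 : Nat.card Q ∣ 60 := by
      rw [← a5_card]; exact Subgroup.card_subgroup_dvd_card _
    rw [hQ, hk] at *
    have h4 : 2 ≤ k := (Nat.pow_dvd_pow_iff_le_right (by norm_num)).1 h2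
    have h5 : k < 3 := by
      by_contra h6
      push Not at h6
      have : (2 : ℕ) ^ 3 ∣ 2 ^ k := pow_dvd_pow _ h6
      have := this.trans h3
      norm_num at this
    have : k = 2 := by omega
    subst this
    norm_num
  have hsq : ∀ x ∈ Q, x * x = 1 := by
    intro x hx
    apply a5_exp
    have : (⟨x, hx⟩ : Q) ^ 4 = 1 := by
      rw [← hcard]; exact pow_card_eq_one'
    exact congrArg Subtype.val this
  have hcomm : ∀ x ∈ Q, ∀ y ∈ Q, x * y = y * x := by
    intro x hx y hy
    have h1 := hsq _ (Q.mul_mem hx hy)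
    have h2 := hsq x hx
    have h3 := hsq y hy
    calc x * y = x * y * (x * y) * (y⁻¹ * x⁻¹) := by group
      _ = y⁻¹ * x⁻¹ := by rw [h1, one_mul]
      _ = y * x := by
        rw [inv_eq_of_mul_eq_one_left h3, inv_eq_of_mul_eq_one_left h2]
  haveI hfinQ : Fintype Q := Fintype.ofFinite _
  -- pick two generators
  obtain ⟨a, haQ, ha1⟩ : ∃ a ∈ Q, a ≠ 1 := by
    by_contra hcon
    push Not at hcon
    have : Subsingleton Q := by
      constructor
      rintro ⟨x, hx⟩ ⟨y, hy⟩
      apply Subtype.ext
      simp only
      rw [hcon x hx, hcon y hy]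
    have h := Nat.card_of_subsingleton (⟨1, Q.one_mem⟩ : Q)
    omega
  obtain ⟨b, hbQ, hb1, hba⟩ : ∃ b ∈ Q, b ≠ 1 ∧ a ≠ b := by
    by_contra hcon
    push Not at hcon
    have h1 : Nat.card Q ≤ 2 := by
      have hle : Function.Injective (fun x : Q => if (x : alternatingGroup (Fin 5)) = 1 then (0 : Fin 2) else 1) := by
        rintro ⟨x, hx⟩ ⟨y, hy⟩ hxy
        apply Subtype.ext
        simp only at hxy ⊢
        by_cases hx1 : x = 1
        · by_cases hy1 : y = 1
          · rw [hx1, hy1]
          · simp [hx1, hy1] at hxy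
        · by_cases hy1 : y = 1
          · simp [hx1, hy1] at hxy
          · rw [← hcon x hx hx1, ← hcon y hy hy1]
      have := Nat.card_le_card_of_injective _ hle
      simpa using this
    omega
  have hQmem : ∀ x, x ∈ Q ↔ x = 1 ∨ x = a ∨ x = b ∨ x = a * b := by
    intro x
    constructor
    · intro hx
      have hsub : ({1, a, b, a * b} : Finset (alternatingGroup (Fin 5))) ⊆
          (Finset.univ.filter (fun y => y ∈ Q)) := by
        intro y hy
        simp only [Finset.mem_insert, Finset.mem_singleton] at hy
        simp only [Finset.mem_filter, Finset.mem_univ, true_and]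
        rcases hy with rfl | rfl | rfl | rfl
        · exact Q.one_mem
        · exact haQ
        · exact hbQ
        · exact Q.mul_mem haQ hbQ
      have hc4 : ({1, a, b, a * b} : Finset (alternatingGroup (Fin 5))).card = 4 := by
        rw [Finset.card_insert_of_notMem, Finset.card_insert_of_notMem, Finset.card_insert_of_notMem,
          Finset.card_singleton]
        · simp only [Finset.mem_singleton]
          intro h
          have : a = 1 := by simpa using h.symm ▸ (rfl : b = b) |> fun _ => (mul_eq_right.1 h.symm)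
          exact ha1 this
        · simp only [Finset.mem_insert, Finset.mem_singleton]
          rintro (h | h)
          · exact hba h
          · have : b = 1 := by
              have := h
              exact (mul_eq_left.1 h.symm)
            exact hb1 this
        · simp only [Finset.mem_insert, Finset.mem_singleton]
          rintro (h | h | h)
          · exact ha1 h.symm
          · exact hb1 h.symm
          · apply hba
            have h2 := hsq a haQ
            have : a * 1 = a * (a * b) := by rw [h]
            rw [← mul_assoc, h2, one_mul, mul_one] at this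
            exact this
      have hcf : (Finset.univ.filter (fun y => y ∈ Q)).card = 4 := by
        rw [← hcard]
        symm
        apply Nat.subtype_card
        intro y
        simp
      have heq := Finset.eq_of_subset_of_card_le hsub (by rw [hcf, hc4])
      have : x ∈ ({1, a, b, a * b} : Finset (alternatingGroup (Fin 5))) := by
        rw [heq]; simp [hx]
      simpa using this
    · rintro (rfl | rfl | rfl | rfl)
      · exact Q.one_mem
      · exact haQ
      · exact hbQ
      · exact Q.mul_mem haQ hbQ
  obtain ⟨hN12, hC4⟩ := a5_check a b ha1 hb1 hba (hsq a haQ) (hsq b hbQ) (hcomm a haQ b hbQ)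
  have hNmem : ∀ g, g ∈ Subgroup.normalizer (Q : Set (alternatingGroup (Fin 5))) ↔
      (g * a * g⁻¹ = a ∨ g * a * g⁻¹ = b ∨ g * a * g⁻¹ = a * b) ∧
      (g * b * g⁻¹ = a ∨ g * b * g⁻¹ = b ∨ g * b * g⁻¹ = a * b) := by
    intro g
    constructor
    · intro hg
      rw [Subgroup.mem_normalizer_iff] at hg
      have h1 := (hQmem _).1 ((hg a).1 haQ)
      have h2 := (hQmem _).1 ((hg b).1 hbQ)
      have h3 : g * a * g⁻¹ ≠ 1 := by
        intro h
        apply ha1
        have := congrArg (fun y => g⁻¹ * y * g) h
        simpa [mul_assoc] using this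
      have h4 : g * b * g⁻¹ ≠ 1 := by
        intro h
        apply hb1
        have := congrArg (fun y => g⁻¹ * y * g) h
        simpa [mul_assoc] using this
      exact ⟨h1.resolve_left h3, h2.resolve_left h4⟩
    · rintro ⟨h1, h2⟩
      have h1' : g * a * g⁻¹ ∈ Q := (hQmem _).2 (Or.inr h1)
      have h2' : g * b * g⁻¹ ∈ Q := (hQmem _).2 (Or.inr h2)
      apply Subgroup.mem_normalizer_fintype
      intro n hn
      rcases (hQmem n).1 hn with rfl | rfl | rfl | rfl
      · simp [Q.one_mem]
      · exact h1'
      · exact h2'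
      · have e : g * (a * b) * g⁻¹ = (g * a * g⁻¹) * (g * b * g⁻¹) := by group
        rw [e]
        exact Q.mul_mem h1' h2'
  have hCmem : ∀ g, g ∈ Subgroup.centralizer (Q : Set (alternatingGroup (Fin 5))) ↔
      a * g = g * a ∧ b * g = g * b := by
    intro g
    rw [Subgroup.mem_centralizer_iff]
    constructor
    · intro h
      exact ⟨h a haQ, h b hbQ⟩
    · rintro ⟨h1, h2⟩ n hn
      rcases (hQmem n).1 hn with rfl | rfl | rfl | rfl
      · simp
      · exact h1
      · exact h2
      · rw [mul_assoc, h2, ← mul_assoc, h1, mul_assoc]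
  have hle : Subgroup.centralizer (Q : Set (alternatingGroup (Fin 5))) ≤
      Subgroup.normalizer (Q : Set (alternatingGroup (Fin 5))) := by
    intro g hg
    rw [hCmem] at hg
    rw [hNmem]
    constructor
    · left
      rw [← hg.1]; simp
    · right; left
      rw [← hg.2]; simp
  have hNc : Nat.card (Subgroup.normalizer (Q : Set (alternatingGroup (Fin 5)))) = 12 := by
    rw [← hN12]
    apply Nat.subtype_card
    intro g
    rw [Finset.mem_filter, hNmem]
    simp
  have hCc : Nat.card (Subgroup.centralizer (Q : Set (alternatingGroup (Fin 5)))) = 4 := by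
    rw [← hC4]
    apply Nat.subtype_card
    intro g
    rw [Finset.mem_filter, hCmem]
    simp
  constructor
  · have h1 := Subgroup.card_mul_index
      ((Subgroup.centralizer (Q : Set (alternatingGroup (Fin 5)))).subgroupOf
        (Subgroup.normalizer (Q : Set (alternatingGroup (Fin 5)))))
    rw [hNc, Nat.card_congr (Subgroup.subgroupOfEquivOfLe hle).toEquiv, hCc] at h1
    omega
  · have hnt : Nontrivial Q := ⟨⟨⟨a, haQ⟩, 1, fun h => ha1 (congrArg Subtype.val h)⟩⟩
    refine ⟨hcard, ?_⟩
    rw [Monoid.exponent_eq_prime_iff Nat.prime_two]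
    intro g hg
    apply orderOf_eq_prime _ hg
    rw [pow_two]
    exact Subtype.ext (hsq g g.2)

end Cfsg.Agent.Perm.AbSylowAlt
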