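import Cfsg.Agent.Lib.Perm.AutA6Dec
import Cfsg.Agent.Lib.Basic.Nilpotent
import Mathlib.GroupTheory.Sylow
import Mathlib.GroupTheory.Index
import Mathlib.GroupTheory.Subgroup.Centralizer

/-!
Any two Sylow 2-subgroups of a group `G` with a normal subgroup `≅ A₆` of index 4 meet
nontrivially.
-/

namespace Cfsg.Agent.Perm.AutA6

open scoped Pointwise

section generic

variable {G : Type*} [Group G]

/-- An involution normalizing a finite subgroup of even order centralizes a nontrivial element. -/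
lemma exists_fixed_of_even [Finite G] (K : Subgroup G) (z : G) (hz2 : z * z = 1)
    (hzK : ∀ k ∈ K, z * k * z⁻¹ ∈ K) (heven : 2 ∣ Nat.card K) :
    ∃ j ∈ K, j ≠ 1 ∧ j * z = z * j := by
  classical
  by_contra hno
  push Not at hno
  have hzi : z⁻¹ = z := by
    rw [inv_eq_iff_mul_eq_one]; exact hz2
  let φ : K → K := fun k => ⟨k.1⁻¹ * (z * k.1 * z⁻¹), K.mul_mem (K.inv_mem k.2) (hzK _ k.2)⟩
  have hinj : Function.Injective φ := by
    intro k l hkl
    have h1 : k.1⁻¹ * (z * k.1 * z⁻¹) = l.1⁻¹ * (z * l.1 * z⁻¹) := congrArg Subtype.val hkl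
    have h2 : k.1⁻¹ * z * k.1 = l.1⁻¹ * z * l.1 := by
      have := congrArg (· * z) h1
      simpa [mul_assoc] using this
    by_contra hne
    have hm : l.1 * k.1⁻¹ ≠ 1 := by
      intro h
      apply hne
      apply Subtype.ext
      exact (mul_inv_eq_one.1 h).symm
    apply hno _ (K.mul_mem l.2 (K.inv_mem k.2)) hm
    calc l.1 * k.1⁻¹ * z = l.1 * (k.1⁻¹ * z * k.1) * k.1⁻¹ := by group
      _ = l.1 * (l.1⁻¹ * z * l.1) * k.1⁻¹ := by rw [h2]
      _ = z * (l.1 * k.1⁻¹) := by group
  have hsurj : Function.Surjective φ := Finite.injective_iff_surjective.1 hinj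
  haveI : Fact (Nat.Prime 2) := ⟨Nat.prime_two⟩
  obtain ⟨t, ht⟩ := exists_prime_orderOf_dvd_card' 2 heven
  obtain ⟨l, hl⟩ := hsurj t
  have ht1 : t.1 * t.1 = 1 := by
    have h := pow_orderOf_eq_one t
    rw [ht, pow_two] at h
    exact congrArg Subtype.val h
  have htne : t.1 ≠ 1 := by
    intro h
    have h1 : t = 1 := Subtype.ext h
    rw [h1, orderOf_one] at ht
    omega
  have htv : t.1 = l.1⁻¹ * (z * l.1 * z⁻¹) := (congrArg Subtype.val hl).symm
  apply hno t.1 t.2 htne
  have htinv : t.1⁻¹ = t.1 := by rw [inv_eq_iff_mul_eq_one]; exact ht1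
  have h3 : z * t.1 * z⁻¹ = t.1⁻¹ := by
    rw [htv, hzi]
    have hzz : ∀ a : G, z * (z * a) = a := by
      intro a; rw [← mul_assoc, hz2, one_mul]
    simp only [mul_inv_rev, inv_inv, hzi, mul_assoc]
    rw [hz2, mul_one]
  rw [htinv] at h3
  calc t.1 * z = (z * t.1 * z⁻¹) * z := by rw [h3]
    _ = z * t.1 := by group

lemma exists_invol_pow (w : G) (hw : w ≠ 1) (k : ℕ) (hk : w ^ (2 ^ k) = 1) :
    ∃ m : ℕ, w ^ m ≠ 1 ∧ w ^ m * w ^ m = 1 := by
  induction k with
  | zero => simp at hk; exact absurd hk hw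
  | succ k ih =>
    by_cases h : w ^ (2 ^ k) = 1
    · exact ih h
    · refine ⟨2 ^ k, h, ?_⟩
      rw [← pow_add, ← two_mul, ← pow_succ']
      exact hk

end generic

variable {G : Type*} [Group G] [Finite G] (N : Subgroup G) [N.Normal]
    (e : N ≃* alternatingGroup (Fin 6))

omit [Finite G] [N.Normal] in
lemma card_filter_conj {A : Type*} [Group A] [Fintype A] [DecidableEq A] (c r g : A)
    (h : g * c * g⁻¹ = r) :
    (Finset.univ.filter (fun y : A => y * c = c * y)).card =
      (Finset.univ.filter (fun y : A => y * r = r * y)).card := by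
  refine Finset.card_bij (fun y _ => g * y * g⁻¹) ?_ ?_ ?_
  · intro y hy
    simp only [Finset.mem_filter, Finset.mem_univ, true_and] at hy ⊢
    subst h
    calc g * y * g⁻¹ * (g * c * g⁻¹) = g * (y * c) * g⁻¹ := by group
      _ = g * (c * y) * g⁻¹ := by rw [hy]
      _ = g * c * g⁻¹ * (g * y * g⁻¹) := by group
  · intro a _ b _ hab
    simpa using hab
  · intro y hy
    simp only [Finset.mem_filter, Finset.mem_univ, true_and] at hy
    refine ⟨g⁻¹ * y * g, ?_, by group⟩
    simp only [Finset.mem_filter, Finset.mem_univ, true_and]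
    subst h
    have h2 : y * (g * c * g⁻¹) = (g * c * g⁻¹) * y := hy
    calc g⁻¹ * y * g * c = g⁻¹ * (y * (g * c * g⁻¹)) * g := by group
      _ = g⁻¹ * ((g * c * g⁻¹) * y) * g := by rw [h2]
      _ = c * (g⁻¹ * y * g) := by group

/-- The image of a finset of `A₆` in `G`. -/
noncomputable def emb (e : N ≃* alternatingGroup (Fin 6)) (a : alternatingGroup (Fin 6)) : G :=
  ((e.symm a : N) : G)

omit [Finite G] [N.Normal] in
lemma emb_e (y : G) (hy : y ∈ N) : emb N e (e ⟨y, hy⟩) = y := by
  simp [emb]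

/-- Counting bound for an element of `N` of odd order: the centralizer leaves `N`. -/
lemma not_le_of_count (c : G) (hcN : c ∈ N) (hcard : Nat.card G = 1440) (p C S : ℕ)
    (hp : c ^ p = 1) (hc1 : c ≠ 1)
    (hS : (Finset.univ.filter (fun y : alternatingGroup (Fin 6) => y ^ p = 1 ∧ y ≠ 1)).card = S)
    (hC : (Finset.univ.filter
      (fun y : alternatingGroup (Fin 6) => y * e ⟨c, hcN⟩ = e ⟨c, hcN⟩ * y)).card = C)
    (hlt : C * S < 1440) :
    ¬ Subgroup.centralizer ({c} : Set G) ≤ N := by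
  classical
  intro hle
  letI : MulAction G N := MulAction.compHom N (MulAut.conjNormal : G →* MulAut N)
  have hsm : ∀ (g : G) (y : N), ((g • y : N) : G) = g * y * g⁻¹ := by
    intro g y
    change (((MulAut.conjNormal (H := N) g) • y : N) : G) = _
    rw [MulAut.smul_def, MulAut.conjNormal_apply]
  have hst : MulAction.stabilizer G (⟨c, hcN⟩ : N) = Subgroup.centralizer ({c} : Set G) := by
    ext g
    rw [MulAction.mem_stabilizer_iff, Subgroup.mem_centralizer_singleton_iff]
    constructor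
    · intro h
      have h1 : g * c * g⁻¹ = c := by
        have := hsm g ⟨c, hcN⟩
        rw [h] at this
        exact this.symm
      calc g * c = (g * c * g⁻¹) * g := by group
        _ = c * g := by rw [h1]
    · intro h
      apply Subtype.ext
      rw [hsm]
      simp only
      rw [h]; group
  have hidx : (Subgroup.centralizer ({c} : Set G)).index ≤ S := by
    rw [← hst, MulAction.index_stabilizer]
    have hsub : MulAction.orbit G (⟨c, hcN⟩ : N) ⊆
        ((Finset.univ.filter (fun y : alternatingGroup (Fin 6) => y ^ p = 1 ∧ y ≠ 1)).image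
          (fun a => e.symm a) : Finset N) := by
      rintro _ ⟨g, rfl⟩
      simp only [Finset.coe_image, Set.mem_image, Finset.mem_coe, Finset.mem_filter,
        Finset.mem_univ, true_and]
      refine ⟨e (g • (⟨c, hcN⟩ : N)), ⟨?_, ?_⟩, by simp⟩
      · rw [← map_pow]
        have : (g • (⟨c, hcN⟩ : N)) ^ p = 1 := by
          apply Subtype.ext
          simp only [SubgroupClass.coe_pow, OneMemClass.coe_one]
          rw [hsm]
          simp only
          rw [conj_pow, hp]
          group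
        rw [this, map_one]
      · intro h
        have h1 : (g • (⟨c, hcN⟩ : N)) = 1 := by simpa using h
        have h2 : g * c * g⁻¹ = 1 := by
          have := hsm g ⟨c, hcN⟩
          rw [h1] at this
          exact this.symm
        apply hc1
        have : c = g⁻¹ * (g * c * g⁻¹) * g := by group
        rw [this, h2]; group
    have h1 := Set.ncard_le_ncard hsub (Finset.finite_toSet _)
    rw [Set.ncard_coe_finset] at h1
    exact h1.trans (Finset.card_image_le.trans hS.le)
  have hKcard : Nat.card (Subgroup.centralizer ({c} : Set G)) ≤ C := by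
    have hsub : ((Subgroup.centralizer ({c} : Set G) : Subgroup G) : Set G) ⊆
        ((Finset.univ.filter (fun y : alternatingGroup (Fin 6) =>
          y * e ⟨c, hcN⟩ = e ⟨c, hcN⟩ * y)).image (emb N e) : Finset G) := by
      intro y hy
      have hyN : y ∈ N := hle hy
      have hy' : y * c = c * y := (Subgroup.mem_centralizer_singleton_iff.1 hy)
      simp only [Finset.coe_image, Set.mem_image, Finset.mem_coe, Finset.mem_filter,
        Finset.mem_univ, true_and]
      refine ⟨e ⟨y, hyN⟩, ?_, emb_e N e _ hyN⟩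
      rw [← map_mul, ← map_mul]
      congr 1
      exact Subtype.ext hy'
    have h1 := Set.ncard_le_ncard hsub (Finset.finite_toSet _)
    rw [Set.ncard_coe_finset] at h1
    have h2 := Finset.card_image_le (s := (Finset.univ.filter (fun y : alternatingGroup (Fin 6) =>
          y * e ⟨c, hcN⟩ = e ⟨c, hcN⟩ * y))) (f := emb N e)
    have h3 : Nat.card (Subgroup.centralizer ({c} : Set G)) =
        ((Subgroup.centralizer ({c} : Set G) : Subgroup G) : Set G).ncard :=
      Nat.card_coe_set_eq _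
    rw [h3]
    omega
  have hmul := (Subgroup.centralizer ({c} : Set G)).card_mul_index
  rw [hcard] at hmul
  have : Nat.card (Subgroup.centralizer ({c} : Set G)) *
      (Subgroup.centralizer ({c} : Set G)).index ≤ C * S := Nat.mul_le_mul hKcard hidx
  omega

/-- An element of `G` outside `N` in a subgroup forces even order. -/
lemma even_of_not_le (hidx : N.index = 4) (K : Subgroup G) (hK : ¬ K ≤ N) : 2 ∣ Nat.card K := by
  by_contra hodd
  apply hK
  intro t ht
  have h4 : t ^ 4 ∈ N := by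
    have := Subgroup.pow_index_mem N t
    rwa [hidx] at this
  have hk : t ^ Nat.card K = 1 := by
    have := pow_card_eq_one' (G := K) (x := ⟨t, ht⟩)
    exact congrArg Subtype.val this
  have hcop : Nat.Coprime (Nat.card K) 4 := by
    have : Nat.Coprime (Nat.card K) (2 ^ 2) :=
      Nat.Coprime.pow_right 2 ((Nat.coprime_comm.1 ((Nat.Prime.coprime_iff_not_dvd Nat.prime_two).2 hodd)))
    simpa using this
  have h5 : (QuotientGroup.mk' N t) ^ 4 = 1 := by
    rw [← map_pow]
    exact (QuotientGroup.eq_one_iff _).2 h4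
  have h6 : (QuotientGroup.mk' N t) ^ Nat.card K = 1 := by
    rw [← map_pow, hk, map_one]
  have h7 := pow_gcd_eq_one.2 ⟨h6, h5⟩
  rw [hcop, pow_one] at h7
  exact (QuotientGroup.eq_one_iff _).1 h7

/-- The odd order case. -/
lemma exists_common_odd (hidx : N.index = 4) (hcard : Nat.card G = 1440) (z z' : G)
    (hz2 : z * z = 1) (hz'2 : z' * z' = 1) (hcN : z * z' ∈ N) (hc1 : z * z' ≠ 1)
    (hnot : ¬ Subgroup.centralizer ({z * z'} : Set G) ≤ N) :
    ∃ j : G, j ≠ 1 ∧ j * z = z * j ∧ j * z' = z' * j := by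
  set c := z * z' with hc
  have hzi : z⁻¹ = z := by rw [inv_eq_iff_mul_eq_one]; exact hz2
  have hz'i : z'⁻¹ = z' := by rw [inv_eq_iff_mul_eq_one]; exact hz'2
  have hzc : z * c * z⁻¹ = c⁻¹ := by
    rw [hc, hzi, mul_inv_rev, hzi, hz'i]
    rw [← mul_assoc, hz2, one_mul]
  have heven := even_of_not_le N hidx _ hnot
  obtain ⟨j, hjK, hj1, hjz⟩ := exists_fixed_of_even (Subgroup.centralizer ({c} : Set G)) z hz2 (by
    intro k hk
    rw [Subgroup.mem_centralizer_singleton_iff] at hk ⊢
    have h1 : c = (c⁻¹)⁻¹ := by simp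
    have h2 : k * c⁻¹ = c⁻¹ * k := by
      calc k * c⁻¹ = c⁻¹ * (c * k) * c⁻¹ := by group
        _ = c⁻¹ * (k * c) * c⁻¹ := by rw [hk]
        _ = c⁻¹ * k := by group
    have h3 : c = z * c⁻¹ * z⁻¹ := by
      calc c = (z * z) * c * (z * z)⁻¹ := by rw [hz2]; group
        _ = z * (z * c * z⁻¹) * z⁻¹ := by group
        _ = z * c⁻¹ * z⁻¹ := by rw [hzc]
    rw [h3]
    calc z * k * z⁻¹ * (z * c⁻¹ * z⁻¹) = z * (k * c⁻¹) * z⁻¹ := by group
      _ = z * (c⁻¹ * k) * z⁻¹ := by rw [h2]
      _ = z * c⁻¹ * z⁻¹ * (z * k * z⁻¹) := by group) heven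
  rw [Subgroup.mem_centralizer_singleton_iff] at hjK
  refine ⟨j, hj1, hjz, ?_⟩
  have hz' : z' = z * c := by
    rw [hc, ← mul_assoc, hz2, one_mul]
  rw [hz']
  calc j * (z * c) = (j * z) * c := by group
    _ = (z * j) * c := by rw [hjz]
    _ = z * (j * c) := by group
    _ = z * (c * j) := by rw [hjK]
    _ = z * c * j := by group

/-- Reducing orders: the central element in the dihedral group. -/
lemma common_of_pow (z z' : G) (hz2 : z * z = 1) (hz'2 : z' * z' = 1) (m : ℕ)
    (hm1 : (z * z') ^ m ≠ 1) (hm2 : (z * z') ^ m * (z * z') ^ m = 1) :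
    ∃ j : G, j ≠ 1 ∧ j * z = z * j ∧ j * z' = z' * j := by
  set c := z * z' with hc
  have hzi : z⁻¹ = z := by rw [inv_eq_iff_mul_eq_one]; exact hz2
  have hz'i : z'⁻¹ = z' := by rw [inv_eq_iff_mul_eq_one]; exact hz'2
  have hzc : z * c * z⁻¹ = c⁻¹ := by
    rw [hc, hzi, mul_inv_rev, hzi, hz'i]
    rw [← mul_assoc, hz2, one_mul]
  have hz'c : z' * c * z'⁻¹ = c⁻¹ := by
    rw [hc, hz'i, mul_inv_rev, hzi, hz'i]
    rw [mul_assoc, mul_assoc, hz'2, mul_one]
  have hjinv : (c ^ m)⁻¹ = c ^ m := by rw [inv_eq_iff_mul_eq_one]; exact hm2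
  refine ⟨c ^ m, hm1, ?_, ?_⟩
  · have : z * c ^ m * z⁻¹ = (c ^ m)⁻¹ := by rw [← conj_pow, hzc, inv_pow]
    rw [hjinv] at this
    calc c ^ m * z = (z * c ^ m * z⁻¹) * z := by rw [this]
      _ = z * c ^ m := by group
  · have : z' * c ^ m * z'⁻¹ = (c ^ m)⁻¹ := by rw [← conj_pow, hz'c, inv_pow]
    rw [hjinv] at this
    calc c ^ m * z' = (z' * c ^ m * z'⁻¹) * z' := by rw [this]
      _ = z' * c ^ m := by group

include e in
/-- Two involutions of `N`-type have a common centralizing element. -/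
lemma exists_common (hidx : N.index = 4) (hcard : Nat.card G = 1440) (z z' : G)
    (hzN : z ∈ N) (hz'N : z' ∈ N) (hz1 : z ≠ 1)
    (hz2 : z * z = 1) (hz'2 : z' * z' = 1) :
    ∃ j : G, j ≠ 1 ∧ j * z = z * j ∧ j * z' = z' * j := by
  classical
  have hcN : z * z' ∈ N := N.mul_mem hzN hz'N
  set c := z * z' with hc
  have hinj : ∀ k : ℕ, (e ⟨c, hcN⟩) ^ k = 1 → c ^ k = 1 := by
    intro k hk
    rw [← map_pow] at hk
    have h1 : (⟨c, hcN⟩ : N) ^ k = 1 := by simpa using hk
    simpa using congrArg Subtype.val h1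
  have hinj1 : e ⟨c, hcN⟩ ≠ 1 → True := fun _ => trivial
  by_cases hc1 : c = 1
  · have hzz : z' = z := by
      have : z * z' = z * z := by rw [← hc, hc1, hz2]
      exact mul_left_cancel this
    exact ⟨z, hz1, rfl, by rw [hzz]⟩
  have hecne : e ⟨c, hcN⟩ ≠ 1 := by
    intro h
    apply hc1
    simpa using hinj 1 (by simpa using h)
  rcases orders (e ⟨c, hcN⟩) with h | h | h | h | h
  · exact absurd h hecne
  · -- `c` is an involution
    exact common_of_pow z z' hz2 hz'2 1 (by simpa using hc1) (by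
      have := hinj 2 h
      rw [pow_one]; rw [← pow_two]; exact this)
  · -- order 3
    obtain ⟨g, hg⟩ := conj3 _ hecne h
    have hC : (Finset.univ.filter
        (fun y : alternatingGroup (Fin 6) => y * e ⟨c, hcN⟩ = e ⟨c, hcN⟩ * y)).card = 9 := by
      rcases hg with hg | hg
      · rw [card_filter_conj _ _ g hg]; exact cent3a
      · rw [card_filter_conj _ _ g hg]; exact cent3b
    exact exists_common_odd N hidx hcard z z' hz2 hz'2 hcN hc1
      (not_le_of_count N e c hcN hcard 3 9 80 (hinj 3 h) hc1 count3 hC (by norm_num))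
  · -- order dividing 4
    by_cases h2 : c ^ 2 = 1
    · exact common_of_pow z z' hz2 hz'2 1 (by simpa using hc1) (by
        rw [pow_one]; rw [← pow_two]; exact h2)
    · exact common_of_pow z z' hz2 hz'2 2 h2 (by
        rw [← pow_add]; exact hinj 4 h)
  · -- order 5
    obtain ⟨g, hg⟩ := conj5 _ hecne h
    have hC : (Finset.univ.filter
        (fun y : alternatingGroup (Fin 6) => y * e ⟨c, hcN⟩ = e ⟨c, hcN⟩ * y)).card = 5 := by
      rcases hg with hg | hg
      · rw [card_filter_conj _ _ g hg]; exact cent5a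
      · rw [card_filter_conj _ _ g hg]; exact cent5b
    exact exists_common_odd N hidx hcard z z' hz2 hz'2 hcN hc1
      (not_le_of_count N e c hcN hcard 5 5 144 (hinj 5 h) hc1 count5 hC (by norm_num))

include e in
/-- The main theorem. -/
theorem main (hidx : N.index = 4) (H : Sylow 2 G) (x : G) :
    (H : Subgroup G) ⊓ MulAut.conj x • (H : Subgroup G) ≠ ⊥ := by
  classical
  have hcardN : Nat.card N = 360 := by
    rw [Nat.card_congr e.toEquiv, Nat.card_eq_fintype_card]
    exact card_A6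
  have hcard : Nat.card G = 1440 := by
    have := N.card_mul_index
    rw [hcardN, hidx] at this
    omega
  haveI : Fact (Nat.Prime 2) := ⟨Nat.prime_two⟩
  have hH32 : 2 ^ 5 ∣ Nat.card H := by
    apply Sylow.pow_dvd_card_of_pow_dvd_card
    rw [hcard]; norm_num
  -- `H ∩ N` is nontrivial
  have hDne : N.subgroupOf (H : Subgroup G) ≠ ⊥ := by
    intro hbot
    let f : (H : Subgroup G) →* G ⧸ N := (QuotientGroup.mk' N).comp (H : Subgroup G).subtype
    have hf : Function.Injective f := by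
      rw [injective_iff_map_eq_one]
      intro a ha
      have ha1 : (a : G) ∈ N := (QuotientGroup.eq_one_iff _).1 ha
      have ha2 : a ∈ N.subgroupOf (H : Subgroup G) := Subgroup.mem_subgroupOf.2 ha1
      rw [hbot] at ha2
      exact (Subgroup.mem_bot).1 ha2
    have h1 := Nat.card_le_card_of_injective f hf
    have h2 : Nat.card (G ⧸ N) = 4 := hidx
    rw [h2] at h1
    have h3 : 0 < Nat.card (H : Subgroup G) := Nat.card_pos
    have h4 := Nat.le_of_dvd h3 hH32
    omega
  haveI : Group.IsNilpotent (H : Subgroup G) := H.isPGroup'.isNilpotent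
  have hinf := Cfsg.Agent.Lib.Basic.normal_inf_center_ne_bot (N.subgroupOf (H : Subgroup G)) hDne
  obtain ⟨w, hw, hw1⟩ := (Subgroup.bot_or_exists_ne_one _).resolve_left hinf
  obtain ⟨k, hk⟩ := H.isPGroup' w
  obtain ⟨m, hm1, hm2⟩ := exists_invol_pow w hw1 k hk
  set zz := w ^ m with hzz
  have hzzmem : zz ∈ N.subgroupOf (H : Subgroup G) ⊓ Subgroup.center (H : Subgroup G) :=
    Subgroup.pow_mem _ hw m
  set z : G := (zz : G) with hz
  have hzN : z ∈ N := Subgroup.mem_subgroupOf.1 hzzmem.1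
  have hzH : z ∈ (H : Subgroup G) := zz.2
  have hz1 : z ≠ 1 := by
    intro h; apply hm1; exact Subtype.ext h
  have hz2 : z * z = 1 := congrArg Subtype.val hm2
  have hzc : ∀ h ∈ (H : Subgroup G), h * z = z * h := by
    intro h hh
    have := (Subgroup.mem_center_iff.1 hzzmem.2) ⟨h, hh⟩
    exact congrArg Subtype.val this
  -- `H` is the centralizer of `z`
  have hCz : Subgroup.centralizer ({z} : Set G) = (H : Subgroup G) := by
    apply H.is_maximal'
    · rintro ⟨y, hy⟩
      rw [Subgroup.mem_centralizer_singleton_iff] at hy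
      have hy4 : y ^ 4 ∈ N := by
        have := Subgroup.pow_index_mem N y
        rwa [hidx] at this
      have hcomm : y ^ 4 * z = z * y ^ 4 := by
        have : Commute (y ^ 4) z := (show Commute y z from hy).pow_left 4
        exact this
      have hez1 : e ⟨z, hzN⟩ ≠ 1 := by
        intro h
        apply hz1
        have h1 : (⟨z, hzN⟩ : N) = 1 := by simpa using h
        exact congrArg Subtype.val h1
      have hez2 : e ⟨z, hzN⟩ * e ⟨z, hzN⟩ = 1 := by
        rw [← map_mul]
        have : (⟨z, hzN⟩ : N) * ⟨z, hzN⟩ = 1 := Subtype.ext hz2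
        rw [this, map_one]
      obtain ⟨g, hg⟩ := conj0 _ hez1 hez2
      have hey : e ⟨y ^ 4, hy4⟩ * e ⟨z, hzN⟩ = e ⟨z, hzN⟩ * e ⟨y ^ 4, hy4⟩ := by
        rw [← map_mul, ← map_mul]
        congr 1
        exact Subtype.ext hcomm
      have h5 : (g * e ⟨y ^ 4, hy4⟩ * g⁻¹) ^ 4 = 1 := by
        apply cent0
        rw [← hg]
        calc g * e ⟨y ^ 4, hy4⟩ * g⁻¹ * (g * e ⟨z, hzN⟩ * g⁻¹)
            = g * (e ⟨y ^ 4, hy4⟩ * e ⟨z, hzN⟩) * g⁻¹ := by group
          _ = g * (e ⟨z, hzN⟩ * e ⟨y ^ 4, hy4⟩) * g⁻¹ := by rw [hey]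
          _ = g * e ⟨z, hzN⟩ * g⁻¹ * (g * e ⟨y ^ 4, hy4⟩ * g⁻¹) := by group
      rw [conj_pow] at h5
      have h6 : (e ⟨y ^ 4, hy4⟩) ^ 4 = 1 := by
        have := congrArg (fun a => g⁻¹ * a * g) h5
        simpa [mul_assoc] using this
      rw [← map_pow] at h6
      have h7 : (⟨y ^ 4, hy4⟩ : N) ^ 4 = 1 := by simpa using h6
      have h8 : (y ^ 4) ^ 4 = 1 := by simpa using congrArg Subtype.val h7
      refine ⟨4, Subtype.ext ?_⟩
      simp only [SubgroupClass.coe_pow, OneMemClass.coe_one]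
      rw [show (2 : ℕ) ^ 4 = 4 * 4 by norm_num, pow_mul]
      exact h8
    · intro h hh
      rw [Subgroup.mem_centralizer_singleton_iff]
      exact hzc h hh
  have hz'N : x * z * x⁻¹ ∈ N := ‹N.Normal›.conj_mem z hzN x
  have hz'2 : (x * z * x⁻¹) * (x * z * x⁻¹) = 1 := by
    calc (x * z * x⁻¹) * (x * z * x⁻¹) = x * (z * z) * x⁻¹ := by group
      _ = 1 := by rw [hz2]; group
  obtain ⟨j, hj1, hjz, hjz'⟩ := exists_common N e hidx hcard z (x * z * x⁻¹) hzN hz'N hz1 hz2 hz'2
  intro hbot
  apply hj1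
  have hmem : j ∈ (H : Subgroup G) ⊓ MulAut.conj x • (H : Subgroup G) := by
    refine Subgroup.mem_inf.2 ⟨?_, ?_⟩
    · rw [← hCz, Subgroup.mem_centralizer_singleton_iff]
      exact hjz
    · rw [Subgroup.mem_pointwise_smul_iff_inv_smul_mem, ← hCz,
        Subgroup.mem_centralizer_singleton_iff]
      have h5 : (MulAut.conj x)⁻¹ • j = x⁻¹ * j * x := by
        rw [MulAut.smul_def, MulAut.conj_inv_apply]
      rw [h5]
      calc x⁻¹ * j * x * z = x⁻¹ * (j * (x * z * x⁻¹)) * x := by group
        _ = x⁻¹ * ((x * z * x⁻¹) * j) * x := by rw [hjz']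
        _ = z * (x⁻¹ * j * x) := by group
  rw [hbot] at hmem
  exact (Subgroup.mem_bot).1 hmem

end Cfsg.Agent.Perm.AutA6
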