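import Mathlib.GroupTheory.SpecificGroups.Alternating

/-!
Finite checks in the alternating group of degree 6.
-/

set_option maxRecDepth 100000

namespace Cfsg.Agent.Perm.AutA6

/-- The alternating group of degree 6. -/
abbrev A6 := alternatingGroup (Fin 6)

/-- A double transposition. -/
def r0 : A6 := ⟨Equiv.swap 0 1 * Equiv.swap 2 3, Equiv.Perm.mem_alternatingGroup.2 (by decide)⟩
/-- A 3-cycle. -/
def r3a : A6 := ⟨Equiv.swap 0 1 * Equiv.swap 1 2, Equiv.Perm.mem_alternatingGroup.2 (by decide)⟩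
/-- A product of two 3-cycles. -/
def r3b : A6 := ⟨Equiv.swap 0 1 * Equiv.swap 1 2 * Equiv.swap 3 4 * Equiv.swap 4 5, Equiv.Perm.mem_alternatingGroup.2 (by decide)⟩
/-- A 5-cycle. -/
def r5a : A6 := ⟨Equiv.swap 0 1 * Equiv.swap 1 2 * Equiv.swap 2 3 * Equiv.swap 3 4, Equiv.Perm.mem_alternatingGroup.2 (by decide)⟩
/-- Another 5-cycle. -/
def r5b : A6 := ⟨Equiv.swap 1 0 * Equiv.swap 0 2 * Equiv.swap 2 3 * Equiv.swap 3 4, Equiv.Perm.mem_alternatingGroup.2 (by decide)⟩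

lemma orders : ∀ x : A6, x = 1 ∨ x ^ 2 = 1 ∨ x ^ 3 = 1 ∨ x ^ 4 = 1 ∨ x ^ 5 = 1 := by decide +kernel

lemma count3 : (Finset.univ.filter (fun y : A6 => y ^ 3 = 1 ∧ y ≠ 1)).card = 80 := by decide +kernel

lemma count5 : (Finset.univ.filter (fun y : A6 => y ^ 5 = 1 ∧ y ≠ 1)).card = 144 := by decide +kernel

lemma conj0 : ∀ z : A6, z ≠ 1 → z * z = 1 → ∃ g : A6, g * z * g⁻¹ = r0 := by decide +kernel

lemma conj3 : ∀ c : A6, c ≠ 1 → c ^ 3 = 1 → ∃ g : A6, g * c * g⁻¹ = r3a ∨ g * c * g⁻¹ = r3b := by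
  decide +kernel

lemma conj5 : ∀ c : A6, c ≠ 1 → c ^ 5 = 1 → ∃ g : A6, g * c * g⁻¹ = r5a ∨ g * c * g⁻¹ = r5b := by
  decide +kernel

lemma cent0 : ∀ y : A6, y * r0 = r0 * y → y ^ 4 = 1 := by decide +kernel

lemma cent3a : (Finset.univ.filter (fun y : A6 => y * r3a = r3a * y)).card = 9 := by decide +kernel
lemma cent3b : (Finset.univ.filter (fun y : A6 => y * r3b = r3b * y)).card = 9 := by decide +kernel
lemma cent5a : (Finset.univ.filter (fun y : A6 => y * r5a = r5a * y)).card = 5 := by decide +kernel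
lemma cent5b : (Finset.univ.filter (fun y : A6 => y * r5b = r5b * y)).card = 5 := by decide +kernel

lemma card_A6 : Fintype.card A6 = 360 := by decide +kernel

end Cfsg.Agent.Perm.AutA6
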