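import Cfsg.Agent.Lib.Known.GLFlag3
import Cfsg.Agent.Lib.Perm.SymSylow
import Mathlib.GroupTheory.Nilpotent

/-!
Any two Sylow 2-subgroups of an extension of `SL_n(2)` by an outer involution meet
nontrivially: this is a consequence of the Bruhat decomposition alone.
-/

namespace Cfsg.Agent.Perm.AutSLTwo

open scoped Pointwise
open Cfsg.Agent.Lib.Known.GLFlag

section abstract

variable {G : Type*} [Group G]

/-- The core of the argument, for `x` in `N`. -/
lemma inner_main (N : Subgroup G) [N.Normal] (H : Subgroup G) (t : G) (htH : t ∈ H)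
    (htN : t ∉ N) (w : G)
    (hw : ∀ y ∈ N, (∃ u ∈ H ⊓ N, u ≠ 1 ∧ y⁻¹ * u * y ∈ H ⊓ N) ∨
      ∃ a ∈ H ⊓ N, ∃ b ∈ H ⊓ N, y = a * w * b)
    (x : G) (hx : x ∈ N) : ∃ j : G, j ≠ 1 ∧ j ∈ H ∧ x⁻¹ * j * x ∈ H := by
  have hNn := ‹N.Normal›
  rcases hw x hx with ⟨u, hu, hu1, hux⟩ | ⟨a, ha, b, hb, hab⟩
  · exact ⟨u, hu1, hu.1, hux.1⟩
  · have hy : t * x * t⁻¹ ∈ N := hNn.conj_mem x hx t
    rcases hw _ hy with ⟨u, hu, hu1, hux⟩ | ⟨a', ha', b', hb', hab'⟩
    · refine ⟨t⁻¹ * u * t, ?_, H.mul_mem (H.mul_mem (H.inv_mem htH) hu.1) htH, ?_⟩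
      · intro h
        apply hu1
        have : u = t * (t⁻¹ * u * t) * t⁻¹ := by group
        rw [this, h]; group
      · have : x⁻¹ * (t⁻¹ * u * t) * x =
            t⁻¹ * ((t * x * t⁻¹)⁻¹ * u * (t * x * t⁻¹)) * t := by group
        rw [this]
        exact H.mul_mem (H.mul_mem (H.inv_mem htH) hux.1) htH
    · -- `t x t⁻¹ = u x v`
      have hxw : w = a⁻¹ * x * b⁻¹ := by rw [hab]; group
      have hkey : t * x * t⁻¹ = (a' * a⁻¹) * x * (b⁻¹ * b') := by
        rw [hab', hxw]; group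
      have hu : a' * a⁻¹ ∈ H ⊓ N := (H ⊓ N).mul_mem ha' ((H ⊓ N).inv_mem ha)
      have hv : b⁻¹ * b' ∈ H ⊓ N := (H ⊓ N).mul_mem ((H ⊓ N).inv_mem hb) hb'
      set u := a' * a⁻¹ with hu'
      set v := b⁻¹ * b' with hv'
      refine ⟨u⁻¹ * t, ?_, H.mul_mem (H.inv_mem hu.1) htH, ?_⟩
      · intro h
        apply htN
        have : t = u := by
          have h2 : t = u * (u⁻¹ * t) := by group
          rw [h2, h, mul_one]
        rw [this]
        exact hu.2
      · have : x⁻¹ * (u⁻¹ * t) * x = v * t := by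
          have h3 : t * x = u * x * v * t := by
            calc t * x = (t * x * t⁻¹) * t := by group
              _ = u * x * v * t := by rw [hkey]
          calc x⁻¹ * (u⁻¹ * t) * x = x⁻¹ * u⁻¹ * (t * x) := by group
            _ = x⁻¹ * u⁻¹ * (u * x * v * t) := by rw [h3]
            _ = v * t := by group
        rw [this]
        exact H.mul_mem hv.1 htH

/-- The abstract criterion. -/
theorem abs_main [Finite G] (N : Subgroup G) [N.Normal] (hidx : N.index = 2) (U : Subgroup G)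
    (hU2 : IsPGroup 2 U) (hUN : U ≤ N)
    (hnorm : ∀ y ∈ N, (∀ u ∈ U, y * u * y⁻¹ ∈ U) → y ∈ U) (w : G)
    (hw : ∀ y ∈ N, (∃ u ∈ U, u ≠ 1 ∧ y⁻¹ * u * y ∈ U) ∨ ∃ a ∈ U, ∃ b ∈ U, y = a * w * b)
    (H : Sylow 2 G) (x : G) :
    (H : Subgroup G) ⊓ MulAut.conj x • (H : Subgroup G) ≠ ⊥ := by
  classical
  haveI : Fact (Nat.Prime 2) := ⟨Nat.prime_two⟩
  have hNn := ‹N.Normal›
  -- an element of `H` outside `N`
  have ht : ∃ t ∈ (H : Subgroup G), t ∉ N := by
    by_contra hc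
    push Not at hc
    have hle : (H : Subgroup G) ≤ N := hc
    have h1 := Subgroup.relIndex_mul_index hle
    rw [hidx] at h1
    have h2 : 2 ∣ (H : Subgroup G).index := ⟨_, by rw [← h1, mul_comm]⟩
    exact H.not_dvd_index h2
  obtain ⟨t, htH, htN⟩ := ht
  -- conjugate `U` into `H`
  obtain ⟨S, hS⟩ := hU2.exists_le_sylow
  obtain ⟨g, hg⟩ := MulAction.exists_smul_eq G S H
  have hgU : ∀ u ∈ U, g * u * g⁻¹ ∈ (H : Subgroup G) ⊓ N := by
    intro u hu
    refine Subgroup.mem_inf.2 ⟨?_, hNn.conj_mem u (hUN hu) g⟩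
    have : g * u * g⁻¹ ∈ ((g • S : Sylow 2 G) : Subgroup G) := by
      rw [Cfsg.Agent.Perm.SymSylow.mem_sylow_smul]
      have h1 : g⁻¹ * (g * u * g⁻¹) * g = u := by group
      rw [h1]
      exact hS hu
    rwa [hg] at this
  -- `H ∩ N` is the conjugate of `U`
  have hPU : ∀ p ∈ (H : Subgroup G) ⊓ N, g⁻¹ * p * g ∈ U := by
    set P := (H : Subgroup G) ⊓ N with hP
    set U₁ : Subgroup P := (U.map (MulAut.conj g).toMonoidHom).subgroupOf P with hU₁
    have hPp : IsPGroup 2 P := H.isPGroup'.to_le inf_le_left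
    haveI : Group.IsNilpotent P := hPp.isNilpotent
    have hmemU₁ : ∀ p : P, p ∈ U₁ ↔ g⁻¹ * (p : G) * g ∈ U := by
      intro p
      rw [hU₁, Subgroup.mem_subgroupOf, Subgroup.mem_map]
      constructor
      · rintro ⟨u, hu, hup⟩
        have h1 : (p : G) = g * u * g⁻¹ := hup.symm
        rw [h1]
        have h2 : g⁻¹ * (g * u * g⁻¹) * g = u := by group
        rwa [h2]
      · intro h
        refine ⟨_, h, ?_⟩
        change g * (g⁻¹ * (p : G) * g) * g⁻¹ = p
        group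
    have htop : U₁ = ⊤ := by
      by_contra hne
      have hlt : U₁ < ⊤ := lt_top_iff_ne_top.2 hne
      have hgrow := normalizerCondition_of_isNilpotent U₁ hlt
      obtain ⟨q, hq1, hq2⟩ := SetLike.exists_of_lt hgrow
      apply hq2
      rw [hmemU₁]
      apply hnorm _ (hNn.conj_mem _ q.2.2 g⁻¹ |> fun h => by simpa using h)
      intro u hu
      have hu1 : g * u * g⁻¹ ∈ P := hgU u hu
      have hu2 : (⟨g * u * g⁻¹, hu1⟩ : P) ∈ U₁ := by
        rw [hmemU₁]
        change g⁻¹ * (g * u * g⁻¹) * g ∈ U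
        have h2 : g⁻¹ * (g * u * g⁻¹) * g = u := by group
        rwa [h2]
      have hu3 := (Subgroup.mem_normalizer_iff.1 hq1 _).1 hu2
      rw [hmemU₁] at hu3
      have h4 : g⁻¹ * ((q * ⟨g * u * g⁻¹, hu1⟩ * q⁻¹ : P) : G) * g =
          g⁻¹ * (q : G) * g * u * (g⁻¹ * (q : G) * g)⁻¹ := by
        simp only [Subgroup.coe_mul, Subgroup.coe_inv]
        group
      rwa [h4] at hu3
    intro p hp
    have : (⟨p, hp⟩ : P) ∈ U₁ := by rw [htop]; trivial
    exact (hmemU₁ _).1 this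
  -- the hypothesis for `H ∩ N`
  have hw' : ∀ y ∈ N, (∃ u ∈ (H : Subgroup G) ⊓ N, u ≠ 1 ∧ y⁻¹ * u * y ∈ (H : Subgroup G) ⊓ N) ∨
      ∃ a ∈ (H : Subgroup G) ⊓ N, ∃ b ∈ (H : Subgroup G) ⊓ N, y = a * (g * w * g⁻¹) * b := by
    intro y hy
    have hy' : g⁻¹ * y * g ∈ N := by
      have := hNn.conj_mem y hy g⁻¹
      simpa using this
    rcases hw _ hy' with ⟨u, hu, hu1, hux⟩ | ⟨a, ha, b, hb, hab⟩
    · left
      refine ⟨g * u * g⁻¹, hgU u hu, ?_, ?_⟩
      · intro h
        apply hu1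
        have : u = g⁻¹ * (g * u * g⁻¹) * g := by group
        rw [this, h]; group
      · have := hgU _ hux
        have h2 : g * ((g⁻¹ * y * g)⁻¹ * u * (g⁻¹ * y * g)) * g⁻¹ = y⁻¹ * (g * u * g⁻¹) * y := by
          group
        rwa [h2] at this
    · right
      refine ⟨g * a * g⁻¹, hgU a ha, g * b * g⁻¹, hgU b hb, ?_⟩
      have : y = g * (g⁻¹ * y * g) * g⁻¹ := by group
      rw [this, hab]; group
  -- reduce to `x ∈ N`
  have hmain : ∀ x' ∈ N, ∃ j : G, j ≠ 1 ∧ j ∈ (H : Subgroup G) ∧ x'⁻¹ * j * x' ∈ (H : Subgroup G) :=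
    fun x' hx' => inner_main N (H : Subgroup G) t htH htN (g * w * g⁻¹) hw' x' hx'
  have hfinal : ∃ j : G, j ≠ 1 ∧ j ∈ (H : Subgroup G) ∧ x⁻¹ * j * x ∈ (H : Subgroup G) := by
    by_cases hx : x ∈ N
    · exact hmain x hx
    · have hxt : x * t ∈ N := (Subgroup.mul_mem_iff_of_index_two hidx).2 ⟨fun h => absurd h hx,
        fun h => absurd h htN⟩
      obtain ⟨j, hj1, hjH, hj⟩ := hmain _ hxt
      refine ⟨j, hj1, hjH, ?_⟩
      have : x⁻¹ * j * x = t * ((x * t)⁻¹ * j * (x * t)) * t⁻¹ := by group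
      rw [this]
      exact (H : Subgroup G).mul_mem ((H : Subgroup G).mul_mem htH hj) ((H : Subgroup G).inv_mem htH)
  obtain ⟨j, hj1, hjH, hj⟩ := hfinal
  intro hbot
  apply hj1
  have hmem : j ∈ (H : Subgroup G) ⊓ MulAut.conj x • (H : Subgroup G) := by
    refine Subgroup.mem_inf.2 ⟨hjH, ?_⟩
    rw [Subgroup.mem_pointwise_smul_iff_inv_smul_mem]
    have h5 : (MulAut.conj x)⁻¹ • j = x⁻¹ * j * x := by
      rw [MulAut.smul_def, MulAut.conj_inv_apply]
    rw [h5]
    exact hj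
  rw [hbot] at hmem
  exact (Subgroup.mem_bot).1 hmem

end abstract

section matrices

variable {n : ℕ}

/-- Upper triangular matrices over `𝔽₂`. -/
abbrev BB (n : ℕ) : Subgroup (GL (Fin n) (ZMod 2)) := bt (ZMod 2) (fun i : Fin n => i.val)

lemma pm_conj_apply {F : Type*} [Field F] (σ : Equiv.Perm (Fin n)) (M : Matrix (Fin n) (Fin n) F)
    (a b : Fin n) : (pm F σ * M * pm F σ⁻¹) a b = M (σ⁻¹ a) (σ⁻¹ b) := by
  classical
  have h1 : ∀ (X : Matrix (Fin n) (Fin n) F) (a b : Fin n), (X * pm F σ⁻¹) a b = X a (σ⁻¹ b) := by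
    intro X a b
    rw [Matrix.mul_apply, Finset.sum_eq_single (σ⁻¹ b)]
    · simp [pm]
    · intro l _ hl
      have h0 : pm F σ⁻¹ l b = 0 := by
        simp only [pm, Matrix.of_apply]
        exact if_neg hl
      rw [h0, mul_zero]
    · simp
  have h2 : ∀ (X : Matrix (Fin n) (Fin n) F) (a b : Fin n), (pm F σ * X) a b = X (σ⁻¹ a) b := by
    intro X a b
    rw [Matrix.mul_apply, Finset.sum_eq_single (σ⁻¹ a)]
    · simp [pm]
    · intro l _ hl
      have h0 : pm F σ a l = 0 := by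
        simp only [pm, Matrix.of_apply]
        refine if_neg ?_
        intro h
        apply hl
        rw [h]; simp
      rw [h0, zero_mul]
    · simp
  rw [h1, h2]

/-- The elementary matrix `1 + e_{ij}` for `i < j`. -/
lemma exists_elem (i j : Fin n) (hij : i < j) :
    ∃ T : GL (Fin n) (ZMod 2), T ∈ BB n ∧ (T : Matrix (Fin n) (Fin n) (ZMod 2)) =
      1 + Matrix.single i j 1 := by
  apply unit_upper
  · intro a b hab
    simp only [Matrix.add_apply, Matrix.one_apply]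
    rw [if_neg (ne_of_gt hab), zero_add, Matrix.single_apply_of_ne]
    rintro ⟨rfl, rfl⟩
    exact absurd (hab.trans hij) (lt_irrefl _)
  · intro a
    simp only [Matrix.add_apply, Matrix.one_apply_eq]
    rw [Matrix.single_apply_of_ne, add_zero]
    rintro ⟨rfl, rfl⟩
    exact lt_irrefl _ hij

/-- The elementary matrix has a nonzero `(i,j)` entry. -/
lemma elem_entry {i j : Fin n} (hij : i < j) :
    (1 + Matrix.single i j 1 : Matrix (Fin n) (Fin n) (ZMod 2)) i j = 1 := by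
  simp [Matrix.add_apply, Matrix.one_apply, ne_of_lt hij]

lemma exists_conj_elem (σ : Equiv.Perm (Fin n)) {i j : Fin n} (hij : i < j) (hσ : σ i < σ j) :
    ∃ v ∈ BB n, ∃ v' ∈ BB n, v' ≠ 1 ∧ v' = pmG (ZMod 2) σ * v * (pmG (ZMod 2) σ)⁻¹ := by
  classical
  obtain ⟨v, hv, hvv⟩ := exists_elem i j hij
  refine ⟨v, hv, pmG (ZMod 2) σ * v * (pmG (ZMod 2) σ)⁻¹, ?_, ?_, rfl⟩
  · rw [mem_bt]
    intro a b hab
    have h1 : ((pmG (ZMod 2) σ * v * (pmG (ZMod 2) σ)⁻¹ : GL (Fin n) (ZMod 2)) :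
        Matrix (Fin n) (Fin n) (ZMod 2)) a b = (v : Matrix (Fin n) (Fin n) (ZMod 2)) (σ⁻¹ a) (σ⁻¹ b) := by
      have h0 : (((pmG (ZMod 2) σ)⁻¹ : GL (Fin n) (ZMod 2)) :
          Matrix (Fin n) (Fin n) (ZMod 2)) = pm (ZMod 2) σ⁻¹ := by
        rw [← map_inv]; rfl
      rw [Units.val_mul, Units.val_mul, h0, pmG_val]
      exact pm_conj_apply σ _ a b
    rw [h1, hvv]
    have h2 : a ≠ b := by
      intro h
      subst h
      exact lt_irrefl _ hab
    simp only [Matrix.add_apply, Matrix.one_apply]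
    rw [if_neg (fun h => h2 (σ⁻¹.injective h)), zero_add, Matrix.single_apply_of_ne]
    rintro ⟨h3, h4⟩
    have h5 : a = σ i := by rw [h3]; simp
    have h6 : b = σ j := by rw [h4]; simp
    rw [h5, h6] at hab
    exact absurd hab (not_lt.2 (le_of_lt hσ))
  · intro h
    have h1 : ((pmG (ZMod 2) σ * v * (pmG (ZMod 2) σ)⁻¹ : GL (Fin n) (ZMod 2)) :
        Matrix (Fin n) (Fin n) (ZMod 2)) (σ i) (σ j) =
        ((1 : GL (Fin n) (ZMod 2)) : Matrix (Fin n) (Fin n) (ZMod 2)) (σ i) (σ j) := by rw [h]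
    have h2 : ((pmG (ZMod 2) σ * v * (pmG (ZMod 2) σ)⁻¹ : GL (Fin n) (ZMod 2)) :
        Matrix (Fin n) (Fin n) (ZMod 2)) (σ i) (σ j) =
        (v : Matrix (Fin n) (Fin n) (ZMod 2)) i j := by
      have h0 : (((pmG (ZMod 2) σ)⁻¹ : GL (Fin n) (ZMod 2)) :
          Matrix (Fin n) (Fin n) (ZMod 2)) = pm (ZMod 2) σ⁻¹ := by
        rw [← map_inv]; rfl
      rw [Units.val_mul, Units.val_mul, h0, pmG_val, pm_conj_apply σ]
      simp
    rw [h2, hvv, elem_entry hij, Units.val_one, Matrix.one_apply_ne (fun h => (ne_of_lt hσ) h)] at h1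
    exact one_ne_zero h1

/-- An element normalizing the Borel lies in it. -/
lemma BB_norm (y : GL (Fin n) (ZMod 2)) (hy : ∀ u ∈ BB n, y * u * y⁻¹ ∈ BB n) : y ∈ BB n := by
  classical
  obtain ⟨A, hA, C, hC, σ, rfl⟩ := bruhatGL y
  have hσ1 : σ = 1 := by
    by_contra hne
    have hns : ¬ StrictMono σ := by
      intro hm
      have h1 : (σ : Fin n → Fin n) = id := by
        apply (StrictMono.range_inj hm strictMono_id).1
        simp [σ.surjective.range_eq]
      apply hne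
      ext a
      simp [h1]
    simp only [StrictMono, not_forall] at hns
    obtain ⟨i, j, hij, hnl⟩ := hns
    have hlt : σ j < σ i := lt_of_le_of_ne (not_lt.1 hnl) (fun h => (ne_of_lt hij) (σ.injective h.symm))
    obtain ⟨v, hv, hvv⟩ := exists_elem i j hij
    have h1 := hy (C⁻¹ * v * C) ((BB n).mul_mem ((BB n).mul_mem ((BB n).inv_mem hC) hv) hC)
    have h2 : pmG (ZMod 2) σ * v * (pmG (ZMod 2) σ)⁻¹ ∈ BB n := by
      have h3 : pmG (ZMod 2) σ * v * (pmG (ZMod 2) σ)⁻¹ =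
          A⁻¹ * (A * pmG (ZMod 2) σ * C * (C⁻¹ * v * C) * (A * pmG (ZMod 2) σ * C)⁻¹) * A := by
        group
      rw [h3]
      exact (BB n).mul_mem ((BB n).mul_mem ((BB n).inv_mem hA) h1) hA
    rw [mem_bt] at h2
    have h4 := h2 (σ i) (σ j) hlt
    have h0 : (((pmG (ZMod 2) σ)⁻¹ : GL (Fin n) (ZMod 2)) :
        Matrix (Fin n) (Fin n) (ZMod 2)) = pm (ZMod 2) σ⁻¹ := by
      rw [← map_inv]; rfl
    rw [Units.val_mul, Units.val_mul, h0, pmG_val, pm_conj_apply σ] at h4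
    have h7 : σ⁻¹ (σ i) = i := by simp
    have h8 : σ⁻¹ (σ j) = j := by simp
    rw [h7, h8] at h4
    rw [hvv, elem_entry hij] at h4
    exact one_ne_zero h4
  rw [hσ1, map_one, mul_one]
  exact (BB n).mul_mem hA hC

/-- The Bruhat alternative. -/
lemma BB_alt (y : GL (Fin n) (ZMod 2)) :
    (∃ u ∈ BB n, u ≠ 1 ∧ y⁻¹ * u * y ∈ BB n) ∨
      ∃ a ∈ BB n, ∃ b ∈ BB n, y = a * pmG (ZMod 2) (Fin.revPerm) * b := by
  classical
  obtain ⟨A, hA, C, hC, σ, rfl⟩ := bruhatGL y
  by_cases hσ : σ = Fin.revPerm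
  · right
    exact ⟨A, hA, C, hC, by rw [hσ]⟩
  · left
    have hns : ¬ StrictAnti σ := by
      intro hm
      apply hσ
      have hm2 : StrictMono (σ ∘ Fin.rev) := hm.comp Fin.rev_strictAnti
      have h1 : (σ ∘ Fin.rev : Fin n → Fin n) = id := by
        apply (StrictMono.range_inj hm2 strictMono_id).1
        have : Function.Surjective (σ ∘ Fin.rev : Fin n → Fin n) :=
          σ.surjective.comp Fin.revPerm.surjective
        simp [this.range_eq]
      ext a
      have h2 := congrFun h1 (Fin.rev a)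
      simp only [Function.comp, Fin.rev_rev, id] at h2
      rw [h2]
      simp
    simp only [StrictAnti, not_forall] at hns
    obtain ⟨i, j, hij, hnl⟩ := hns
    have hlt : σ i < σ j := lt_of_le_of_ne (not_lt.1 hnl) (fun h => (ne_of_lt hij) (σ.injective h))
    obtain ⟨v, hv, v', hv', hv'1, hvv⟩ := exists_conj_elem σ hij hlt
    refine ⟨A * v' * A⁻¹, (BB n).mul_mem ((BB n).mul_mem hA hv') ((BB n).inv_mem hA), ?_, ?_⟩
    · intro h
      apply hv'1
      have : v' = A⁻¹ * (A * v' * A⁻¹) * A := by group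
      rw [this, h]; group
    · have : (A * pmG (ZMod 2) σ * C)⁻¹ * (A * v' * A⁻¹) * (A * pmG (ZMod 2) σ * C) =
          C⁻¹ * v * C := by
        rw [hvv]; group
      rw [this]
      exact (BB n).mul_mem ((BB n).mul_mem ((BB n).inv_mem hC) hv) hC

/-- Powers of a strictly upper triangular matrix. -/
lemma strict_pow_apply (M : Matrix (Fin n) (Fin n) (ZMod 2))
    (hM : ∀ i j : Fin n, j ≤ i → M i j = 0) (k : ℕ) :
    ∀ i j : Fin n, (M ^ k) i j ≠ 0 → i.val + k ≤ j.val := by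
  classical
  induction k with
  | zero =>
    intro i j h
    rw [pow_zero, Matrix.one_apply] at h
    by_cases hij : i = j
    · subst hij; simp
    · simp [hij] at h
  | succ k ih =>
    intro i j h
    rw [pow_succ, Matrix.mul_apply] at h
    obtain ⟨l, -, hl⟩ := Finset.exists_ne_zero_of_sum_ne_zero h
    have h1 := ih i l (left_ne_zero_of_mul hl)
    have h2 := right_ne_zero_of_mul hl
    have h3 : l < j := by
      by_contra hc
      exact h2 (hM l j (not_lt.1 hc))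
    have h4 : l.val < j.val := h3
    omega

lemma BB_isP : IsPGroup 2 (BB n) := by
  classical
  rintro ⟨b, hb⟩
  refine ⟨n, Subtype.ext (Units.ext ?_)⟩
  rw [mem_bt] at hb
  set M := (b : Matrix (Fin n) (Fin n) (ZMod 2)) - 1 with hM
  have hdiag : ∀ i, (b : Matrix (Fin n) (Fin n) (ZMod 2)) i i = 1 := by
    intro i
    have hdet : IsUnit (b : Matrix (Fin n) (Fin n) (ZMod 2)).det :=
      (Matrix.isUnit_iff_isUnit_det _).1 b.isUnit
    rw [Matrix.det_of_upperTriangular (fun a c hac => hb a c hac)] at hdet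
    have h1 : (∏ i, (b : Matrix (Fin n) (Fin n) (ZMod 2)) i i) ≠ 0 := hdet.ne_zero
    have h2 := Finset.prod_ne_zero_iff.1 h1 i (Finset.mem_univ _)
    revert h2
    generalize (b : Matrix (Fin n) (Fin n) (ZMod 2)) i i = c
    revert c
    decide
  have hMs : ∀ i j : Fin n, j ≤ i → M i j = 0 := by
    intro i j hji
    rw [hM, Matrix.sub_apply]
    rcases hji.lt_or_eq with h | h
    · rw [hb i j h, Matrix.one_apply_ne (ne_of_gt h), sub_zero]
    · subst h
      rw [hdiag, Matrix.one_apply_eq, sub_self]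
  have hnil : ∀ k, n ≤ k → M ^ k = 0 := by
    intro k hk
    ext i j
    by_contra hne
    have := strict_pow_apply M hMs k i j hne
    have := j.isLt
    simp only [Matrix.zero_apply] at *
    omega
  have hbM : (b : Matrix (Fin n) (Fin n) (ZMod 2)) = 1 + M := by
    rw [hM]; abel
  have hp : (1 + M) ^ (2 ^ n) = 1 := by
    rcases Nat.eq_zero_or_pos n with h0 | h0
    · subst h0
      ext i
      exact i.elim0
    haveI : Nonempty (Fin n) := ⟨⟨0, h0⟩⟩
    rw [add_pow_char_pow_of_commute 2 n (Commute.one_left M), one_pow,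
      hnil _ (Nat.lt_two_pow_self).le, add_zero]
  simp only [SubgroupClass.coe_pow, Units.val_pow_eq_pow_val, Units.val_one, OneMemClass.coe_one]
  rw [hbM, hp]

end matrices

/-- The final transfer. -/
theorem main {G : Type*} [Group G] [Finite G] {n : ℕ} (N : Subgroup G) [N.Normal]
    (e : N ≃* Matrix.SpecialLinearGroup (Fin n) (ZMod 2)) (hidx : N.index = 2)
    (H : Sylow 2 G) (x : G) :
    (H : Subgroup G) ⊓ MulAut.conj x • (H : Subgroup G) ≠ ⊥ := by
  classical
  -- `SL` and `GL` agree over `𝔽₂`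
  have hbij : Function.Bijective
      (Matrix.SpecialLinearGroup.toGL : Matrix.SpecialLinearGroup (Fin n) (ZMod 2) →*
        GL (Fin n) (ZMod 2)) := by
    constructor
    · intro a b hab
      apply Subtype.ext
      exact congrArg (fun g : GL (Fin n) (ZMod 2) => (g : Matrix (Fin n) (Fin n) (ZMod 2))) hab
    · intro g
      have hdet : (g : Matrix (Fin n) (Fin n) (ZMod 2)).det = 1 := by
        have hdet : IsUnit (g : Matrix (Fin n) (Fin n) (ZMod 2)).det :=
          (Matrix.isUnit_iff_isUnit_det _).1 g.isUnit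
        have h1 := hdet.ne_zero
        revert h1
        generalize (g : Matrix (Fin n) (Fin n) (ZMod 2)).det = c
        revert c
        decide
      refine ⟨⟨(g : Matrix (Fin n) (Fin n) (ZMod 2)), hdet⟩, ?_⟩
      apply Units.ext
      rfl
  let e' : N ≃* GL (Fin n) (ZMod 2) := e.trans (MulEquiv.ofBijective _ hbij)
  let φ : GL (Fin n) (ZMod 2) →* G := N.subtype.comp e'.symm.toMonoidHom
  have hφinj : Function.Injective φ := by
    intro a b hab
    have h1 : (e'.symm a : N) = e'.symm b := Subtype.ext hab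
    exact e'.symm.injective h1
  have hφN : ∀ y ∈ N, ∃ y', φ y' = y := by
    intro y hy
    refine ⟨e' ⟨y, hy⟩, ?_⟩
    simp [φ]
  have hφmem : ∀ y', φ y' ∈ N := fun y' => (e'.symm y').2
  refine abs_main N hidx ((BB n).map φ) (BB_isP.map φ) ?_ ?_ (φ (pmG (ZMod 2) Fin.revPerm)) ?_ H x
  · rintro _ ⟨b, -, rfl⟩
    exact hφmem b
  · intro y hy hn
    obtain ⟨y', rfl⟩ := hφN y hy
    refine ⟨y', BB_norm y' ?_, rfl⟩
    intro u hu
    have h1 := hn (φ u) ⟨u, hu, rfl⟩
    rw [← map_inv, ← map_mul, ← map_mul] at h1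
    obtain ⟨b, hb, hbe⟩ := h1
    rw [← hφinj hbe]
    exact hb
  · intro y hy
    obtain ⟨y', rfl⟩ := hφN y hy
    rcases BB_alt y' with ⟨u, hu, hu1, hux⟩ | ⟨a, ha, b, hb, hab⟩
    · left
      refine ⟨φ u, ⟨u, hu, rfl⟩, ?_, ?_⟩
      · intro h
        apply hu1
        apply hφinj
        rw [h, map_one]
      · rw [← map_inv, ← map_mul, ← map_mul]
        exact ⟨_, hux, rfl⟩
    · right
      refine ⟨φ a, ⟨a, ha, rfl⟩, φ b, ⟨b, hb, rfl⟩, ?_⟩
      rw [hab, map_mul, map_mul]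

end Cfsg.Agent.Perm.AutSLTwo
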