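import Mathlib
import Cfsg.Agent.Lib.AbPerm.Exist

/-!
Abelian groups of even permutations of largest order: the orbit structure.
-/

set_option autoImplicit false
set_option linter.unusedSectionVars false

namespace Cfsg.Agent.Perm.MaxAb

open Equiv MulAction Cfsg.Agent.Lib.AbPerm

/-- The weight of an orbit length. -/
def wt (l : ℕ) : ℕ := if l = 3 then 0 else if l = 2 then 1 else if l = 4 then 2 else 5

lemma big_bound (l : ℕ) (hl : 6 ≤ l) : l ^ 3 * 9 ^ 5 ≤ 8 ^ 5 * 3 ^ l := by
  induction l, hl using Nat.le_induction with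
  | base => norm_num
  | succ l hl ih =>
    have h1 : (l + 1) ^ 3 ≤ 3 * l ^ 3 := by nlinarith [sq_nonneg (l : ℕ), pow_pos (show 0 < l by omega) 2]
    calc (l + 1) ^ 3 * 9 ^ 5 ≤ (3 * l ^ 3) * 9 ^ 5 := Nat.mul_le_mul_right _ h1
      _ = 3 * (l ^ 3 * 9 ^ 5) := by ring
      _ ≤ 3 * (8 ^ 5 * 3 ^ l) := Nat.mul_le_mul_left _ ih
      _ = 8 ^ 5 * 3 ^ (l + 1) := by ring

lemma wt_bound (l : ℕ) (hl : 1 ≤ l) : l ^ 3 * 9 ^ wt l ≤ 8 ^ wt l * 3 ^ l := by
  by_cases h6 : 6 ≤ l
  · have h : wt l = 5 := by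
      unfold wt
      rw [if_neg (by omega), if_neg (by omega), if_neg (by omega)]
    rw [h]
    exact big_bound l h6
  · have : l = 1 ∨ l = 2 ∨ l = 3 ∨ l = 4 ∨ l = 5 := by omega
    rcases this with rfl | rfl | rfl | rfl | rfl <;> simp [wt] <;> norm_num

lemma prod_bound {ι : Type*} [Fintype ι] (f : ι → ℕ) (hf : ∀ i, 1 ≤ f i) :
    (∏ i, f i) ^ 3 * 9 ^ (∑ i, wt (f i)) ≤ 8 ^ (∑ i, wt (f i)) * 3 ^ (∑ i, f i) := by
  have h := Finset.prod_le_prod (s := Finset.univ) (f := fun i => f i ^ 3 * 9 ^ wt (f i))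
    (g := fun i => 8 ^ wt (f i) * 3 ^ f i) (fun i _ => Nat.zero_le _) (fun i _ => wt_bound (f i) (hf i))
  simp only [Finset.prod_mul_distrib, Finset.prod_pow, Finset.prod_pow_eq_pow_sum] at h
  exact h

lemma counts {ι : Type*} [Fintype ι] (f : ι → ℕ) (hf : ∀ i, f i = 2 ∨ f i = 3 ∨ f i = 4) :
    ∑ i, f i = 2 * (Finset.univ.filter (fun i => f i = 2)).card +
        3 * (Finset.univ.filter (fun i => f i = 3)).card +
        4 * (Finset.univ.filter (fun i => f i = 4)).card ∧
    ∏ i, f i = 2 ^ (Finset.univ.filter (fun i => f i = 2)).card *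
        3 ^ (Finset.univ.filter (fun i => f i = 3)).card *
        4 ^ (Finset.univ.filter (fun i => f i = 4)).card ∧
    ∑ i, wt (f i) = (Finset.univ.filter (fun i => f i = 2)).card +
        2 * (Finset.univ.filter (fun i => f i = 4)).card := by
  simp only [Finset.card_filter]
  refine ⟨?_, ?_, ?_⟩
  · rw [Finset.mul_sum, Finset.mul_sum, Finset.mul_sum, ← Finset.sum_add_distrib, ← Finset.sum_add_distrib]
    refine Finset.sum_congr rfl fun i _ => ?_
    rcases hf i with h | h | h <;> simp [h]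
  · rw [← Finset.prod_pow_eq_pow_sum, ← Finset.prod_pow_eq_pow_sum, ← Finset.prod_pow_eq_pow_sum,
      ← Finset.prod_mul_distrib, ← Finset.prod_mul_distrib]
    refine Finset.prod_congr rfl fun i _ => ?_
    rcases hf i with h | h | h <;> simp [h]
  · rw [Finset.mul_sum, ← Finset.sum_add_distrib]
    refine Finset.sum_congr rfl fun i _ => ?_
    rcases hf i with h | h | h <;> simp [h, wt]

lemma wt_le_of_pow {W V : ℕ} (h : 9 ^ W * 8 ^ V ≤ 8 ^ W * 9 ^ V) : W ≤ V := by
  by_contra hcon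
  obtain ⟨d, rfl⟩ : ∃ d, W = V + d + 1 := ⟨W - V - 1, by omega⟩
  have e1 : 9 ^ (V + d + 1) * 8 ^ V = (9 ^ V * 8 ^ V) * 9 ^ (d + 1) := by ring
  have e2 : 8 ^ (V + d + 1) * 9 ^ V = (9 ^ V * 8 ^ V) * 8 ^ (d + 1) := by ring
  rw [e1, e2] at h
  have h1 : 9 ^ (d + 1) ≤ 8 ^ (d + 1) := Nat.le_of_mul_le_mul_left h (by positivity)
  have h2 : 8 ^ (d + 1) < 9 ^ (d + 1) := Nat.pow_lt_pow_left (by norm_num) (by omega)
  omega

section Decisions

set_option maxRecDepth 100000

lemma dec_two : ∀ σ : Perm (Fin 2), Perm.sign σ = 1 → σ = 1 := by decide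

lemma dec_four : ∀ σ : Perm (Fin 4), Perm.sign σ = 1 → (∀ p, σ p = p → σ = 1) → σ * σ = 1 := by decide

end Decisions

section Full

variable {X : Type*} [Fintype X] [DecidableEq X] (A : Subgroup (Perm X))

lemma smul_comm_of (hA : ∀ a ∈ A, ∀ b ∈ A, a * b = b * a) (u v : A) (x : X) :
    u • (v • x) = v • (u • x) := by
  rw [← mul_smul, ← mul_smul]
  congr 1
  exact Subtype.ext (hA _ u.2 _ v.2)

/-- An element of an abelian group fixing a point fixes the whole orbit. -/
lemma fix_orbit (hA : ∀ a ∈ A, ∀ b ∈ A, a * b = b * a) (a : A) (x : X) (h : a • x = x)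
    (y : X) (hy : y ∈ orbit A x) : a • y = y := by
  obtain ⟨t, rfl⟩ := hy
  change a • (t • x) = t • x
  rw [smul_comm_of A hA, h]

variable [Fintype (orbitRel.Quotient A X)]

lemma mk_eq_of_mem_orbit (ω : orbitRel.Quotient A X) (z : X) :
    z ∈ orbit A ω.out ↔ (Quotient.mk'' z : orbitRel.Quotient A X) = ω := by
  constructor
  · rintro ⟨a, rfl⟩
    rw [← Quotient.out_eq' ω]
    simpa using orbitRel.Quotient.quotient_smul_eq (a := a) (x := ω.out)
  · intro h
    obtain ⟨t, ht⟩ := exists_smul_out A z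
    rw [h] at ht
    exact ⟨t, ht⟩

/-- If the order equals the product of the orbit lengths, then every choice of images of the
orbit representatives is realised. -/
lemma exists_of_full (hA : ∀ a ∈ A, ∀ b ∈ A, a * b = b * a) (hfull : Nat.card A = ∏ ω, orb A ω)
    (t : ∀ ω : orbitRel.Quotient A X, orbit A ω.out) :
    ∃ a : A, ∀ ω, a • ω.out = (t ω : X) := by
  classical
  let f : A → ∀ ω : orbitRel.Quotient A X, orbit A ω.out := fun a ω => ⟨a • ω.out, mem_orbit _ a⟩
  have hf : Function.Injective f := by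
    intro a b hab
    apply Subtype.ext
    ext z
    obtain ⟨u, hu⟩ := exists_smul_out A z
    have h1 := congrArg Subtype.val (congrFun hab (Quotient.mk'' z))
    have h2 : a • (Quotient.mk'' z : orbitRel.Quotient A X).out =
        b • (Quotient.mk'' z : orbitRel.Quotient A X).out := h1
    rw [← hu]
    change a • (u • (Quotient.mk'' z : orbitRel.Quotient A X).out) =
      b • (u • (Quotient.mk'' z : orbitRel.Quotient A X).out)
    rw [smul_comm_of A hA a u, smul_comm_of A hA b u, h2]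
  have hc : Nat.card A = Nat.card (∀ ω : orbitRel.Quotient A X, orbit A ω.out) := by
    rw [Nat.card_pi]
    exact hfull
  have hb := (Nat.bijective_iff_injective_and_card f).2 ⟨hf, hc⟩
  obtain ⟨a, ha⟩ := hb.2 t
  refine ⟨a, fun ω => ?_⟩
  have := congrArg Subtype.val (congrFun ha ω)
  exact this

/-- The element moving a representative and acting trivially outside its orbit. -/
lemma exists_single (hA : ∀ a ∈ A, ∀ b ∈ A, a * b = b * a) (hfull : Nat.card A = ∏ ω, orb A ω)
    (ω₀ : orbitRel.Quotient A X) (y : X) (hy : y ∈ orbit A ω₀.out) :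
    ∃ a : A, a • ω₀.out = y ∧ ∀ z, z ∉ orbit A ω₀.out → a • z = z := by
  classical
  obtain ⟨a, ha⟩ := exists_of_full A hA hfull
    (fun ω => if h : ω = ω₀ then ⟨y, by rw [h]; exact hy⟩ else ⟨ω.out, mem_orbit_self _⟩)
  refine ⟨a, ?_, ?_⟩
  · rw [ha]
    simp
  · intro z hz
    have hne : (Quotient.mk'' z : orbitRel.Quotient A X) ≠ ω₀ := fun h =>
      hz ((mk_eq_of_mem_orbit A ω₀ z).2 h)
    have h1 := ha (Quotient.mk'' z)
    rw [dif_neg hne] at h1
    refine fix_orbit A hA a _ h1 z ?_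
    exact (mk_eq_of_mem_orbit A _ z).2 rfl

/-- The restriction to an invariant orbit, as a permutation of `Fin m`. -/
lemma restriction_sign (hA : ∀ a ∈ A, ∀ b ∈ A, a * b = b * a) (a : A) (x : X) (m : ℕ)
    (hm : Nat.card (orbit A x) = m)
    (hoff : ∀ z, z ∉ orbit A x → a • z = z) (hsign : Perm.sign (a : Perm X) = 1) :
    ∃ (e : orbit A x ≃ Fin m) (σ : Perm (Fin m)), Perm.sign σ = 1 ∧
      (∀ p, σ p = p → σ = 1) ∧
      ∀ y : orbit A x, σ (e y) = e ⟨a • (y : X), by
        obtain ⟨t, ht⟩ := y.2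
        rw [← ht]
        change a • t • x ∈ orbit A x
        rw [← mul_smul]
        exact mem_orbit _ _⟩ := by
  classical
  have hfin : Nat.card (orbit A x) = m := hm
  let e : orbit A x ≃ Fin m := Finite.equivFinOfCardEq hfin
  have h₁ : ∀ z, (a : Perm X) z ∈ orbit A x ↔ z ∈ orbit A x := by
    intro z
    constructor
    · rintro ⟨t, ht⟩
      refine ⟨a⁻¹ * t, ?_⟩
      change (a⁻¹ * t) • x = z
      have h2 : (a⁻¹ * t) • x = a⁻¹ • (t • x) := mul_smul _ _ _
      rw [h2]
      have h3 : t • x = a • z := ht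
      rw [h3, inv_smul_smul]
    · rintro ⟨t, rfl⟩
      change a • t • x ∈ orbit A x
      rw [← mul_smul]
      exact mem_orbit _ _
  have h₂ : ∀ z, (a : Perm X) z ≠ z → z ∈ orbit A x := by
    intro z hz
    by_contra hcon
    exact hz (hoff z hcon)
  let ρ : Perm (orbit A x) := (a : Perm X).subtypePerm h₁
  have hρ : Perm.sign ρ = 1 := by
    have := Perm.sign_subtypePerm (a : Perm X) h₁ h₂
    rw [hsign] at this
    exact this
  refine ⟨e, e.permCongr ρ, ?_, ?_, ?_⟩
  · rw [Perm.sign_permCongr, hρ]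
  · intro p hp
    ext k
    obtain ⟨y, rfl⟩ := e.surjective k
    obtain ⟨y₀, rfl⟩ := e.surjective p
    rw [Equiv.permCongr_apply] at hp
    simp only [Equiv.symm_apply_apply] at hp
    have h1 : ρ y₀ = y₀ := e.injective hp
    have h2 : a • (y₀ : X) = y₀ := congrArg Subtype.val h1
    have h3 : (y : X) ∈ orbit A (y₀ : X) := by
      rw [orbit_eq_iff.2 y₀.2]
      exact y.2
    have h4 : a • (y : X) = y := fix_orbit A hA a _ h2 _ h3
    have h5 : ρ y = y := Subtype.ext h4
    rw [Equiv.permCongr_apply]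
    simp only [Equiv.symm_apply_apply, Perm.coe_one, id]
    rw [h5]
  · intro y
    rw [Equiv.permCongr_apply]
    simp only [Equiv.symm_apply_apply]
    congr 1

/-- The structure of an abelian group of even permutations of the largest possible order. -/
theorem structure_main (hA : ∀ a ∈ A, ∀ b ∈ A, a * b = b * a) (hs : ∀ a ∈ A, Perm.sign a = 1)
    (k fam : ℕ) (hfam : fam ≤ 2) (hX : Fintype.card X = 3 * k + 4 * fam)
    (hT : 4 ^ fam * 3 ^ k ≤ Nat.card A) :
    Nat.card A = 4 ^ fam * 3 ^ k ∧ (∀ ω, orb A ω = 3 ∨ orb A ω = 4) ∧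
      (Finset.univ.filter (fun ω => orb A ω = 3)).card = k ∧
      (Finset.univ.filter (fun ω => orb A ω = 4)).card = fam ∧
      ∀ a ∈ A, ∀ x, Nat.card (orbit A x) = 4 → a (a x) = x := by
  classical
  have hle := card_le_prod A hA
  have hsum := sum_orb A
  rw [hX] at hsum
  have hpb := prod_bound (orb A) (orb_pos A)
  rw [hsum] at hpb
  set W := ∑ ω, wt (orb A ω) with hW
  -- the weight is small
  have hW1 : W ≤ 2 * fam := by
    have h1 : (4 ^ fam * 3 ^ k) ^ 3 * 9 ^ W ≤ 8 ^ W * 3 ^ (3 * k + 4 * fam) := by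
      refine le_trans (Nat.mul_le_mul_right _ (Nat.pow_le_pow_left (hT.trans hle) 3)) hpb
    apply wt_le_of_pow
    have e1 : (4 ^ fam * 3 ^ k) ^ 3 * 9 ^ W = (3 ^ k) ^ 3 * (9 ^ W * 8 ^ (2 * fam)) := by
      have : (4 : ℕ) ^ fam = 2 ^ (2 * fam) := by rw [pow_mul]; norm_num
      have h8 : (8 : ℕ) ^ (2 * fam) = (2 ^ (2 * fam)) ^ 3 := by
        rw [show (8 : ℕ) = 2 ^ 3 by norm_num, ← pow_mul, ← pow_mul, mul_comm]
      rw [this, h8]
      ring
    have e2 : 8 ^ W * 3 ^ (3 * k + 4 * fam) = (3 ^ k) ^ 3 * (8 ^ W * 9 ^ (2 * fam)) := by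
      have : (9 : ℕ) ^ (2 * fam) = 3 ^ (4 * fam) := by
        rw [show (9 : ℕ) = 3 ^ 2 by norm_num, ← pow_mul]
        congr 1
        ring
      rw [this, pow_add, ← pow_mul, mul_comm k 3]
      ring
    rw [e1, e2] at h1
    exact Nat.le_of_mul_le_mul_left h1 (by positivity)
  have hW4 : W ≤ 4 := by omega
  -- all orbits have length 2, 3 or 4
  have h234 : ∀ ω, orb A ω = 2 ∨ orb A ω = 3 ∨ orb A ω = 4 := by
    intro ω
    by_contra hcon
    push Not at hcon
    have h5 : wt (orb A ω) = 5 := by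
      unfold wt
      rw [if_neg hcon.2.1, if_neg hcon.1, if_neg hcon.2.2]
    have h6 : wt (orb A ω) ≤ W := Finset.single_le_sum (f := fun ω => wt (orb A ω))
      (fun _ _ => Nat.zero_le _) (Finset.mem_univ ω)
    omega
  obtain ⟨hc1, hc2, hc3⟩ := counts (orb A) h234
  set a2 := (Finset.univ.filter (fun i => orb A i = 2)).card with ha2
  set c3 := (Finset.univ.filter (fun i => orb A i = 3)).card with hc3'
  set b4 := (Finset.univ.filter (fun i => orb A i = 4)).card with hb4
  rw [hsum] at hc1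
  rw [← hW] at hc3
  -- the exceptional case
  have hnot1 : W ≠ 1 ∨ fam ≠ 2 := by
    by_contra hcon
    push Not at hcon
    obtain ⟨h1, h2⟩ := hcon
    have ha1 : a2 = 1 := by omega
    have hb0 : b4 = 0 := by omega
    have hne : (Finset.univ.filter (fun i => orb A i = 2)).Nonempty := by
      rw [← Finset.card_pos]
      omega
    obtain ⟨ω₀, hω₀⟩ := hne
    have h0 : orb A ω₀ = 2 := (Finset.mem_filter.1 hω₀).2
    obtain ⟨ω₁, hne1, hev⟩ := exists_other_even A hA hs ω₀ h0
    rcases h234 ω₁ with h | h | h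
    · have : 1 < a2 := by
        rw [ha2, Finset.one_lt_card]
        exact ⟨ω₀, hω₀, ω₁, Finset.mem_filter.2 ⟨Finset.mem_univ _, h⟩, hne1.symm⟩
      omega
    · rw [h] at hev
      exact absurd hev (by decide)
    · have : ω₁ ∈ Finset.univ.filter (fun i => orb A i = 4) := Finset.mem_filter.2 ⟨Finset.mem_univ _, h⟩
      have : 0 < b4 := Finset.card_pos.2 ⟨_, this⟩
      omega
  -- the values
  have hWeq : W = 2 * fam ∧ c3 = k := by
    have hfam' : fam = 0 ∨ fam = 1 ∨ fam = 2 := by omega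
    rcases hfam' with rfl | rfl | rfl <;> omega
  obtain ⟨hWf, hck⟩ := hWeq
  have hprod : ∏ ω, orb A ω = 4 ^ fam * 3 ^ k := by
    rw [hc2, hck]
    have : (4 : ℕ) ^ fam = 2 ^ a2 * 4 ^ b4 := by
      have e4 : (4 : ℕ) = 2 ^ 2 := by norm_num
      rw [e4, ← pow_mul, ← pow_mul, ← pow_add]
      congr 1
      omega
    rw [this]
    ring
  have hcardA : Nat.card A = 4 ^ fam * 3 ^ k := le_antisymm (hle.trans hprod.le) hT
  have hfull : Nat.card A = ∏ ω, orb A ω := by rw [hcardA, hprod]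
  -- no orbits of length two
  have hno2 : ∀ ω, orb A ω ≠ 2 := by
    intro ω h2
    have hcard : Nat.card (orbit A ω.out) = 2 := h2
    have hex : ∃ y ∈ orbit A ω.out, y ≠ ω.out := by
      by_contra hno
      push Not at hno
      have : orbit A ω.out = {ω.out} := by
        ext y
        exact ⟨fun hy => hno y hy, fun hy => by rw [Set.mem_singleton_iff] at hy; rw [hy]; exact mem_orbit_self _⟩
      rw [this] at hcard
      simp at hcard
    obtain ⟨y, hy, hne⟩ := hex
    obtain ⟨a, ha, hoff⟩ := exists_single A hA hfull ω y hy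
    obtain ⟨e, σ, hsσ, -, hσ⟩ := restriction_sign A hA a ω.out 2 hcard hoff (hs _ a.2)
    have h1 := dec_two σ hsσ
    have h2 := hσ ⟨ω.out, mem_orbit_self _⟩
    rw [h1, Perm.coe_one, id] at h2
    have h3 := congrArg Subtype.val (e.injective h2)
    apply hne
    rw [← ha]
    exact h3.symm
  have ha0 : a2 = 0 := by
    rw [ha2, Finset.card_eq_zero, Finset.filter_eq_empty_iff]
    intro ω _
    exact hno2 ω
  refine ⟨hcardA, ?_, hck, by omega, ?_⟩
  · intro ω
    rcases h234 ω with h | h | h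
    · exact absurd h (hno2 ω)
    · exact Or.inl h
    · exact Or.inr h
  · -- elements have square one on orbits of length four
    intro c hc x hx
    let ω : orbitRel.Quotient A X := Quotient.mk'' x
    have hωc : Nat.card (orbit A ω.out) = 4 := by
      have := card_orbit_eq A x
      rw [hx] at this
      exact this.symm
    have hxω : x ∈ orbit A ω.out := (mk_eq_of_mem_orbit A ω x).2 rfl
    let c' : A := ⟨c, hc⟩
    obtain ⟨a, ha, hoff⟩ := exists_single A hA hfull ω (c' • ω.out) (mem_orbit _ _)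
    obtain ⟨e, σ, hsσ, hsemi, hσ⟩ := restriction_sign A hA a ω.out 4 hωc hoff (hs _ a.2)
    have h1 := dec_four σ hsσ hsemi
    have h2 : a • a • ω.out = ω.out := by
      have h3 := hσ ⟨ω.out, mem_orbit_self _⟩
      have h4 := hσ ⟨a • ω.out, mem_orbit _ _⟩
      have h5 : (σ * σ) (e ⟨ω.out, mem_orbit_self _⟩) = e ⟨ω.out, mem_orbit_self _⟩ := by
        rw [h1]; rfl
      rw [Perm.mul_apply, h3] at h5
      have h6 : σ (e ⟨a • ω.out, mem_orbit _ _⟩) = e ⟨ω.out, mem_orbit_self _⟩ := h5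
      rw [h4] at h6
      exact congrArg Subtype.val (e.injective h6)
    have h7 : c' • c' • ω.out = ω.out := by
      rw [← ha, smul_comm_of A hA c' a, ← ha]
      exact h2
    have h8 : (c' * c') • ω.out = ω.out := by rw [mul_smul]; exact h7
    have h9 := fix_orbit A hA (c' * c') _ h8 x hxω
    rw [mul_smul] at h9
    exact h9

end Full

end Cfsg.Agent.Perm.MaxAb
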