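import Mathlib
import Cfsg.Agent.Lib.Perm.MaxAbAltA

/-!
Abelian groups of even permutations of largest order are conjugate.
-/

set_option autoImplicit false
set_option linter.unusedSectionVars false

namespace Cfsg.Agent.Perm.MaxAb

open Equiv MulAction Cfsg.Agent.Lib.AbPerm

section Decisions

set_option maxRecDepth 100000

lemma dec_comm_three : ∀ σ τ : Perm (Fin 3), (∀ p, σ p = p → σ = 1) → (∀ p, τ p = p → τ = 1) →
    σ * τ = τ * σ := by decide

lemma dec_comm_four : ∀ σ τ : Perm (Fin 4), (∀ p, σ p = p → σ = 1) → σ * σ = 1 →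
    (∀ p, τ p = p → τ = 1) → τ * τ = 1 → σ * τ = τ * σ := by decide +kernel

end Decisions

section Restrict

variable {X : Type*} [Fintype X] [DecidableEq X]

lemma comm_on (O : Set X) (m : ℕ) (e : O ≃ Fin m) (a b : Perm X)
    (ha : ∀ z, a z ∈ O ↔ z ∈ O) (hb : ∀ z, b z ∈ O ↔ z ∈ O)
    (hcomm : e.permCongr (a.subtypePerm ha) * e.permCongr (b.subtypePerm hb) =
      e.permCongr (b.subtypePerm hb) * e.permCongr (a.subtypePerm ha))
    (x : X) (hx : x ∈ O) : a (b x) = b (a x) := by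
  have h1 := congrArg (fun σ : Perm (Fin m) => σ (e ⟨x, hx⟩)) hcomm
  simp only [Perm.mul_apply, Equiv.permCongr_apply, Equiv.symm_apply_apply] at h1
  have h2 := congrArg Subtype.val (e.injective h1)
  exact h2

lemma semi_of (O : Set X) (m : ℕ) (e : O ≃ Fin m) (c : Perm X) (hc : ∀ z, c z ∈ O ↔ z ∈ O)
    (hsemi : ∀ p ∈ O, c p = p → ∀ q ∈ O, c q = q) (k : Fin m)
    (hk : e.permCongr (c.subtypePerm hc) k = k) : e.permCongr (c.subtypePerm hc) = 1 := by
  obtain ⟨y₀, rfl⟩ := e.surjective k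
  simp only [Equiv.permCongr_apply, Equiv.symm_apply_apply] at hk
  have h1 : c (y₀ : X) = y₀ := congrArg Subtype.val (e.injective hk)
  ext l
  obtain ⟨y, rfl⟩ := e.surjective l
  have h2 : (c.subtypePerm hc) y = y := Subtype.ext (hsemi _ y₀.2 h1 _ y.2)
  simp only [Equiv.permCongr_apply, Equiv.symm_apply_apply, Perm.coe_one, id]
  rw [h2]

lemma square_of (O : Set X) (m : ℕ) (e : O ≃ Fin m) (c : Perm X) (hc : ∀ z, c z ∈ O ↔ z ∈ O)
    (hsq : ∀ p ∈ O, c (c p) = p) :
    e.permCongr (c.subtypePerm hc) * e.permCongr (c.subtypePerm hc) = 1 := by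
  ext l
  obtain ⟨y, rfl⟩ := e.surjective l
  have h2 : (c.subtypePerm hc) ((c.subtypePerm hc) y) = y := Subtype.ext (hsq _ y.2)
  simp only [Perm.mul_apply, Equiv.permCongr_apply, Equiv.symm_apply_apply, Perm.coe_one, id]
  rw [h2]

end Restrict

section Main

variable {X : Type*} [Fintype X] [DecidableEq X]

lemma invariant_orbit (A : Subgroup (Perm X)) (x : X) (a : Perm X) (ha : a ∈ A) (z : X) :
    a z ∈ orbit A x ↔ z ∈ orbit A x := by
  let a' : A := ⟨a, ha⟩
  have h : a z = a' • z := rfl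
  rw [h]
  constructor
  · rintro ⟨t, ht⟩
    refine ⟨a'⁻¹ * t, ?_⟩
    change (a'⁻¹ * t) • x = z
    have h2 : (a'⁻¹ * t) • x = a'⁻¹ • (t • x) := mul_smul _ _ _
    rw [h2]
    have h3 : t • x = a' • z := ht
    rw [h3, inv_smul_smul]
  · rintro ⟨t, rfl⟩
    change a' • t • x ∈ orbit A x
    rw [← mul_smul]
    exact mem_orbit _ _

lemma comm_at (A B : Subgroup (Perm X)) (hAc : ∀ a ∈ A, ∀ b ∈ A, a * b = b * a)
    (hBc : ∀ a ∈ B, ∀ b ∈ B, a * b = b * a)
    (hO : ∀ x : X, orbit A x = orbit B x)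
    (H1 : ∀ x : X, Nat.card (orbit A x) = 3 ∨ Nat.card (orbit A x) = 4)
    (H2A : ∀ a ∈ A, ∀ x : X, Nat.card (orbit A x) = 4 → a (a x) = x)
    (H2B : ∀ a ∈ B, ∀ x : X, Nat.card (orbit A x) = 4 → a (a x) = x)
    (a b : Perm X) (ha : a ∈ A) (hb : b ∈ B) (x : X) : a (b x) = b (a x) := by
  set O : Set X := orbit A x with hOdef
  have hax : ∀ z, a z ∈ O ↔ z ∈ O := invariant_orbit A x a ha
  have hbx : ∀ z, b z ∈ O ↔ z ∈ O := by
    intro z
    rw [hOdef, hO x]
    exact invariant_orbit B x b hb z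
  have hxO : x ∈ O := mem_orbit_self x
  have hOp : ∀ p ∈ O, orbit A p = O := fun p hp => orbit_eq_iff.2 hp
  have hsa : ∀ p ∈ O, a p = p → ∀ q ∈ O, a q = q := by
    intro p hp hap q hq
    refine fix_orbit A hAc ⟨a, ha⟩ p hap q ?_
    rw [hOp p hp]
    exact hq
  have hsb : ∀ p ∈ O, b p = p → ∀ q ∈ O, b q = q := by
    intro p hp hbp q hq
    refine fix_orbit B hBc ⟨b, hb⟩ p hbp q ?_
    rw [← hO p, hOp p hp]
    exact hq
  rcases H1 x with h3 | h4
  · let e : O ≃ Fin 3 := Finite.equivFinOfCardEq h3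
    refine comm_on O 3 e a b hax hbx ?_ x hxO
    exact dec_comm_three _ _ (semi_of O 3 e a hax hsa) (semi_of O 3 e b hbx hsb)
  · let e : O ≃ Fin 4 := Finite.equivFinOfCardEq h4
    refine comm_on O 4 e a b hax hbx ?_ x hxO
    refine dec_comm_four _ _ (semi_of O 4 e a hax hsa) (square_of O 4 e a hax ?_)
      (semi_of O 4 e b hbx hsb) (square_of O 4 e b hbx ?_)
    · intro p hp
      exact H2A a ha p (by rw [hOp p hp]; exact h4)
    · intro p hp
      exact H2B b hb p (by rw [hOp p hp]; exact h4)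

theorem le_of_same_orbits (A B : Subgroup (Perm X)) (hAc : ∀ a ∈ A, ∀ b ∈ A, a * b = b * a)
    (hBc : ∀ a ∈ B, ∀ b ∈ B, a * b = b * a)
    (hAe : ∀ a ∈ A, Perm.sign a = 1) (hBe : ∀ a ∈ B, Perm.sign a = 1)
    (hmax : ∀ C : Subgroup (Perm X), (∀ a ∈ C, ∀ b ∈ C, a * b = b * a) →
      (∀ a ∈ C, Perm.sign a = 1) → Nat.card C ≤ Nat.card B)
    (hO : ∀ x : X, orbit A x = orbit B x)
    (H1 : ∀ x : X, Nat.card (orbit A x) = 3 ∨ Nat.card (orbit A x) = 4)
    (H2A : ∀ a ∈ A, ∀ x : X, Nat.card (orbit A x) = 4 → a (a x) = x)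
    (H2B : ∀ a ∈ B, ∀ x : X, Nat.card (orbit A x) = 4 → a (a x) = x) : A ≤ B := by
  intro a ha
  have hcomm : ∀ b ∈ B, a * b = b * a := by
    intro b hb
    ext x
    exact comm_at A B hAc hBc hO H1 H2A H2B a b ha hb x
  let S : Set (Perm X) := (B : Set (Perm X)) ∪ {a}
  have hS : ∀ x ∈ S, ∀ y ∈ S, x * y = y * x := by
    rintro x (hx | hx) y (hy | hy)
    · exact hBc x hx y hy
    · rw [Set.mem_singleton_iff] at hy
      subst hy
      exact (hcomm x hx).symm
    · rw [Set.mem_singleton_iff] at hx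
      subst hx
      exact hcomm y hy
    · rw [Set.mem_singleton_iff] at hx hy
      rw [hx, hy]
  let C : Subgroup (Perm X) := Subgroup.closure S
  have hC1 : C ≤ Subgroup.centralizer S := by
    rw [Subgroup.closure_le]
    intro x hx
    rw [SetLike.mem_coe, Subgroup.mem_centralizer_iff]
    intro y hy
    exact hS y hy x hx
  have hCc : ∀ x ∈ C, ∀ y ∈ C, x * y = y * x := by
    intro x hx y hy
    have hx' := hC1 hx
    rw [Subgroup.mem_centralizer_iff] at hx'
    have h2 : C ≤ Subgroup.centralizer {x} := by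
      rw [Subgroup.closure_le]
      intro z hz
      rw [SetLike.mem_coe, Subgroup.mem_centralizer_iff]
      intro w hw
      rw [Set.mem_singleton_iff] at hw
      subst hw
      exact (hx' z hz).symm
    have h3 := h2 hy
    rw [Subgroup.mem_centralizer_iff] at h3
    exact h3 x rfl
  have hCe : ∀ x ∈ C, Perm.sign x = 1 := by
    have hle : C ≤ alternatingGroup X := by
      rw [Subgroup.closure_le]
      rintro x (hx | hx)
      · exact hBe x hx
      · rw [Set.mem_singleton_iff] at hx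
        subst hx
        exact hAe _ ha
    exact fun x hx => hle hx
  have hBC : B ≤ C := fun b hb => Subgroup.subset_closure (Or.inl hb)
  have hcard := hmax C hCc hCe
  have heq : B = C := Subgroup.eq_of_le_of_card_ge hBC hcard
  rw [heq]
  exact Subgroup.subset_closure (Or.inr rfl)

/-- Conjugate subgroup. -/
def conjS (g : Perm X) (A : Subgroup (Perm X)) : Subgroup (Perm X) :=
  A.map (MulAut.conj g).toMonoidHom

lemma mem_conjS {g : Perm X} {A : Subgroup (Perm X)} {x : Perm X} :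
    x ∈ conjS g A ↔ g⁻¹ * x * g ∈ A := by
  constructor
  · rintro ⟨a, ha, rfl⟩
    have : g⁻¹ * (MulAut.conj g).toMonoidHom a * g = a := by
      simp [MulAut.conj_apply, mul_assoc]
    rw [this]
    exact ha
  · intro h
    refine ⟨_, h, ?_⟩
    simp [MulAut.conj_apply, mul_assoc]

lemma conjS_comm {g : Perm X} {A : Subgroup (Perm X)} (hA : ∀ a ∈ A, ∀ b ∈ A, a * b = b * a) :
    ∀ a ∈ conjS g A, ∀ b ∈ conjS g A, a * b = b * a := by
  rintro _ ⟨a, ha, rfl⟩ _ ⟨b, hb, rfl⟩
  rw [← map_mul, ← map_mul, hA a ha b hb]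

lemma conjS_even {g : Perm X} {A : Subgroup (Perm X)} (hA : ∀ a ∈ A, Perm.sign a = 1) :
    ∀ a ∈ conjS g A, Perm.sign a = 1 := by
  rintro _ ⟨a, ha, rfl⟩
  have : (MulAut.conj g).toMonoidHom a = g * a * g⁻¹ := rfl
  rw [this, Perm.sign_mul, Perm.sign_mul, hA a ha, mul_one, Perm.sign_inv, Int.units_mul_self]

lemma conjS_card (g : Perm X) (A : Subgroup (Perm X)) : Nat.card (conjS g A) = Nat.card A :=
  Nat.card_congr (Subgroup.equivMapOfInjective A _ (MulAut.conj g).injective).toEquiv.symm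

lemma mem_orbit_conjS (g : Perm X) (A : Subgroup (Perm X)) (x y : X) :
    y ∈ orbit (conjS g A) (g x) ↔ g⁻¹ y ∈ orbit A x := by
  constructor
  · rintro ⟨c, hc⟩
    have hc2 : (c : Perm X) (g x) = y := hc
    have hc3 := mem_conjS.1 c.2
    refine ⟨⟨_, hc3⟩, ?_⟩
    change (g⁻¹ * (c : Perm X) * g) x = g⁻¹ y
    rw [Perm.mul_apply, Perm.mul_apply, hc2]
  · rintro ⟨a, ha⟩
    have ha2 : (a : Perm X) x = g⁻¹ y := ha
    have hm : g * (a : Perm X) * g⁻¹ ∈ conjS g A := by
      rw [mem_conjS]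
      simpa [mul_assoc] using a.2
    refine ⟨⟨_, hm⟩, ?_⟩
    change (g * (a : Perm X) * g⁻¹) (g x) = y
    have e : g⁻¹ (g x) = x := g.symm_apply_apply x
    have e2 : g (g⁻¹ y) = y := g.apply_symm_apply y
    rw [Perm.mul_apply, Perm.mul_apply, e, ha2, e2]

lemma card_orbit_conjS (g : Perm X) (A : Subgroup (Perm X)) (x : X) :
    Nat.card (orbit (conjS g A) (g x)) = Nat.card (orbit A x) := by
  symm
  refine Nat.card_congr (Equiv.subtypeEquiv g ?_)
  intro z
  rw [mem_orbit_conjS]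
  simp

lemma conjS_H1 (g : Perm X) (A : Subgroup (Perm X))
    (H1 : ∀ x : X, Nat.card (orbit A x) = 3 ∨ Nat.card (orbit A x) = 4) :
    ∀ x : X, Nat.card (orbit (conjS g A) x) = 3 ∨ Nat.card (orbit (conjS g A) x) = 4 := by
  intro y
  obtain ⟨x, rfl⟩ := g.surjective y
  rw [card_orbit_conjS]
  exact H1 x

lemma conjS_H2 (g : Perm X) (A : Subgroup (Perm X))
    (H2 : ∀ a ∈ A, ∀ x : X, Nat.card (orbit A x) = 4 → a (a x) = x) :
    ∀ a ∈ conjS g A, ∀ x : X, Nat.card (orbit (conjS g A) x) = 4 → a (a x) = x := by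
  rintro _ ⟨a, ha, rfl⟩ y hy
  obtain ⟨x, rfl⟩ := g.surjective y
  rw [card_orbit_conjS] at hy
  have h := H2 a ha x hy
  have e : ∀ z, (MulAut.conj g).toMonoidHom a (g z) = g (a z) := by
    intro z
    change (g * a * g⁻¹) (g z) = g (a z)
    simp [Perm.mul_apply]
  rw [e, e, h]

lemma exists_equiv_of_fibers {α β γ δ : Type*} [Finite α] [Finite β] (q : α → γ) (q' : β → δ)
    (e : γ ≃ δ) (h : ∀ c, Nat.card {x // q x = c} = Nat.card {y // q' y = e c}) :
    ∃ g : α ≃ β, ∀ x, q' (g x) = e (q x) := by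
  classical
  have hE : ∀ c, Nonempty ({x // q x = c} ≃ {y // q' y = e c}) := fun c =>
    ⟨(Finite.equivFin _).trans ((finCongr (h c)).trans (Finite.equivFin _).symm)⟩
  let E : ∀ c, {x // q x = c} ≃ {y // q' y = e c} := fun c => (hE c).some
  let g : α ≃ β := (Equiv.sigmaFiberEquiv q).symm.trans
    ((Equiv.sigmaCongr e E).trans (Equiv.sigmaFiberEquiv q'))
  refine ⟨g, fun x => ?_⟩
  exact (E (q x) ⟨x, rfl⟩).2

variable [∀ A : Subgroup (Perm X), Fintype (orbitRel.Quotient A X)]

lemma mem_orbit_iff_mk (A : Subgroup (Perm X)) (u v : X) :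
    u ∈ orbit A v ↔ (Quotient.mk'' u : orbitRel.Quotient A X) = Quotient.mk'' v := by
  rw [← mk_eq_of_mem_orbit A (Quotient.mk'' v) u]
  have : orbit A (Quotient.mk'' v : orbitRel.Quotient A X).out = orbit A v := by
    rw [orbit_eq_iff]
    exact Quotient.exact (Quotient.out_eq (Quotient.mk'' v : orbitRel.Quotient A X))
  rw [this]

lemma fiber_card (A : Subgroup (Perm X)) (ω : orbitRel.Quotient A X) :
    Nat.card {x // (Quotient.mk'' x : orbitRel.Quotient A X) = ω} = orb A ω :=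
  Nat.card_congr (Equiv.subtypeEquivRight fun z => (mk_eq_of_mem_orbit A ω z).symm)

/-- The main conjugacy theorem. -/
theorem conj_main (A B : Subgroup (Perm X)) (hAc : ∀ a ∈ A, ∀ b ∈ A, a * b = b * a)
    (hBc : ∀ a ∈ B, ∀ b ∈ B, a * b = b * a)
    (hAe : ∀ a ∈ A, Perm.sign a = 1) (hBe : ∀ a ∈ B, Perm.sign a = 1)
    (hAm : ∀ C : Subgroup (Perm X), (∀ a ∈ C, ∀ b ∈ C, a * b = b * a) →
      (∀ a ∈ C, Perm.sign a = 1) → Nat.card C ≤ Nat.card A)
    (hBm : ∀ C : Subgroup (Perm X), (∀ a ∈ C, ∀ b ∈ C, a * b = b * a) →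
      (∀ a ∈ C, Perm.sign a = 1) → Nat.card C ≤ Nat.card B)
    (k fam : ℕ) (hfam : fam ≤ 2) (hX : Fintype.card X = 3 * k + 4 * fam)
    (hTA : 4 ^ fam * 3 ^ k ≤ Nat.card A) (hTB : 4 ^ fam * 3 ^ k ≤ Nat.card B)
    (x₀ : X) :
    ∃ g : Perm X, Perm.sign g = 1 ∧ B = conjS g A := by
  classical
  obtain ⟨hAcard, hAsz, hA3, hA4, hAH2⟩ := structure_main A hAc hAe k fam hfam hX hTA
  obtain ⟨hBcard, hBsz, hB3, hB4, hBH2⟩ := structure_main B hBc hBe k fam hfam hX hTB
  have hAH1 : ∀ x : X, Nat.card (orbit A x) = 3 ∨ Nat.card (orbit A x) = 4 := by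
    intro x
    rw [card_orbit_eq]
    exact hAsz _
  have hBH1 : ∀ x : X, Nat.card (orbit B x) = 3 ∨ Nat.card (orbit B x) = 4 := by
    intro x
    rw [card_orbit_eq]
    exact hBsz _
  -- match the orbits
  have hfib : ∀ v : ℕ, Nat.card {ω // orb A ω = v} = Nat.card {ω // orb B ω = (Equiv.refl ℕ) v} := by
    intro v
    simp only [Equiv.refl_apply, Nat.card_eq_fintype_card, Fintype.card_subtype]
    by_cases h3 : v = 3
    · subst h3
      rw [hA3, hB3]
    · by_cases h4 : v = 4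
      · subst h4
        rw [hA4, hB4]
      · have hA0 : (Finset.univ.filter (fun ω => orb A ω = v)) = ∅ := by
          refine Finset.filter_false_of_mem ?_
          intro ω _ hω
          rcases hAsz ω with h | h <;> omega
        have hB0 : (Finset.univ.filter (fun ω => orb B ω = v)) = ∅ := by
          refine Finset.filter_false_of_mem ?_
          intro ω _ hω
          rcases hBsz ω with h | h <;> omega
        rw [hA0, hB0]
        simp
  obtain ⟨e₀, he₀⟩ := exists_equiv_of_fibers (orb A) (orb B) (Equiv.refl ℕ) hfib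
  have he₀' : ∀ ω, orb B (e₀ ω) = orb A ω := he₀
  obtain ⟨g₀, hg₀⟩ := exists_equiv_of_fibers
    (fun x : X => (Quotient.mk'' x : orbitRel.Quotient A X))
    (fun x : X => (Quotient.mk'' x : orbitRel.Quotient B X)) e₀ (by
      intro ω
      rw [fiber_card, fiber_card, he₀'])
  let g₁ : Perm X := g₀
  have hg₁ : ∀ x, (Quotient.mk'' (g₁ x) : orbitRel.Quotient B X) =
      e₀ (Quotient.mk'' x : orbitRel.Quotient A X) := hg₀
  -- the conjugate of `A` has the orbits of `B`
  have hOconj : ∀ z : X, orbit (conjS g₁ A) z = orbit B z := by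
    intro z
    obtain ⟨x, rfl⟩ := g₁.surjective z
    ext y
    rw [mem_orbit_conjS, mem_orbit_iff_mk A, mem_orbit_iff_mk B, hg₁ x]
    obtain ⟨u, rfl⟩ := g₁.surjective y
    have e : g₁⁻¹ (g₁ u) = u := g₁.symm_apply_apply u
    rw [hg₁ u, e]
    exact e₀.injective.eq_iff.symm
  have hle : conjS g₁ A ≤ B := le_of_same_orbits _ B (conjS_comm hAc) hBc (conjS_even hAe) hBe hBm hOconj
    (conjS_H1 g₁ A hAH1) (conjS_H2 g₁ A hAH2) (by
      intro a ha x hx
      rw [hOconj] at hx
      exact hBH2 a ha x hx)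
  have hcardeq : Nat.card B ≤ Nat.card (conjS g₁ A) := by
    rw [conjS_card, hAcard, hBcard]
  have hg₁B : conjS g₁ A = B := Subgroup.eq_of_le_of_card_ge hle hcardeq
  by_cases hsg : Perm.sign g₁ = 1
  · exact ⟨g₁, hsg, hg₁B.symm⟩
  · -- correct by a transposition normalising `A`
    have hcardx := hAH1 x₀
    have hex : ∃ y ∈ orbit A x₀, y ≠ x₀ := by
      by_contra hno
      push Not at hno
      have : orbit A x₀ = {x₀} := by
        ext y
        exact ⟨fun hy => hno y hy, fun hy => by rw [Set.mem_singleton_iff] at hy; rw [hy]; exact mem_orbit_self _⟩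
      rw [this] at hcardx
      simp at hcardx
    obtain ⟨y₀, hy₀, hne⟩ := hex
    let h : Perm X := swap x₀ y₀
    have hh : ∀ u, h u ∈ orbit A u := by
      intro u
      by_cases h1 : u = x₀
      · subst h1
        have : h u = y₀ := swap_apply_left _ _
        rw [this]
        exact hy₀
      · by_cases h2 : u = y₀
        · subst h2
          have : h u = x₀ := swap_apply_right _ _
          rw [this]
          have h3 : orbit A u = orbit A x₀ := orbit_eq_iff.2 hy₀
          rw [h3]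
          exact mem_orbit_self _
        · have : h u = u := swap_apply_of_ne_of_ne h1 h2
          rw [this]
          exact mem_orbit_self _
    have hOh : ∀ z : X, orbit (conjS h A) z = orbit A z := by
      intro z
      obtain ⟨x, rfl⟩ := h.surjective z
      ext y
      rw [mem_orbit_conjS]
      have e1 : orbit A (h x) = orbit A x := orbit_eq_iff.2 (hh x)
      rw [e1]
      have hinv : h⁻¹ y = h y := by
        change (swap x₀ y₀)⁻¹ y = swap x₀ y₀ y
        rw [swap_inv]
      rw [hinv]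
      have e2 : orbit A (h y) = orbit A y := orbit_eq_iff.2 (hh y)
      constructor
      · intro hy
        have h2 : orbit A (h y) = orbit A x := orbit_eq_iff.2 hy
        rw [e2] at h2
        rw [← h2]
        exact mem_orbit_self _
      · intro hy
        have h2 : orbit A y = orbit A x := orbit_eq_iff.2 hy
        rw [← h2, ← e2]
        exact mem_orbit_self _
    have hle2 : conjS h A ≤ A := le_of_same_orbits _ A (conjS_comm hAc) hAc (conjS_even hAe) hAe hAm hOh
      (conjS_H1 h A hAH1) (conjS_H2 h A hAH2) (by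
        intro a ha x hx
        rw [hOh] at hx
        exact hAH2 a ha x hx)
    have hheq : conjS h A = A := Subgroup.eq_of_le_of_card_ge hle2 (by rw [conjS_card])
    refine ⟨g₁ * h, ?_, ?_⟩
    · have hs1 : Perm.sign g₁ = -1 := by
        rcases Int.units_eq_one_or (Perm.sign g₁) with h1 | h1
        · exact absurd h1 hsg
        · exact h1
      have hs2 : Perm.sign h = -1 := Perm.sign_swap hne.symm
      rw [Perm.sign_mul, hs1, hs2]
      rfl
    · rw [← hg₁B]
      ext x
      rw [mem_conjS, mem_conjS]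
      constructor
      · intro hx
        have h3 : h⁻¹ * (g₁⁻¹ * x * g₁) * h ∈ A := by
          rw [← mem_conjS (g := h), hheq]
          exact hx
        have e : (g₁ * h)⁻¹ * x * (g₁ * h) = h⁻¹ * (g₁⁻¹ * x * g₁) * h := by group
        rw [e]
        exact h3
      · intro hx
        have e : (g₁ * h)⁻¹ * x * (g₁ * h) = h⁻¹ * (g₁⁻¹ * x * g₁) * h := by group
        rw [e] at hx
        have h3 : g₁⁻¹ * x * g₁ ∈ conjS h A := mem_conjS.2 hx
        rwa [hheq] at h3

end Main

end Cfsg.Agent.Perm.MaxAb
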