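import Mathlib
import Cfsg.Prelude.Def_Classical

/-!
# The minus-type orthogonal group of dimension four over the field of two elements is `S₅`
-/

set_option autoImplicit false

namespace Cfsg.Agent.Lib.Perm.OFour

open Cfsg Matrix Equiv

/-- Index type. -/
abbrev IdxF := (Fin 1 ⊕ Fin 1) ⊕ Fin 2

/-- The form. -/
abbrev QF : (IdxF → ZMod 2) → ZMod 2 := quadFormMinus 1 (ZMod 2) 1 1

/-- A vector from coordinates. -/
def vvF (a b c d : ZMod 2) : IdxF → ZMod 2
  | .inl (.inl _) => a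
  | .inl (.inr _) => b
  | .inr j => if j = 0 then c else d

theorem eq_vvF (v : IdxF → ZMod 2) :
    v = vvF (v (.inl (.inl 0))) (v (.inl (.inr 0))) (v (.inr 0)) (v (.inr 1)) := by
  funext i
  rcases i with (i | i) | i
  · have : i = 0 := Subsingleton.elim _ _
    subst this; rfl
  · have : i = 0 := Subsingleton.elim _ _
    subst this; rfl
  · fin_cases i <;> rfl

/-- The singular vectors. -/
def sF : Fin 5 → IdxF → ZMod 2 :=
  ![vvF 1 0 0 0, vvF 0 1 0 0, vvF 1 1 1 0, vvF 1 1 0 1, vvF 1 1 1 1]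

theorem vvF_add (a b c d a' b' c' d' : ZMod 2) :
    vvF a b c d + vvF a' b' c' d' = vvF (a + a') (b + b') (c + c') (d + d') := by
  funext i
  rcases i with (i | i) | i
  · rfl
  · rfl
  · fin_cases i <;> rfl

theorem vvF_smul (t a b c d : ZMod 2) : t • vvF a b c d = vvF (t * a) (t * b) (t * c) (t * d) := by
  funext i
  rcases i with (i | i) | i
  · rfl
  · rfl
  · fin_cases i <;> rfl

/-- The image of a vector under the map attached to a permutation. -/
def TF (σ : Perm (Fin 5)) (v : IdxF → ZMod 2) : IdxF → ZMod 2 :=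
  v (.inl (.inl 0)) • sF (σ 0) + v (.inl (.inr 0)) • sF (σ 1) +
    v (.inr 0) • (sF (σ 2) + sF (σ 0) + sF (σ 1)) + v (.inr 1) • (sF (σ 3) + sF (σ 0) + sF (σ 1))

/-- The matrix attached to a permutation. -/
def MF (σ : Perm (Fin 5)) : Matrix IdxF IdxF (ZMod 2) :=
  Matrix.of fun i j =>
    match j with
    | .inl (.inl _) => sF (σ 0) i
    | .inl (.inr _) => sF (σ 1) i
    | .inr j => if j = 0 then (sF (σ 2) + sF (σ 0) + sF (σ 1)) i else (sF (σ 3) + sF (σ 0) + sF (σ 1)) i

theorem MF_mulVec (σ : Perm (Fin 5)) (v : IdxF → ZMod 2) : MF σ *ᵥ v = TF σ v := by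
  funext i
  simp only [Matrix.mulVec, dotProduct, Fintype.sum_sum_type, MF, Matrix.of_apply, TF]
  simp [Fin.sum_univ_two]
  ring

set_option maxRecDepth 100000 in
theorem QF_TF : ∀ σ : Perm (Fin 5), ∀ a b c d : ZMod 2, QF (TF σ (vvF a b c d)) = QF (vvF a b c d) := by
  decide +kernel

set_option maxRecDepth 100000 in
theorem TF_sF : ∀ σ : Perm (Fin 5), ∀ i, TF σ (sF i) = sF (σ i) := by
  decide +kernel

theorem sF_spec : ∀ a b c d : ZMod 2, vvF a b c d ≠ 0 → QF (vvF a b c d) = 0 → ∃ i, sF i = vvF a b c d := by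
  decide +kernel

theorem sF_inj : Function.Injective sF := by
  decide +kernel

theorem matrix_ext_of_sF (A B : Matrix IdxF IdxF (ZMod 2)) (h : ∀ i, A *ᵥ sF i = B *ᵥ sF i) : A = B := by
  have h01 : ∀ (v w : IdxF → ZMod 2), A *ᵥ v = B *ᵥ v → A *ᵥ w = B *ᵥ w → A *ᵥ (v + w) = B *ᵥ (v + w) := by
    intro v w h1 h2
    rw [Matrix.mulVec_add, Matrix.mulVec_add, h1, h2]
  have hall : ∀ v : IdxF → ZMod 2, A *ᵥ v = B *ᵥ v := by
    intro v
    have hv : ∀ a b c d : ZMod 2, vvF a b c d =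
        a • sF 0 + b • sF 1 + c • (sF 2 + sF 0 + sF 1) + d • (sF 3 + sF 0 + sF 1) := by decide +kernel
    rw [eq_vvF v, hv]
    simp only [Matrix.mulVec_add, Matrix.mulVec_smul, h]
  ext i j
  have := congrFun (hall (Pi.single j 1)) i
  simpa using this

theorem MF_mul (σ τ : Perm (Fin 5)) : MF (σ * τ) = MF σ * MF τ := by
  apply matrix_ext_of_sF
  intro i
  rw [← Matrix.mulVec_mulVec, MF_mulVec, MF_mulVec, MF_mulVec, TF_sF, TF_sF, TF_sF, Perm.mul_apply]

theorem MF_one : MF 1 = 1 := by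
  apply matrix_ext_of_sF
  intro i
  rw [MF_mulVec, TF_sF, Matrix.one_mulVec, Perm.one_apply]

/-- The hom to the isometry group. -/
def phiF : Perm (Fin 5) →* isometryGroup (ZMod 2) QF where
  toFun σ := ⟨⟨MF σ, MF σ⁻¹, by rw [← MF_mul, mul_inv_cancel, MF_one], by rw [← MF_mul, inv_mul_cancel, MF_one]⟩, by
    intro u _
    show QF (MF σ *ᵥ u) = QF u
    rw [MF_mulVec, eq_vvF u]
    have := QF_TF σ (u (.inl (.inl 0))) (u (.inl (.inr 0))) (u (.inr 0)) (u (.inr 1))
    exact this⟩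
  map_one' := by
    apply Subtype.ext
    apply Units.ext
    exact MF_one
  map_mul' σ τ := by
    apply Subtype.ext
    apply Units.ext
    exact MF_mul σ τ

theorem phiF_bij : Function.Bijective phiF := by
  constructor
  · intro σ τ h
    have h1 : MF σ = MF τ := congrArg (fun g : isometryGroup (ZMod 2) QF => ((g : Matrix.GeneralLinearGroup IdxF (ZMod 2)) : Matrix IdxF IdxF (ZMod 2))) h
    ext i
    have h2 : MF σ *ᵥ sF i = MF τ *ᵥ sF i := by rw [h1]
    rw [MF_mulVec, MF_mulVec, TF_sF, TF_sF] at h2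
    rw [sF_inj h2]
  · rintro ⟨g, hg⟩
    have hQ : ∀ u, QF ((g : Matrix IdxF IdxF (ZMod 2)) *ᵥ u) = QF u := fun u => hg u u
    have hinj : ∀ u v, (g : Matrix IdxF IdxF (ZMod 2)) *ᵥ u = (g : Matrix IdxF IdxF (ZMod 2)) *ᵥ v → u = v := by
      intro u v h
      have := congrArg (fun w => ((g⁻¹ : Matrix.GeneralLinearGroup IdxF (ZMod 2)) : Matrix IdxF IdxF (ZMod 2)) *ᵥ w) h
      simpa [Matrix.mulVec_mulVec] using this
    have hex : ∀ i, ∃ j, (g : Matrix IdxF IdxF (ZMod 2)) *ᵥ sF i = sF j := by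
      intro i
      have hne : sF i ≠ 0 := by
        revert i; decide +kernel
      have hQi : QF (sF i) = 0 := by
        revert i; decide +kernel
      set w := (g : Matrix IdxF IdxF (ZMod 2)) *ᵥ sF i with hw
      have hw0 : w ≠ 0 := by
        intro h0
        apply hne
        apply hinj
        rw [← hw, h0, Matrix.mulVec_zero]
      have hwQ : QF w = 0 := by rw [hw, hQ, hQi]
      rw [eq_vvF w] at hw0 hwQ
      obtain ⟨j, hj⟩ := sF_spec _ _ _ _ hw0 hwQ
      exact ⟨j, by rw [hj]; exact eq_vvF w⟩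
    choose f hf using hex
    have hfinj : Function.Injective f := by
      intro i j hij
      apply sF_inj
      apply hinj
      rw [hf, hf, hij]
    let σ : Perm (Fin 5) := Equiv.ofBijective f (Finite.injective_iff_bijective.1 hfinj)
    refine ⟨σ, ?_⟩
    apply Subtype.ext
    apply Units.ext
    apply matrix_ext_of_sF
    intro i
    show MF σ *ᵥ sF i = _
    rw [MF_mulVec, TF_sF, hf]
    rfl

/-- The isomorphism. -/
noncomputable def isoF : Perm (Fin 5) ≃* isometryGroup (ZMod 2) (quadFormMinus 1 (ZMod 2) 1 1) :=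
  MulEquiv.ofBijective phiF phiF_bij

end Cfsg.Agent.Lib.Perm.OFour
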