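import Mathlib

/-!
Quadratic forms over the field with two elements, given as functions: Siegel transformations and
the radical of the stabilizer of a singular vector.
-/

namespace Cfsg.Agent.Perm.OPlusTwo

variable {F V : Type*} [Field F] [AddCommGroup V] [Module F V]

/-- The polar form. -/
def polar (Q : V → F) (x y : V) : F := Q (x + y) + Q x + Q y

/-- A nondegenerate quadratic form over `𝔽₂`. -/
structure IsForm (Q : V → F) : Prop where
  f2 : ∀ a : F, a = 0 ∨ a = 1
  add : ∀ x y z, polar Q (x + y) z = polar Q x z + polar Q y z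
  nondeg : ∀ x, (∀ y, polar Q x y = 0) → x = 0

section basics

variable {Q : V → F} (h : IsForm Q)
include h

lemma two_eq : (2 : F) = 0 := by
  rcases h.f2 2 with h2 | h2
  · exact h2
  · exfalso
    have : (1 : F) = 0 := by linear_combination h2
    exact one_ne_zero this

lemma f_add_self (a : F) : a + a = 0 := by
  have := two_eq h
  linear_combination a * this

lemma v_add_self (x : V) : x + x = 0 := by
  have h1 : (1 + 1 : F) • x = x + x := by rw [add_smul, one_smul]
  rw [← h1, f_add_self h, zero_smul]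

lemma v_cancel (x y : V) : x + y + y = x := by
  rw [add_assoc, v_add_self h, add_zero]

lemma mul_self' (a : F) : a * a = a := by
  rcases h.f2 a with rfl | rfl <;> simp

omit h in
lemma polar_comm (x y : V) : polar Q x y = polar Q y x := by
  unfold polar
  rw [add_comm x y]
  ring

lemma polar_add_right (x y z : V) : polar Q x (y + z) = polar Q x y + polar Q x z := by
  rw [polar_comm, h.add, polar_comm y, polar_comm z]

lemma polar_zero_left (z : V) : polar Q 0 z = 0 := by
  have h1 := h.add 0 0 z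
  rw [add_zero] at h1
  have h2 := f_add_self h (polar Q 0 z)
  rw [← h1] at h2
  exact h2

lemma polar_zero_right (z : V) : polar Q z 0 = 0 := by
  rw [polar_comm, polar_zero_left h]

lemma Q_zero : Q 0 = 0 := by
  have h1 := polar_zero_left h 0
  unfold polar at h1
  rw [add_zero] at h1
  have := two_eq h
  linear_combination h1 - Q 0 * this

lemma polar_self (x : V) : polar Q x x = 0 := by
  unfold polar
  rw [v_add_self h, Q_zero h, zero_add, f_add_self h]

lemma polar_smul_left (a : F) (x z : V) : polar Q (a • x) z = a * polar Q x z := by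
  rcases h.f2 a with rfl | rfl
  · rw [zero_smul, polar_zero_left h, zero_mul]
  · rw [one_smul, one_mul]

lemma polar_smul_right (a : F) (x z : V) : polar Q z (a • x) = a * polar Q z x := by
  rw [polar_comm, polar_smul_left h, polar_comm]

lemma Q_add (x y : V) : Q (x + y) = Q x + Q y + polar Q x y := by
  unfold polar
  have := two_eq h
  linear_combination (-(Q x) - Q y) * this

lemma Q_smul (a : F) (x : V) : Q (a • x) = a * Q x := by
  rcases h.f2 a with rfl | rfl
  · rw [zero_smul, Q_zero h, zero_mul]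
  · rw [one_smul, one_mul]

end basics

/-- The isometry group. -/
def OO (Q : V → F) : Subgroup (V ≃ₗ[F] V) where
  carrier := {g | ∀ x, Q (g x) = Q x}
  mul_mem' := by
    intro a b ha hb x
    change Q (a (b x)) = Q x
    rw [ha, hb]
  one_mem' := fun x => rfl
  inv_mem' := by
    intro a ha x
    have := ha (a⁻¹ x)
    rw [← this]
    congr 1
    exact a.apply_symm_apply x

omit [Field F] in
lemma mem_OO' {F V : Type*} [Field F] [AddCommGroup V] [Module F V] {Q : V → F}
    {g : V ≃ₗ[F] V} : g ∈ OO Q ↔ ∀ x, Q (g x) = Q x := Iff.rfl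

@[simp] lemma mul_apply' (a b : V ≃ₗ[F] V) (x : V) : (a * b) x = a (b x) := rfl
@[simp] lemma one_apply' (x : V) : (1 : V ≃ₗ[F] V) x = x := rfl
@[simp] lemma apply_inv_apply' (a : V ≃ₗ[F] V) (x : V) : a (a⁻¹ x) = x := a.apply_symm_apply x
@[simp] lemma inv_apply_apply' (a : V ≃ₗ[F] V) (x : V) : a⁻¹ (a x) = x := a.symm_apply_apply x

lemma polar_map {Q : V → F} {g : V ≃ₗ[F] V} (hg : g ∈ OO Q) (x y : V) :
    polar Q (g x) (g y) = polar Q x y := by
  unfold polar
  rw [← map_add, hg, hg, hg]

/-- The formula of a Siegel transformation. -/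
def sieFun (Q : V → F) (v u x : V) : V :=
  x + polar Q x v • u + (polar Q x u + Q u * polar Q x v) • v

section siegel

variable {Q : V → F} (h : IsForm Q) {v u : V}
include h

lemma sie_add (x y : V) : sieFun Q v u (x + y) = sieFun Q v u x + sieFun Q v u y := by
  unfold sieFun
  rw [h.add, h.add]
  have : (polar Q x u + polar Q y u + Q u * (polar Q x v + polar Q y v)) =
      (polar Q x u + Q u * polar Q x v) + (polar Q y u + Q u * polar Q y v) := by ring
  rw [this, add_smul, add_smul]
  abel

lemma sie_smul (a : F) (x : V) : sieFun Q v u (a • x) = a • sieFun Q v u x := by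
  unfold sieFun
  rw [polar_smul_left h, polar_smul_left h]
  have : a * polar Q x u + Q u * (a * polar Q x v) = a * (polar Q x u + Q u * polar Q x v) := by ring
  rw [this, mul_smul, mul_smul, smul_add, smul_add]

lemma sie_invol (hv : Q v = 0) (huv : polar Q u v = 0) (x : V) :
    sieFun Q v u (sieFun Q v u x) = x := by
  have hvu : polar Q v u = 0 := by rw [polar_comm]; exact huv
  have h1 : polar Q (sieFun Q v u x) v = polar Q x v := by
    unfold sieFun
    rw [h.add, h.add, polar_smul_left h, polar_smul_left h, huv, polar_self h]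
    ring
  have h2 : polar Q (sieFun Q v u x) u = polar Q x u := by
    unfold sieFun
    rw [h.add, h.add, polar_smul_left h, polar_smul_left h, hvu, polar_self h]
    ring
  have h3 : sieFun Q v u (sieFun Q v u x) =
      x + (polar Q x v • u + polar Q x v • u) +
        ((polar Q x u + Q u * polar Q x v) • v + (polar Q x u + Q u * polar Q x v) • v) := by
    have e : ∀ y : V, sieFun Q v u y = y + polar Q y v • u + (polar Q y u + Q u * polar Q y v) • v :=
      fun y => rfl
    rw [e (sieFun Q v u x), h1, h2, e x]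
    abel
  rw [h3, v_add_self h, v_add_self h, add_zero, add_zero]

lemma sie_Q (hv : Q v = 0) (huv : polar Q u v = 0) (x : V) : Q (sieFun Q v u x) = Q x := by
  unfold sieFun
  rw [Q_add h, Q_add h, Q_smul h, Q_smul h, hv, polar_smul_right h, polar_smul_right h, h.add,
    polar_smul_left h, huv]
  set a := polar Q x v
  set b := polar Q x u
  set c := Q u
  have h1 := mul_self' h a
  have h2 := two_eq h
  linear_combination (c) * h1 + (a * c + a * b) * h2

/-- A Siegel transformation. -/
def sie (hv : Q v = 0) (huv : polar Q u v = 0) : V ≃ₗ[F] V :=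
  LinearEquiv.ofInvolutive
    { toFun := sieFun Q v u
      map_add' := sie_add h
      map_smul' := sie_smul h }
    (sie_invol h hv huv)

lemma sie_apply (hv : Q v = 0) (huv : polar Q u v = 0) (x : V) :
    sie h hv huv x = sieFun Q v u x := rfl

lemma sie_mem (hv : Q v = 0) (huv : polar Q u v = 0) : sie h hv huv ∈ OO Q :=
  fun x => sie_Q h hv huv x

end siegel

/-- The radical of the stabilizer of `v`. -/
def RR {Q : V → F} (h : IsForm Q) (v : V) : Subgroup (V ≃ₗ[F] V) where
  carrier := {g | g ∈ OO Q ∧ g v = v ∧ ∀ x, polar Q x v = 0 → g x = x ∨ g x = x + v}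
  mul_mem' := by
    rintro a b ⟨ha, hav, ha'⟩ ⟨hb, hbv, hb'⟩
    refine ⟨(OO Q).mul_mem ha hb, ?_, ?_⟩
    · simp [hbv, hav]
    · intro x hx
      rcases hb' x hx with h1 | h1 <;> rcases ha' x hx with h2 | h2
      · left; simp [h1, h2]
      · right; simp [h1, h2]
      · right; simp [h1, h2, hav]
      · left; simp only [mul_apply', h1, map_add, h2, hav]; exact v_cancel h x v
  one_mem' := ⟨(OO Q).one_mem, rfl, fun x _ => Or.inl rfl⟩
  inv_mem' := by
    rintro a ⟨ha, hav, ha'⟩
    have hinv : a⁻¹ v = v := by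
      conv_lhs => rw [← hav]
      simp
    refine ⟨(OO Q).inv_mem ha, hinv, ?_⟩
    intro x hx
    rcases ha' x hx with h1 | h1
    · left
      conv_lhs => rw [← h1]
      simp
    · right
      have h2 : a⁻¹ (a x) = a⁻¹ x + a⁻¹ v := by rw [h1, map_add]
      rw [inv_apply_apply', hinv] at h2
      conv_rhs => rw [h2]
      rw [v_cancel h]

section rr

variable {Q : V → F} (h : IsForm Q) {v : V}

lemma mem_RR {g : V ≃ₗ[F] V} : g ∈ RR h v ↔
    g ∈ OO Q ∧ g v = v ∧ ∀ x, polar Q x v = 0 → g x = x ∨ g x = x + v := Iff.rfl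

lemma sie_mem_RR (hv : Q v = 0) {u : V} (huv : polar Q u v = 0) : sie h hv huv ∈ RR h v := by
  refine ⟨sie_mem h hv huv, ?_, ?_⟩
  · rw [sie_apply]
    unfold sieFun
    rw [polar_self h, polar_comm v u, huv]
    simp
  · intro x hx
    rw [sie_apply]
    unfold sieFun
    rw [hx]
    rcases h.f2 (polar Q x u + Q u * 0) with h1 | h1
    · left; rw [h1]; simp
    · right; rw [h1]; simp

lemma rr_pow (g : V ≃ₗ[F] V) (hg : g ∈ RR h v) : g ^ 4 = 1 := by
  obtain ⟨hO, hgv, hg'⟩ := hg
  have h2 : ∀ x, (g * g) x = x ∨ (g * g) x = x + v := by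
    intro x
    have hy : polar Q (g x + x) v = 0 := by
      rw [h.add]
      have : polar Q (g x) v = polar Q x v := by
        conv_lhs => rw [← hgv]
        exact polar_map hO x v
      rw [this, f_add_self h]
    have key : (g * g) x = g (g x + x) + g x := by
      simp only [mul_apply', map_add]
      rw [add_assoc, v_add_self h, add_zero]
    rcases hg' _ hy with h1 | h1
    · left
      rw [key, h1, add_comm (g x) x, add_assoc, v_add_self h, add_zero]
    · right
      rw [key, h1]
      have : g x + x + v + g x = x + v + (g x + g x) := by abel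
      rw [this, v_add_self h, add_zero]
  have h3 : (g * g) v = v := by simp [hgv]
  apply LinearEquiv.ext
  intro x
  have e : g ^ 4 = (g * g) * (g * g) := by
    rw [show (4 : ℕ) = 2 + 2 from rfl, pow_add, pow_two]
  rw [e, mul_apply']
  rcases h2 x with h1 | h1
  · rw [h1, h1]; rfl
  · rw [h1, map_add, h1, h3]
    rw [v_cancel h]; rfl

lemma rr_isP : IsPGroup 2 (RR h v) := by
  rintro ⟨g, hg⟩
  refine ⟨2, Subtype.ext ?_⟩
  simpa using rr_pow h g hg

lemma rr_conj {g a : V ≃ₗ[F] V} (hg : g ∈ OO Q) (hgv : g v = v) (ha : a ∈ RR h v) :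
    g * a * g⁻¹ ∈ RR h v := by
  obtain ⟨hO, hav, ha'⟩ := ha
  have hinv : g⁻¹ v = v := by
    conv_lhs => rw [← hgv]
    simp
  refine ⟨(OO Q).mul_mem ((OO Q).mul_mem hg hO) ((OO Q).inv_mem hg), ?_, ?_⟩
  · simp [hinv, hav, hgv]
  · intro x hx
    have hx' : polar Q (g⁻¹ x) v = 0 := by
      have := polar_map ((OO Q).inv_mem hg) x v
      rw [hinv] at this
      rw [this, hx]
    rcases ha' _ hx' with h1 | h1
    · left
      change g (a (g⁻¹ x)) = x
      rw [h1, apply_inv_apply']
    · right
      change g (a (g⁻¹ x)) = x + v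
      rw [h1, map_add, apply_inv_apply', hgv]

lemma le_normalizer_RR {P : Subgroup (V ≃ₗ[F] V)} (hP : P ≤ OO Q) (hfix : ∀ g ∈ P, g v = v) :
    P ≤ Subgroup.normalizer ((RR h v : Subgroup (V ≃ₗ[F] V)) : Set (V ≃ₗ[F] V)) := by
  intro g hg
  rw [Subgroup.mem_normalizer_iff]
  intro a
  constructor
  · exact fun ha => rr_conj h (hP hg) (hfix g hg) ha
  · intro ha
    have := rr_conj h ((OO Q).inv_mem (hP hg)) (by
      have h1 := hfix g hg
      conv_lhs => rw [← h1]
      simp) ha
    have e : g⁻¹ * (g * a * g⁻¹) * g⁻¹⁻¹ = a := by group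
    rwa [e] at this

end rr

/-- `P` is a maximal 2-subgroup of the isometry group. -/
def IsMaxTwo (Q : V → F) (P : Subgroup (V ≃ₗ[F] V)) : Prop :=
  P ≤ OO Q ∧ IsPGroup 2 P ∧ ∀ T : Subgroup (V ≃ₗ[F] V), T ≤ OO Q → IsPGroup 2 T → P ≤ T → T ≤ P

lemma sup_RR_isP {Q : V → F} (h : IsForm Q) {v : V} {T : Subgroup (V ≃ₗ[F] V)}
    (hT : T ≤ OO Q) (hT2 : IsPGroup 2 T) (hfix : ∀ g ∈ T, g v = v) :
    IsPGroup 2 (T ⊔ RR h v : Subgroup (V ≃ₗ[F] V)) := by
  haveI : Fact (Nat.Prime 2) := ⟨Nat.prime_two⟩
  exact hT2.to_sup_of_normal_right' (rr_isP h) (le_normalizer_RR h hT hfix)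

lemma RR_le_OO {Q : V → F} (h : IsForm Q) (v : V) : RR h v ≤ OO Q := fun _ hg => hg.1

lemma RR_le {Q : V → F} (h : IsForm Q) {v : V} {P : Subgroup (V ≃ₗ[F] V)} (hP : IsMaxTwo Q P)
    (hfix : ∀ g ∈ P, g v = v) : RR h v ≤ P := by
  have h1 := hP.2.2 (P ⊔ RR h v) (sup_le hP.1 (RR_le_OO h v)) (sup_RR_isP h hP.1 hP.2.1 hfix) le_sup_left
  exact le_sup_right.trans h1

/-- Fixed singular vectors of 2-groups. -/
lemma exists_fixed {Q : V → F} (h : IsForm Q) [Finite V] {P : Subgroup (V ≃ₗ[F] V)}
    (hP : P ≤ OO Q) (hP2 : IsPGroup 2 P) (heven : 2 ∣ Nat.card {x : V // Q x = 0}) :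
    ∃ v : V, v ≠ 0 ∧ Q v = 0 ∧ ∀ g ∈ P, g v = v := by
  classical
  haveI : Fact (Nat.Prime 2) := ⟨Nat.prime_two⟩
  letI : MulAction P {x : V // Q x = 0} :=
    { smul := fun g x => ⟨(g : V ≃ₗ[F] V) x.1, (hP g.2 x.1).trans x.2⟩
      one_smul := fun x => rfl
      mul_smul := fun a b x => rfl }
  have hmod := hP2.card_modEq_card_fixedPoints {x : V // Q x = 0}
  have h0 : (⟨0, Q_zero h⟩ : {x : V // Q x = 0}) ∈ MulAction.fixedPoints P {x : V // Q x = 0} := by
    intro g
    apply Subtype.ext
    change (g : V ≃ₗ[F] V) 0 = 0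
    exact map_zero _
  have h1 : 2 ∣ Nat.card (MulAction.fixedPoints P {x : V // Q x = 0}) :=
    (Nat.modEq_zero_iff_dvd.1 (hmod.symm.trans (Nat.modEq_zero_iff_dvd.2 heven)))
  have h2 : 0 < Nat.card (MulAction.fixedPoints P {x : V // Q x = 0}) := by
    haveI : Nonempty (MulAction.fixedPoints P {x : V // Q x = 0}) := ⟨⟨_, h0⟩⟩
    exact Nat.card_pos
  have h3 : 1 < Nat.card (MulAction.fixedPoints P {x : V // Q x = 0}) := by
    have := Nat.le_of_dvd h2 h1
    omega
  haveI : Nontrivial (MulAction.fixedPoints P {x : V // Q x = 0}) :=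
    (Finite.one_lt_card_iff_nontrivial).1 h3
  obtain ⟨w, hw⟩ := exists_ne (⟨_, h0⟩ : MulAction.fixedPoints P {x : V // Q x = 0})
  refine ⟨w.1.1, ?_, w.1.2, ?_⟩
  · intro hz
    apply hw
    apply Subtype.ext
    apply Subtype.ext
    exact hz
  · intro g hg
    have := w.2 ⟨g, hg⟩
    exact congrArg Subtype.val this

end Cfsg.Agent.Perm.OPlusTwo
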