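import Cfsg.Agent.Lib.Perm.OPlusTwoA

/-!
The perpendicular of a hyperbolic pair, extension of isometries, Gauss sums.
-/

namespace Cfsg.Agent.Perm.OPlusTwo

variable {F V : Type*} [Field F] [AddCommGroup V] [Module F V]

section hyp

variable {Q : V → F} (h : IsForm Q) (v v' : V)

/-- The perpendicular of a pair of vectors. -/
def MM (h : IsForm Q) (v v' : V) : Submodule F V where
  carrier := {x | polar Q x v = 0 ∧ polar Q x v' = 0}
  add_mem' := by
    rintro a b ⟨h1, h2⟩ ⟨h3, h4⟩
    exact ⟨by rw [h.add, h1, h3, add_zero], by rw [h.add, h2, h4, add_zero]⟩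
  zero_mem' := ⟨polar_zero_left h _, polar_zero_left h _⟩
  smul_mem' := by
    rintro a b ⟨h1, h2⟩
    exact ⟨by rw [polar_smul_left h, h1, mul_zero], by rw [polar_smul_left h, h2, mul_zero]⟩

lemma mem_MM {x : V} : x ∈ MM h v v' ↔ polar Q x v = 0 ∧ polar Q x v' = 0 := Iff.rfl

/-- The projection on the plane. -/
def piL (h : IsForm Q) (v v' : V) : V →ₗ[F] V where
  toFun x := polar Q x v' • v + polar Q x v • v'
  map_add' x y := by
    rw [h.add, h.add, add_smul, add_smul]
    abel
  map_smul' a x := by
    simp only [polar_smul_left h, mul_smul, smul_add, RingHom.id_apply]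

lemma piL_apply (x : V) : piL h v v' x = polar Q x v' • v + polar Q x v • v' := rfl

variable {v v'} (hv : Q v = 0) (hv' : Q v' = 0) (hvv : polar Q v v' = 1)

include hvv

lemma polar_piL_v (x : V) : polar Q (piL h v v' x) v = polar Q x v := by
  rw [piL_apply, h.add, polar_smul_left h, polar_smul_left h, polar_self h, polar_comm v', hvv]
  ring

lemma polar_piL_v' (x : V) : polar Q (piL h v v' x) v' = polar Q x v' := by
  rw [piL_apply, h.add, polar_smul_left h, polar_smul_left h, polar_self h, hvv]
  ring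

lemma add_piL_mem (x : V) : x + piL h v v' x ∈ MM h v v' := by
  constructor
  · rw [h.add, polar_piL_v h hvv, f_add_self h]
  · rw [h.add, polar_piL_v' h hvv, f_add_self h]

/-- The projection on the perpendicular. -/
def prM : V →ₗ[F] MM h v v' :=
  LinearMap.codRestrict (MM h v v') (LinearMap.id + piL h v v') (add_piL_mem h hvv)

lemma prM_coe (x : V) : (prM h hvv x : V) = x + piL h v v' x := rfl

omit hvv in
lemma piL_of_mem {y : V} (hy : y ∈ MM h v v') : piL h v v' y = 0 := by
  rw [piL_apply, hy.1, hy.2]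
  simp

lemma prM_of_mem (y : MM h v v') : prM h hvv y = y := by
  apply Subtype.ext
  rw [prM_coe, piL_of_mem h y.2, add_zero]

lemma piL_piL (x : V) : piL h v v' (piL h v v' x) = piL h v v' x := by
  rw [piL_apply, polar_piL_v h hvv, polar_piL_v' h hvv]
  rfl

lemma prM_piL (x : V) : prM h hvv (piL h v v' x) = 0 := by
  apply Subtype.ext
  rw [prM_coe, piL_piL h hvv, v_add_self h]
  rfl

/-- The extension of a map of the perpendicular. -/
def fG (g : MM h v v' ≃ₗ[F] MM h v v') : V →ₗ[F] V :=
  piL h v v' + (MM h v v').subtype ∘ₗ g.toLinearMap ∘ₗ prM h hvv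

lemma fG_apply (g : MM h v v' ≃ₗ[F] MM h v v') (x : V) :
    fG h hvv g x = piL h v v' x + (g (prM h hvv x) : V) := rfl

lemma piL_fG (g : MM h v v' ≃ₗ[F] MM h v v') (x : V) :
    piL h v v' (fG h hvv g x) = piL h v v' x := by
  rw [fG_apply, map_add, piL_piL h hvv, piL_of_mem h (g _).2, add_zero]

lemma prM_fG (g : MM h v v' ≃ₗ[F] MM h v v') (x : V) :
    prM h hvv (fG h hvv g x) = g (prM h hvv x) := by
  rw [fG_apply, map_add, prM_piL h hvv, zero_add, prM_of_mem h hvv]

lemma fG_mul (g g' : MM h v v' ≃ₗ[F] MM h v v') (x : V) :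
    fG h hvv g (fG h hvv g' x) = fG h hvv (g * g') x := by
  rw [fG_apply, piL_fG h hvv, prM_fG h hvv, fG_apply]
  rfl

lemma fG_one (x : V) : fG h hvv 1 x = x := by
  rw [fG_apply]
  change piL h v v' x + (x + piL h v v' x) = x
  rw [add_comm x, ← add_assoc, v_add_self h, zero_add]

/-- The extension homomorphism. -/
def jj : (MM h v v' ≃ₗ[F] MM h v v') →* (V ≃ₗ[F] V) where
  toFun g := LinearEquiv.ofLinear (fG h hvv g) (fG h hvv g⁻¹)
    (LinearMap.ext fun x => by
      change fG h hvv g (fG h hvv g⁻¹ x) = x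
      rw [fG_mul, mul_inv_cancel, fG_one])
    (LinearMap.ext fun x => by
      change fG h hvv g⁻¹ (fG h hvv g x) = x
      rw [fG_mul, inv_mul_cancel, fG_one])
  map_one' := LinearEquiv.ext (fG_one h hvv)
  map_mul' g g' := LinearEquiv.ext fun x => (fG_mul h hvv g g' x).symm

lemma jj_apply (g : MM h v v' ≃ₗ[F] MM h v v') (x : V) :
    jj h hvv g x = piL h v v' x + (g (prM h hvv x) : V) := rfl

lemma jj_apply_mem (g : MM h v v' ≃ₗ[F] MM h v v') (y : MM h v v') :
    jj h hvv g y = (g y : V) := by
  rw [jj_apply, piL_of_mem h y.2, zero_add, prM_of_mem h hvv]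

lemma jj_inj : Function.Injective (jj h hvv) := by
  intro g g' hgg
  apply LinearEquiv.ext
  intro y
  apply Subtype.ext
  rw [← jj_apply_mem h hvv, ← jj_apply_mem h hvv, hgg]

/-- The form on the perpendicular. -/
def QM (Q : V → F) (M : Submodule F V) : M → F := fun y => Q y

omit hvv in
lemma polar_QM {M : Submodule F V} (y z : M) : polar (QM Q M) y z = polar Q y z := rfl

lemma isForm_QM : IsForm (QM Q (MM h v v')) where
  f2 := h.f2
  add x y z := h.add _ _ _
  nondeg := by
    intro y hy
    apply Subtype.ext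
    apply h.nondeg
    intro w
    have h1 : w = piL h v v' w + (prM h hvv w : V) := by
      rw [prM_coe, add_comm w, ← add_assoc, v_add_self h, zero_add]
    rw [h1, polar_add_right h]
    have h2 : polar Q (y : V) (prM h hvv w : V) = 0 := hy _
    have h3 : polar Q (y : V) (piL h v v' w) = 0 := by
      rw [piL_apply, polar_add_right h, polar_smul_right h, polar_smul_right h, y.2.1, y.2.2]
      ring
    rw [h2, h3, add_zero]

lemma polar_piL_mem (x : V) {y : V} (hy : y ∈ MM h v v') : polar Q (piL h v v' x) y = 0 := by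
  rw [polar_comm, piL_apply, polar_add_right h, polar_smul_right h, polar_smul_right h, hy.1, hy.2]
  ring

lemma Q_decomp (x : V) : Q x = Q (piL h v v' x) + Q (prM h hvv x : V) := by
  have h1 : x = piL h v v' x + (prM h hvv x : V) := by
    rw [prM_coe, add_comm x, ← add_assoc, v_add_self h, zero_add]
  conv_lhs => rw [h1]
  rw [Q_add h, polar_piL_mem h hvv _ (prM h hvv x).2, add_zero]

lemma jj_mem {g : MM h v v' ≃ₗ[F] MM h v v'} (hg : g ∈ OO (QM Q (MM h v v'))) :
    jj h hvv g ∈ OO Q := by
  intro x
  rw [jj_apply, Q_add h, polar_piL_mem h hvv _ (g _).2, add_zero, Q_decomp h hvv x]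
  congr 1
  exact hg (prM h hvv x)

lemma piL_v : piL h v v' v = v := by
  rw [piL_apply, hvv, polar_self h]
  simp

lemma piL_v' : piL h v v' v' = v' := by
  have hvv' : polar Q v' v = 1 := by rw [polar_comm]; exact hvv
  rw [piL_apply, hvv', polar_self h]
  simp

lemma prM_v : prM h hvv v = 0 := by
  apply Subtype.ext
  rw [prM_coe, piL_v h hvv, v_add_self h]
  rfl

lemma prM_v' : prM h hvv v' = 0 := by
  apply Subtype.ext
  rw [prM_coe, piL_v' h hvv, v_add_self h]
  rfl

lemma jj_fix (g : MM h v v' ≃ₗ[F] MM h v v') : jj h hvv g v = v := by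
  rw [jj_apply, prM_v h hvv, piL_v h hvv, map_zero]
  simp

lemma jj_fix' (g : MM h v v' ≃ₗ[F] MM h v v') : jj h hvv g v' = v' := by
  rw [jj_apply, prM_v' h hvv, piL_v' h hvv, map_zero]
  simp

/-- Isometries fixing the pair come from the perpendicular. -/
lemma exists_jj {g : V ≃ₗ[F] V} (hg : g ∈ OO Q) (hgv : g v = v) (hgv' : g v' = v') :
    ∃ g₁ ∈ OO (QM Q (MM h v v')), jj h hvv g₁ = g := by
  have hinv : g⁻¹ v = v := by
    conv_lhs => rw [← hgv]
    exact g.symm_apply_apply v
  have hinv' : g⁻¹ v' = v' := by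
    conv_lhs => rw [← hgv']
    exact g.symm_apply_apply v'
  have hm : ∀ y ∈ MM h v v', g y ∈ MM h v v' := by
    intro y hy
    constructor
    · have := polar_map hg y v
      rw [hgv] at this
      rw [this]; exact hy.1
    · have := polar_map hg y v'
      rw [hgv'] at this
      rw [this]; exact hy.2
  have hm' : ∀ y ∈ MM h v v', g⁻¹ y ∈ MM h v v' := by
    intro y hy
    constructor
    · have := polar_map ((OO Q).inv_mem hg) y v
      rw [hinv] at this
      rw [this]; exact hy.1
    · have := polar_map ((OO Q).inv_mem hg) y v'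
      rw [hinv'] at this
      rw [this]; exact hy.2
  let g₁ : MM h v v' ≃ₗ[F] MM h v v' :=
    { toFun := fun y => ⟨g y, hm y y.2⟩
      map_add' := fun a b => Subtype.ext (map_add g _ _)
      map_smul' := fun a b => Subtype.ext (map_smul g _ _)
      invFun := fun y => ⟨g⁻¹ y, hm' y y.2⟩
      left_inv := fun a => Subtype.ext (inv_apply_apply' g _)
      right_inv := fun a => Subtype.ext (apply_inv_apply' g _) }
  refine ⟨g₁, fun y => hg y, ?_⟩
  apply LinearEquiv.ext
  intro x
  rw [jj_apply]
  change piL h v v' x + g (prM h hvv x : V) = g x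
  have h1 : g (piL h v v' x) = piL h v v' x := by
    rw [piL_apply, map_add, map_smul, map_smul, hgv, hgv']
  rw [prM_coe, map_add, h1, add_comm (g x), ← add_assoc, v_add_self h, zero_add]

end hyp

section gauss

open Classical in
/-- The sign character. -/
noncomputable def chi (a : F) : ℤ := if a = 0 then 1 else -1

@[simp] lemma chi_zero : chi (0 : F) = 1 := by simp [chi]
@[simp] lemma chi_one : chi (1 : F) = -1 := by simp [chi]

/-- The Gauss sum. -/
noncomputable def GS [Fintype V] (Q : V → F) : ℤ := ∑ x, chi (Q x)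

lemma chi_add {Q : V → F} (h : IsForm Q) (a b : F) : chi (a + b) = chi a * chi b := by
  rcases h.f2 a with rfl | rfl <;> rcases h.f2 b with rfl | rfl <;>
    simp [f_add_self h]

lemma sum_F {Q : V → F} (h : IsForm Q) [Fintype F] (g : F → ℤ) : ∑ a, g a = g 0 + g 1 := by
  classical
  have : (Finset.univ : Finset F) = {0, 1} := by
    ext a
    simp only [Finset.mem_univ, Finset.mem_insert, Finset.mem_singleton, true_iff]
    exact h.f2 a
  rw [this, Finset.sum_pair zero_ne_one]

lemma card_F {Q : V → F} (h : IsForm Q) [Fintype F] : Fintype.card F = 2 := by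
  classical
  have : (Finset.univ : Finset F) = {0, 1} := by
    ext a
    simp only [Finset.mem_univ, Finset.mem_insert, Finset.mem_singleton, true_iff]
    exact h.f2 a
  rw [← Finset.card_univ, this, Finset.card_pair zero_ne_one]

/-- The relation of the Gauss sum with the count of singular vectors. -/
lemma GS_count [Fintype V] {Q : V → F} (h : IsForm Q) :
    (2 : ℤ) * Nat.card {x : V // Q x = 0} = Fintype.card V + GS Q := by
  classical
  rw [Nat.card_eq_fintype_card, Fintype.card_subtype]
  have h1 : ∀ x : V, chi (Q x) = 2 * (if Q x = 0 then 1 else 0) - 1 := by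
    intro x
    rcases h.f2 (Q x) with h2 | h2
    · simp [h2]
    · simp [h2]
  unfold GS
  simp_rw [h1]
  rw [Finset.sum_sub_distrib, ← Finset.mul_sum, Finset.sum_boole]
  simp

section decomposition

variable {Q : V → F} (h : IsForm Q) {v v' : V} (hv : Q v = 0) (hv' : Q v' = 0)
  (hvv : polar Q v v' = 1)

/-- The decomposition of the space. -/
def decEquiv : (F × F) × MM h v v' ≃ V where
  toFun p := p.1.1 • v + p.1.2 • v' + p.2
  invFun x := ((polar Q x v', polar Q x v), prM h hvv x)
  left_inv := by
    rintro ⟨⟨a, b⟩, y⟩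
    have hvv' : polar Q v' v = 1 := by rw [polar_comm]; exact hvv
    have h1 : polar Q (a • v + b • v' + (y : V)) v' = a := by
      rw [h.add, h.add, polar_smul_left h, polar_smul_left h, hvv, polar_self h, y.2.2]
      ring
    have h2 : polar Q (a • v + b • v' + (y : V)) v = b := by
      rw [h.add, h.add, polar_smul_left h, polar_smul_left h, hvv', polar_self h, y.2.1]
      ring
    have h3 : prM h hvv (a • v + b • v' + (y : V)) = y := by
      rw [map_add, map_add, map_smul, map_smul, prM_v h hvv, prM_v' h hvv, prM_of_mem h hvv]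
      simp
    simp only [Prod.mk.injEq]
    exact ⟨⟨h1, h2⟩, h3⟩
  right_inv := by
    intro x
    simp only
    have h1 : x = piL h v v' x + (prM h hvv x : V) := by
      rw [prM_coe, add_comm x, ← add_assoc, v_add_self h, zero_add]
    conv_rhs => rw [h1]
    rfl

include hv hv' in
lemma Q_decEquiv (p : (F × F) × MM h v v') :
    Q (decEquiv h hvv p) = p.1.1 * p.1.2 + Q (p.2 : V) := by
  obtain ⟨⟨a, b⟩, y⟩ := p
  change Q (a • v + b • v' + (y : V)) = a * b + Q (y : V)
  rw [Q_add h, Q_add h, Q_smul h, Q_smul h, hv, hv', polar_smul_left h, polar_smul_right h, hvv,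
    h.add, polar_smul_left h, polar_smul_left h, polar_comm v, polar_comm v', y.2.1, y.2.2]
  ring

include hv hv' hvv in
lemma GS_decomp [Fintype F] [Fintype V] [Fintype (MM h v v')] :
    GS Q = 2 * GS (QM Q (MM h v v')) := by
  classical
  unfold GS
  rw [← Equiv.sum_comp (decEquiv h hvv), Fintype.sum_prod_type]
  simp_rw [Q_decEquiv h hv hv' hvv, chi_add h]
  have h1 : ∀ x : F × F, ∑ y : MM h v v', chi (x.1 * x.2) * chi (Q (y : V)) =
      chi (x.1 * x.2) * ∑ y : MM h v v', chi (QM Q (MM h v v') y) := by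
    intro x
    rw [Finset.mul_sum]
    rfl
  simp_rw [h1]
  rw [← Finset.sum_mul, Fintype.sum_prod_type]
  rw [sum_F h]
  simp_rw [sum_F h]
  simp

include hvv in
lemma card_decomp [Fintype F] [Fintype V] [Fintype (MM h v v')] :
    Fintype.card V = 4 * Fintype.card (MM h v v') := by
  rw [← Fintype.card_congr (decEquiv h hvv), Fintype.card_prod, Fintype.card_prod, card_F h]

end decomposition

end gauss

end Cfsg.Agent.Perm.OPlusTwo
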