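import Cfsg.Agent.Lib.Perm.OPlusTwoB

/-!
Maximal 2-subgroups of the isometry group of a hyperbolic form over `𝔽₂` meet nontrivially.
-/

universe u v

namespace Cfsg.Agent.Perm.OPlusTwo

variable {F : Type v} [Field F]

section
variable {V : Type u} [AddCommGroup V] [Module F V]

lemma sie_ne_one {Q : V → F} (h : IsForm Q) {v u : V} (hv : Q v = 0) (hv0 : v ≠ 0)
    (huv : polar Q u v = 0) (hu0 : u ≠ 0) (huv' : u ≠ v) : sie h hv huv ≠ 1 := by
  intro he
  have h1 : ∃ x, polar Q x v ≠ 0 := by
    by_contra hc
    push Not at hc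
    apply hv0
    apply h.nondeg
    intro y
    rw [polar_comm]
    exact hc y
  obtain ⟨x, hx⟩ := h1
  have hx1 : polar Q x v = 1 := (h.f2 _).resolve_left hx
  have h2 : sie h hv huv x = x := by rw [he]; rfl
  rw [sie_apply] at h2
  unfold sieFun at h2
  rw [hx1, one_smul, mul_one, add_assoc] at h2
  have h3 : u + (polar Q x u + Q u) • v = 0 := by
    simpa using h2
  rcases h.f2 (polar Q x u + Q u) with h4 | h4
  · rw [h4, zero_smul, add_zero] at h3
    exact hu0 h3
  · rw [h4, one_smul] at h3
    apply huv'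
    have := v_cancel h u v
    rw [h3, zero_add] at this
    exact this.symm

lemma exists_u {Q : V → F} (h : IsForm Q) [Fintype V] (hcard : 4 < Fintype.card V) {v : V}
    (hv0 : v ≠ 0) : ∃ u, polar Q u v = 0 ∧ u ≠ 0 ∧ u ≠ v := by
  classical
  by_contra hc
  push Not at hc
  have h1 : ∃ x, polar Q x v ≠ 0 := by
    by_contra hc
    push Not at hc
    apply hv0
    apply h.nondeg
    intro y
    rw [polar_comm]
    exact hc y
  obtain ⟨w, hw⟩ := h1
  have hw1 : polar Q w v = 1 := (h.f2 _).resolve_left hw
  have hall : (Finset.univ : Finset V) ⊆ {0, v, w, w + v} := by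
    intro x _
    simp only [Finset.mem_insert, Finset.mem_singleton]
    rcases h.f2 (polar Q x v) with h2 | h2
    · by_cases h0 : x = 0
      · exact Or.inl h0
      · exact Or.inr (Or.inl (hc x h2 h0))
    · have h3 : polar Q (x + w) v = 0 := by
        rw [h.add, h2, hw1, f_add_self h]
      by_cases h0 : x + w = 0
      · right; right; left
        have := v_cancel h x w
        rw [h0, zero_add] at this
        exact this.symm
      · have h4 := hc _ h3 h0
        right; right; right
        have := v_cancel h x w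
        rw [h4] at this
        rw [← this, add_comm]
  have h2 := Finset.card_le_card hall
  rw [Finset.card_univ] at h2
  have h3 : ({0, v, w, w + v} : Finset V).card ≤ 4 := Finset.card_le_four
  omega

/-- The case of perpendicular distinct fixed vectors. -/
lemma common_perp {Q : V → F} (h : IsForm Q) {v v' : V} (hv : Q v = 0) (hv' : Q v' = 0)
    (hv0 : v ≠ 0) (hv'0 : v' ≠ 0) (hne : v' ≠ v) (hperp : polar Q v' v = 0) :
    ∃ g, g ∈ RR h v ∧ g ∈ RR h v' ∧ g ≠ 1 := by
  refine ⟨sie h hv hperp, sie_mem_RR h hv hperp, ?_, sie_ne_one h hv hv0 hperp hv'0 hne⟩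
  have hperp' : polar Q v v' = 0 := by rw [polar_comm]; exact hperp
  refine ⟨sie_mem h hv hperp, ?_, ?_⟩
  · rw [sie_apply]
    unfold sieFun
    rw [hperp, polar_self h, hv']
    simp
  · intro x hx
    rw [sie_apply]
    unfold sieFun
    rw [hx, hv']
    rcases h.f2 (polar Q x v) with h1 | h1
    · left; rw [h1]; simp
    · right; rw [h1]; simp

/-- `P ∩ stab(w')` is a maximal 2-subgroup in the stabilizer of `w, w'`, in the form needed. -/
lemma comap_isMaxTwo {Q : V → F} (h : IsForm Q) {v v' w w' : V}
    (hvv : polar Q v v' = 1) (hw : Q w = 0) (hw' : Q w' = 0) (hww : polar Q w' w = 1)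
    (hj : ∀ g, jj h hvv g w = w ∧ jj h hvv g w' = w')
    (hrange : ∀ g ∈ OO Q, g w = w → g w' = w' → ∃ g₁ ∈ OO (QM Q (MM h v v')), jj h hvv g₁ = g)
    {P : Subgroup (V ≃ₗ[F] V)} (hP : IsMaxTwo Q P) (hfix : ∀ g ∈ P, g w = w) :
    IsMaxTwo (QM Q (MM h v v')) (P.comap (jj h hvv)) := by
  haveI : Fact (Nat.Prime 2) := ⟨Nat.prime_two⟩
  refine ⟨?_, ?_, ?_⟩
  · intro g₁ hg₁ y
    have h1 := hP.1 hg₁ (y : V)
    rw [jj_apply_mem h hvv] at h1
    exact h1
  · exact hP.2.1.comap_of_injective (jj h hvv) (jj_inj h hvv)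
  · intro T hT hT2 hPT
    have hT' : T.map (jj h hvv) ≤ OO Q := by
      rintro _ ⟨g₁, hg₁, rfl⟩
      exact jj_mem h hvv (hT hg₁)
    have hT2' : IsPGroup 2 (T.map (jj h hvv)) := hT2.map _
    have hfixT : ∀ g ∈ T.map (jj h hvv), g w = w := by
      rintro _ ⟨g₁, _, rfl⟩
      exact (hj g₁).1
    have hsup := sup_RR_isP h hT' hT2' hfixT
    have hRP := RR_le h hP hfix
    have hle : P ≤ T.map (jj h hvv) ⊔ RR h w := by
      intro p hp
      -- `p w'` is another vector in the hyperbolic position
      have hpw : polar Q (p w') w = 1 := by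
        have h1 := polar_map (hP.1 hp) w' w
        rw [hfix p hp] at h1
        rw [h1, hww]
      have hQpw : Q (p w') = 0 := by rw [hP.1 hp]; exact hw'
      -- a Siegel element carrying `w'` to `p w'`
      set u := w' + p w' with hu
      have hperpu : polar Q u w = 0 := by
        rw [hu, h.add, hww, hpw, f_add_self h]
      set r := sie h hw hperpu with hr
      have hrR : r ∈ RR h w := sie_mem_RR h hw hperpu
      have hrw' : r w' = p w' := by
        rw [hr, sie_apply]
        unfold sieFun
        rw [hww, one_smul, mul_one]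
        have h1 : Q u = polar Q w' (p w') := by
          rw [hu, Q_add h, hw', hQpw]
          ring
        have h2 : polar Q w' u = polar Q w' (p w') := by
          rw [hu, polar_add_right h, polar_self h, zero_add]
        rw [h1, h2, f_add_self h, zero_smul, add_zero, hu, ← add_assoc, v_add_self h, zero_add]
      have hrP : r ∈ P := hRP hrR
      have hq : r⁻¹ * p ∈ P := P.mul_mem (P.inv_mem hrP) hp
      have hqw : (r⁻¹ * p) w = w := hfix _ hq
      have hqw' : (r⁻¹ * p) w' = w' := by
        rw [mul_apply', ← hrw', inv_apply_apply']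
      obtain ⟨g₁, hg₁, hg₁e⟩ := hrange _ (hP.1 hq) hqw hqw'
      have hg₁P : g₁ ∈ P.comap (jj h hvv) := by
        rw [Subgroup.mem_comap, hg₁e]
        exact hq
      have hg₁T : g₁ ∈ T := hPT hg₁P
      have h3 : p = r * (r⁻¹ * p) := by group
      rw [h3, ← hg₁e]
      exact Subgroup.mul_mem _ (Subgroup.mem_sup_right hrR)
        (Subgroup.mem_sup_left ⟨g₁, hg₁T, rfl⟩)
    have h4 := hP.2.2 _ (sup_le hT' (RR_le_OO h w)) hsup hle
    intro g₁ hg₁
    exact h4 (Subgroup.mem_sup_left ⟨g₁, hg₁, rfl⟩)

/-- The base case: the hyperbolic plane. -/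
lemma base_case {Q : V → F} (h : IsForm Q) [Fintype V] (hcard : Fintype.card V = 4)
    (hgs : GS Q = 2) {P P' : Subgroup (V ≃ₗ[F] V)} (hP : IsMaxTwo Q P) (hP' : IsMaxTwo Q P') :
    ∃ g, g ∈ P ∧ g ∈ P' ∧ g ≠ 1 := by
  classical
  have hcnt := GS_count h
  rw [hcard, hgs] at hcnt
  have hs : Nat.card {x : V // Q x = 0} = 3 := by
    have : (2 : ℤ) * Nat.card {x : V // Q x = 0} = 6 := by rw [hcnt]; norm_num
    omega
  rw [Nat.card_eq_fintype_card, Fintype.card_subtype] at hs
  set S := Finset.univ.filter (fun x : V => Q x = 0) with hS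
  have h0S : (0 : V) ∈ S := by simp [hS, Q_zero h]
  have hcard2 : 1 < (S.erase 0).card := by
    rw [Finset.card_erase_of_mem h0S, hs]
    norm_num
  obtain ⟨a, b, ha, hb, hab⟩ := Finset.one_lt_card_iff.1 hcard2
  have ha0 : a ≠ 0 := Finset.ne_of_mem_erase ha
  have hb0 : b ≠ 0 := Finset.ne_of_mem_erase hb
  have hQa : Q a = 0 := by simpa [hS] using Finset.mem_of_mem_erase ha
  have hQb : Q b = 0 := by simpa [hS] using Finset.mem_of_mem_erase hb
  -- distinctness of `a + b`
  have hab0 : a + b ≠ 0 := by
    intro h1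
    apply hab
    have := v_cancel h a b
    rw [h1, zero_add] at this
    exact this.symm
  have hab1 : a + b ≠ a := by
    intro h1
    apply hb0
    have := v_cancel h a b
    rw [h1] at this
    have h2 : a + b + a = b := by
      rw [add_comm a b, add_assoc, v_add_self h, add_zero]
    rw [h1, v_add_self h] at h2
    exact h2.symm
  have hab2 : a + b ≠ b := by
    intro h1
    apply ha0
    have h2 := v_cancel h a b
    rw [h1, v_add_self h] at h2
    exact h2.symm
  have hSall : S = {0, a, b} := by
    have hsub : ({0, a, b} : Finset V) ⊆ S := by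
      intro x hx
      simp only [Finset.mem_insert, Finset.mem_singleton] at hx
      rcases hx with rfl | rfl | rfl
      · exact h0S
      · exact Finset.mem_of_mem_erase ha
      · exact Finset.mem_of_mem_erase hb
    apply (Finset.eq_of_subset_of_card_le hsub _).symm
    rw [hs]
    have : ({0, a, b} : Finset V).card = 3 := by
      rw [Finset.card_eq_three]
      exact ⟨0, a, b, ha0.symm, hb0.symm, hab, rfl⟩
    omega
  have hQab : Q (a + b) ≠ 0 := by
    intro h1
    have : a + b ∈ S := by simp [hS, h1]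
    rw [hSall] at this
    simp only [Finset.mem_insert, Finset.mem_singleton] at this
    rcases this with h2 | h2 | h2
    · exact hab0 h2
    · exact hab1 h2
    · exact hab2 h2
  have hQab1 : Q (a + b) = 1 := (h.f2 _).resolve_left hQab
  have hpol : polar Q a b = 1 := by
    unfold polar
    rw [hQab1, hQa, hQb]
    ring
  have huniv : ∀ x : V, x = 0 ∨ x = a ∨ x = b ∨ x = a + b := by
    have hsub : ({0, a, b, a + b} : Finset V) = Finset.univ := by
      apply Finset.eq_univ_of_card
      rw [hcard, Finset.card_eq_succ]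
      refine ⟨0, {a, b, a + b}, ?_, rfl, ?_⟩
      · simp only [Finset.mem_insert, Finset.mem_singleton, not_or]
        exact ⟨ha0.symm, hb0.symm, hab0.symm⟩
      · rw [Finset.card_eq_three]
        exact ⟨a, b, a + b, hab, hab1.symm, hab2.symm, rfl⟩
    intro x
    have : x ∈ ({0, a, b, a + b} : Finset V) := by rw [hsub]; exact Finset.mem_univ x
    simpa using this
  have hsing : ∀ x, Q x = 0 → x = 0 ∨ x = a ∨ x = b := by
    intro x hx
    have : x ∈ S := by simp [hS, hx]
    rw [hSall] at this
    simpa using this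
  -- the group has exponent 2
  have hexp : ∀ g ∈ OO Q, g * g = 1 := by
    intro g hg
    have hga : g a = a ∨ g a = b := by
      have h1 : g a ≠ 0 := fun h2 => ha0 ((map_eq_zero_iff g g.injective).1 h2)
      rcases hsing (g a) ((hg a).trans hQa) with h2 | h2 | h2
      · exact absurd h2 h1
      · exact Or.inl h2
      · exact Or.inr h2
    have hgb : g b = a ∨ g b = b := by
      have h1 : g b ≠ 0 := fun h2 => hb0 ((map_eq_zero_iff g g.injective).1 h2)
      rcases hsing (g b) ((hg b).trans hQb) with h2 | h2 | h2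
      · exact absurd h2 h1
      · exact Or.inl h2
      · exact Or.inr h2
    have hne : g a ≠ g b := fun h2 => hab (g.injective h2)
    have h1 : g (g a) = a := by
      rcases hga with h2 | h2
      · rw [h2, h2]
      · rcases hgb with h3 | h3
        · rw [h2, h3]
        · exact absurd (h2.trans h3.symm) hne
    have h2 : g (g b) = b := by
      rcases hgb with h3 | h3
      · rcases hga with h2 | h2
        · exact absurd (h2.trans h3.symm) hne
        · rw [h3, h2]
      · rw [h3, h3]
    apply LinearEquiv.ext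
    intro x
    change g (g x) = x
    rcases huniv x with rfl | rfl | rfl | rfl
    · simp
    · exact h1
    · exact h2
    · rw [map_add, map_add, h1, h2]
  haveI : Fact (Nat.Prime 2) := ⟨Nat.prime_two⟩
  have hOP : IsPGroup 2 (OO Q) := by
    rintro ⟨g, hg⟩
    refine ⟨1, Subtype.ext ?_⟩
    simp only [pow_one, SubgroupClass.coe_pow, OneMemClass.coe_one]
    rw [pow_two]
    exact hexp g hg
  have hle := hP.2.2 (OO Q) le_rfl hOP hP.1
  have hle' := hP'.2.2 (OO Q) le_rfl hOP hP'.1
  -- the swap
  set n := a + b with hn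
  have hQn : Q n = 1 := hQab1
  let τ : V ≃ₗ[F] V := LinearEquiv.ofInvolutive
    { toFun := fun x => x + polar Q x n • n
      map_add' := fun x y => by
        rw [h.add, add_smul]
        abel
      map_smul' := fun c x => by
        simp only [polar_smul_left h, mul_smul, smul_add, RingHom.id_apply] }
    (by
      intro x
      change x + polar Q x n • n + polar Q (x + polar Q x n • n) n • n = x
      rw [h.add, polar_smul_left h, polar_self h, mul_zero, add_zero, add_assoc, v_add_self h,
        add_zero])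
  have hτ : τ ∈ OO Q := by
    intro x
    change Q (x + polar Q x n • n) = Q x
    rw [Q_add h, Q_smul h, hQn, polar_smul_right h, mul_one, mul_self' h, add_assoc, f_add_self h,
      add_zero]
  have hτa : τ a = b := by
    change a + polar Q a n • n = b
    have h1 : polar Q a n = 1 := by
      rw [hn, polar_add_right h, polar_self h, hpol, zero_add]
    rw [h1, one_smul, hn, ← add_assoc, v_add_self h, zero_add]
  refine ⟨τ, hle hτ, hle' hτ, ?_⟩
  intro he
  apply hab
  rw [← hτa, he]
  rfl

end

/-- The main induction. -/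
theorem main_ind [Fintype F] (m : ℕ) : ∀ (V : Type u) [AddCommGroup V] [Module F V] [Fintype V]
    (Q : V → F) (_ : IsForm Q), Fintype.card V = 4 ^ (m + 1) → GS Q = 2 ^ (m + 1) →
    ∀ P P' : Subgroup (V ≃ₗ[F] V), IsMaxTwo Q P → IsMaxTwo Q P' → ∃ g, g ∈ P ∧ g ∈ P' ∧ g ≠ 1 := by
  induction m with
  | zero =>
    intro V _ _ _ Q h hcard hgs P P' hP hP'
    exact base_case h (by simpa using hcard) (by simpa using hgs) hP hP'
  | succ m ih =>
    intro V _ _ _ Q h hcard hgs P P' hP hP'
    have hcnt := GS_count h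
    have hev : 2 ∣ Nat.card {x : V // Q x = 0} := by
      rw [hcard, hgs] at hcnt
      have e1 : ((4 ^ (m + 1 + 1) : ℕ) : ℤ) = 16 * 4 ^ m := by
        push_cast
        ring
      have e2 : (2 : ℤ) ^ (m + 1 + 1) = 4 * 2 ^ m := by ring
      rw [e1, e2] at hcnt
      have e3 : ((Nat.card {x : V // Q x = 0} : ℕ) : ℤ) = 2 * (4 * 4 ^ m + 2 ^ m) := by linarith
      have : ((2 : ℕ) : ℤ) ∣ ((Nat.card {x : V // Q x = 0} : ℕ) : ℤ) := ⟨_, e3⟩
      exact Int.natCast_dvd_natCast.1 this
    obtain ⟨v, hv0, hv, hfix⟩ := exists_fixed h hP.1 hP.2.1 hev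
    obtain ⟨v', hv'0, hv', hfix'⟩ := exists_fixed h hP'.1 hP'.2.1 hev
    rcases h.f2 (polar Q v' v) with hperp | hperp
    · by_cases hne : v' = v
      · subst hne
        have hc4 : 4 < Fintype.card V := by
          rw [hcard]
          have : 4 ^ (m + 1 + 1) = 16 * 4 ^ m := by ring
          have h1 : 0 < 4 ^ m := by positivity
          omega
        obtain ⟨u, hu, hu0, huv⟩ := exists_u h hc4 hv0
        exact ⟨sie h hv hu, RR_le h hP hfix (sie_mem_RR h hv hu), RR_le h hP' hfix' (sie_mem_RR h hv hu),
          sie_ne_one h hv hv0 hu hu0 huv⟩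
      · obtain ⟨g, h1, h2, h3⟩ := common_perp h hv hv' hv0 hv'0 hne hperp
        exact ⟨g, RR_le h hP hfix h1, RR_le h hP' hfix' h2, h3⟩
    · have hvv : polar Q v v' = 1 := by rw [polar_comm]; exact hperp
      letI : Fintype (MM h v v') := Fintype.ofFinite _
      have hM := card_decomp h hvv
      have hG := GS_decomp h hv hv' hvv
      have hM' : Fintype.card (MM h v v') = 4 ^ (m + 1) := by
        rw [hcard] at hM
        have : 4 ^ (m + 1 + 1) = 4 * 4 ^ (m + 1) := by ring
        omega
      have hG' : GS (QM Q (MM h v v')) = 2 ^ (m + 1) := by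
        rw [hgs] at hG
        have : (2 : ℤ) ^ (m + 1 + 1) = 2 * 2 ^ (m + 1) := by ring
        linarith
      obtain ⟨g₁, h1, h2, h3⟩ := ih (MM h v v') (QM Q (MM h v v')) (isForm_QM h hvv) hM' hG'
        (P.comap (jj h hvv)) (P'.comap (jj h hvv))
        (comap_isMaxTwo h hvv hv hv' hperp (fun g => ⟨jj_fix h hvv g, jj_fix' h hvv g⟩)
          (fun g hg h1 h2 => exists_jj h hvv hg h1 h2) hP hfix)
        (comap_isMaxTwo h hvv hv' hv hvv (fun g => ⟨jj_fix' h hvv g, jj_fix h hvv g⟩)
          (fun g hg h1 h2 => exists_jj h hvv hg h2 h1) hP' hfix')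
      refine ⟨jj h hvv g₁, h1, h2, ?_⟩
      intro he
      apply h3
      apply jj_inj h hvv
      rw [he, map_one]

end Cfsg.Agent.Perm.OPlusTwo
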