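import Cfsg.Agent.Lib.Perm.OPlusTwoC
import Cfsg.Prelude.Def_Classical

/-!
The hyperbolic form on `𝔽₂^{2m}`: any two Sylow 2-subgroups of `O⁺(2m,2)` meet nontrivially.
-/

namespace Cfsg.Agent.Perm.OPlusTwo

open Matrix Sum
open scoped Pointwise

section
variable {F : Type*} [Field F] [Fintype F]

lemma f2_of_card (hF : Fintype.card F = 2) (a : F) : a = 0 ∨ a = 1 := by
  classical
  by_contra hc
  push Not at hc
  have h1 : ({0, 1, a} : Finset F).card = 3 :=
    Finset.card_eq_three.2 ⟨0, 1, a, zero_ne_one, hc.1.symm, hc.2.symm, rfl⟩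
  have h2 := Finset.card_le_univ ({0, 1, a} : Finset F)
  omega

lemma two_of_card (hF : Fintype.card F = 2) : (2 : F) = 0 := by
  rcases f2_of_card hF 2 with h | h
  · exact h
  · exfalso
    have : (1 : F) = 0 := by linear_combination h
    exact one_ne_zero this

lemma polar_formula {m : ℕ} (h2 : (2 : F) = 0) (x y : Fin m ⊕ Fin m → F) :
    polar (Cfsg.quadFormPlus m F) x y = ∑ i, (x (inl i) * y (inr i) + y (inl i) * x (inr i)) := by
  unfold polar Cfsg.quadFormPlus
  rw [← Finset.sum_add_distrib, ← Finset.sum_add_distrib]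
  apply Finset.sum_congr rfl
  intro i _
  simp only [Pi.add_apply]
  linear_combination (x (inl i) * x (inr i) + y (inl i) * y (inr i)) * h2

lemma isForm_plus {m : ℕ} (hF : Fintype.card F = 2) : IsForm (Cfsg.quadFormPlus m F) where
  f2 := f2_of_card hF
  add x y z := by
    have h2 := two_of_card hF
    rw [polar_formula h2, polar_formula h2, polar_formula h2, ← Finset.sum_add_distrib]
    apply Finset.sum_congr rfl
    intro i _
    simp only [Pi.add_apply]
    ring
  nondeg x hx := by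
    classical
    have h2 := two_of_card hF
    funext k
    rcases k with i | i
    · have := hx (Pi.single (inr i) 1)
      rw [polar_formula h2, Finset.sum_eq_single i] at this
      · simpa using this
      · intro j _ hj
        simp [Pi.single_apply, hj]
      · simp
    · have := hx (Pi.single (inl i) 1)
      rw [polar_formula h2, Finset.sum_eq_single i] at this
      · simpa using this
      · intro j _ hj
        simp [Pi.single_apply, hj]
      · simp

lemma card_plus (m : ℕ) (hF : Fintype.card F = 2) :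
    Fintype.card (Fin m ⊕ Fin m → F) = 4 ^ m := by
  rw [Fintype.card_fun, hF, Fintype.card_sum, Fintype.card_fin, ← two_mul, pow_mul]
  norm_num

lemma chi_sum {V : Type*} [AddCommGroup V] [Module F V] {Q : V → F} (h : IsForm Q) {ι : Type*}
    (s : Finset ι) (f : ι → F) : chi (∑ i ∈ s, f i) = ∏ i ∈ s, chi (f i) := by
  classical
  induction s using Finset.induction_on with
  | empty => simp
  | insert a s ha ih => rw [Finset.sum_insert ha, Finset.prod_insert ha, chi_add h, ih]

lemma GS_plus (m : ℕ) (hF : Fintype.card F = 2) : GS (Cfsg.quadFormPlus m F) = 2 ^ m := by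
  classical
  have h := isForm_plus (m := m) hF
  let e : (Fin m → F × F) ≃ (Fin m ⊕ Fin m → F) :=
    { toFun := fun w => Sum.elim (fun i => (w i).1) (fun i => (w i).2)
      invFun := fun x i => (x (inl i), x (inr i))
      left_inv := fun w => by
        funext i
        simp
      right_inv := fun x => by
        funext k
        rcases k with i | i <;> simp }
  unfold GS
  rw [← Equiv.sum_comp e]
  have h1 : ∀ w : Fin m → F × F, chi (Cfsg.quadFormPlus m F (e w)) =
      ∏ i, chi ((w i).1 * (w i).2) := by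
    intro w
    unfold Cfsg.quadFormPlus
    rw [chi_sum h]
    rfl
  simp_rw [h1]
  have h2 := (Finset.prod_univ_sum (fun _ : Fin m => (Finset.univ : Finset (F × F)))
    (fun _ p => chi (p.1 * p.2))).symm
  rw [Fintype.piFinset_univ] at h2
  rw [h2]
  have h3 : ∑ p : F × F, chi (p.1 * p.2) = 2 := by
    rw [Fintype.sum_prod_type, sum_F h]
    simp_rw [sum_F h]
    simp
  rw [h3]
  simp

end

section final

variable {F : Type*} [Field F] [Fintype F] {m : ℕ}

/-- The action of the matrix group. -/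
noncomputable def psi (F : Type*) [Field F] (m : ℕ) :
    GL (Fin m ⊕ Fin m) F ≃* ((Fin m ⊕ Fin m → F) ≃ₗ[F] (Fin m ⊕ Fin m → F)) :=
  (Matrix.GeneralLinearGroup.toLin).trans
    (LinearMap.GeneralLinearGroup.generalLinearEquiv F (Fin m ⊕ Fin m → F))

lemma psi_apply (g : GL (Fin m ⊕ Fin m) F) (x : Fin m ⊕ Fin m → F) :
    psi F m g x = (g : Matrix (Fin m ⊕ Fin m) (Fin m ⊕ Fin m) F) *ᵥ x := rfl

/-- The group embedded. -/
noncomputable def iot (F : Type*) [Field F] (m : ℕ) :
    Cfsg.isometryGroup F (Cfsg.quadFormPlus m F) →*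
      ((Fin m ⊕ Fin m → F) ≃ₗ[F] (Fin m ⊕ Fin m → F)) :=
  (psi F m).toMonoidHom.comp (Cfsg.isometryGroup F (Cfsg.quadFormPlus m F)).subtype

lemma iot_inj : Function.Injective (iot F m) := by
  intro a b hab
  apply Subtype.ext
  exact (psi F m).injective hab

lemma iot_mem (g : Cfsg.isometryGroup F (Cfsg.quadFormPlus m F)) :
    iot F m g ∈ OO (Cfsg.quadFormPlus m F) := by
  intro x
  rw [show iot F m g = psi F m g.1 from rfl, psi_apply]
  exact g.2 x 0

lemma exists_iot {t : (Fin m ⊕ Fin m → F) ≃ₗ[F] (Fin m ⊕ Fin m → F)}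
    (ht : t ∈ OO (Cfsg.quadFormPlus m F)) :
    ∃ g : Cfsg.isometryGroup F (Cfsg.quadFormPlus m F), iot F m g = t := by
  obtain ⟨g, rfl⟩ := (psi F m).surjective t
  refine ⟨⟨g, ?_⟩, rfl⟩
  intro u _
  have := ht u
  rwa [psi_apply] at this

lemma isMaxTwo_sylow (S : Sylow 2 (Cfsg.isometryGroup F (Cfsg.quadFormPlus m F))) :
    IsMaxTwo (Cfsg.quadFormPlus m F)
      ((S : Subgroup (Cfsg.isometryGroup F (Cfsg.quadFormPlus m F))).map (iot F m)) := by
  haveI : Fact (Nat.Prime 2) := ⟨Nat.prime_two⟩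
  refine ⟨?_, S.isPGroup'.map _, ?_⟩
  · rintro _ ⟨g, -, rfl⟩
    exact iot_mem g
  · intro T hT hT2 hle
    have h1 := S.is_maximal' (hT2.comap_of_injective (iot F m) iot_inj)
      (fun g hg => hle ⟨g, hg, rfl⟩)
    intro t ht
    obtain ⟨g, rfl⟩ := exists_iot (hT ht)
    refine ⟨g, ?_, rfl⟩
    rw [← h1]
    exact ht

/-- The main theorem. -/
theorem main (hF : Fintype.card F = 2) (hm : 1 ≤ m)
    (H : Sylow 2 (Cfsg.isometryGroup F (Cfsg.quadFormPlus m F)))
    (x : Cfsg.isometryGroup F (Cfsg.quadFormPlus m F)) :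
    (H : Subgroup (Cfsg.isometryGroup F (Cfsg.quadFormPlus m F))) ⊓
      MulAut.conj x • (H : Subgroup (Cfsg.isometryGroup F (Cfsg.quadFormPlus m F))) ≠ ⊥ := by
  obtain ⟨k, rfl⟩ : ∃ k, m = k + 1 := ⟨m - 1, by omega⟩
  obtain ⟨g, h1, h2, h3⟩ := main_ind k (Fin (k + 1) ⊕ Fin (k + 1) → F)
    (Cfsg.quadFormPlus (k + 1) F) (isForm_plus hF) (card_plus (k + 1) hF) (GS_plus (k + 1) hF)
    _ _ (isMaxTwo_sylow H) (isMaxTwo_sylow (x • H))
  obtain ⟨g₀, hg₀, rfl⟩ := h1
  obtain ⟨g₁, hg₁, hg⟩ := h2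
  have he := iot_inj hg
  subst he
  intro hbot
  apply h3
  have hmem : g₁ ∈ (H : Subgroup (Cfsg.isometryGroup F (Cfsg.quadFormPlus (k + 1) F))) ⊓
      MulAut.conj x • (H : Subgroup (Cfsg.isometryGroup F (Cfsg.quadFormPlus (k + 1) F))) := by
    refine Subgroup.mem_inf.2 ⟨hg₀, ?_⟩
    rw [Sylow.coe_subgroup_smul] at hg₁
    exact hg₁
  rw [hbot] at hmem
  rw [(Subgroup.mem_bot).1 hmem, map_one]

end final

end Cfsg.Agent.Perm.OPlusTwo
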