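import Mathlib
import Cfsg.Agent.Lib.Classical.SL2Four
import Cfsg.Agent.Lib.Classical.SL2Local
import Cfsg.Agent.Lib.Classical.SmallIso

/-!
Conjugacy class sizes of `PSL₂(F)`: conics and the index formula.
-/

namespace Cfsg.Agent.Perm.PSL2Classes

open Matrix Cfsg.Agent.Lib.Classical
open scoped MatrixGroups

variable {F : Type*} [Field F]

/-- The conic attached to a trace. -/
abbrev Con (F : Type*) [Field F] (t : F) := {p : F × F // p.1 ^ 2 + p.1 * p.2 * t + p.2 ^ 2 = 1}

/-- The centralizer of a nonscalar element as a conic. -/
theorem card_centralizer_gen {x : SL(2, F)}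
    (hsc : ¬ ∃ c : F, (x : Matrix (Fin 2) (Fin 2) F) = c • 1) :
    Nat.card (Subgroup.centralizer ({x} : Set SL(2, F))) = Nat.card (Con F (slTr x)) := by
  classical
  have hcomm : ∀ (s t : F), (s • (1 : Matrix (Fin 2) (Fin 2) F) + t • (x : Matrix (Fin 2) (Fin 2) F)) * x = x * (s • 1 + t • (x : Matrix (Fin 2) (Fin 2) F)) := by
    intro s t
    rw [add_mul, mul_add, smul_mul_assoc, smul_mul_assoc, mul_smul_comm, mul_smul_comm, one_mul, mul_one]
  let f : Con F (slTr x) → Subgroup.centralizer ({x} : Set SL(2, F)) := fun p =>
    ⟨(⟨p.1.1 • 1 + p.1.2 • (x : Matrix (Fin 2) (Fin 2) F), by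
      rw [det_a_b]
      exact p.2⟩ : SL(2, F)), sl_mem_centralizer (hcomm _ _)⟩
  have hf : Function.Bijective f := by
    constructor
    · rintro ⟨⟨s, t⟩, hp⟩ ⟨⟨s', t'⟩, hp'⟩ he
      have he2 : s • (1 : Matrix (Fin 2) (Fin 2) F) + t • (x : Matrix (Fin 2) (Fin 2) F) = s' • 1 + t' • (x : Matrix (Fin 2) (Fin 2) F) :=
        congrArg (fun y : Subgroup.centralizer ({x} : Set SL(2, F)) => ((y : SL(2, F)) : Matrix (Fin 2) (Fin 2) F)) he
      have htt : t = t' := by
        by_contra hne
        apply hsc
        refine ⟨(s' - s) / (t - t'), ?_⟩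
        have hd : t - t' ≠ 0 := sub_ne_zero.2 hne
        have : (t - t') • (x : Matrix (Fin 2) (Fin 2) F) = (s' - s) • 1 := by
          rw [sub_smul, sub_smul]
          have e := sub_eq_zero.2 he2
          linear_combination (norm := skip) e
          abel
        rw [div_eq_inv_mul, mul_smul, ← this, smul_smul, inv_mul_cancel₀ hd, one_smul]
      subst htt
      have hss : s = s' := by
        have h00 := congrFun (congrFun he2 0) 0
        have h11 := congrFun (congrFun he2 1) 1
        simp only [lin_apply00, lin_apply11] at h00 h11
        linear_combination h00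
      subst hss
      rfl
    · rintro ⟨y, hy⟩
      have hy2 : y * x = x * y := (Subgroup.mem_centralizer_iff.1 hy x rfl).symm
      obtain ⟨s, t, hst⟩ := exists_linear_of_comm _ _ hsc (congrArg Subtype.val hy2)
      have hdet : s ^ 2 + s * t * slTr x + t ^ 2 = 1 := by
        have := y.2
        rw [hst, det_a_b] at this
        exact this
      refine ⟨⟨(s, t), hdet⟩, ?_⟩
      apply Subtype.ext
      apply Subtype.ext
      exact hst.symm
  exact (Nat.card_congr (Equiv.ofBijective f hf)).symm

section conics

variable [Fintype F]

/-- The split conic. -/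
theorem con_split {r : F} (hr0 : r ≠ 0) (hr : r ^ 2 ≠ 1) :
    Nat.card (Con F (r + r⁻¹)) = Fintype.card F - 1 := by
  classical
  have hrr : r * r⁻¹ = 1 := mul_inv_cancel₀ hr0
  have hd : r - r⁻¹ ≠ 0 := by
    intro h
    apply hr
    have h1 : r = r⁻¹ := sub_eq_zero.1 h
    calc r ^ 2 = r * r := pow_two r
      _ = r * r⁻¹ := by rw [← h1]
      _ = 1 := hrr
  let f : Con F (r + r⁻¹) → Fˣ := fun p =>
    ⟨p.1.1 + r * p.1.2, p.1.1 + r⁻¹ * p.1.2,
      by
        have := p.2
        linear_combination this + p.1.2 ^ 2 * hrr,
      by
        have := p.2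
        linear_combination this + p.1.2 ^ 2 * hrr⟩
  have hf : Function.Bijective f := by
    constructor
    · rintro ⟨⟨a, b⟩, hp⟩ ⟨⟨a', b'⟩, hp'⟩ he
      have h1 : a + r * b = a' + r * b' := congrArg Units.val he
      have h2 : a + r⁻¹ * b = a' + r⁻¹ * b' := congrArg Units.inv he
      have hb : b = b' := by
        have : (r - r⁻¹) * (b - b') = 0 := by linear_combination h1 - h2
        rcases mul_eq_zero.1 this with h3 | h3
        · exact absurd h3 hd
        · exact sub_eq_zero.1 h3
      subst hb
      have ha : a = a' := by linear_combination h1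
      subst ha
      rfl
    · intro u
      set b := ((u : F) - ((u⁻¹ : Fˣ) : F)) / (r - r⁻¹) with hb
      set a := (u : F) - r * b with ha
      have hdb : (r - r⁻¹) * b = (u : F) - ((u⁻¹ : Fˣ) : F) := by
        rw [hb]
        field_simp
      have h1 : a + r * b = u := by rw [ha]; ring
      have h2 : a + r⁻¹ * b = ((u⁻¹ : Fˣ) : F) := by
        rw [ha]
        linear_combination -hdb
      have huu : (u : F) * ((u⁻¹ : Fˣ) : F) = 1 := Units.mul_inv u
      have hc : a ^ 2 + a * b * (r + r⁻¹) + b ^ 2 = 1 := by
        have : (a + r * b) * (a + r⁻¹ * b) = 1 := by rw [h1, h2, huu]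
        linear_combination this - b ^ 2 * hrr
      refine ⟨⟨(a, b), hc⟩, ?_⟩
      apply Units.ext
      exact h1
  rw [Nat.card_congr (Equiv.ofBijective f hf), Nat.card_eq_fintype_card, Fintype.card_units]

/-- The nonsplit conic. -/
theorem con_nonsplit {t : F} (ht : ∀ s : F, s ^ 2 + t * s + 1 ≠ 0) :
    Nat.card (Con F t) = Fintype.card F + 1 := by
  classical
  have hchar : (2 : F) = 0 → t ≠ 0 := by
    intro h2 h0
    apply ht 1
    rw [h0]
    linear_combination h2
  have e1 : ∀ s : F, ((1 - s ^ 2) / (s ^ 2 + t * s + 1)) ^ 2 +
      ((1 - s ^ 2) / (s ^ 2 + t * s + 1)) * (-(2 * s + t) / (s ^ 2 + t * s + 1)) * t +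
      (-(2 * s + t) / (s ^ 2 + t * s + 1)) ^ 2 = 1 := by
    intro s
    have hD := ht s
    generalize hDe : s ^ 2 + t * s + 1 = D at hD ⊢
    field_simp
    rw [← hDe]
    ring
  let f : Option F → Con F t := fun o =>
    match o with
    | none => ⟨(-1, 0), by simp⟩
    | some s => ⟨((1 - s ^ 2) / (s ^ 2 + t * s + 1), -(2 * s + t) / (s ^ 2 + t * s + 1)), e1 s⟩
  have hfa : ∀ s : F, (f (some s)).1.1 = 1 + s * (f (some s)).1.2 := by
    intro s
    change (1 - s ^ 2) / (s ^ 2 + t * s + 1) = 1 + s * (-(2 * s + t) / (s ^ 2 + t * s + 1))
    have hD := ht s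
    generalize hDe : s ^ 2 + t * s + 1 = D at hD ⊢
    field_simp
    rw [← hDe]
    ring
  have hfb : ∀ s : F, (f (some s)).1.2 = 0 → 2 * s + t = 0 := by
    intro s h
    have h1 : -(2 * s + t) / (s ^ 2 + t * s + 1) = 0 := h
    have := ht s
    rw [div_eq_zero_iff] at h1
    rcases h1 with h1 | h1
    · linear_combination -h1
    · exact absurd h1 this
  have hf : Function.Bijective f := by
    constructor
    · intro a b hab
      rcases a with _ | a <;> rcases b with _ | b
      · rfl
      · exfalso
        have h1 : (f none).1.1 = (f (some b)).1.1 := congrArg (fun p : Con F t => p.1.1) hab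
        have h3 : (f none).1.2 = (f (some b)).1.2 := congrArg (fun p : Con F t => p.1.2) hab
        have h4 : (f (some b)).1.2 = 0 := h3.symm
        have h5 := hfb b h4
        rw [hfa b, h4] at h1
        have h6 : (-1 : F) = 1 + b * 0 := h1
        have h7 : (2 : F) = 0 := by linear_combination -h6
        have h8 : t = 0 := by linear_combination h5 - b * h7
        exact hchar h7 h8
      · exfalso
        have h1 : (f (some a)).1.1 = (f none).1.1 := congrArg (fun p : Con F t => p.1.1) hab
        have h3 : (f (some a)).1.2 = (f none).1.2 := congrArg (fun p : Con F t => p.1.2) hab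
        have h4 : (f (some a)).1.2 = 0 := h3
        have h5 := hfb a h4
        rw [hfa a, h4] at h1
        have h6 : 1 + a * 0 = (-1 : F) := h1
        have h7 : (2 : F) = 0 := by linear_combination h6
        have h8 : t = 0 := by linear_combination h5 - a * h7
        exact hchar h7 h8
      · have h1 : (f (some a)).1.1 = (f (some b)).1.1 := congrArg (fun p : Con F t => p.1.1) hab
        have h3 : (f (some a)).1.2 = (f (some b)).1.2 := congrArg (fun p : Con F t => p.1.2) hab
        by_cases h0 : (f (some a)).1.2 = 0
        · have h4 := hfb a h0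
          have h5 := hfb b (h3 ▸ h0)
          by_cases h2 : (2 : F) = 0
          · exfalso
            apply hchar h2
            linear_combination h4 - a * h2
          · have : a = b := by
              apply mul_left_cancel₀ h2
              linear_combination h4 - h5
            rw [this]
        · rw [hfa a, hfa b, ← h3] at h1
          have : (a - b) * (f (some a)).1.2 = 0 := by linear_combination h1
          rcases mul_eq_zero.1 this with h4 | h4
          · rw [sub_eq_zero.1 h4]
          · exact absurd h4 h0
    · rintro ⟨⟨a, b⟩, hp⟩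
      simp only at hp
      by_cases hb : b = 0
      · subst hb
        have ha : (a - 1) * (a + 1) = 0 := by linear_combination hp
        by_cases ham : a = -1
        · refine ⟨none, ?_⟩
          apply Subtype.ext
          simp only [f]
          rw [ham]
        · have h2 : (2 : F) ≠ 0 := by
            intro h2
            apply ham
            rcases mul_eq_zero.1 ha with h3 | h3
            · linear_combination h3 + h2
            · linear_combination h3
          have ha1 : a = 1 := by
            rcases mul_eq_zero.1 ha with h3 | h3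
            · linear_combination h3
            · exact absurd (by linear_combination h3) ham
          subst ha1
          refine ⟨some (-t / 2), ?_⟩
          apply Subtype.ext
          have hD := ht (-t / 2)
          have hb0 : 2 * (-t / 2) + t = 0 := by
            field_simp
            ring
          have hfst : 1 - (-t / 2) ^ 2 = (-t / 2) ^ 2 + t * (-t / 2) + 1 := by
            field_simp
            ring
          simp only [f]
          rw [hb0]
          rw [← hfst] at hD ⊢
          simp [div_self hD]
      · obtain ⟨s, hs⟩ : ∃ s, s = (a - 1) / b := ⟨_, rfl⟩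
        have hsb : a = 1 + s * b := by
          rw [hs]
          field_simp
          ring
        have hD := ht s
        have hkey : b * ((2 * s + t) + b * (s ^ 2 + t * s + 1)) = 0 := by
          rw [hsb] at hp
          linear_combination hp
        have hk2 : (2 * s + t) + b * (s ^ 2 + t * s + 1) = 0 := by
          rcases mul_eq_zero.1 hkey with h | h
          · exact absurd h hb
          · exact h
        refine ⟨some s, ?_⟩
        apply Subtype.ext
        simp only [f]
        have hb2 : -(2 * s + t) / (s ^ 2 + t * s + 1) = b := by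
          rw [div_eq_iff hD]
          linear_combination -hk2
        have ha2 : (1 - s ^ 2) / (s ^ 2 + t * s + 1) = a := by
          rw [div_eq_iff hD, hsb]
          linear_combination -s * hk2
        rw [hb2, ha2]
  rw [← Nat.card_congr (Equiv.ofBijective f hf), Nat.card_eq_fintype_card, Fintype.card_option]

/-- The degenerate conic. -/
theorem con_double {c : F} (hc : c ^ 2 = 1) :
    Nat.card (Con F (2 * c)) = Fintype.card F * Nat.card {u : F // u ^ 2 = 1} := by
  classical
  have e : Con F (2 * c) ≃ {u : F // u ^ 2 = 1} × F :=
    { toFun := fun p => (⟨p.1.1 + c * p.1.2, by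
        have := p.2
        linear_combination this + p.1.2 ^ 2 * hc⟩, p.1.2)
      invFun := fun q => ⟨(q.1.1 - c * q.2, q.2), by
        have := q.1.2
        simp only
        linear_combination this - q.2 ^ 2 * hc⟩
      left_inv := fun p => by
        apply Subtype.ext
        ext <;> simp
      right_inv := fun q => by
        ext <;> simp }
  rw [Nat.card_congr e, Nat.card_prod, Nat.card_eq_fintype_card (α := F), mul_comm]

lemma card_sq_one_of_two (h2 : (2 : F) = 0) : Nat.card {u : F // u ^ 2 = 1} = 1 := by
  classical
  haveI : Unique {u : F // u ^ 2 = 1} :=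
    { default := ⟨1, one_pow 2⟩
      uniq := fun u => by
        apply Subtype.ext
        have h := u.2
        have h3 : (u.1 - 1) ^ 2 = 0 := by linear_combination h - u.1 * h2 + h2
        have := pow_eq_zero_iff (n := 2) (by norm_num) |>.1 h3
        exact sub_eq_zero.1 this }
  exact Nat.card_unique

lemma card_sq_one_of_odd (h2 : (2 : F) ≠ 0) : Nat.card {u : F // u ^ 2 = 1} = 2 := by
  classical
  have hne : (1 : F) ≠ -1 := by
    intro h
    apply h2
    linear_combination h
  have : ({u : F | u ^ 2 = 1} : Set F) = {1, -1} := by
    ext u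
    simp only [Set.mem_setOf_eq, Set.mem_insert_iff, Set.mem_singleton_iff]
    constructor
    · intro h
      have h3 : (u - 1) * (u + 1) = 0 := by linear_combination h
      rcases mul_eq_zero.1 h3 with h4 | h4
      · left; linear_combination h4
      · right; linear_combination h4
    · rintro (rfl | rfl) <;> norm_num
  have h3 : Nat.card {u : F // u ^ 2 = 1} = Nat.card ({u : F | u ^ 2 = 1} : Set F) := rfl
  rw [h3, this, Nat.card_coe_set_eq, Set.ncard_pair hne]

end conics

end Cfsg.Agent.Perm.PSL2Classes
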