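import Cfsg.Agent.Lib.Perm.PSL2ClassesA

/-!
Conjugacy class sizes of `PSL₂(F)`: the index formulas.
-/

namespace Cfsg.Agent.Perm.PSL2Classes

open Matrix Cfsg.Agent.Lib.Classical
open scoped MatrixGroups

variable {F : Type*} [Field F]

/-- The quotient map. -/
abbrev ppi : SL(2, F) →* Matrix.ProjectiveSpecialLinearGroup (Fin 2) F :=
  QuotientGroup.mk' (Subgroup.center SL(2, F))

/-- The preimage of a centralizer. -/
abbrev Chat (x : SL(2, F)) : Subgroup SL(2, F) :=
  (Subgroup.centralizer ({ppi x} : Set (Matrix.ProjectiveSpecialLinearGroup (Fin 2) F))).comap ppi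

lemma index_Chat (x : SL(2, F)) :
    (Subgroup.centralizer ({ppi x} : Set (Matrix.ProjectiveSpecialLinearGroup (Fin 2) F))).index =
      (Chat x).index :=
  (Subgroup.index_comap_of_surjective _ (QuotientGroup.mk'_surjective _)).symm

lemma mem_Chat (x y : SL(2, F)) : y ∈ Chat x ↔ y * x = x * y ∨
    (y : Matrix (Fin 2) (Fin 2) F) * x = -((x : Matrix (Fin 2) (Fin 2) F) * y) := by
  rw [Subgroup.mem_comap, Subgroup.mem_centralizer_singleton_iff, ← map_mul, ← map_mul]
  constructor
  · intro h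
    have h1 := QuotientGroup.eq.1 h
    rcases (sl2_center_iff _).1 h1 with h2 | h2
    · left
      exact (inv_mul_eq_one.1 h2)
    · right
      have h4 : ((y * x : SL(2, F)) : Matrix (Fin 2) (Fin 2) F) *
          (((y * x)⁻¹ * (x * y) : SL(2, F)) : Matrix (Fin 2) (Fin 2) F) = ((x * y : SL(2, F)) : Matrix (Fin 2) (Fin 2) F) := by
        rw [← Matrix.SpecialLinearGroup.coe_mul, mul_inv_cancel_left]
      rw [h2] at h4
      simp only [Matrix.SpecialLinearGroup.coe_mul] at h4
      rw [← h4]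
      simp
  · rintro (h | h)
    · rw [h]
    · apply QuotientGroup.eq.2
      apply (sl2_center_iff _).2
      right
      have h5 : ((x * y : SL(2, F)) : Matrix (Fin 2) (Fin 2) F) = -((y * x : SL(2, F)) : Matrix (Fin 2) (Fin 2) F) := by
        simp only [Matrix.SpecialLinearGroup.coe_mul]
        rw [h]
        simp
      rw [Matrix.SpecialLinearGroup.coe_mul ((y * x)⁻¹) (x * y), h5, Matrix.mul_neg,
        ← Matrix.SpecialLinearGroup.coe_mul, inv_mul_cancel]
      simp

lemma z_ne_neg (h2 : (2 : F) ≠ 0) (z : SL(2, F)) :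
    (z : Matrix (Fin 2) (Fin 2) F) ≠ -(z : Matrix (Fin 2) (Fin 2) F) := by
  intro h
  apply slMat_ne_zero z
  have h3 : (2 : F) • (z : Matrix (Fin 2) (Fin 2) F) = 0 := by
    rw [two_smul]
    nth_rewrite 1 [h]
    simp
  have h4 := (smul_eq_zero.1 h3).resolve_left h2
  exact h4

lemma trace_of_anti {x y : SL(2, F)}
    (h : (y : Matrix (Fin 2) (Fin 2) F) * x = -((x : Matrix (Fin 2) (Fin 2) F) * y)) :
    slTr x = - slTr x := by
  have h1 : (y : Matrix (Fin 2) (Fin 2) F) * x * ((y⁻¹ : SL(2, F)) : Matrix (Fin 2) (Fin 2) F) =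
      -(x : Matrix (Fin 2) (Fin 2) F) := by
    rw [h, Matrix.neg_mul, Matrix.mul_assoc, ← Matrix.SpecialLinearGroup.coe_mul, mul_inv_cancel]
    simp
  have h2 := congrArg Matrix.trace h1
  rw [Matrix.trace_mul_cycle, ← Matrix.SpecialLinearGroup.coe_mul, inv_mul_cancel] at h2
  simp only [Matrix.SpecialLinearGroup.coe_one, Matrix.one_mul, Matrix.trace_neg] at h2
  exact h2

lemma neg_eq_of_two (h2 : (2 : F) = 0) (M : Matrix (Fin 2) (Fin 2) F) : -M = M := by
  ext i j
  simp only [Matrix.neg_apply]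
  linear_combination -(M i j) * h2

lemma Chat_eq {x : SL(2, F)} (h : (2 : F) = 0 ∨ slTr x ≠ 0) :
    Chat x = Subgroup.centralizer ({x} : Set SL(2, F)) := by
  ext y
  rw [mem_Chat, Subgroup.mem_centralizer_singleton_iff]
  constructor
  · rintro (h1 | h1)
    · exact h1
    · apply Subtype.ext
      simp only [Matrix.SpecialLinearGroup.coe_mul]
      by_cases h4 : (2 : F) = 0
      · rw [h1]
        exact neg_eq_of_two h4 _
      · exfalso
        have h3 := trace_of_anti h1
        apply h.resolve_left h4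
        have h5 : (2 : F) * slTr x = 0 := by linear_combination h3
        exact (mul_eq_zero.1 h5).resolve_left h4
  · exact Or.inl

variable [Fintype F]

lemma card_Chat_odd (hodd : Odd (Fintype.card F)) {x : SL(2, F)} (ht : slTr x = 0) :
    Nat.card (Chat x) = 2 * Nat.card (Subgroup.centralizer ({x} : Set SL(2, F))) := by
  classical
  have h2 := two_ne_zero_of_odd hodd
  obtain ⟨y₀, hy₀⟩ := trZero_conj hodd ht (slN_tr ht)
  have hanti : (y₀ : Matrix (Fin 2) (Fin 2) F) * x = -((x : Matrix (Fin 2) (Fin 2) F) * y₀) := by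
    have h3 : ((slN x * y₀ : SL(2, F)) : Matrix (Fin 2) (Fin 2) F) =
        ((y₀ * x : SL(2, F)) : Matrix (Fin 2) (Fin 2) F) := by
      rw [hy₀, inv_mul_cancel_right]
    rw [Matrix.SpecialLinearGroup.coe_mul, slN_coe, Matrix.SpecialLinearGroup.coe_mul] at h3
    rw [← h3, Matrix.neg_mul]
  have hy₀mem : y₀ ∈ Chat x := (mem_Chat x y₀).2 (Or.inr hanti)
  have hle : Subgroup.centralizer ({x} : Set SL(2, F)) ≤ Chat x :=
    fun y hy => (mem_Chat x y).2 (Or.inl (Subgroup.mem_centralizer_singleton_iff.1 hy))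
  have hkey : ∀ b : SL(2, F), (b : Matrix (Fin 2) (Fin 2) F) * y₀ * x =
      -((b : Matrix (Fin 2) (Fin 2) F) * x * y₀) := by
    intro b
    rw [Matrix.mul_assoc, hanti, Matrix.mul_neg, Matrix.mul_assoc]
  have hidx : ((Subgroup.centralizer ({x} : Set SL(2, F))).subgroupOf (Chat x)).index = 2 := by
    rw [Subgroup.index_eq_two_iff]
    refine ⟨⟨y₀, hy₀mem⟩, ?_⟩
    rintro ⟨b, hb⟩
    simp only [Subgroup.mem_subgroupOf, Subgroup.coe_mul,
      Subgroup.mem_centralizer_singleton_iff]
    rcases (mem_Chat x b).1 hb with h1 | h1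
    · right
      refine ⟨h1, ?_⟩
      intro h3
      have h4 : ((b * y₀ * x : SL(2, F)) : Matrix (Fin 2) (Fin 2) F) =
          ((x * (b * y₀) : SL(2, F)) : Matrix (Fin 2) (Fin 2) F) := by rw [h3]
      simp only [Matrix.SpecialLinearGroup.coe_mul] at h4
      rw [hkey] at h4
      have h5 : (b : Matrix (Fin 2) (Fin 2) F) * x = x * b := by
        have := congrArg Subtype.val h1
        simpa using this
      rw [h5, Matrix.mul_assoc] at h4
      exact z_ne_neg h2 (x * (b * y₀)) (by
        simp only [Matrix.SpecialLinearGroup.coe_mul]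
        exact h4.symm)
    · left
      constructor
      · apply Subtype.ext
        simp only [Matrix.SpecialLinearGroup.coe_mul]
        rw [hkey, h1, Matrix.neg_mul, neg_neg, Matrix.mul_assoc]
      · intro h3
        have h5 : (b : Matrix (Fin 2) (Fin 2) F) * x = x * b := by
          have := congrArg Subtype.val h3
          simpa using this
        rw [h5] at h1
        exact z_ne_neg h2 (x * b) (by
          simp only [Matrix.SpecialLinearGroup.coe_mul]
          exact h1)
  have h3 := ((Subgroup.centralizer ({x} : Set SL(2, F))).subgroupOf (Chat x)).card_mul_index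
  rw [hidx, Nat.card_congr (Subgroup.subgroupOfEquivOfLe hle).toEquiv] at h3
  rw [← h3, mul_comm]

theorem card_sl2 : Nat.card SL(2, F) = Fintype.card F * (Fintype.card F ^ 2 - 1) := by
  have h := card_SL_two (F := F)
  rw [Nat.card_eq_fintype_card (α := F)] at h
  set q := Fintype.card F with hq
  have hq2 : 1 < q := Fintype.one_lt_card
  have h3 : q ^ 2 - q = q * (q - 1) := by
    rw [Nat.mul_sub, mul_one, pow_two]
  rw [h3] at h
  have hq1 : 0 < q - 1 := by omega
  apply Nat.eq_of_mul_eq_mul_left hq1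
  rw [h]
  ring

theorem idxA {x : SL(2, F)} (hsc : ¬ ∃ c : F, (x : Matrix (Fin 2) (Fin 2) F) = c • 1)
    (h : (2 : F) = 0 ∨ slTr x ≠ 0) :
    (Subgroup.centralizer ({ppi x} : Set (Matrix.ProjectiveSpecialLinearGroup (Fin 2) F))).index *
      Nat.card (Con F (slTr x)) = Fintype.card F * (Fintype.card F ^ 2 - 1) := by
  rw [index_Chat, Chat_eq h, ← card_centralizer_gen hsc, Subgroup.index_mul_card, card_sl2]

theorem idxB (hodd : Odd (Fintype.card F)) {x : SL(2, F)} (ht : slTr x = 0) :
    (Subgroup.centralizer ({ppi x} : Set (Matrix.ProjectiveSpecialLinearGroup (Fin 2) F))).index *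
      (2 * Nat.card (Con F 0)) = Fintype.card F * (Fintype.card F ^ 2 - 1) := by
  have h2 := two_ne_zero_of_odd hodd
  have h4 : (4 : F) ≠ 0 := by
    have : (4 : F) = 2 * 2 := by norm_num
    rw [this]
    exact mul_ne_zero h2 h2
  have hsc : ¬ ∃ c : F, (x : Matrix (Fin 2) (Fin 2) F) = c • 1 := by
    apply not_scalar_of_tr
    rw [ht]
    intro h5
    apply h4
    rw [← h5]
    simp
  have hc := card_centralizer_gen hsc
  rw [ht] at hc
  rw [index_Chat, ← hc, ← card_Chat_odd hodd ht, Subgroup.index_mul_card, card_sl2]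

omit [Fintype F] in
theorem idx_central {x : SL(2, F)} (hsc : ∃ c : F, (x : Matrix (Fin 2) (Fin 2) F) = c • 1) :
    (Subgroup.centralizer ({ppi x} : Set (Matrix.ProjectiveSpecialLinearGroup (Fin 2) F))).index = 1 := by
  obtain ⟨c, hc⟩ := hsc
  have hdet : c * c = 1 := by
    have := x.2
    rw [hc, Matrix.det_fin_two] at this
    simpa using this
  have hmem : x ∈ Subgroup.center SL(2, F) := by
    rw [sl2_center_iff]
    have h1 : (c - 1) * (c + 1) = 0 := by linear_combination hdet
    rcases mul_eq_zero.1 h1 with h2 | h2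
    · left
      apply Subtype.ext
      have : c = 1 := by linear_combination h2
      rw [hc, this]
      simp
    · right
      have : c = -1 := by linear_combination h2
      rw [hc, this]
      simp
  have h1 : ppi x = 1 := (QuotientGroup.eq_one_iff x).2 hmem
  rw [h1]
  have : Subgroup.centralizer ({1} : Set (Matrix.ProjectiveSpecialLinearGroup (Fin 2) F)) = ⊤ := by
    ext y
    simp [Subgroup.mem_centralizer_singleton_iff]
  rw [this, Subgroup.index_top]

/-- A unipotent element. -/
def uni (F : Type*) [Field F] : SL(2, F) := ⟨!![1, 1; 0, 1], by simp [Matrix.det_fin_two]⟩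
/-- A diagonal element. -/
def dg {r : F} (hr : r ≠ 0) : SL(2, F) :=
  ⟨!![r, 0; 0, r⁻¹], by simp [Matrix.det_fin_two, hr]⟩
/-- A companion matrix. -/
def comp (t : F) : SL(2, F) := ⟨!![0, -1; 1, t], by simp [Matrix.det_fin_two]⟩

omit [Fintype F] in
lemma uni_tr : slTr (uni F) = 2 := by
  simp [slTr, uni, Matrix.trace_fin_two]
  norm_num

omit [Fintype F] in
lemma dg_tr {r : F} (hr : r ≠ 0) : slTr (dg hr) = r + r⁻¹ := by
  simp [slTr, dg, Matrix.trace_fin_two]

omit [Fintype F] in
lemma comp_tr (t : F) : slTr (comp t) = t := by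
  simp [slTr, comp, Matrix.trace_fin_two]

omit [Fintype F] in
lemma uni_ns : ¬ ∃ c : F, ((uni F : SL(2, F)) : Matrix (Fin 2) (Fin 2) F) = c • 1 := by
  rintro ⟨c, hc⟩
  have := congrFun (congrFun hc 0) 1
  simp [uni] at this

omit [Fintype F] in
lemma comp_ns (t : F) : ¬ ∃ c : F, ((comp t : SL(2, F)) : Matrix (Fin 2) (Fin 2) F) = c • 1 := by
  rintro ⟨c, hc⟩
  have := congrFun (congrFun hc 0) 1
  simp [comp] at this

omit [Fintype F] in
lemma dg_ns {r : F} (hr : r ≠ 0) (hr2 : r ^ 2 ≠ 1) :
    ¬ ∃ c : F, ((dg hr : SL(2, F)) : Matrix (Fin 2) (Fin 2) F) = c • 1 := by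
  rintro ⟨c, hc⟩
  have h0 := congrFun (congrFun hc 0) 0
  have h1 := congrFun (congrFun hc 1) 1
  simp [dg] at h0 h1
  apply hr2
  have : r = r⁻¹ := h0.trans h1.symm
  calc r ^ 2 = r * r := pow_two r
    _ = r * r⁻¹ := by rw [← this]
    _ = 1 := mul_inv_cancel₀ hr

end Cfsg.Agent.Perm.PSL2Classes
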