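import Cfsg.Agent.Lib.Perm.PSL2ClassesB

/-!
Conjugacy class sizes of `PSL₂(F)`.
-/

namespace Cfsg.Agent.Perm.PSL2Classes

open Matrix Cfsg.Agent.Lib.Classical
open scoped MatrixGroups

variable {F : Type*} [Field F] [Fintype F]

omit [Fintype F] in
/-- Every trace is split or nonsplit. -/
lemma split_or_nonsplit {t : F} (ht : t ^ 2 ≠ 4) :
    (∃ r : F, r ≠ 0 ∧ r ^ 2 ≠ 1 ∧ t = r + r⁻¹) ∨ ∀ s : F, s ^ 2 + t * s + 1 ≠ 0 := by
  by_cases h : ∃ s : F, s ^ 2 + t * s + 1 = 0
  · left
    obtain ⟨s, hs⟩ := h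
    have hs0 : s ≠ 0 := by
      rintro rfl
      simp at hs
    have hss : s * s⁻¹ = 1 := mul_inv_cancel₀ hs0
    refine ⟨-s, neg_ne_zero.2 hs0, ?_, ?_⟩
    · intro h1
      apply ht
      have h2 : s ^ 2 = 1 := by simpa using h1
      have h3 : t * s = -2 := by linear_combination hs - h2
      calc t ^ 2 = t ^ 2 * s ^ 2 := by rw [h2, mul_one]
        _ = (t * s) ^ 2 := by ring
        _ = 4 := by rw [h3]; norm_num
    · rw [inv_neg]
      linear_combination s⁻¹ * hs - (s + t) * hss
  · right
    push Not at h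
    exact h

lemma q_sq (q : ℕ) (hq : 1 < q) : q ^ 2 - 1 = (q - 1) * (q + 1) := by
  obtain ⟨k, rfl⟩ : ∃ k, q = k + 1 := ⟨q - 1, by omega⟩
  simp only [Nat.add_sub_cancel]
  apply Nat.sub_eq_of_eq_add
  ring

local notation "qq" => Fintype.card F

lemma q_gt : 1 < qq := Fintype.one_lt_card

theorem val_split {x : SL(2, F)} (hsc : ¬ ∃ c : F, (x : Matrix (Fin 2) (Fin 2) F) = c • 1)
    (h : (2 : F) = 0 ∨ slTr x ≠ 0) {r : F} (hr0 : r ≠ 0) (hr : r ^ 2 ≠ 1) (ht : slTr x = r + r⁻¹) :
    (Subgroup.centralizer ({ppi x} : Set (Matrix.ProjectiveSpecialLinearGroup (Fin 2) F))).index =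
      qq * (qq + 1) := by
  have h1 := idxA hsc h
  rw [ht, con_split hr0 hr, q_sq _ q_gt] at h1
  have h2 : 0 < qq - 1 := by have := q_gt (F := F); omega
  apply Nat.eq_of_mul_eq_mul_right h2
  rw [h1]
  ring

theorem val_nonsplit {x : SL(2, F)} (hsc : ¬ ∃ c : F, (x : Matrix (Fin 2) (Fin 2) F) = c • 1)
    (h : (2 : F) = 0 ∨ slTr x ≠ 0) (ht : ∀ s : F, s ^ 2 + slTr x * s + 1 ≠ 0) :
    (Subgroup.centralizer ({ppi x} : Set (Matrix.ProjectiveSpecialLinearGroup (Fin 2) F))).index =
      qq * (qq - 1) := by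
  have h1 := idxA hsc h
  rw [con_nonsplit ht, q_sq _ q_gt] at h1
  apply Nat.eq_of_mul_eq_mul_right (show 0 < qq + 1 by omega)
  rw [h1]
  ring

theorem val_dbl_even (h2 : (2 : F) = 0) {x : SL(2, F)}
    (hsc : ¬ ∃ c : F, (x : Matrix (Fin 2) (Fin 2) F) = c • 1) (ht : slTr x = 0) :
    (Subgroup.centralizer ({ppi x} : Set (Matrix.ProjectiveSpecialLinearGroup (Fin 2) F))).index =
      qq ^ 2 - 1 := by
  have h1 := idxA hsc (Or.inl h2)
  have e : slTr x = 2 * 1 := by rw [ht, h2, zero_mul]
  rw [e, con_double (c := (1 : F)) (by norm_num), card_sq_one_of_two h2, mul_one] at h1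
  have hq : 0 < qq := by have := q_gt (F := F); omega
  apply Nat.eq_of_mul_eq_mul_right hq
  rw [h1]
  ring

theorem val_dbl_odd (h2 : (2 : F) ≠ 0) {x : SL(2, F)}
    (hsc : ¬ ∃ c : F, (x : Matrix (Fin 2) (Fin 2) F) = c • 1) (ht : slTr x ^ 2 = 4) :
    (Subgroup.centralizer ({ppi x} : Set (Matrix.ProjectiveSpecialLinearGroup (Fin 2) F))).index =
      (qq ^ 2 - 1) / 2 := by
  have h4 : (4 : F) ≠ 0 := by
    have : (4 : F) = 2 * 2 := by norm_num
    rw [this]
    exact mul_ne_zero h2 h2
  have ht0 : slTr x ≠ 0 := by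
    intro h0
    rw [h0] at ht
    apply h4
    rw [← ht]
    simp
  have h1 := idxA hsc (Or.inr ht0)
  have e : slTr x = 2 * (slTr x / 2) := by field_simp
  have hc : (slTr x / 2) ^ 2 = 1 := by
    rw [div_pow, ht]
    field_simp
    norm_num
  rw [e, con_double hc, card_sq_one_of_odd h2] at h1
  have hq : 0 < qq := by have := q_gt (F := F); omega
  have h5 : (Subgroup.centralizer ({ppi x} : Set (Matrix.ProjectiveSpecialLinearGroup (Fin 2) F))).index * 2 = qq ^ 2 - 1 := by
    apply Nat.eq_of_mul_eq_mul_left hq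
    rw [← h1]
    ring
  omega

theorem val_zero_split (hodd : Odd qq) {x : SL(2, F)} (ht : slTr x = 0) {i : F} (hi : i ^ 2 = -1) :
    (Subgroup.centralizer ({ppi x} : Set (Matrix.ProjectiveSpecialLinearGroup (Fin 2) F))).index =
      qq * (qq + 1) / 2 := by
  have h2 := two_ne_zero_of_odd hodd
  have h1 := idxB hodd ht
  have hi0 : i ≠ 0 := by
    rintro rfl
    have : (1 : F) = 0 := by
      have h3 : (0 : F) ^ 2 = 0 := by norm_num
      rw [h3] at hi
      linear_combination hi
    exact one_ne_zero this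
  have hii : i * i⁻¹ = 1 := mul_inv_cancel₀ hi0
  have e : i + i⁻¹ = 0 := by
    linear_combination i⁻¹ * hi - i * hii
  have hr : i ^ 2 ≠ 1 := by
    rw [hi]
    intro h3
    apply h2
    linear_combination -h3
  have h3 := con_split hi0 hr
  rw [e] at h3
  rw [h3, q_sq _ q_gt] at h1
  have hq : 0 < qq - 1 := by have := q_gt (F := F); omega
  have h5 : (Subgroup.centralizer ({ppi x} : Set (Matrix.ProjectiveSpecialLinearGroup (Fin 2) F))).index * 2 = qq * (qq + 1) := by
    apply Nat.eq_of_mul_eq_mul_right hq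
    calc _ = (Subgroup.centralizer ({ppi x} : Set (Matrix.ProjectiveSpecialLinearGroup (Fin 2) F))).index * (2 * (qq - 1)) := by ring
      _ = _ := by rw [h1]; ring
  omega

theorem val_zero_nonsplit (hodd : Odd qq) {x : SL(2, F)} (ht : slTr x = 0) (hi : ∀ i : F, i ^ 2 ≠ -1) :
    (Subgroup.centralizer ({ppi x} : Set (Matrix.ProjectiveSpecialLinearGroup (Fin 2) F))).index =
      qq * (qq - 1) / 2 := by
  have h1 := idxB hodd ht
  have h3 : Nat.card (Con F 0) = qq + 1 := by
    apply con_nonsplit
    intro s h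
    apply hi s
    linear_combination h
  rw [h3, q_sq _ q_gt] at h1
  have h5 : (Subgroup.centralizer ({ppi x} : Set (Matrix.ProjectiveSpecialLinearGroup (Fin 2) F))).index * 2 = qq * (qq - 1) := by
    apply Nat.eq_of_mul_eq_mul_right (show 0 < qq + 1 by omega)
    calc _ = (Subgroup.centralizer ({ppi x} : Set (Matrix.ProjectiveSpecialLinearGroup (Fin 2) F))).index * (2 * (qq + 1)) := by ring
      _ = _ := by rw [h1]; ring
  omega

/-- Existence of a nonsplit trace. -/
lemma exists_nonsplit (h4 : 4 ≤ qq) :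
    ∃ t : F, ((2 : F) ≠ 0 → t ≠ 0) ∧ ∀ s : F, s ^ 2 + t * s + 1 ≠ 0 := by
  classical
  set R : Finset F := Finset.univ.filter (fun s => s ≠ 0 ∧ s ^ 2 ≠ 1) with hR
  set f : F → F := fun s => -(s + s⁻¹) with hf
  set I := R.image f with hI
  have hbound : 2 * I.card ≤ R.card := by
    apply Finset.mul_card_image_le_card_of_maps_to (f := f) (fun a ha => Finset.mem_image_of_mem f ha)
    intro b hb
    obtain ⟨s, hs, rfl⟩ := Finset.mem_image.1 hb
    have hs' := (Finset.mem_filter.1 hs).2
    have hss : s * s⁻¹ = 1 := mul_inv_cancel₀ hs'.1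
    have hne : s ≠ s⁻¹ := by
      intro h
      apply hs'.2
      calc s ^ 2 = s * s := pow_two s
        _ = s * s⁻¹ := by rw [← h]
        _ = 1 := hss
    have hsub : ({s, s⁻¹} : Finset F) ⊆ R.filter (fun a => f a = f s) := by
      intro a ha
      simp only [Finset.mem_insert, Finset.mem_singleton] at ha
      rcases ha with rfl | rfl
      · exact Finset.mem_filter.2 ⟨hs, rfl⟩
      · refine Finset.mem_filter.2 ⟨Finset.mem_filter.2 ⟨Finset.mem_univ _, inv_ne_zero hs'.1, ?_⟩, ?_⟩
        · intro h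
          apply hs'.2
          rw [inv_pow] at h
          exact inv_eq_one.1 h
        · simp only [hf, inv_inv]
          ring
    have := Finset.card_le_card hsub
    rwa [Finset.card_pair hne] at this
  set B : Finset F := insert 2 (insert (-2) (insert 0 I)) with hB
  have hlt : B.card < (Finset.univ : Finset F).card := by
    rw [Finset.card_univ]
    by_cases h2 : (2 : F) = 0
    · have hBe : B = insert 0 I := by
        rw [hB, h2]
        simp
      have hR2 : R.card ≤ qq - 2 := by
        have hsub : R ⊆ (Finset.univ : Finset F) \ {0, 1} := by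
          intro a ha
          have ha' := (Finset.mem_filter.1 ha).2
          simp only [Finset.mem_sdiff, Finset.mem_univ, true_and, Finset.mem_insert,
            Finset.mem_singleton, not_or]
          refine ⟨ha'.1, ?_⟩
          rintro rfl
          exact ha'.2 (one_pow 2)
        have h5 := Finset.card_le_card hsub
        rw [Finset.card_sdiff_of_subset (Finset.subset_univ _), Finset.card_pair zero_ne_one,
          Finset.card_univ] at h5
        exact h5
      have h6 := Finset.card_insert_le 0 I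
      rw [← hBe] at h6
      omega
    · have hR2 : R.card ≤ qq - 3 := by
        have hne : (1 : F) ≠ -1 := by
          intro h
          apply h2
          linear_combination h
        have hsub : R ⊆ (Finset.univ : Finset F) \ {0, 1, -1} := by
          intro a ha
          have ha' := (Finset.mem_filter.1 ha).2
          simp only [Finset.mem_sdiff, Finset.mem_univ, true_and, Finset.mem_insert,
            Finset.mem_singleton, not_or]
          refine ⟨ha'.1, ?_, ?_⟩
          · rintro rfl
            exact ha'.2 (one_pow 2)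
          · rintro rfl
            exact ha'.2 (by norm_num)
        have h5 := Finset.card_le_card hsub
        have h7 : ({0, 1, -1} : Finset F).card = 3 :=
          Finset.card_eq_three.2 ⟨0, 1, -1, zero_ne_one, by simp, hne, rfl⟩
        rw [Finset.card_sdiff_of_subset (Finset.subset_univ _), h7, Finset.card_univ] at h5
        exact h5
      have h6 : B.card ≤ I.card + 3 := by
        have h7 := Finset.card_insert_le (2 : F) (insert (-2) (insert 0 I))
        rw [← hB] at h7
        have h8 := Finset.card_insert_le (-2 : F) (insert 0 I)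
        have h9 := Finset.card_insert_le (0 : F) I
        omega
      omega
  obtain ⟨t, -, ht⟩ := Finset.exists_mem_notMem_of_card_lt_card hlt
  simp only [hB, Finset.mem_insert, not_or] at ht
  obtain ⟨ht2, htm2, ht0, htI⟩ := ht
  refine ⟨t, fun _ => ht0, ?_⟩
  intro s hs
  have hs0 : s ≠ 0 := by
    rintro rfl
    simp at hs
  have hss : s * s⁻¹ = 1 := mul_inv_cancel₀ hs0
  by_cases hs2 : s ^ 2 = 1
  · have h3 : (s - 1) * (s + 1) = 0 := by linear_combination hs2
    rcases mul_eq_zero.1 h3 with h4 | h4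
    · have : s = 1 := by linear_combination h4
      subst this
      apply htm2
      linear_combination hs
    · have : s = -1 := by linear_combination h4
      subst this
      apply ht2
      linear_combination -hs
  · apply htI
    apply Finset.mem_image.2
    refine ⟨s, Finset.mem_filter.2 ⟨Finset.mem_univ _, hs0, hs2⟩, ?_⟩
    simp only [hf]
    linear_combination -s⁻¹ * hs + (s + t) * hss

lemma exists_split_even (h2 : (2 : F) = 0) (h4 : 4 ≤ qq) : ∃ r : F, r ≠ 0 ∧ r ^ 2 ≠ 1 := by
  classical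
  have hlt : ({0, 1} : Finset F).card < (Finset.univ : Finset F).card := by
    rw [Finset.card_pair zero_ne_one, Finset.card_univ]
    omega
  obtain ⟨r, -, hr⟩ := Finset.exists_mem_notMem_of_card_lt_card hlt
  simp only [Finset.mem_insert, Finset.mem_singleton, not_or] at hr
  refine ⟨r, hr.1, ?_⟩
  intro h
  apply hr.2
  have h3 : (r - 1) ^ 2 = 0 := by linear_combination h - r * h2 + h2
  have := pow_eq_zero_iff (n := 2) (by norm_num) |>.1 h3
  exact sub_eq_zero.1 this

lemma exists_split_odd (h7 : 7 ≤ qq) : ∃ r : F, r ≠ 0 ∧ r ^ 2 ≠ 1 ∧ r ^ 2 ≠ -1 := by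
  classical
  set B : Finset F := insert 0 (Polynomial.nthRoots 4 (1 : F)).toFinset with hB
  have hlt : B.card < (Finset.univ : Finset F).card := by
    rw [Finset.card_univ]
    have h1 := Polynomial.card_nthRoots 4 (1 : F)
    have h2 := Multiset.toFinset_card_le (Polynomial.nthRoots 4 (1 : F))
    have h3 := Finset.card_insert_le (0 : F) (Polynomial.nthRoots 4 (1 : F)).toFinset
    rw [hB]
    omega
  obtain ⟨r, -, hr⟩ := Finset.exists_mem_notMem_of_card_lt_card hlt
  simp only [hB, Finset.mem_insert, not_or, Multiset.mem_toFinset] at hr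
  have h4 : r ^ 4 ≠ 1 := by
    intro h
    apply hr.2
    rw [Polynomial.mem_nthRoots (by norm_num)]
    exact h
  refine ⟨r, hr.1, ?_, ?_⟩
  · intro h
    apply h4
    calc r ^ 4 = (r ^ 2) ^ 2 := by ring
      _ = 1 := by rw [h]; norm_num
  · intro h
    apply h4
    calc r ^ 4 = (r ^ 2) ^ 2 := by ring
      _ = 1 := by rw [h]; norm_num

/-- The even case. -/
theorem range_even (h2 : (2 : F) = 0) (h4 : 4 ≤ qq) :
    Set.range (fun g : (Matrix.ProjectiveSpecialLinearGroup (Fin 2) F) =>
      (Subgroup.centralizer ({g} : Set (Matrix.ProjectiveSpecialLinearGroup (Fin 2) F))).index) =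
      {1, qq * (qq - 1), qq ^ 2 - 1, qq * (qq + 1)} := by
  ext v
  simp only [Set.mem_range, Set.mem_insert_iff, Set.mem_singleton_iff]
  constructor
  · rintro ⟨g, rfl⟩
    obtain ⟨x, rfl⟩ := QuotientGroup.mk'_surjective (Subgroup.center SL(2, F)) g
    by_cases hsc : ∃ c : F, (x : Matrix (Fin 2) (Fin 2) F) = c • 1
    · left
      exact idx_central hsc
    by_cases ht : slTr x = 0
    · right; right; left
      exact val_dbl_even h2 hsc ht
    have h4' : slTr x ^ 2 ≠ 4 := by
      intro h
      apply ht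
      have h5 : (4 : F) = 0 := by
        have : (4 : F) = 2 * 2 := by norm_num
        rw [this, h2, zero_mul]
      rw [h5] at h
      exact pow_eq_zero_iff (n := 2) (by norm_num) |>.1 h
    rcases split_or_nonsplit h4' with ⟨r, hr0, hr, hrt⟩ | hn
    · right; right; right
      exact val_split hsc (Or.inl h2) hr0 hr hrt
    · right; left
      exact val_nonsplit hsc (Or.inl h2) hn
  · rintro (rfl | rfl | rfl | rfl)
    · exact ⟨ppi (1 : SL(2, F)), idx_central ⟨1, by simp⟩⟩
    · obtain ⟨t, -, ht⟩ := exists_nonsplit (F := F) h4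
      exact ⟨ppi (comp t), val_nonsplit (comp_ns t) (Or.inl h2) (by rw [comp_tr]; exact ht)⟩
    · exact ⟨ppi (uni F), val_dbl_even h2 uni_ns (by rw [uni_tr, h2])⟩
    · obtain ⟨r, hr0, hr⟩ := exists_split_even h2 h4
      exact ⟨ppi (dg hr0), val_split (dg_ns hr0 hr) (Or.inl h2) hr0 hr (dg_tr hr0)⟩

/-- The odd case. -/
theorem range_odd (hodd : Odd qq) (h7 : 7 ≤ qq) (Z : ℕ)
    (hZ : ∀ x : SL(2, F), slTr x = 0 →
      (Subgroup.centralizer ({ppi x} : Set (Matrix.ProjectiveSpecialLinearGroup (Fin 2) F))).index = Z) :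
    Set.range (fun g : (Matrix.ProjectiveSpecialLinearGroup (Fin 2) F) =>
      (Subgroup.centralizer ({g} : Set (Matrix.ProjectiveSpecialLinearGroup (Fin 2) F))).index) =
      {1, (qq ^ 2 - 1) / 2, Z, qq * (qq - 1), qq * (qq + 1)} := by
  have h2 := two_ne_zero_of_odd hodd
  ext v
  simp only [Set.mem_range, Set.mem_insert_iff, Set.mem_singleton_iff]
  constructor
  · rintro ⟨g, rfl⟩
    obtain ⟨x, rfl⟩ := QuotientGroup.mk'_surjective (Subgroup.center SL(2, F)) g
    by_cases hsc : ∃ c : F, (x : Matrix (Fin 2) (Fin 2) F) = c • 1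
    · left
      exact idx_central hsc
    by_cases ht : slTr x = 0
    · right; right; left
      exact hZ x ht
    by_cases h4' : slTr x ^ 2 = 4
    · right; left
      exact val_dbl_odd h2 hsc h4'
    rcases split_or_nonsplit h4' with ⟨r, hr0, hr, hrt⟩ | hn
    · right; right; right; right
      exact val_split hsc (Or.inr ht) hr0 hr hrt
    · right; right; right; left
      exact val_nonsplit hsc (Or.inr ht) hn
  · rintro (rfl | rfl | rfl | rfl | rfl)
    · exact ⟨ppi (1 : SL(2, F)), idx_central ⟨1, by simp⟩⟩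
    · exact ⟨ppi (uni F), val_dbl_odd h2 uni_ns (by rw [uni_tr]; norm_num)⟩
    · refine ⟨ppi (jj F), hZ _ ?_⟩
      simp [slTr, jj_coe, Matrix.trace_fin_two]
    · obtain ⟨t, ht0, ht⟩ := exists_nonsplit (F := F) (by omega)
      have ht0' := ht0 h2
      exact ⟨ppi (comp t), val_nonsplit (comp_ns t) (Or.inr (by rw [comp_tr]; exact ht0'))
        (by rw [comp_tr]; exact ht)⟩
    · obtain ⟨r, hr0, hr, hrm⟩ := exists_split_odd (F := F) h7
      have ht0 : slTr (dg hr0) ≠ 0 := by
        rw [dg_tr]
        intro h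
        apply hrm
        have hss : r * r⁻¹ = 1 := mul_inv_cancel₀ hr0
        linear_combination r * h - hss
      exact ⟨ppi (dg hr0), val_split (dg_ns hr0 hr) (Or.inr ht0) hr0 hr (dg_tr hr0)⟩

end Cfsg.Agent.Perm.PSL2Classes
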