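import Mathlib

set_option autoImplicit false

namespace Cfsg.Agent.Lib.Perm.PartFixA

open Equiv Equiv.Perm Finset

section basics

variable {X : Type*} [Fintype X] [DecidableEq X] {r : ℕ} [hr : Fact r.Prime]

/-- number of fixed points -/
def fixCard (σ : Perm X) : ℕ := (univ.filter (fun x => σ x = x)).card

lemma fix_modEq (σ : Perm X) (hσ : σ ^ r = 1) : Fintype.card X ≡ fixCard σ [MOD r] := by
  let f : Function.End X := ⇑σ
  have key : ∀ (n : ℕ) (x : X), (f ^ n) x = (σ ^ n) x := by
    intro n
    induction n with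
    | zero => intro x; rfl
    | succ n ih =>
      intro x
      rw [pow_succ, pow_succ, Perm.mul_apply]
      show (f ^ n) (σ x) = _
      rw [ih]
  have h1 : f ^ r ^ 1 = 1 := by
    funext x
    rw [pow_one, key, hσ]
    rfl
  have h2 := card_fixedPoints_modEq h1
  have h3 : Fintype.card (Function.fixedPoints f) = fixCard σ := by
    rw [fixCard, ← Fintype.card_subtype]
    apply Fintype.card_congr
    exact Equiv.subtypeEquivRight (fun x => Iff.rfl)
  rw [h3] at h2
  exact h2

/-- the points moved -/
lemma moved_add (σ : Perm X) : (univ.filter (fun x => σ x ≠ x)).card + fixCard σ = Fintype.card X := by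
  rw [fixCard, add_comm, Finset.card_filter_add_card_filter_not]
  rfl

variable (σ : Perm X) (hσ : σ ^ r = 1) (z : X) (hz : σ z ≠ z)

/-- the cycle through `z` -/
def cyc (i : ZMod r) : X := (σ ^ (i.val)) z

include hσ in
lemma cyc_succ (i : ZMod r) : cyc (r := r) σ z (i + 1) = σ (cyc σ z i) := by
  haveI : Fact (1 < r) := ⟨hr.out.one_lt⟩
  unfold cyc
  rw [ZMod.val_add, ZMod.val_one, ← pow_eq_pow_mod _ hσ, pow_succ', Perm.mul_apply]

include hσ hz in
lemma cyc_inj : Function.Injective (cyc (r := r) σ z) := by
  have hr' := hr.out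
  have key : ∀ d : ℕ, 0 < d → d < r → (σ ^ d) z ≠ z := by
    intro d hd hdr e
    have hcop : Nat.Coprime d r :=
      Nat.Coprime.symm ((Nat.Prime.coprime_iff_not_dvd hr').2 (fun h => by
        have := Nat.le_of_dvd hd h
        omega))
    obtain ⟨m, hm⟩ := Nat.exists_mul_mod_eq_one_of_coprime hcop hr'.one_lt
    have e1 : ∀ n : ℕ, ((σ ^ d) ^ n) z = z := by
      intro n
      induction n with
      | zero => rfl
      | succ n ih => rw [pow_succ, Perm.mul_apply, e, ih]
    have e2 := e1 m
    rw [← pow_mul, pow_eq_pow_mod _ hσ, hm.2, pow_one] at e2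
    exact hz e2
  have key2 : ∀ i j : ZMod r, i.val < j.val → cyc σ z i ≠ cyc σ z j := by
    intro i j hij e
    unfold cyc at e
    have h1 : (σ ^ j.val) z = (σ ^ (j.val - i.val)) ((σ ^ i.val) z) := by
      rw [← Perm.mul_apply, ← pow_add]
      congr 2
      omega
    rw [← e] at h1
    have h2 : (σ ^ (j.val - i.val)) ((σ ^ i.val) z) = (σ ^ i.val) ((σ ^ (j.val - i.val)) z) := by
      rw [← Perm.mul_apply, ← Perm.mul_apply, ← pow_add, ← pow_add, add_comm]
    rw [h2] at h1
    have h3 := (σ ^ i.val).injective h1
    have hlt : j.val < r := ZMod.val_lt j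
    exact key _ (by omega) (by omega) h3.symm
  intro i j e
  by_contra hne
  have hv : i.val ≠ j.val := fun h => hne (ZMod.val_injective r h)
  rcases Nat.lt_or_gt_of_ne hv with h | h
  · exact key2 i j h e
  · exact key2 j i h e.symm

include hσ hz in
lemma cyc_moved (i : ZMod r) : σ (cyc σ z i) ≠ cyc σ z i := by
  rw [← cyc_succ σ hσ]
  intro e
  have h := cyc_inj σ hσ z hz e
  haveI : Fact (1 < r) := ⟨hr.out.one_lt⟩
  have h1 : (1 : ZMod r) = 0 := by
    have := add_left_cancel (a := i) (b := 1) (c := 0) (by rw [h, add_zero])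
    exact this
  exact one_ne_zero h1

include hσ in
/-- invariant unions of cycles with a phase function -/
theorem exists_cycles (k : ℕ) (hk : k * r ≤ (univ.filter (fun x => σ x ≠ x)).card) :
    ∃ (Y : Finset X) (g : X → ZMod r), (∀ x, x ∈ Y ↔ σ x ∈ Y) ∧ (∀ x ∈ Y, σ x ≠ x) ∧
      Y.card = k * r ∧ (∀ x ∈ Y, g (σ x) = g x + 1) ∧ ∀ c, (Y.filter (fun x => g x = c)).card = k := by
  have hr' := hr.out
  induction k with
  | zero =>
    refine ⟨∅, fun _ => 0, by simp, by simp, by simp, by simp, by simp⟩
  | succ k ih =>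
    have hk' : k * r ≤ (univ.filter (fun x => σ x ≠ x)).card := by
      rw [Nat.succ_mul] at hk
      omega
    obtain ⟨Y, g, hinv, hmov, hcard, hg, hfib⟩ := ih hk'
    -- a new moved point
    obtain ⟨z, hzm, hzY⟩ : ∃ z, σ z ≠ z ∧ z ∉ Y := by
      by_contra hcon
      push Not at hcon
      have hsub : (univ.filter (fun x => σ x ≠ x)) ⊆ Y := by
        intro x hx
        simp only [mem_filter, mem_univ, true_and] at hx
        exact hcon x hx
      have := card_le_card hsub
      rw [Nat.succ_mul] at hk
      have := hr'.pos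
      omega
    have hinj := cyc_inj (r := r) σ hσ z hzm
    have hsuc := cyc_succ (r := r) σ hσ z
    have hmv := cyc_moved (r := r) σ hσ z hzm
    let O : Finset X := univ.image (cyc (r := r) σ z)
    have hOcard : O.card = r := by
      rw [card_image_of_injective _ hinj, card_univ, ZMod.card]
    have hOinv : ∀ x, x ∈ O ↔ σ x ∈ O := by
      intro x
      simp only [O, mem_image, mem_univ, true_and]
      constructor
      · rintro ⟨i, rfl⟩
        exact ⟨i + 1, hsuc i⟩
      · rintro ⟨i, hi⟩
        refine ⟨i - 1, σ.injective ?_⟩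
        rw [← hsuc, sub_add_cancel, hi]
    -- the points of the cycle are outside of Y
    have hpow : ∀ (n : ℕ) (y : X), y ∈ Y ↔ (σ ^ n) y ∈ Y := by
      intro n
      induction n with
      | zero => intro y; rfl
      | succ n ih =>
        intro y
        rw [pow_succ', Perm.mul_apply, ← hinv, ← ih]
    have hdisj : Disjoint O Y := by
      rw [Finset.disjoint_left]
      intro x hx hxY
      simp only [O, mem_image, mem_univ, true_and] at hx
      obtain ⟨i, rfl⟩ := hx
      exact hzY ((hpow _ z).2 hxY)
    let inv : X → ZMod r := Function.invFun (cyc (r := r) σ z)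
    have hinvL : ∀ i, inv (cyc σ z i) = i := Function.leftInverse_invFun hinj
    refine ⟨O ∪ Y, fun x => if x ∈ O then inv x else g x, ?_, ?_, ?_, ?_, ?_⟩
    · intro x
      rw [mem_union, mem_union, ← hOinv, ← hinv]
    · intro x hx
      rcases mem_union.mp hx with h | h
      · simp only [O, mem_image, mem_univ, true_and] at h
        obtain ⟨i, rfl⟩ := h
        exact hmv i
      · exact hmov x h
    · rw [card_union_of_disjoint hdisj, hOcard, hcard, Nat.succ_mul, add_comm]
    · intro x hx
      rcases mem_union.mp hx with h | h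
      · have h2 := (hOinv x).1 h
        simp only [h, h2, if_true]
        simp only [O, mem_image, mem_univ, true_and] at h
        obtain ⟨i, rfl⟩ := h
        rw [← hsuc, hinvL, hinvL]
      · have h1 : x ∉ O := fun h' => Finset.disjoint_left.mp hdisj h' h
        have h2 : σ x ∉ O := fun h' => h1 ((hOinv x).2 h')
        simp only [h1, h2, if_false]
        exact hg x h
    · intro c
      have h1 : (O ∪ Y).filter (fun x => (if x ∈ O then inv x else g x) = c) =
          {cyc σ z c} ∪ Y.filter (fun x => g x = c) := by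
        ext x
        simp only [mem_filter, mem_union, mem_singleton]
        constructor
        · rintro ⟨hx | hx, hc⟩
          · simp only [hx, if_true] at hc
            simp only [O, mem_image, mem_univ, true_and] at hx
            obtain ⟨i, rfl⟩ := hx
            rw [hinvL] at hc
            left
            rw [hc]
          · have h1 : x ∉ O := fun h' => Finset.disjoint_left.mp hdisj h' hx
            simp only [h1, if_false] at hc
            exact Or.inr ⟨hx, hc⟩
        · rintro (rfl | ⟨hx, hc⟩)
          · have hm : cyc σ z c ∈ O := by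
              simp only [O, mem_image, mem_univ, true_and]
              exact ⟨c, rfl⟩
            refine ⟨Or.inl hm, ?_⟩
            simp only [hm, if_true, hinvL]
          · have h1 : x ∉ O := fun h' => Finset.disjoint_left.mp hdisj h' hx
            refine ⟨Or.inr hx, ?_⟩
            simp only [h1, if_false]
            exact hc
      rw [h1, card_union_of_disjoint, card_singleton, hfib, add_comm]
      rw [Finset.disjoint_singleton_left]
      intro h
      have hm : cyc σ z c ∈ O := by
        simp only [O, mem_image, mem_univ, true_and]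
        exact ⟨c, rfl⟩
      exact Finset.disjoint_left.mp hdisj hm (mem_filter.mp h).1

end basics

section restrict

variable {X : Type*} [Fintype X] [DecidableEq X]

/-- restriction of `σ` to the complement of an invariant set -/
def resP (σ : Perm X) (Y : Finset X) (hY : ∀ x, x ∈ Y ↔ σ x ∈ Y) : Perm {x // x ∉ Y} :=
  σ.subtypePerm (fun x => by rw [not_iff_not]; exact (hY x).symm)

@[simp] lemma resP_val (σ : Perm X) (Y : Finset X) (hY : ∀ x, x ∈ Y ↔ σ x ∈ Y) (x : {x // x ∉ Y}) :
    ((resP σ Y hY x : {x // x ∉ Y}) : X) = σ x := rfl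

lemma resP_pow (σ : Perm X) (Y : Finset X) (hY : ∀ x, x ∈ Y ↔ σ x ∈ Y) (n : ℕ)
    (x : {x // x ∉ Y}) : (((resP σ Y hY) ^ n) x : X) = (σ ^ n) x := by
  induction n generalizing x with
  | zero => rfl
  | succ n ih =>
    rw [pow_succ, Perm.mul_apply, ih, pow_succ, Perm.mul_apply]
    rfl

lemma resP_pow_eq_one {r : ℕ} (σ : Perm X) (Y : Finset X) (hY : ∀ x, x ∈ Y ↔ σ x ∈ Y)
    (hσ : σ ^ r = 1) : (resP σ Y hY) ^ r = 1 := by
  ext x
  rw [resP_pow, hσ]
  rfl

lemma card_compl_sub (Y : Finset X) : Fintype.card {x // x ∉ Y} = Fintype.card X - Y.card := by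
  rw [Fintype.card_subtype]
  have : (univ.filter (fun x => x ∉ Y)) = Yᶜ := by
    ext x; simp
  rw [this, Finset.card_compl]

lemma fix_restrict (σ : Perm X) (Y : Finset X) (hY : ∀ x, x ∈ Y ↔ σ x ∈ Y) :
    fixCard (resP σ Y hY) + (Y.filter (fun x => σ x = x)).card = fixCard σ := by
  have h1 : fixCard (resP σ Y hY) = (univ.filter (fun x => x ∉ Y ∧ σ x = x)).card := by
    rw [fixCard, ← Fintype.card_subtype, ← Fintype.card_subtype]
    apply Fintype.card_congr
    refine ⟨fun x => ⟨x.1.1, x.1.2, ?_⟩, fun x => ⟨⟨x.1, x.2.1⟩, ?_⟩, ?_, ?_⟩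
    · have := congrArg Subtype.val x.2
      exact this
    · exact Subtype.ext x.2.2
    · intro x; rfl
    · intro x; rfl
  rw [h1, fixCard, add_comm]
  have h2 : (univ.filter (fun x => σ x = x)) =
      Y.filter (fun x => σ x = x) ∪ univ.filter (fun x => x ∉ Y ∧ σ x = x) := by
    ext x
    simp only [mem_filter, mem_univ, true_and, mem_union]
    tauto
  rw [h2, card_union_of_disjoint]
  rw [Finset.disjoint_left]
  intro x hx hx'
  exact (mem_filter.mp hx').2.1 (mem_filter.mp hx).1

/-- partition data on a type -/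
def HasPart (σ : Perm X) (a b : ℕ) : Prop :=
  ∃ (β : Type) (_ : Fintype β) (_ : DecidableEq β) (f : X → β) (π : Perm β),
    Fintype.card β = b ∧ (∀ j, (univ.filter (fun x => f x = j)).card = a) ∧ ∀ x, f (σ x) = π (f x)

/-- gluing a piece with a partition of the complement -/
lemma glue (σ : Perm X) (Y : Finset X) (hY : ∀ x, x ∈ Y ↔ σ x ∈ Y) {a b' : ℕ}
    (h' : HasPart (resP σ Y hY) a b') {γ : Type} [Fintype γ] [DecidableEq γ] (g₀ : X → γ)
    (π₀ : Perm γ) (h1 : ∀ x ∈ Y, g₀ (σ x) = π₀ (g₀ x))
    (h2 : ∀ c, (Y.filter (fun x => g₀ x = c)).card = a) :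
    HasPart σ a (b' + Fintype.card γ) := by
  obtain ⟨β, _, _, f, π, hcard, hfib, heq⟩ := h'
  refine ⟨β ⊕ γ, inferInstance, inferInstance,
    fun x => if h : x ∈ Y then Sum.inr (g₀ x) else Sum.inl (f ⟨x, h⟩),
    Equiv.sumCongr π π₀, by simp [hcard], ?_, ?_⟩
  · intro j
    rcases j with j | c
    · rw [← hfib j]
      symm
      apply Finset.card_bij (fun (x : {x // x ∉ Y}) _ => (x : X))
      · intro x hx
        simp only [mem_filter, mem_univ, true_and] at hx ⊢
        rw [dif_neg x.2]
        have : (⟨x.1, x.2⟩ : {x // x ∉ Y}) = x := rfl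
        rw [this, hx]
      · intro x _ y _ e
        exact Subtype.ext e
      · intro x hx
        simp only [mem_filter, mem_univ, true_and] at hx
        by_cases h : x ∈ Y
        · rw [dif_pos h] at hx
          cases hx
        · rw [dif_neg h] at hx
          refine ⟨⟨x, h⟩, ?_, rfl⟩
          simp only [mem_filter, mem_univ, true_and]
          exact Sum.inl.inj hx
    · rw [← h2 c]
      apply Finset.card_bij (fun x _ => x)
      · intro x hx
        simp only [mem_filter, mem_univ, true_and] at hx ⊢
        by_cases h : x ∈ Y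
        · rw [dif_pos h] at hx
          exact ⟨h, Sum.inr.inj hx⟩
        · rw [dif_neg h] at hx
          cases hx
      · intro x _ y _ e
        exact e
      · intro x hx
        obtain ⟨hxY, hc⟩ := mem_filter.mp hx
        refine ⟨x, ?_, rfl⟩
        simp only [mem_filter, mem_univ, true_and]
        rw [dif_pos hxY, hc]
  · intro x
    by_cases h : x ∈ Y
    · have h' := (hY x).1 h
      simp only [dif_pos h, dif_pos h', Equiv.sumCongr_apply, Sum.map_inr]
      rw [h1 x h]
    · have h' : σ x ∉ Y := fun e => h ((hY x).2 e)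
      simp only [dif_neg h, dif_neg h', Equiv.sumCongr_apply, Sum.map_inl]
      have := heq ⟨x, h⟩
      rw [← this]
      rfl

end restrict

end Cfsg.Agent.Lib.Perm.PartFixA
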