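import Cfsg.Agent.Lib.Perm.PartFixA

set_option autoImplicit false

namespace Cfsg.Agent.Lib.Perm.PartFixB

open Equiv Equiv.Perm Finset Cfsg.Agent.Lib.Perm.PartFixA

/-- **Sufficiency**: numerical condition gives a partition. -/
theorem has_part (a r : ℕ) [hr : Fact r.Prime] : ∀ (b : ℕ) (X : Type) [Fintype X] [DecidableEq X]
    (σ : Perm X), σ ^ r = 1 → Fintype.card X = a * b → ∀ B, B ≤ b → r ∣ b - B →
      B * (a % r) ≤ fixCard σ → fixCard σ ≤ B * a → HasPart σ a b := by
  intro b
  induction b using Nat.strong_induction_on with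
  | _ b ih =>
  intro X _ _ σ hσ hcard B hBb hdvd h1 h2
  have hr' := hr.out
  have hrpos := hr'.pos
  rcases Nat.eq_zero_or_pos b with rfl | hbpos
  · have hE : IsEmpty X := Fintype.card_eq_zero_iff.mp (by simpa using hcard)
    exact ⟨Fin 0, inferInstance, inferInstance, fun x => (hE.false x).elim, 1, by simp,
      fun j => j.elim0, fun x => (hE.false x).elim⟩
  have hmv := moved_add σ
  by_cases hB0 : B = 0
  · subst hB0
    have hF0 : fixCard σ = 0 := by simpa using h2
    have hrb : r ≤ b := Nat.le_of_dvd hbpos (by simpa using hdvd)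
    have hmoved : (univ.filter (fun x => σ x ≠ x)).card = a * b := by omega
    obtain ⟨Y, g, hinv, hmov, hYc, hg, hfib⟩ := exists_cycles σ hσ a
      (by rw [hmoved]; exact Nat.mul_le_mul_left a hrb)
    have hcard' : Fintype.card {x // x ∉ Y} = a * (b - r) := by
      rw [card_compl_sub, hcard, hYc, Nat.mul_sub]
    have hfix' : fixCard (resP σ Y hinv) = 0 := by
      have := fix_restrict σ Y hinv
      omega
    have hpart := ih (b - r) (by omega) {x // x ∉ Y} (resP σ Y hinv)
      (resP_pow_eq_one σ Y hinv hσ) hcard' 0 (Nat.zero_le _)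
      (by
        have h3 : r ∣ b := by simpa using hdvd
        simpa using Nat.dvd_sub h3 (dvd_refl r))
      (by simp) (by rw [hfix']; simp)
    have := glue σ Y hinv hpart g (Equiv.addRight 1) (fun x hx => by simpa using hg x hx) hfib
    rw [ZMod.card, Nat.sub_add_cancel hrb] at this
    exact this
  · obtain ⟨B₁, rfl⟩ : ∃ B₁, B = B₁ + 1 := ⟨B - 1, by omega⟩
    obtain ⟨b₁, rfl⟩ : ∃ b₁, b = b₁ + 1 := ⟨b - 1, by omega⟩
    set F := fixCard σ with hF
    set ℓ := a % r with hℓ
    set a' := a / r with ha'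
    have hadec : a = a' * r + ℓ := (Nat.div_add_mod' a r).symm
    have hmod := fix_modEq σ hσ
    have hmod2 : a * (b₁ + 1) ≡ F [MOD r] := hcard ▸ hmod
    have hb : b₁ + 1 ≡ B₁ + 1 [MOD r] := ((Nat.modEq_iff_dvd' hBb).2 hdvd).symm
    have h3 : (B₁ + 1) * ℓ ≡ F [MOD r] := by
      have ha : a ≡ ℓ [MOD r] := (Nat.mod_modEq a r).symm
      have h4 : a * (b₁ + 1) ≡ ℓ * (B₁ + 1) [MOD r] := ha.mul hb
      rw [mul_comm (B₁ + 1)]
      exact h4.symm.trans hmod2
    obtain ⟨W, hW⟩ : ∃ W, F = (B₁ + 1) * ℓ + r * W := by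
      obtain ⟨W, hW⟩ := (Nat.modEq_iff_dvd' h1).1 h3
      exact ⟨W, by omega⟩
    have hWb : W ≤ (B₁ + 1) * a' := by
      have h4 : (B₁ + 1) * ℓ + r * W ≤ (B₁ + 1) * (a' * r + ℓ) := by
        rw [← hW, ← hadec]
        exact h2
      have h5 : r * W ≤ r * ((B₁ + 1) * a') := by nlinarith
      exact Nat.le_of_mul_le_mul_left h5 hrpos
    -- choose w
    obtain ⟨w, W₁, hw1, hw2, hW₁⟩ : ∃ w W₁, w ≤ a' ∧ W = w + W₁ ∧ W₁ ≤ B₁ * a' := by
      by_cases hle : W ≤ a'
      · exact ⟨W, 0, hle, rfl, Nat.zero_le _⟩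
      · refine ⟨a', W - a', le_rfl, by omega, ?_⟩
        have : (B₁ + 1) * a' = B₁ * a' + a' := by ring
        omega
    obtain ⟨k, hk⟩ : ∃ k, a' = w + k := ⟨a' - w, by omega⟩
    have hy : ℓ + r * w + k * r = a := by rw [hadec, hk]; ring
    have hF' : F = (ℓ + r * w) + (B₁ * ℓ + r * W₁) := by rw [hW, hw2]; ring
    have hF'le : B₁ * ℓ + r * W₁ ≤ B₁ * a := by
      have h5 : r * W₁ ≤ r * (B₁ * a') := Nat.mul_le_mul_left r hW₁
      have h6 : B₁ * a = r * (B₁ * a') + B₁ * ℓ := by
        conv_lhs => rw [hadec]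
        ring
      omega
    have hmoved : k * r ≤ (univ.filter (fun x => σ x ≠ x)).card := by
      have h7 : a * (b₁ + 1) = a * b₁ + a := by ring
      have h8 : B₁ * a ≤ a * b₁ := by
        rw [mul_comm]
        exact Nat.mul_le_mul_left a (by omega)
      rw [hcard] at hmv
      omega
    obtain ⟨Y₁, g, hinv, hmov, hYc, _, _⟩ := exists_cycles σ hσ k hmoved
    obtain ⟨Y₀, hY₀s, hY₀c⟩ := Finset.exists_subset_card_eq
      (show ℓ + r * w ≤ (univ.filter (fun x => σ x = x)).card by
        show ℓ + r * w ≤ fixCard σ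
        omega)
    have hfixY₀ : ∀ x ∈ Y₀, σ x = x := fun x hx => (mem_filter.mp (hY₀s hx)).2
    have hdisj : Disjoint Y₀ Y₁ := by
      rw [Finset.disjoint_left]
      intro x hx hx'
      exact hmov x hx' (hfixY₀ x hx)
    let Y := Y₀ ∪ Y₁
    have hYinv : ∀ x, x ∈ Y ↔ σ x ∈ Y := by
      intro x
      simp only [Y, mem_union]
      constructor
      · rintro (h | h)
        · left; rwa [hfixY₀ x h]
        · right; exact (hinv x).1 h
      · rintro (h | h)
        · left
          have e := hfixY₀ _ h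
          have e2 : σ x = x := σ.injective e
          rwa [e2] at h
        · right; exact (hinv x).2 h
    have hYcard : Y.card = a := by
      simp only [Y]
      rw [card_union_of_disjoint hdisj, hY₀c, hYc, hy]
    have hYfix : (Y.filter (fun x => σ x = x)).card = ℓ + r * w := by
      rw [← hY₀c]
      congr 1
      ext x
      simp only [Y, mem_filter, mem_union]
      constructor
      · rintro ⟨h | h, h2⟩
        · exact h
        · exact absurd h2 (hmov x h)
      · intro h
        exact ⟨Or.inl h, hfixY₀ x h⟩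
    have hcard' : Fintype.card {x // x ∉ Y} = a * b₁ := by
      rw [card_compl_sub, hcard, hYcard, mul_add, mul_one]
      omega
    have hfix' : fixCard (resP σ Y hYinv) = B₁ * ℓ + r * W₁ := by
      have := fix_restrict σ Y hYinv
      rw [hYfix] at this
      omega
    have hpart := ih b₁ (by omega) {x // x ∉ Y} (resP σ Y hYinv)
      (resP_pow_eq_one σ Y hYinv hσ) hcard' B₁ (by omega)
      (by simpa using hdvd)
      (by rw [hfix']; omega)
      (by rw [hfix']; exact hF'le)
    have := glue σ Y hYinv hpart (fun _ => ()) (1 : Perm Unit) (fun _ _ => rfl)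
      (fun c => by
        have : Y.filter (fun _ => () = c) = Y := by simp
        rw [this, hYcard])
    simpa using this

/-- **Necessity**: a partition gives the numerical condition. -/
theorem necess {X β : Type*} [Fintype X] [DecidableEq X] [Fintype β] [DecidableEq β] {a r : ℕ}
    [hr : Fact r.Prime] (ha : 0 < a) (σ : Perm X) (hσ : σ ^ r = 1) (f : X → β) (π : Perm β)
    (hfib : ∀ j, (univ.filter (fun x => f x = j)).card = a) (heq : ∀ x, f (σ x) = π (f x)) :
    ∃ B, B ≤ Fintype.card β ∧ r ∣ Fintype.card β - B ∧ B * (a % r) ≤ fixCard σ ∧ fixCard σ ≤ B * a := by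
  have hsurj : ∀ j, ∃ x, f x = j := by
    intro j
    have : 0 < (univ.filter (fun x => f x = j)).card := by rw [hfib]; exact ha
    obtain ⟨x, hx⟩ := Finset.card_pos.mp this
    exact ⟨x, (mem_filter.mp hx).2⟩
  have hpow : ∀ (n : ℕ) (x : X), f ((σ ^ n) x) = (π ^ n) (f x) := by
    intro n
    induction n with
    | zero => intro x; rfl
    | succ n ih =>
      intro x
      rw [pow_succ', Perm.mul_apply, heq, ih, pow_succ', Perm.mul_apply]
  have hπ : π ^ r = 1 := by
    ext j
    obtain ⟨x, rfl⟩ := hsurj j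
    rw [← hpow, hσ]
    rfl
  refine ⟨fixCard π, ?_, ?_, ?_⟩
  · exact Finset.card_le_univ _
  · exact (Nat.modEq_iff_dvd' (Finset.card_le_univ _)).1 (fix_modEq π hπ).symm
  -- fibre counts
  let y : β → ℕ := fun j => ((univ.filter (fun x => σ x = x)).filter (fun x => f x = j)).card
  have hsum : fixCard σ = ∑ j ∈ univ.filter (fun j => π j = j), y j := by
    have h1 : fixCard σ = ∑ j, y j :=
      Finset.card_eq_sum_card_fiberwise (fun x _ => Finset.mem_univ (f x))
    rw [h1]
    symm
    apply Finset.sum_subset (Finset.filter_subset _ _)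
    intro j _ hj
    simp only [mem_filter, mem_univ, true_and] at hj
    rw [Finset.card_eq_zero, Finset.filter_eq_empty_iff]
    intro x hx hfx
    apply hj
    have := heq x
    rw [(mem_filter.mp hx).2, hfx] at this
    exact this.symm
  have hbd : ∀ j ∈ univ.filter (fun j => π j = j), a % r ≤ y j ∧ y j ≤ a := by
    intro j hj
    have hj' : π j = j := (mem_filter.mp hj).2
    constructor
    · let Y : Finset X := univ.filter (fun x => f x ≠ j)
      have hY : ∀ x, x ∈ Y ↔ σ x ∈ Y := by
        intro x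
        simp only [Y, mem_filter, mem_univ, true_and, heq]
        constructor
        · intro h e
          apply h
          apply π.injective
          rw [e, hj']
        · intro h e
          apply h
          rw [e, hj']
      have h1 := fix_modEq (resP σ Y hY) (resP_pow_eq_one σ Y hY hσ)
      have h2 : Fintype.card {x // x ∉ Y} = a := by
        rw [← hfib j, Fintype.card_subtype]
        congr 1
        ext x
        simp [Y]
      have h3 : fixCard (resP σ Y hY) = y j := by
        have h4 := fix_restrict σ Y hY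
        have h5 : fixCard σ = (Y.filter (fun x => σ x = x)).card + y j := by
          rw [fixCard]
          have h6 : (univ.filter (fun x => σ x = x)) = Y.filter (fun x => σ x = x) ∪
              (univ.filter (fun x => σ x = x)).filter (fun x => f x = j) := by
            ext x
            simp only [Y, mem_filter, mem_univ, true_and, mem_union]
            tauto
          conv_lhs => rw [h6]
          rw [card_union_of_disjoint]
          rw [Finset.disjoint_left]
          intro x hx hx'
          exact (mem_filter.mp (mem_filter.mp hx).1).2 (mem_filter.mp hx').2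
        omega
      rw [h2, h3] at h1
      have h6 : a % r = y j % r := h1
      rw [h6]
      exact Nat.mod_le _ _
    · rw [← hfib j]
      apply Finset.card_le_card
      intro x hx
      simp only [mem_filter, mem_univ, true_and] at hx ⊢
      exact hx.2
  constructor
  · rw [hsum, fixCard, mul_comm]
    have := Finset.card_nsmul_le_sum (univ.filter (fun j => π j = j)) y (a % r)
      (fun j hj => (hbd j hj).1)
    simpa [mul_comm] using this
  · rw [hsum, fixCard]
    have := Finset.sum_le_card_nsmul (univ.filter (fun j => π j = j)) y a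
      (fun j hj => (hbd j hj).2)
    simpa using this

/-- model of a permutation with `c` cycles of length `r` and `f` fixed points -/
def shiftP (c f r : ℕ) : Perm ((Fin c × ZMod r) ⊕ Fin f) :=
  Equiv.sumCongr (Equiv.prodCongr (Equiv.refl _) (Equiv.addRight 1)) (Equiv.refl _)

lemma shift_inl {c f r : ℕ} (p : Fin c × ZMod r) :
    shiftP c f r (Sum.inl p) = Sum.inl (p.1, p.2 + 1) := rfl

lemma shift_inr {c f r : ℕ} (k : Fin f) : shiftP c f r (Sum.inr k) = Sum.inr k := rfl

lemma shift_pow_inl {c f r : ℕ} (n : ℕ) (p : Fin c × ZMod r) :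
    (shiftP c f r ^ n) (Sum.inl p) = Sum.inl (p.1, p.2 + (n : ZMod r)) := by
  induction n with
  | zero => simp
  | succ n ih =>
    rw [pow_succ', Perm.mul_apply, ih, shift_inl]
    simp [add_assoc]

lemma shift_pow_inr {c f r : ℕ} (n : ℕ) (k : Fin f) :
    (shiftP c f r ^ n) (Sum.inr k) = Sum.inr k := by
  induction n with
  | zero => simp
  | succ n ih => rw [pow_succ', Perm.mul_apply, ih, shift_inr]

/-- **Existence** of permutations with a given number of `r`-cycles. -/
theorem exists_perm {N c r : ℕ} [hr : Fact r.Prime] (hc : 1 ≤ c) (h : c * r ≤ N) :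
    ∃ σ : Perm (Fin N), orderOf σ = r ∧ fixCard σ = N - c * r := by
  have hT : Fintype.card ((Fin c × ZMod r) ⊕ Fin (N - c * r)) = N := by
    simp only [Fintype.card_sum, Fintype.card_prod, Fintype.card_fin, ZMod.card]
    omega
  let e : ((Fin c × ZMod r) ⊕ Fin (N - c * r)) ≃ Fin N := Fintype.equivFinOfCardEq hT
  let σ₀ := shiftP c (N - c * r) r
  have hr' := hr.out
  haveI : Fact (1 < r) := ⟨hr'.one_lt⟩
  have h1 : σ₀ ^ r = 1 := by
    ext y
    rcases y with p | k
    · simp only [σ₀]
      rw [shift_pow_inl]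
      simp
    · simp only [σ₀]
      rw [shift_pow_inr]
      simp
  have hfix : ∀ p : Fin c × ZMod r, σ₀ (Sum.inl p) ≠ Sum.inl p := by
    intro p e
    simp only [σ₀] at e
    rw [shift_inl] at e
    have e2 := congrArg Prod.snd (Sum.inl.inj e)
    simp only at e2
    exact one_ne_zero (add_left_cancel (a := p.2) (b := 1) (c := 0) (by rw [e2, add_zero]))
  have hfixr : ∀ k : Fin (N - c * r), σ₀ (Sum.inr k) = Sum.inr k := fun k => rfl
  have h2 : σ₀ ≠ 1 := by
    intro e
    have hc0 : 0 < c := hc
    exact hfix (⟨0, hc0⟩, 0) (by rw [e]; rfl)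
  have hord₀ : orderOf σ₀ = r := orderOf_eq_prime h1 h2
  refine ⟨e.permCongr σ₀, ?_, ?_⟩
  · exact (MulEquiv.orderOf_eq (Equiv.permCongrHom e) σ₀).trans hord₀
  · rw [fixCard, ← Fintype.card_subtype]
    have h3 : Fintype.card {x : Fin N // (e.permCongr σ₀) x = x} =
        Fintype.card {y : (Fin c × ZMod r) ⊕ Fin (N - c * r) // σ₀ y = y} := by
      apply Fintype.card_congr
      refine (Equiv.subtypeEquiv e.symm ?_)
      intro x
      simp only [Equiv.permCongr_apply]
      exact ⟨fun h => (e.symm_apply_eq.2 h.symm).symm, fun h => by rw [h]; simp⟩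
    rw [h3, Fintype.card_subtype]
    have h4 : (univ.filter (fun y : (Fin c × ZMod r) ⊕ Fin (N - c * r) => σ₀ y = y)) =
        univ.image (Sum.inr : Fin (N - c * r) → _) := by
      ext y
      simp only [mem_filter, mem_univ, true_and, mem_image]
      rcases y with p | k
      · simp [hfix p]
      · simp [hfixr k]
    rw [h4, card_image_of_injective _ Sum.inr_injective]
    simp

/-- numerical condition -/
def PC (a b r F : ℕ) : Prop := ∃ B, B ≤ b ∧ r ∣ b - B ∧ B * (a % r) ≤ F ∧ F ≤ B * a

/-- the right hand side -/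
def RHS (a b r : ℕ) : Prop :=
  r ≤ a ∧ (a % r = 0 ∨ (b % r = 0 ∧ a % r = 1) ∨
    (a % r ≠ 0 ∧ b % r ≠ 0 ∧ (b % r) * (a % r) < r ∧ (b < r ∨ (b % r + r) * (a % r) ≤ (b % r) * a + r)))

lemma mod_of_dvd_sub {r b B : ℕ} (h1 : B ≤ b) (h2 : r ∣ b - B) : B % r = b % r :=
  (Nat.modEq_iff_dvd' h1).2 h2

theorem arith_back {a b r : ℕ} (hr : r.Prime) (ha : 2 ≤ a) (h : RHS a b r) (F : ℕ)
    (hF1 : F ≡ a * b [MOD r]) (hF2 : F ≤ a * b) : PC a b r F := by
  unfold PC
  unfold RHS at h
  have hrpos := hr.pos
  obtain ⟨hra, hc⟩ := h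
  set ℓ := a % r with hℓ
  set k := b % r with hk
  set q := b / r with hq
  have hbdec : b = q * r + k := (Nat.div_add_mod' b r).symm
  have hadec : a = (a / r) * r + ℓ := (Nat.div_add_mod' a r).symm
  have hℓlt : ℓ < r := Nat.mod_lt _ hrpos
  have hℓa : ℓ ≤ a := Nat.mod_le _ _
  rcases hc with h0 | ⟨h0, h1⟩ | ⟨h0, h1, h2, h3⟩
  · -- ℓ = 0
    refine ⟨b, le_rfl, by simp, by rw [h0]; simp, by rw [mul_comm]; exact hF2⟩
  · -- k = 0, ℓ = 1
    have hbr : b = q * r := by omega
    have hrF : r ∣ F := by
      have h2 : r ∣ a * b := Dvd.dvd.mul_left (by rw [hbr]; exact Dvd.intro_left q rfl) a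
      exact (Nat.modEq_zero_iff_dvd).1 (hF1.trans ((Nat.modEq_zero_iff_dvd).2 h2))
    obtain ⟨m, rfl⟩ := hrF
    by_cases hmq : m ≤ q
    · refine ⟨m * r, ?_, ?_, ?_, ?_⟩
      · rw [hbr]; exact Nat.mul_le_mul_right r hmq
      · rw [hbr, ← Nat.sub_mul]; exact Dvd.intro_left _ rfl
      · rw [h1, mul_one, mul_comm]
      · rw [mul_comm r m]
        calc m * r = m * r * 1 := by ring
          _ ≤ m * r * a := Nat.mul_le_mul_left _ (by omega)
    · refine ⟨q * r, by omega, by rw [← hbr]; simp, ?_, ?_⟩
      · rw [h1, mul_one, mul_comm q]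
        exact Nat.mul_le_mul_left r (by omega)
      · rw [← hbr, mul_comm b]
        exact hF2
  · -- both nonzero
    have hℓpos : 0 < ℓ := Nat.pos_of_ne_zero h0
    have hkpos : 0 < k := Nat.pos_of_ne_zero h1
    have hmodab : (a * b) % r = k * ℓ := by
      rw [Nat.mul_mod, ← hℓ, ← hk, mul_comm]
      exact Nat.mod_eq_of_lt h2
    have hFmod : F % r = k * ℓ := by rw [hF1, hmodab]
    obtain ⟨m, hm⟩ : ∃ m, F = k * ℓ + r * m := ⟨F / r, by rw [← hFmod]; exact (Nat.mod_add_div F r).symm⟩
    obtain ⟨j, hjq, hjm, hj⟩ : ∃ j, j ≤ q ∧ j * ℓ ≤ m ∧ (j = q ∨ m < (j + 1) * ℓ) := by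
      by_cases hc : m / ℓ ≤ q
      · refine ⟨m / ℓ, hc, Nat.div_mul_le_self m ℓ, Or.inr ?_⟩
        rw [mul_comm]
        exact Nat.lt_mul_div_succ m hℓpos
      · refine ⟨q, le_rfl, ?_, Or.inl rfl⟩
        have : q * ℓ ≤ m / ℓ * ℓ := Nat.mul_le_mul_right ℓ (by omega)
        exact this.trans (Nat.div_mul_le_self m ℓ)
    refine ⟨k + j * r, ?_, ?_, ?_, ?_⟩
    · rw [hbdec]
      have := Nat.mul_le_mul_right r hjq
      omega
    · have : b - (k + j * r) = (q - j) * r := by
        rw [Nat.sub_mul]
        omega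
      rw [this]
      exact Dvd.intro_left _ rfl
    · rw [hm]
      have : (k + j * r) * ℓ = k * ℓ + r * (j * ℓ) := by ring
      rw [this]
      exact Nat.add_le_add_left (Nat.mul_le_mul_left r hjm) _
    · by_cases hjq' : j = q
      · have : k + j * r = b := by rw [hjq']; omega
        rw [this, mul_comm]
        exact hF2
      · have hj := hj.resolve_left hjq'
        have hq1 : 1 ≤ q := by omega
        have hbr : r ≤ b := by
          rw [hbdec]
          nlinarith
        have h3' : (k + r) * ℓ ≤ k * a + r := by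
          rcases h3 with h3 | h3
          · omega
          · exact h3
        have hm1 : m + 1 ≤ (j + 1) * ℓ := hj
        have key : k * ℓ + r * (m + 1) ≤ k * ℓ + r * ((j + 1) * ℓ) :=
          Nat.add_le_add_left (Nat.mul_le_mul_left r hm1) _
        have key2 : r * (j * ℓ) ≤ r * (j * a) :=
          Nat.mul_le_mul_left r (Nat.mul_le_mul_left j hℓa)
        rw [hm]
        nlinarith

theorem arith_forward {a b r : ℕ} (hr : r.Prime) (ha : 2 ≤ a) (hb : 2 ≤ b) (hrab : r ≤ a * b)
    (h : ∀ c, 1 ≤ c → c * r ≤ a * b → PC a b r (a * b - c * r)) : RHS a b r := by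
  unfold PC at h
  unfold RHS
  have hrpos := hr.pos
  have hr2 := hr.two_le
  set ℓ := a % r with hℓ
  set k := b % r with hk
  set q := b / r with hq
  have hbdec : b = q * r + k := (Nat.div_add_mod' b r).symm
  have hadec : a = (a / r) * r + ℓ := (Nat.div_add_mod' a r).symm
  have hℓlt : ℓ < r := Nat.mod_lt _ hrpos
  have hklt : k < r := Nat.mod_lt _ hrpos
  have hBk : ∀ B, B ≤ b → r ∣ b - B → ∃ j, B = k + j * r := by
    intro B h1 h2
    have h3 : B % r = k := mod_of_dvd_sub h1 h2
    exact ⟨B / r, by rw [← h3]; exact (Nat.mod_add_div' B r).symm⟩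
  have hra : r ≤ a := by
    by_contra hlt
    push Not at hlt
    have hl : ℓ = a := Nat.mod_eq_of_lt hlt
    obtain ⟨B, hBb, _, h1, h2⟩ := h 1 le_rfl (by omega)
    rw [hl] at h1
    have e : a * (b - B) = r := by
      rw [Nat.mul_sub, mul_comm a B]
      omega
    rcases (Nat.dvd_prime hr).1 ⟨_, e.symm⟩ with h3 | h3 <;> omega
  refine ⟨hra, ?_⟩
  by_cases h0 : ℓ = 0
  · exact Or.inl h0
  right
  have ha1 : 1 ≤ a / r := Nat.div_pos hra hrpos
  have hℓpos : 0 < ℓ := Nat.pos_of_ne_zero h0
  by_cases hk0 : k = 0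
  · left
    refine ⟨hk0, ?_⟩
    by_contra hne
    have hℓ2 : 2 ≤ ℓ := by omega
    have hq1 : 1 ≤ q := by
      rcases Nat.eq_zero_or_pos q with h' | h'
      · rw [h'] at hbdec
        simp only [zero_mul, zero_add] at hbdec
        omega
      · exact h'
    have hb' : b = q * r := by omega
    have hab : a * b = a * q * r := by rw [hb']; ring
    have haq : 2 ≤ a * q := by nlinarith
    obtain ⟨B, hBb, hd, h1, h2⟩ := h (a * q - 1) (by omega)
      (by rw [hab]; exact Nat.mul_le_mul_right r (by omega))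
    have e : a * b - (a * q - 1) * r = r := by
      rw [hab, Nat.sub_mul]
      have : a * q * r - (a * q * r - 1 * r) = 1 * r := by
        apply Nat.sub_sub_self
        exact Nat.mul_le_mul_right r (by omega)
      omega
    rw [e] at h1 h2
    obtain ⟨j, rfl⟩ := hBk B hBb hd
    rw [hk0] at h1 h2
    rcases Nat.eq_zero_or_pos j with rfl | hj
    · simp at h2
      omega
    · have h3 : r * 2 ≤ (0 + j * r) * ℓ := by
        have : (0 + j * r) * ℓ = r * (j * ℓ) := by ring
        rw [this]
        exact Nat.mul_le_mul_left r (by nlinarith)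
      omega
  · right
    have hkpos : 0 < k := Nat.pos_of_ne_zero hk0
    have hklr : k * ℓ < r := by
      by_contra hcon
      push Not at hcon
      have hc1 : 1 ≤ a * b / r := Nat.div_pos hrab hrpos
      obtain ⟨B, hBb, hd, h1, _⟩ := h (a * b / r) hc1 (Nat.div_mul_le_self _ _)
      have e : a * b - a * b / r * r = a * b % r := by
        have := Nat.mod_add_div' (a * b) r
        omega
      rw [e] at h1
      have h3 : a * b % r < r := Nat.mod_lt _ hrpos
      obtain ⟨j, rfl⟩ := hBk B hBb hd
      have h4 : k * ℓ ≤ (k + j * r) * ℓ := Nat.mul_le_mul_right ℓ (by omega)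
      omega
    refine ⟨h0, hk0, hklr, ?_⟩
    by_contra hcon
    rw [not_or] at hcon
    obtain ⟨hbr, hbig⟩ := hcon
    push Not at hbr hbig
    have hq1 : 1 ≤ q := Nat.div_pos hbr hrpos
    have hab : a * b = a * q * r + k * a := by
      conv_lhs => rw [hbdec]
      ring
    have haq : 2 ≤ a * q := by nlinarith
    obtain ⟨B, hBb, hd, h1, h2⟩ := h (a * q - 1) (by omega)
      (by rw [hab]; have := Nat.mul_le_mul_right r (show a * q - 1 ≤ a * q by omega); omega)
    have e : a * b - (a * q - 1) * r = k * a + r := by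
      have h5 : (a * q - 1) * r + r = a * q * r := by
        rw [← Nat.succ_mul]
        congr 1
        omega
      rw [hab]
      omega
    rw [e] at h1 h2
    obtain ⟨j, rfl⟩ := hBk B hBb hd
    rcases Nat.eq_zero_or_pos j with rfl | hj
    · simp only [zero_mul, add_zero] at h2
      omega
    · have h3 : (k + r) * ℓ ≤ (k + j * r) * ℓ :=
        Nat.mul_le_mul_right ℓ (by nlinarith)
      omega

end Cfsg.Agent.Lib.Perm.PartFixB
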