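import Mathlib
import Cfsg.Agent.Lib.Perm.SpWrB
import Cfsg.Prelude.Def_Transfer

/-!
# Normal 2-rank of Sylow 2-subgroups of `Sp_{2n}(q)`
-/

set_option autoImplicit false
set_option linter.unusedSimpArgs false
set_option linter.unusedVariables false

namespace Cfsg.Agent.Lib.Perm.SpWr

open Matrix Equiv Cfsg.Agent.Lib.Known
open scoped commutatorElement

section rank

variable {F : Type*} [Field F] {n : ℕ}
variable {Q A : Subgroup (SL2 F)} {y w : SL2 F} {a : ℕ} {T : Subgroup (Perm (Fin n))}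

/-- The subgroup of central diagonal elements. -/
def E0 (D : QData Q A y w (sl2M1 F) a) (T : Subgroup (Perm (Fin n))) : Subgroup (WW Q T) where
  carrier := {x | ∃ h : Fin n → SL2 F, (∀ j, h j = 1 ∨ h j = sl2M1 F) ∧ (x : Matrix.symplecticGroup (Fin n) F) = spMap h 1}
  mul_mem' := by
    rintro x x' ⟨h, hh, hx⟩ ⟨k, hk, hx'⟩
    refine ⟨fun j => h j * k j, fun j => ?_, ?_⟩
    · show h j * k j = 1 ∨ h j * k j = sl2M1 F
      rcases hh j with e | e <;> rcases hk j with e' | e' <;> rw [e, e'] <;> simp [D.hzz]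
    · rw [Subgroup.coe_mul, hx, hx', spMap_mul]
      simp
  one_mem' := ⟨fun _ => 1, fun _ => Or.inl rfl, spMap_one.symm⟩
  inv_mem' := by
    rintro x ⟨h, hh, hx⟩
    refine ⟨fun j => (h j)⁻¹, fun j => ?_, ?_⟩
    · show (h j)⁻¹ = 1 ∨ (h j)⁻¹ = sl2M1 F
      rcases hh j with e | e
      · left; rw [e, inv_one]
      · right
        rw [e]
        exact inv_eq_of_mul_eq_one_left D.hzz
    · rw [Subgroup.coe_inv, hx, spMap_inv]
      simp

theorem z_mem_Q (D : QData Q A y w (sl2M1 F) a) : sl2M1 F ∈ Q := D.A_le D.z_mem_A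

theorem card_E0 [Finite F] (D : QData Q A y w (sl2M1 F) a) (T : Subgroup (Perm (Fin n))) :
    Nat.card (E0 D T) = 2 ^ n := by
  classical
  have hmem : ∀ u : Fin n → Bool, spMap (fun j => if u j then sl2M1 F else 1) 1 ∈ WW Q T := by
    intro u
    refine ⟨_, 1, fun j => ?_, T.one_mem, rfl⟩
    by_cases h : u j
    · simpa [h] using z_mem_Q D
    · simpa [h] using Q.one_mem
  have hbij : Function.Bijective (fun u : Fin n → Bool =>
      (⟨⟨spMap (fun j => if u j then sl2M1 F else 1) 1, hmem u⟩,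
        ⟨fun j => if u j then sl2M1 F else 1, fun j => by by_cases h : u j <;> simp [h], rfl⟩⟩ : E0 D T)) := by
    constructor
    · intro u v e
      have e1 := congrArg (fun x : E0 D T => ((x : WW Q T) : Matrix.symplecticGroup (Fin n) F)) e
      obtain ⟨e2, -⟩ := spMap_inj e1
      funext j
      have e3 := congrFun e2 j
      by_contra hne
      by_cases h : u j
      · have hv : v j = false := by
          cases hv : v j
          · rfl
          · exact absurd (h.trans hv.symm) hne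
        simp [h, hv] at e3
        exact D.hz1 e3
      · have hu : u j = false := by simpa using h
        have hv : v j = true := by
          cases hv : v j
          · exact absurd (hu.trans hv.symm) hne
          · rfl
        simp [hu, hv] at e3
        exact D.hz1 e3.symm
    · rintro ⟨⟨x, hx⟩, h, hh, e⟩
      refine ⟨fun j => decide (h j = sl2M1 F), ?_⟩
      apply Subtype.ext
      apply Subtype.ext
      change spMap _ 1 = x
      change x = spMap h 1 at e
      rw [e]
      congr 1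
      funext j
      by_cases hj : h j = sl2M1 F
      · simp [hj]
      · have h1 := (hh j).resolve_right hj
        have h3 : decide (h j = sl2M1 F) = false := decide_eq_false hj
        show (if decide (h j = sl2M1 F) = true then sl2M1 F else 1) = h j
        rw [h3, h1]
        simp
  rw [← Nat.card_congr (Equiv.ofBijective _ hbij), Nat.card_fun]
  simp

theorem E0_normal (D : QData Q A y w (sl2M1 F) a) (T : Subgroup (Perm (Fin n))) : (E0 D T).Normal := by
  constructor
  rintro x ⟨h, hh, hx⟩ ⟨_, k, σ, hk, hσ, rfl⟩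
  refine ⟨fun j => h (σ⁻¹ j), fun j => hh _, ?_⟩
  simp only [Subgroup.coe_mul, Subgroup.coe_inv, hx]
  rw [spMap_inv, spMap_mul, spMap_mul]
  congr 1
  · funext j
    show k (σ⁻¹ j) * h (σ⁻¹ j) * (k (σ⁻¹ j))⁻¹ = h (σ⁻¹ j)
    rcases hh (σ⁻¹ j) with e | e <;> rw [e]
    · group
    · rw [D.hzc, mul_assoc, mul_inv_cancel, mul_one]
  · simp

theorem E0_elem (D : QData Q A y w (sl2M1 F) a) (T : Subgroup (Perm (Fin n))) :
    Cfsg.IsElementaryAbelian 2 (E0 D T) := by
  have hsq : ∀ x ∈ E0 D T, x ^ 2 = 1 := by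
    rintro x ⟨h, hh, hx⟩
    apply Subtype.ext
    rw [pow_two, Subgroup.coe_mul, hx, spMap_mul, Subgroup.coe_one]
    rw [← spMap_one]
    congr 1
    funext j
    show h j * h j = 1
    rcases hh j with e | e
    · simp [e]
    · simp [e, D.hzz]
  refine ⟨⟨⟨?_⟩⟩, hsq⟩
  rintro ⟨x, hx⟩ ⟨x', hx'⟩
  apply Subtype.ext
  have h1 := hsq x hx
  have h2 := hsq x' hx'
  have h3 := hsq (x * x') (Subgroup.mul_mem _ hx hx')
  rw [pow_two] at h1 h2 h3
  show x * x' = x' * x
  calc x * x' = x * x' * (x * x') * (x' * x) := by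
        have e : x * x' * (x * x') * (x' * x) = x * x' * ((x * x') * (x' * x)) := by group
        rw [e]
        have e2 : (x * x') * (x' * x) = x * (x' * x') * x := by group
        rw [e2, h2, mul_one, h1, mul_one]
    _ = x' * x := by rw [h3, one_mul]

theorem le_E0 (D : QData Q A y w (sl2M1 F) a) [Fact ((2 : F) ≠ 0)] {E : Subgroup (WW Q T)} (hE : E.Normal)
    (hel : Cfsg.IsElementaryAbelian 2 E) : E ≤ E0 D T := by
  classical
  rintro ⟨_, g, σ, hg, hσ, rfl⟩ hx
  set x : WW Q T := ⟨spMap g σ, g, σ, hg, hσ, rfl⟩ with hxdef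
  have hσ1 : σ = 1 := by
    by_contra hne
    obtain ⟨i, hi⟩ : ∃ i, σ i ≠ i := by
      by_contra h
      push Not at h
      exact hne (Equiv.ext h)
    set b' : Fin n → SL2 F := Pi.mulSingle i y with hb'
    have hbW : spMap b' 1 ∈ WW Q T := sHom_mem (D.A_le D.hy)
    set b : WW Q T := ⟨spMap b' 1, hbW⟩ with hbdef
    have hc : x * (b * x⁻¹ * b⁻¹) ∈ E := E.mul_mem hx (hE.conj_mem _ (E.inv_mem hx) b)
    have hcsq := hel.2 _ hc
    set c : Fin n → SL2 F := fun j => g (σ⁻¹ j) * (b' (σ⁻¹ j) * (g (σ⁻¹ j))⁻¹ * (b' j)⁻¹) with hcdef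
    have hval : ((x * (b * x⁻¹ * b⁻¹) : WW Q T) : Matrix.symplecticGroup (Fin n) F) = spMap c 1 := by
      show spMap g σ * (spMap b' 1 * (spMap g σ)⁻¹ * (spMap b' 1)⁻¹) = _
      rw [spMap_inv, spMap_inv, spMap_mul, spMap_mul, spMap_mul]
      congr 1
      simp
    have e1 : spMap c 1 * spMap c 1 = (1 : Matrix.symplecticGroup (Fin n) F) := by
      have := congrArg Subtype.val hcsq
      rw [pow_two, Subgroup.coe_mul, hval] at this
      exact this
    rw [spMap_mul, ← spMap_one] at e1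
    obtain ⟨e2, -⟩ := spMap_inj e1
    have e3 := congrFun e2 i
    have hne2 : σ⁻¹ i ≠ i := by
      intro h
      apply hi
      conv_lhs => rw [← h]
      simp
    have e4 : c i = y⁻¹ := by
      simp only [hcdef, hb']
      rw [Pi.mulSingle_eq_of_ne hne2, Pi.mulSingle_eq_same]
      simp
    simp only [Perm.one_apply] at e3
    rw [e4] at e3
    apply D.y_sq_ne
    have e5 : y⁻¹ * y⁻¹ = 1 := e3
    have e6 := congrArg (fun t => (t)⁻¹) e5
    simpa using e6
  subst hσ1
  have hsq := hel.2 _ hx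
  have e1 : (spMap g 1 : Matrix.symplecticGroup (Fin n) F) * spMap g 1 = 1 := by
    have := congrArg Subtype.val hsq
    rwa [pow_two] at this
  rw [spMap_mul, ← spMap_one] at e1
  obtain ⟨e2, -⟩ := spMap_inj e1
  refine ⟨g, fun j => ?_, rfl⟩
  have e3 : g j * g j = 1 := by simpa using congrFun e2 j
  exact sl2_sq_one_odd (Fact.out) e3

/-- The normal 2-rank. -/
theorem normal_rank [Finite F] (D : QData Q A y w (sl2M1 F) a) (h2 : (2 : F) ≠ 0) (T : Subgroup (Perm (Fin n))) :
    (∃ E : Subgroup (WW Q T), E.Normal ∧ Cfsg.IsElementaryAbelian 2 E ∧ 2 ^ n ≤ Nat.card E) ∧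
      ∀ E : Subgroup (WW Q T), E.Normal → Cfsg.IsElementaryAbelian 2 E → Nat.card E ≤ 2 ^ n := by
  haveI : Fact ((2 : F) ≠ 0) := ⟨h2⟩
  refine ⟨⟨E0 D T, E0_normal D T, E0_elem D T, (card_E0 D T).ge⟩, fun E hE hel => ?_⟩
  rw [← card_E0 D T]
  exact Subgroup.card_le_of_le (le_E0 D hE hel)

end rank

end Cfsg.Agent.Lib.Perm.SpWr
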