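import Mathlib
import Cfsg.Agent.Lib.Perm.SpWrD

/-!
# Derived length of Sylow 2-subgroups of `Sp_{2n}(q)`: the two bounds
-/

set_option autoImplicit false
set_option linter.unusedSimpArgs false
set_option linter.unusedVariables false

namespace Cfsg.Agent.Lib.Perm.SpWr

open Matrix Equiv Cfsg.Agent.Lib.Known Cfsg.Agent.Lib.Misc19.SymSylow
open scoped commutatorElement

section upper

variable {F : Type*} [Field F] {n : ℕ}

theorem WW_comm1 (Q : Subgroup (SL2 F)) (T A : Subgroup (Perm (Fin n))) :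
    ⁅WW Q A, WW Q A⁆ ≤ WW Q ⁅A, A⁆ := by
  rw [Subgroup.commutator_le]
  rintro _ ⟨g, σ, hg, hσ, rfl⟩ _ ⟨h, τ, hh, hτ, rfl⟩
  rw [commutatorElement_def, spMap_inv, spMap_inv, spMap_mul, spMap_mul, spMap_mul]
  refine ⟨_, _, fun j => ?_, ?_, rfl⟩
  · repeat' first
      | exact hg _
      | exact hh _
      | apply Q.mul_mem
      | apply Q.inv_mem
  · rw [← commutatorElement_def]
    exact Subgroup.commutator_mem_commutator hσ hτ

theorem WW_comm2 (Q : Subgroup (SL2 F)) :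
    ⁅WW Q (⊥ : Subgroup (Perm (Fin n))), WW Q (⊥ : Subgroup (Perm (Fin n)))⁆ ≤ WW ⁅Q, Q⁆ (⊥ : Subgroup (Perm (Fin n))) := by
  rw [Subgroup.commutator_le]
  rintro _ ⟨g, σ, hg, hσ, rfl⟩ _ ⟨h, τ, hh, hτ, rfl⟩
  rw [Subgroup.mem_bot] at hσ hτ
  subst hσ hτ
  rw [commutatorElement_def, spMap_inv, spMap_inv, spMap_mul, spMap_mul, spMap_mul]
  refine ⟨_, _, fun j => ?_, by simp, rfl⟩
  simp only [inv_one, Perm.one_apply, mul_one]
  have := Subgroup.commutator_mem_commutator (hg j) (hh j)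
  rw [commutatorElement_def] at this
  exact this

theorem WW_bot : WW (⊥ : Subgroup (SL2 F)) (⊥ : Subgroup (Perm (Fin n))) = ⊥ := by
  rw [eq_bot_iff]
  rintro _ ⟨g, σ, hg, hσ, rfl⟩
  rw [Subgroup.mem_bot] at hσ
  subst hσ
  have : g = fun _ => 1 := funext fun j => Subgroup.mem_bot.1 (hg j)
  subst this
  rw [Subgroup.mem_bot]
  exact spMap_one

theorem dS_WW_le (Q : Subgroup (SL2 F)) (T : Subgroup (Perm (Fin n))) (k : ℕ) : dS (WW Q T) k ≤ WW Q (dS T k) := by
  induction k with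
  | zero => exact le_rfl
  | succ k ih => exact (Subgroup.commutator_mono ih ih).trans (WW_comm1 Q T _)

theorem dS_WW_top {Q : Subgroup (SL2 F)} {T : Subgroup (Perm (Fin n))} {L : ℕ} (hT : dS T L = ⊥)
    (hQ : ⁅⁅Q, Q⁆, ⁅Q, Q⁆⁆ = ⊥) : dS (WW Q T) (L + 2) = ⊥ := by
  have h0 := dS_WW_le Q T L
  rw [hT] at h0
  have h1 : dS (WW Q T) (L + 1) ≤ WW ⁅Q, Q⁆ (⊥ : Subgroup (Perm (Fin n))) :=
    (Subgroup.commutator_mono h0 h0).trans (WW_comm2 Q)
  have h2 : dS (WW Q T) (L + 2) ≤ WW ⁅⁅Q, Q⁆, ⁅Q, Q⁆⁆ (⊥ : Subgroup (Perm (Fin n))) :=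
    (Subgroup.commutator_mono h1 h1).trans (WW_comm2 _)
  rw [hQ, WW_bot] at h2
  exact le_bot_iff.1 h2

end upper

section lower

variable {F : Type*} [Field F] {n : ℕ}

/-- The elements supported on a set of coordinates. -/
def Supp (C : Finset (Fin n)) : Subgroup (Matrix.symplecticGroup (Fin n) F) where
  carrier := {x | ∃ g σ, x = spMap g σ ∧ ∀ j, j ∉ C → g j = 1 ∧ σ j = j}
  mul_mem' := by
    rintro _ _ ⟨g, σ, rfl, hg⟩ ⟨h, τ, rfl, hh⟩
    refine ⟨_, _, spMap_mul _ _ _ _, fun j hj => ?_⟩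
    have h1 := hg j hj
    have h2 := hh j hj
    constructor
    · show g (τ j) * h j = 1
      rw [h2.2, h1.1, h2.1, one_mul]
    · show σ (τ j) = j
      rw [h2.2, h1.2]
  one_mem' := ⟨fun _ => 1, 1, spMap_one.symm, fun j _ => ⟨rfl, rfl⟩⟩
  inv_mem' := by
    rintro _ ⟨g, σ, rfl, hg⟩
    refine ⟨_, _, spMap_inv _ _, fun j hj => ?_⟩
    have h1 := hg j hj
    have h3 : σ⁻¹ j = j := by
      rw [Perm.inv_eq_iff_eq]
      exact h1.2.symm
    constructor
    · show (g (σ⁻¹ j))⁻¹ = 1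
      rw [h3, h1.1, inv_one]
    · exact h3

theorem Supp_mono {C C' : Finset (Fin n)} (h : C ⊆ C') : Supp (F := F) C ≤ Supp C' := by
  rintro x ⟨g, σ, e, hg⟩
  exact ⟨g, σ, e, fun j hj => hg j (fun hh => hj (h hh))⟩

theorem supp_stable {σ : Perm (Fin n)} {C : Finset (Fin n)} (h : ∀ j, j ∉ C → σ j = j) {j : Fin n} (hj : j ∈ C) :
    σ j ∈ C := by
  by_contra hc
  have := h _ hc
  have e : σ j = j := σ.injective this
  rw [e] at hc
  exact hc hj

theorem Supp_comm {C₁ C₂ : Finset (Fin n)} (hd : Disjoint C₁ C₂) {x x' : Matrix.symplecticGroup (Fin n) F}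
    (hx : x ∈ Supp C₁) (hx' : x' ∈ Supp C₂) : x * x' = x' * x := by
  obtain ⟨g, σ, rfl, hg⟩ := hx
  obtain ⟨h, τ, rfl, hh⟩ := hx'
  have hnot : ∀ j, j ∈ C₁ → j ∉ C₂ := fun j h1 h2 => (Finset.disjoint_left.1 hd) h1 h2
  have hnot' : ∀ j, j ∈ C₂ → j ∉ C₁ := fun j h2 h1 => (Finset.disjoint_left.1 hd) h1 h2
  rw [spMap_mul, spMap_mul]
  have hcomm : σ * τ = τ * σ := by
    ext j
    simp only [Perm.mul_apply]
    congr 1
    by_cases h1 : j ∈ C₁
    · have h2 := hh j (hnot j h1)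
      have h3 := supp_stable (fun k hk => (hg k hk).2) h1
      rw [h2.2, (hh _ (hnot _ h3)).2]
    · rw [(hg j h1).2]
      by_cases h2 : j ∈ C₂
      · have h3 := supp_stable (fun k hk => (hh k hk).2) h2
        rw [(hg _ (hnot' _ h3)).2]
      · rw [(hh j h2).2, (hg j h1).2]
  rw [hcomm]
  congr 1
  funext j
  by_cases h1 : j ∈ C₁
  · have h2 := hh j (hnot j h1)
    have h3 := supp_stable (fun k hk => (hg k hk).2) h1
    rw [h2.2, h2.1, (hh _ (hnot _ h3)).1]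
    simp
  · rw [(hg j h1).2, (hg j h1).1]
    by_cases h2 : j ∈ C₂
    · have h3 := supp_stable (fun k hk => (hh k hk).2) h2
      rw [(hg _ (hnot' _ h3)).1]
      simp
    · rw [(hh j h2).2, (hh j h2).1, (hg j h1).1]

theorem Supp_disj {C₁ C₂ : Finset (Fin n)} (hd : Disjoint C₁ C₂) {x : Matrix.symplecticGroup (Fin n) F}
    (hx : x ∈ Supp C₁) (hx' : x ∈ Supp C₂) : x = 1 := by
  obtain ⟨g, σ, rfl, hg⟩ := hx
  obtain ⟨h, τ, e, hh⟩ := hx'
  obtain ⟨e1, e2⟩ := spMap_inj e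
  subst e1 e2
  have hall : ∀ j, g j = 1 ∧ σ j = j := by
    intro j
    by_cases h1 : j ∈ C₁
    · exact hh j (fun h2 => (Finset.disjoint_left.1 hd) h1 h2)
    · exact hg j h1
  have e3 : g = fun _ => 1 := funext fun j => (hall j).1
  have e4 : σ = 1 := Equiv.ext fun j => (hall j).2
  rw [e3, e4]
  exact spMap_one

theorem conj_Supp {C₁ C₂ : Finset (Fin n)} {π : Perm (Fin n)} (hπ : ∀ j ∈ C₁, π j ∈ C₂)
    {x : Matrix.symplecticGroup (Fin n) F} (hx : x ∈ Supp C₁) :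
    spMap (fun _ => 1) π * x * (spMap (fun _ => 1) π)⁻¹ ∈ Supp C₂ := by
  obtain ⟨g, σ, rfl, hg⟩ := hx
  rw [spMap_inv, spMap_mul, spMap_mul]
  refine ⟨_, _, rfl, fun j hj => ?_⟩
  have h1 : π⁻¹ j ∉ C₁ := by
    intro h
    have := hπ _ h
    simp at this
    exact hj this
  have h2 := hg _ h1
  constructor
  · show (1 * g (π⁻¹ j)) * (1)⁻¹ = 1
    rw [h2.1]
    simp
  · show π (σ (π⁻¹ j)) = j
    rw [h2.2]
    simp

/-- An involution interchanging two disjoint sets of equal size. -/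
theorem exists_swap_perm {C₁ C₂ : Finset (Fin n)} (hd : Disjoint C₁ C₂) (hc : C₁.card = C₂.card) :
    ∃ π : Perm (Fin n), π * π = 1 ∧ (∀ j ∈ C₁, π j ∈ C₂) ∧ (∀ j ∈ C₂, π j ∈ C₁) ∧ ∀ j, j ∉ C₁ → j ∉ C₂ → π j = j := by
  classical
  let e : C₁ ≃ C₂ := Finset.equivOfCardEq hc
  have hnot : ∀ j, j ∈ C₂ → j ∉ C₁ := fun j h2 h1 => (Finset.disjoint_left.1 hd) h1 h2
  let f : Fin n → Fin n := fun x =>
    if h : x ∈ C₁ then (e ⟨x, h⟩ : Fin n) else if h : x ∈ C₂ then (e.symm ⟨x, h⟩ : Fin n) else x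
  have f1 : ∀ x (h : x ∈ C₁), f x = e ⟨x, h⟩ := fun x h => by simp [f, h]
  have f2 : ∀ x (h : x ∈ C₂), f x = e.symm ⟨x, h⟩ := fun x h => by simp [f, h, hnot x h]
  have f3 : ∀ x, x ∉ C₁ → x ∉ C₂ → f x = x := fun x h h' => by simp [f, h, h']
  have hf : Function.Involutive f := by
    intro x
    by_cases h1 : x ∈ C₁
    · rw [f1 x h1, f2 _ (e ⟨x, h1⟩).2]
      simp
    · by_cases h2 : x ∈ C₂
      · rw [f2 x h2, f1 _ (e.symm ⟨x, h2⟩).2]
        simp
      · rw [f3 x h1 h2, f3 x h1 h2]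
  refine ⟨hf.toPerm, ?_, ?_, ?_, ?_⟩
  · ext x
    simp only [Perm.mul_apply, Function.Involutive.coe_toPerm, Perm.one_apply]
    rw [hf x]
  · intro j hj
    show f j ∈ C₂
    rw [f1 j hj]
    exact (e _).2
  · intro j hj
    show f j ∈ C₁
    rw [f2 j hj]
    exact (e.symm _).2
  · intro j h1 h2
    exact f3 j h1 h2

variable [Finite F]

/-- Towers of wreath products. -/
theorem exists_tower {Q A : Subgroup (SL2 F)} {y w : SL2 F} {a : ℕ} (D : QData Q A y w (sl2M1 F) a) (L : ℕ) :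
    ∀ C : Finset (Fin n), C.card = 2 ^ L →
      ∃ V : Subgroup (Matrix.symplecticGroup (Fin n) F), IsPGroup 2 V ∧ V ≤ Supp C ∧ dS V (L + 1) ≠ ⊥ := by
  classical
  haveI hp : Fact (Nat.Prime 2) := ⟨Nat.prime_two⟩
  have hQp : IsPGroup 2 Q := IsPGroup.of_card (n := a + 1) (by rw [D.hcard, pow_succ']; )
  induction L with
  | zero =>
    intro C hC
    rw [pow_zero] at hC
    obtain ⟨i, rfl⟩ := Finset.card_eq_one.1 hC
    refine ⟨Q.map (sHom i), hQp.map _, ?_, ?_⟩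
    · rintro _ ⟨q, hq, rfl⟩
      refine ⟨_, _, sHom_apply i q, fun j hj => ⟨?_, rfl⟩⟩
      apply Pi.mulSingle_eq_of_ne
      simpa using hj
    · intro h0
      have e1 : dS (Q.map (sHom (F := F) i)) 1 = ⁅Q, Q⁆.map (sHom i) := by
        rw [dS_succ, dS_zero, Subgroup.map_commutator]
      rw [zero_add, e1] at h0
      have e2 : sHom (F := F) i (y * y) = 1 := by
        have : sHom (F := F) i (y * y) ∈ ⁅Q, Q⁆.map (sHom i) := ⟨_, D.sq_mem_A D.hy, rfl⟩
        rw [h0, Subgroup.mem_bot] at this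
        exact this
      rw [sHom_apply, ← spMap_one] at e2
      obtain ⟨e3, -⟩ := spMap_inj e2
      have e4 := congrFun e3 i
      rw [Pi.mulSingle_eq_same] at e4
      exact D.y_sq_ne e4
  | succ L ih =>
    intro C hC
    have hle : 2 ^ L ≤ C.card := by
      rw [hC, pow_succ]
      omega
    obtain ⟨C₁, hC₁, hc₁⟩ := Finset.exists_subset_card_eq hle
    set C₂ := C \ C₁ with hC₂
    have hd : Disjoint C₁ C₂ := Finset.disjoint_sdiff
    have hc₂ : C₂.card = 2 ^ L := by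
      rw [hC₂, Finset.card_sdiff_of_subset hC₁, hC, hc₁, pow_succ]
      omega
    obtain ⟨V₁, hV₁p, hV₁s, hV₁d⟩ := ih C₁ hc₁
    obtain ⟨π, hπ2, hπ1, hπ3, hπ4⟩ := exists_swap_perm hd (hc₁.trans hc₂.symm)
    set s : Matrix.symplecticGroup (Fin n) F := spMap (fun _ => 1) π with hs
    have hss : s * s = 1 := by
      rw [hs, spMap_mul, hπ2]
      simpa using spMap_one
    have hsinv : s⁻¹ = s := inv_eq_of_mul_eq_one_left hss
    let f : Matrix.symplecticGroup (Fin n) F →* Matrix.symplecticGroup (Fin n) F := (MulAut.conj s).toMonoidHom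
    have hf : ∀ x, f x = s * x * s⁻¹ := fun x => rfl
    have hfinj : Function.Injective f := (MulAut.conj s).injective
    set V₂ := V₁.map f with hV₂
    have hV₂s : V₂ ≤ Supp C₂ := by
      rintro _ ⟨x, hx, rfl⟩
      rw [hf]
      exact conj_Supp hπ1 (hV₁s hx)
    have hV₂p : IsPGroup 2 V₂ := hV₁p.map _
    have hcomm : ∀ a ∈ V₁, ∀ b ∈ V₂, a * b = b * a := fun a ha b hb => Supp_comm hd (hV₁s ha) (hV₂s hb)
    have hdisj : ∀ a ∈ V₁, a ∈ V₂ → a = 1 := fun a ha hb => Supp_disj hd (hV₁s ha) (hV₂s hb)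
    have hmap2 : V₂.map f = V₁ := by
      rw [hV₂, Subgroup.map_map]
      have : f.comp f = MonoidHom.id _ := by
        refine MonoidHom.ext fun x => ?_
        show s * (s * x * s⁻¹) * s⁻¹ = x
        rw [hsinv]
        have e : s * (s * x * s) * s = (s * s) * x * (s * s) := by group
        rw [e, hss]
        simp
      rw [this, Subgroup.map_id]
    set U := V₁ ⊔ V₂ with hU
    have hUp : IsPGroup 2 U := by
      apply IsPGroup.to_sup_of_normal_right' hV₁p hV₂p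
      intro a ha
      rw [Subgroup.mem_normalizer_iff]
      intro b
      have : a * b * a⁻¹ = b ∨ True := Or.inr trivial
      constructor
      · intro hb
        have e : a * b * a⁻¹ = b := by rw [hcomm a ha b hb]; group
        rwa [e]
      · intro hb
        have e : a⁻¹ * (a * b * a⁻¹) * a⁻¹⁻¹ = b := by group
        rw [← e]
        have e2 := hcomm a⁻¹ (V₁.inv_mem ha) _ hb
        rw [e2]
        simpa using hb
    have hmapU : U.map f = U := by
      rw [hU, Subgroup.map_sup, hmap2, sup_comm]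
    have hsN : s ∈ Subgroup.normalizer (U : Set (Matrix.symplecticGroup (Fin n) F)) := by
      rw [Subgroup.mem_normalizer_iff]
      intro b
      rw [← hf, ← Subgroup.mem_map_iff_mem hfinj (K := U) (x := b), hmapU]
    have hZp : IsPGroup 2 (Subgroup.zpowers s) := by
      rintro ⟨_, m, rfl⟩
      refine ⟨1, ?_⟩
      apply Subtype.ext
      show (s ^ m) ^ (2 ^ 1) = 1
      rw [pow_one, pow_two, ← _root_.zpow_add, ← two_mul, _root_.zpow_mul]
      have : s ^ (2 : ℤ) = 1 := by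
        rw [zpow_two, hss]
      rw [this, _root_.one_zpow]
    have hVp : IsPGroup 2 (U ⊔ Subgroup.zpowers s : Subgroup _) := by
      rw [sup_comm]
      apply IsPGroup.to_sup_of_normal_right' hZp hUp
      exact (Subgroup.zpowers_le.2 hsN)
    refine ⟨U ⊔ Subgroup.zpowers s, hVp, ?_, ?_⟩
    · apply sup_le (sup_le (hV₁s.trans (Supp_mono hC₁)) (hV₂s.trans (Supp_mono Finset.sdiff_subset)))
      rw [Subgroup.zpowers_le]
      refine ⟨_, _, rfl, fun j hj => ⟨rfl, ?_⟩⟩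
      exact hπ4 j (fun h => hj (hC₁ h)) (fun h => hj (Finset.sdiff_subset h))
    · apply wreath_ne_bot (V₁ := V₁) (V₂ := V₂) (s := s) _ _ hcomm _ hdisj hV₁d
      · exact le_sup_left.trans le_sup_left
      · exact Subgroup.mem_sup_right (Subgroup.mem_zpowers s)
      · intro a ha
        exact ⟨a, ha, rfl⟩

end lower

end Cfsg.Agent.Lib.Perm.SpWr
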