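import Mathlib
import Cfsg.Prelude.Def_HallClasses
import Cfsg.Agent.Lib.Perm.SymSylow4
import Cfsg.Agent.Lib.Perm.Orbits

/-!
Pronormality of subgroups of odd index of alternating groups.
-/

namespace Cfsg.Agent.Perm.SymSylow

open Equiv Equiv.Perm MulAction

universe u_1

set_option linter.style.haveILetI false

section Pronormal

variable {G : Type*} [Group G] [Finite G]

lemma mem_map_conj {H : Subgroup G} {g x : G} :
    x ∈ H.map (MulAut.conj g).toMonoidHom ↔ g⁻¹ * x * g ∈ H := by
  constructor
  · rintro ⟨y, hy, rfl⟩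
    simpa [mul_assoc] using hy
  · intro h
    exact ⟨_, h, by simp [mul_assoc]⟩

/-- A subgroup of odd index contains a Sylow 2-subgroup. -/
lemma exists_sylow_le (H : Subgroup G) (hodd : Odd H.index) :
    ∃ S : Sylow 2 G, (S : Subgroup G) ≤ H := by
  classical
  obtain ⟨Q⟩ : Nonempty (Sylow 2 G) := inferInstance
  have h1 := Q.isPGroup'.card_modEq_card_fixedPoints (G ⧸ H)
  have h2 : Nat.card (MulAction.fixedPoints (Q : Subgroup G) (G ⧸ H)) ≠ 0 := by
    intro h0
    rw [h0] at h1
    have h3 : H.index ≡ 0 [MOD 2] := h1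
    rw [Nat.modEq_zero_iff_dvd] at h3
    obtain ⟨m, hm⟩ := hodd
    omega
  have h3 : Nonempty (MulAction.fixedPoints (Q : Subgroup G) (G ⧸ H)) :=
    (Nat.card_pos_iff.1 (Nat.pos_of_ne_zero h2)).1
  obtain ⟨⟨x, hx⟩⟩ := h3
  obtain ⟨g, rfl⟩ := QuotientGroup.mk_surjective x
  refine ⟨g⁻¹ • Q, ?_⟩
  intro t ht
  rw [Cfsg.Agent.Perm.SymSylow.mem_sylow_smul, inv_inv] at ht
  have h4 := hx ⟨_, ht⟩
  have h5 : ((g * t * g⁻¹ * g : G) : G ⧸ H) = (g : G ⧸ H) := h4
  rw [QuotientGroup.eq] at h5
  have h6 : (g * t * g⁻¹ * g)⁻¹ * g = t⁻¹ := by group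
  rw [h6] at h5
  simpa using h5

/-- The Sylow criterion for pronormality. -/
theorem pronormal_of_sylow (H : Subgroup G) (S : Sylow 2 G) (hSH : (S : Subgroup G) ≤ H)
    (hcase : (∀ g, g ∈ Subgroup.normalizer ((S : Subgroup G) : Set G) → g ∈ H) ∨
      H = (S : Subgroup G)) : Cfsg.IsPronormal H := by
  intro g
  set K := H ⊔ H.map (MulAut.conj g).toMonoidHom with hK
  have hSK : (S : Subgroup G) ≤ K := hSH.trans le_sup_left
  have hgSK : ((g • S : Sylow 2 G) : Subgroup G) ≤ K := by
    intro t ht
    rw [mem_sylow_smul] at ht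
    apply (le_sup_right : H.map (MulAut.conj g).toMonoidHom ≤ K)
    rw [mem_map_conj]
    exact hSH ht
  obtain ⟨k, hk⟩ := MulAction.exists_smul_eq K (S.subtype hSK) ((g • S).subtype hgSK)
  have hk2 : (k : G) • S = g • S := by
    rw [Sylow.smul_subtype] at hk
    exact Sylow.subtype_injective hk
  refine ⟨k, k.2, ?_⟩
  have hn : (k : G)⁻¹ * g ∈ Subgroup.normalizer ((S : Subgroup G) : Set G) := by
    exact Sylow.smul_eq_iff_mem_normalizer.1 (by rw [mul_smul, ← hk2, inv_smul_smul])
  rcases hcase with hcase | hcase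
  · have hnH := hcase _ hn
    ext x
    rw [mem_map_conj, mem_map_conj]
    set n := (k : G)⁻¹ * g with hn'
    have hg : g = k * n := by simp [hn']
    rw [hg]
    have h1 : (k * n)⁻¹ * x * (k * n) = n⁻¹ * ((k : G)⁻¹ * x * k) * n := by
      simp [mul_assoc]
    rw [h1]
    constructor
    · intro h
      have := H.mul_mem (H.mul_mem hnH h) (H.inv_mem hnH)
      simpa [mul_assoc] using this
    · intro h
      exact H.mul_mem (H.mul_mem (H.inv_mem hnH) h) hnH
  · ext x
    rw [mem_map_conj, mem_map_conj, hcase]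
    rw [← mem_sylow_smul, ← mem_sylow_smul, hk2]

end Pronormal

variable {α : Type u_1} [Fintype α] [DecidableEq α]

/-- Degree 5. -/
theorem alt_five_case (hn : Nat.card α = 5) (hs : IsSimpleGroup (alternatingGroup α))
    (H : Subgroup (alternatingGroup α)) (S : Sylow 2 (alternatingGroup α))
    (hSH : (S : Subgroup (alternatingGroup α)) ≤ H) :
    (∀ g, g ∈ Subgroup.normalizer ((S : Subgroup (alternatingGroup α)) : Set (alternatingGroup α)) → g ∈ H) ∨
      H = (S : Subgroup (alternatingGroup α)) := by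
  classical
  by_cases htop : H = ⊤
  · left; intro g _; rw [htop]; exact Subgroup.mem_top _
  obtain ⟨P, hRP⟩ := exists_perm_sylow S
  have hodd : Odd (Nat.card α) := by rw [hn]; decide
  obtain ⟨δ, hδ⟩ := exists_uncovered P hodd
  have hn' : Nat.card α = 2 ^ 2 + 1 := by rw [hn]; norm_num
  have hT := card_edges_of_pow (le_refl 2) hn' P
  have hs' : Nat.card α = 5 → IsSimpleGroup (alternatingGroup α) := fun _ => hs
  have hHfix : ∀ g ∈ H, (g : Perm α) δ = δ := fun g hg =>
    alt_fix_of_proper (le_refl 2) hn' hs' S P hRP hδ H hSH htop g hg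
  -- the point stabilizer
  set M := (stabilizer (Perm α) δ).comap (alternatingGroup α).subtype with hM
  have hHM : H ≤ M := fun g hg => hHfix g hg
  have hG : Nat.card (alternatingGroup α) = 60 := by
    have hnt : Nontrivial α := by
      rw [← Finite.one_lt_card_iff_nontrivial]; omega
    have h1 := two_mul_nat_card_alternatingGroup (α := α)
    rw [Nat.card_perm, hn] at h1
    have h2 : Nat.factorial 5 = 120 := rfl
    omega
  have hneδ : ∀ x, x ≠ δ → ¬ Uncovered (P : Subgroup (Perm α)) x := fun x hx hu =>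
    hx (uncovered_unique P hu hδ)
  have htr : ∀ x y, x ≠ δ → y ≠ δ → ∃ g ∈ (P : Subgroup (Perm α)), sign g = 1 ∧ g x = y :=
    fun x y hx hy => covered_trans_even P hT (by omega) (hneδ x hx) (hneδ y hy)
  -- normalizer fixes δ
  have hN : ∀ g, g ∈ Subgroup.normalizer ((S : Subgroup (alternatingGroup α)) : Set (alternatingGroup α)) →
      g ∈ M := by
    intro g hg
    by_contra hne
    have hne' : (g : Perm α) δ ≠ δ := hne
    -- every element of `S` fixes `g δ`
    have hfix : ∀ s ∈ (S : Subgroup (alternatingGroup α)), (s : Perm α) ((g : Perm α) δ) = (g : Perm α) δ := by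
      intro s hs2
      have h1 : g⁻¹ * s * g ∈ (S : Subgroup (alternatingGroup α)) := by
        have := (Subgroup.mem_normalizer_iff.1 hg (g⁻¹ * s * g)).2
        apply this
        simpa [mul_assoc] using hs2
      have h2 := fix_uncovered P hδ ((hRP _).1 h1)
      have h3 : (g : Perm α)⁻¹ * s * g = ((g⁻¹ * s * g : alternatingGroup α) : Perm α) := rfl
      rw [← h3] at h2
      have h4 := congrArg (g : Perm α) h2
      simpa using h4
    -- but `S` is transitive on the other points
    obtain ⟨y, hy1, hy2⟩ : ∃ y : α, y ≠ δ ∧ y ≠ (g : Perm α) δ := by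
      have h5 : ({δ, (g : Perm α) δ} : Finset α).card < (Finset.univ : Finset α).card := by
        rw [Finset.card_univ, ← Nat.card_eq_fintype_card, hn]
        have : ({δ, (g : Perm α) δ} : Finset α).card ≤ 2 := Finset.card_le_two
        omega
      obtain ⟨y, -, hy⟩ := Finset.exists_mem_notMem_of_card_lt_card h5
      simp only [Finset.mem_insert, Finset.mem_singleton, not_or] at hy
      exact ⟨y, hy.1, hy.2⟩
    obtain ⟨s, hs1, hs2, hs3⟩ := htr _ y hne' hy1
    have h6 := hfix ⟨s, Equiv.Perm.mem_alternatingGroup.2 hs2⟩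
      ((hRP _).2 hs1)
    exact hy2 (hs3.symm.trans h6)
  -- orders
  have hMst : M = stabilizer (alternatingGroup α) δ := by
    ext g
    rfl
  have hMcard : Nat.card M * 5 = 60 := by
    have h1 := Cfsg.Agent.Lib.Perm.card_orbit_mul_card_stabilizer (K := alternatingGroup α) (X := α) δ
    have horb : orbit (alternatingGroup α) δ = Set.univ := by
      rw [Set.eq_univ_iff_forall]
      intro x
      by_cases hx : x = δ
      · rw [hx]; exact mem_orbit_self δ
      obtain ⟨g, hg⟩ := exists_even_moves P (by omega) hδ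
      obtain ⟨h, hh, hh2, hh3⟩ := htr _ x hg hx
      refine ⟨⟨h, Equiv.Perm.mem_alternatingGroup.2 hh2⟩ * g, ?_⟩
      show h ((g : Perm α) δ) = x
      exact hh3
    rw [horb, Nat.card_coe_set_eq, Set.ncard_univ, hn, hG, ← hMst] at h1
    omega
  have hScard : Nat.card (S : Subgroup (alternatingGroup α)) = 4 := by
    obtain ⟨j, hj⟩ := IsPGroup.iff_card.1 S.isPGroup'
    have hind := (S : Subgroup (alternatingGroup α)).index_mul_card
    rw [hG, hj] at hind
    have hnd : ¬ 2 ∣ (S : Subgroup (alternatingGroup α)).index := S.not_dvd_index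
    rw [hj]
    rcases j with _ | _ | _ | j
    · simp only [pow_zero, mul_one] at hind
      rw [hind] at hnd
      exact absurd (by norm_num) hnd
    · exfalso
      apply hnd
      simp only [zero_add, pow_one] at hind
      exact ⟨30, by omega⟩
    · norm_num
    · exfalso
      have h8 : (S : Subgroup (alternatingGroup α)).index * 2 ^ j * 8 = 60 := by
        rw [← hind, pow_succ, pow_succ, pow_succ]; ring
      omega
  by_cases hHS : H = (S : Subgroup (alternatingGroup α))
  · exact Or.inr hHS
  left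
  have hHM2 : H = M := by
    apply Subgroup.eq_of_le_of_card_ge hHM
    have h4 : 4 ∣ Nat.card H := by
      rw [← hScard]
      exact Subgroup.card_dvd_of_le hSH
    have h12 : Nat.card H ∣ Nat.card M := Subgroup.card_dvd_of_le hHM
    have hMc : Nat.card M = 12 := by omega
    rw [hMc] at h12 ⊢
    have hne : Nat.card H ≠ 4 := by
      intro h
      apply hHS
      symm
      apply Subgroup.eq_of_le_of_card_ge hSH
      rw [h, hScard]
    obtain ⟨m, hm⟩ := h4
    rw [hm] at h12 hne ⊢
    have h13 : m ∣ 3 := by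
      obtain ⟨c, hc⟩ := h12
      exact ⟨c, by nlinarith⟩
    have h14 : m ≤ 3 := Nat.le_of_dvd (by norm_num) h13
    interval_cases m <;> omega
  rw [hHM2]
  exact hN

/-- Every subgroup of odd index of an alternating group of degree at least 5 is pronormal. -/
theorem alt_odd_index_pronormal (hn : 5 ≤ Nat.card α)
    (hs : Nat.card α = 5 → IsSimpleGroup (alternatingGroup α))
    (H : Subgroup (alternatingGroup α)) (hH : Odd H.index) : Cfsg.IsPronormal H := by
  obtain ⟨S, hS⟩ := exists_sylow_le H hH
  apply pronormal_of_sylow H S hS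
  by_cases h5 : Nat.card α = 5
  · exact alt_five_case h5 (hs h5) H S hS
  · left
    intro g hg
    exact hS (alt_sylow_self_normalizing (by omega) S g hg)

end Cfsg.Agent.Perm.SymSylow
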