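import Mathlib

set_option autoImplicit false

namespace Cfsg.Agent.Lib.Perm.ThreeMinA

open Equiv Equiv.Perm MulAction
open scoped Pointwise

variable {α : Type*} [Fintype α] [DecidableEq α]

/-- even permutations preserving an equivalence relation -/
def presA (r : α → α → Prop) : Subgroup (alternatingGroup α) where
  carrier := {g | ∀ x y, r x y ↔ r ((g : Perm α) x) ((g : Perm α) y)}
  one_mem' := by intro x y; simp
  mul_mem' := by
    intro a b ha hb x y
    rw [hb x y, ha]
    simp [Perm.mul_apply]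
  inv_mem' := by
    intro a ha x y
    have h2 := ha (((a : Perm α)⁻¹) x) (((a : Perm α)⁻¹) y)
    have e1 : ∀ z, (a : Perm α) (((a : Perm α)⁻¹) z) = z := fun z => by simp
    rw [e1, e1] at h2
    simpa using h2.symm

lemma mem_presA {r : α → α → Prop} {g : alternatingGroup α} :
    g ∈ presA r ↔ ∀ x y, r x y ↔ r ((g : Perm α) x) ((g : Perm α) y) := Iff.rfl

/-- the element `(a c)(u v)` -/
lemma double_swap_mem {a c u v : α} (hac : a ≠ c) (huv : u ≠ v) :
    swap a c * swap u v ∈ alternatingGroup α := by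
  rw [mem_alternatingGroup, Perm.sign_mul, sign_swap hac, sign_swap huv]; rfl

/-- a permutation moving only points of one class preserves the relation -/
lemma pres_of_class {r : α → α → Prop} (hr : Equivalence r) (g : Perm α) (a : α)
    (h1 : ∀ x, r a x → r a (g x)) (h2 : ∀ x, ¬ r a x → g x = x) :
    ∀ x y, r x y ↔ r (g x) (g y) := by
  have key : ∀ x, r x (g x) := by
    intro x
    by_cases h : r a x
    · exact hr.trans (hr.symm h) (h1 x h)
    · rw [h2 x h]; exact hr.refl x
  intro x y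
  constructor
  · intro h
    exact hr.trans (hr.symm (key x)) (hr.trans h (key y))
  · intro h
    exact hr.trans (key x) (hr.trans h (hr.symm (key y)))

lemma swap_swap_apply_fix {a c u v b : α} (h1 : b ≠ a) (h2 : b ≠ c) (h3 : b ≠ u) (h4 : b ≠ v) :
    (swap a c * swap u v) b = b := by
  rw [Perm.mul_apply, swap_apply_of_ne_of_ne h3 h4, swap_apply_of_ne_of_ne h1 h2]

lemma swap_swap_apply_left {a c u v : α} (h3 : a ≠ u) (h4 : a ≠ v) :
    (swap a c * swap u v) a = c := by
  rw [Perm.mul_apply, swap_apply_of_ne_of_ne h3 h4, swap_apply_left]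

/-- `(a c)(u v)` with all four in one class preserves the relation -/
lemma double_swap_pres {r : α → α → Prop} (hr : Equivalence r) {a c u v : α}
    (hc : r a c) (hu : r a u) (hv : r a v) :
    ∀ x y, r x y ↔ r ((swap a c * swap u v) x) ((swap a c * swap u v) y) := by
  apply pres_of_class hr _ a
  · intro x hx
    have h1 : r a (swap u v x) := by
      by_cases h : x = u
      · subst h; simpa using hv
      · by_cases h' : x = v
        · subst h'; simpa using hu
        · rwa [swap_apply_of_ne_of_ne h h']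
    rw [Perm.mul_apply]
    by_cases h : swap u v x = a
    · rw [h]; simpa using hc
    · by_cases h' : swap u v x = c
      · rw [h']; simpa using hr.refl a
      · rwa [swap_apply_of_ne_of_ne h h']
  · intro x hx
    have h1 : x ≠ u := fun h => hx (h ▸ hu)
    have h2 : x ≠ v := fun h => hx (h ▸ hv)
    have h3 : x ≠ a := fun h => hx (h ▸ hr.refl a)
    have h4 : x ≠ c := fun h => hx (h ▸ hc)
    exact swap_swap_apply_fix h3 h4 h1 h2

/-- the element swapping two triples, times a swap inside the second one (even) -/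
def triSwap (a₁ a₂ a₃ b₁ b₂ b₃ : α) : Perm α :=
  swap a₁ b₁ * swap a₂ b₂ * swap a₃ b₃ * swap b₂ b₃

section tri

variable {a₁ a₂ a₃ b₁ b₂ b₃ : α}

lemma triSwap_even (h1 : a₁ ≠ b₁) (h2 : a₂ ≠ b₂) (h3 : a₃ ≠ b₃) (h4 : b₂ ≠ b₃) :
    triSwap a₁ a₂ a₃ b₁ b₂ b₃ ∈ alternatingGroup α := by
  rw [mem_alternatingGroup, triSwap, Perm.sign_mul, Perm.sign_mul, Perm.sign_mul, sign_swap h1, sign_swap h2,
    sign_swap h3, sign_swap h4]; rfl

lemma triSwap_fix {x : α} (h1 : x ≠ a₁) (h2 : x ≠ a₂) (h3 : x ≠ a₃) (h4 : x ≠ b₁) (h5 : x ≠ b₂)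
    (h6 : x ≠ b₃) : triSwap a₁ a₂ a₃ b₁ b₂ b₃ x = x := by
  simp only [triSwap, Perm.mul_apply]
  rw [swap_apply_of_ne_of_ne h5 h6, swap_apply_of_ne_of_ne h3 h6, swap_apply_of_ne_of_ne h2 h5,
    swap_apply_of_ne_of_ne h1 h4]

/-- the six points are pairwise distinct -/
structure Six (a₁ a₂ a₃ b₁ b₂ b₃ : α) : Prop where
  a12 : a₁ ≠ a₂
  a13 : a₁ ≠ a₃
  a23 : a₂ ≠ a₃
  b12 : b₁ ≠ b₂
  b13 : b₁ ≠ b₃
  b23 : b₂ ≠ b₃
  ab11 : a₁ ≠ b₁
  ab12 : a₁ ≠ b₂
  ab13 : a₁ ≠ b₃
  ab21 : a₂ ≠ b₁
  ab22 : a₂ ≠ b₂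
  ab23 : a₂ ≠ b₃
  ab31 : a₃ ≠ b₁
  ab32 : a₃ ≠ b₂
  ab33 : a₃ ≠ b₃

lemma triSwap_a₁ (h : Six a₁ a₂ a₃ b₁ b₂ b₃) : triSwap a₁ a₂ a₃ b₁ b₂ b₃ a₁ = b₁ := by
  simp only [triSwap, Perm.mul_apply]
  rw [swap_apply_of_ne_of_ne h.ab12 h.ab13, swap_apply_of_ne_of_ne h.a13 h.ab13,
    swap_apply_of_ne_of_ne h.a12 h.ab12, swap_apply_left]

lemma triSwap_a₂ (h : Six a₁ a₂ a₃ b₁ b₂ b₃) : triSwap a₁ a₂ a₃ b₁ b₂ b₃ a₂ = b₂ := by
  simp only [triSwap, Perm.mul_apply]
  rw [swap_apply_of_ne_of_ne h.ab22 h.ab23, swap_apply_of_ne_of_ne h.a23 h.ab23, swap_apply_left,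
    swap_apply_of_ne_of_ne (Ne.symm h.ab12) h.b12.symm]

lemma triSwap_a₃ (h : Six a₁ a₂ a₃ b₁ b₂ b₃) : triSwap a₁ a₂ a₃ b₁ b₂ b₃ a₃ = b₃ := by
  simp only [triSwap, Perm.mul_apply]
  rw [swap_apply_of_ne_of_ne h.ab32 h.ab33, swap_apply_left,
    swap_apply_of_ne_of_ne (Ne.symm h.ab23) h.b23.symm,
    swap_apply_of_ne_of_ne (Ne.symm h.ab13) h.b13.symm]

lemma triSwap_b₁ (h : Six a₁ a₂ a₃ b₁ b₂ b₃) : triSwap a₁ a₂ a₃ b₁ b₂ b₃ b₁ = a₁ := by
  simp only [triSwap, Perm.mul_apply]
  rw [swap_apply_of_ne_of_ne h.b12 h.b13, swap_apply_of_ne_of_ne h.ab31.symm h.b13,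
    swap_apply_of_ne_of_ne h.ab21.symm h.b12, swap_apply_right]

lemma triSwap_b₂ (h : Six a₁ a₂ a₃ b₁ b₂ b₃) : triSwap a₁ a₂ a₃ b₁ b₂ b₃ b₂ = a₃ := by
  simp only [triSwap, Perm.mul_apply]
  rw [swap_apply_left, swap_apply_right, swap_apply_of_ne_of_ne h.a23.symm h.ab32,
    swap_apply_of_ne_of_ne h.a13.symm h.ab31]

lemma triSwap_b₃ (h : Six a₁ a₂ a₃ b₁ b₂ b₃) : triSwap a₁ a₂ a₃ b₁ b₂ b₃ b₃ = a₂ := by
  simp only [triSwap, Perm.mul_apply]
  rw [swap_apply_right, swap_apply_of_ne_of_ne (Ne.symm h.ab32) h.b23, swap_apply_right,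
    swap_apply_of_ne_of_ne h.a12.symm h.ab21]

end tri

/-- Classes are triples: presentation of a class -/
lemma class_three {r : α → α → Prop} [DecidablePred fun p : α × α => r p.1 p.2]
    (hr : Equivalence r) (x : α)
    (h : Nat.card {y // r x y} = 3) :
    ∃ a₂ a₃ : α, x ≠ a₂ ∧ x ≠ a₃ ∧ a₂ ≠ a₃ ∧ ∀ z, r x z ↔ z = x ∨ z = a₂ ∨ z = a₃ := by
  classical
  have h1 : (Finset.univ.filter (fun y => r x y)).card = 3 := by
    rw [← h, Nat.card_eq_fintype_card, Fintype.card_subtype]
  obtain ⟨a, b, c, hab, hac, hbc, hs⟩ := Finset.card_eq_three.mp h1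
  have hm : ∀ z, r x z ↔ z = a ∨ z = b ∨ z = c := by
    intro z
    have : z ∈ Finset.univ.filter (fun y => r x y) ↔ z ∈ ({a, b, c} : Finset α) := by rw [hs]
    simpa using this
  have hx := (hm x).mp (hr.refl x)
  rcases hx with rfl | rfl | rfl
  · exact ⟨b, c, hab, hac, hbc, fun z => by rw [hm z]⟩
  · exact ⟨a, c, hab.symm, hbc, hac, fun z => by rw [hm z]; tauto⟩
  · exact ⟨a, b, hac.symm, hbc.symm, hab, fun z => by rw [hm z]; tauto⟩

/-- Swap of two triple classes as an even element preserving the relation, moving `x` to `y`, and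
fixing all points outside of the two classes. -/
lemma exists_tri {r : α → α → Prop} (hr : Equivalence r)
    (h3 : ∀ x, Nat.card {y // r x y} = 3) {x y : α} (hxy : ¬ r x y) :
    ∃ g : alternatingGroup α, g ∈ presA r ∧ (g : Perm α) x = y ∧
      ∀ w, ¬ r x w → ¬ r y w → (g : Perm α) w = w := by
  classical
  obtain ⟨a₂, a₃, h12, h13, h23, ha⟩ := class_three hr x (h3 x)
  obtain ⟨b₂, b₃, k12, k13, k23, hb⟩ := class_three hr y (h3 y)
  have hax2 : r x a₂ := (ha a₂).2 (by tauto)
  have hax3 : r x a₃ := (ha a₃).2 (by tauto)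
  have hby2 : r y b₂ := (hb b₂).2 (by tauto)
  have hby3 : r y b₃ := (hb b₃).2 (by tauto)
  have nr : ∀ u v, r x u → r y v → u ≠ v := by
    intro u v hu hv e
    subst e
    exact hxy (hr.trans hu (hr.symm hv))
  have hS : Six x a₂ a₃ y b₂ b₃ :=
    { a12 := h12, a13 := h13, a23 := h23, b12 := k12, b13 := k13, b23 := k23,
      ab11 := nr _ _ (hr.refl x) (hr.refl y), ab12 := nr _ _ (hr.refl x) hby2,
      ab13 := nr _ _ (hr.refl x) hby3, ab21 := nr _ _ hax2 (hr.refl y), ab22 := nr _ _ hax2 hby2,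
      ab23 := nr _ _ hax2 hby3, ab31 := nr _ _ hax3 (hr.refl y), ab32 := nr _ _ hax3 hby2,
      ab33 := nr _ _ hax3 hby3 }
  have hev := triSwap_even hS.ab11 hS.ab22 hS.ab33 hS.b23
  refine ⟨⟨_, hev⟩, ?_, triSwap_a₁ hS, ?_⟩
  · -- preservation
    have cls : ∀ u, (r x u → r y (triSwap x a₂ a₃ y b₂ b₃ u)) ∧
        (r y u → r x (triSwap x a₂ a₃ y b₂ b₃ u)) ∧
        (¬ r x u → ¬ r y u → triSwap x a₂ a₃ y b₂ b₃ u = u) := by
      intro u
      refine ⟨?_, ?_, ?_⟩
      · intro hu
        rcases (ha u).1 hu with rfl | rfl | rfl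
        · rw [triSwap_a₁ hS]; exact hr.refl y
        · rw [triSwap_a₂ hS]; exact hby2
        · rw [triSwap_a₃ hS]; exact hby3
      · intro hu
        rcases (hb u).1 hu with rfl | rfl | rfl
        · rw [triSwap_b₁ hS]; exact hr.refl x
        · rw [triSwap_b₂ hS]; exact hax3
        · rw [triSwap_b₃ hS]; exact hax2
      · intro h1 h2
        apply triSwap_fix
        · exact fun e => h1 (e ▸ hr.refl x)
        · exact fun e => h1 (e ▸ hax2)
        · exact fun e => h1 (e ▸ hax3)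
        · exact fun e => h2 (e ▸ hr.refl y)
        · exact fun e => h2 (e ▸ hby2)
        · exact fun e => h2 (e ▸ hby3)
    set g := triSwap x a₂ a₃ y b₂ b₃ with hg
    have trans' : ∀ {u v w : α}, r u v → r v w → r u w := fun a b => hr.trans a b
    have symm' : ∀ {u v : α}, r u v → r v u := fun a => hr.symm a
    -- three-way classification
    have forward : ∀ u v, r u v → r (g u) (g v) := by
      intro u v huv
      by_cases h1 : r x u
      · have h1' : r x v := trans' h1 huv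
        exact trans' (symm' ((cls u).1 h1)) ((cls v).1 h1')
      · by_cases h2 : r y u
        · have h2' : r y v := trans' h2 huv
          exact trans' (symm' ((cls u).2.1 h2)) ((cls v).2.1 h2')
        · have h1' : ¬ r x v := fun h => h1 (trans' h (symm' huv))
          have h2' : ¬ r y v := fun h => h2 (trans' h (symm' huv))
          rw [(cls u).2.2 h1 h2, (cls v).2.2 h1' h2']
          exact huv
    have hinj : Function.Injective g := g.injective
    intro u v
    refine ⟨forward u v, fun h => ?_⟩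
    -- g is of finite order so the reverse follows from iterating forward
    have hfin : ∀ n : ℕ, ∀ s t, r s t → r ((g ^ n) s) ((g ^ n) t) := by
      intro n
      induction n with
      | zero => intro s t h; simpa using h
      | succ n ih =>
        intro s t h
        rw [pow_succ, Perm.mul_apply, Perm.mul_apply]
        exact ih _ _ (forward _ _ h)
    have hord : g ^ (orderOf g) = 1 := pow_orderOf_eq_one g
    have hpos : 0 < orderOf g := orderOf_pos g
    obtain ⟨k, hk⟩ : ∃ k, orderOf g = k + 1 := ⟨orderOf g - 1, by omega⟩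
    have h3' := hfin k _ _ h
    rw [← Perm.mul_apply, ← Perm.mul_apply, ← pow_succ, ← hk, hord] at h3'
    simpa using h3'
  · intro w h1 h2
    apply triSwap_fix
    · exact fun e => h1 (e ▸ hr.refl x)
    · exact fun e => h1 (e ▸ hax2)
    · exact fun e => h1 (e ▸ hax3)
    · exact fun e => h2 (e ▸ hr.refl y)
    · exact fun e => h2 (e ▸ hby2)
    · exact fun e => h2 (e ▸ hby3)

/-- a class of size ≥ 5 contains two points avoiding three given points -/
lemma exists_two_avoid {r : α → α → Prop} (a : α) (h5 : 5 ≤ Nat.card {y // r a y})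
    (p q s : α) : ∃ u v, r a u ∧ r a v ∧ u ≠ v ∧ u ≠ p ∧ u ≠ q ∧ u ≠ s ∧ v ≠ p ∧ v ≠ q ∧ v ≠ s := by
  classical
  have h1 : 5 ≤ (Finset.univ.filter (fun y => r a y)).card := by
    rw [Nat.card_eq_fintype_card, Fintype.card_subtype] at h5
    exact h5
  have h2 : 2 ≤ ((Finset.univ.filter (fun y => r a y)) \ {p, q, s}).card := by
    have := Finset.le_card_sdiff ({p, q, s} : Finset α) (Finset.univ.filter (fun y => r a y))
    have h3 : ({p, q, s} : Finset α).card ≤ 3 := Finset.card_le_three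
    omega
  obtain ⟨u, hu, v, hv, huv⟩ := Finset.one_lt_card.mp
    (by omega : 1 < ((Finset.univ.filter (fun y => r a y)) \ {p, q, s}).card)
  simp only [Finset.mem_sdiff, Finset.mem_filter, Finset.mem_univ, true_and, Finset.mem_insert,
    Finset.mem_singleton, not_or] at hu hv
  exact ⟨u, v, hu.1, hv.1, huv, hu.2.1, hu.2.2.1, hu.2.2.2, hv.2.1, hv.2.2.1, hv.2.2.2⟩

/-- **Main generation lemma**: the stabilizers of `r` (triples) and a coarser `r'` (big classes)
generate the alternating group. -/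
theorem join_eq_top [Nonempty α] {r r' : α → α → Prop} (hr : Equivalence r) (hr' : Equivalence r')
    (hle : ∀ x y, r x y → r' x y)
    (h3 : ∀ x, Nat.card {y // r x y} = 3)
    (h5 : ∀ x, 5 ≤ Nat.card {y // r' x y})
    (M : Subgroup (alternatingGroup α))
    (hM1 : presA r ≤ M) (hM2 : presA r' ≤ M) : M = ⊤ := by
  classical
  -- the image in Perm
  let J : Subgroup (Perm α) := M.map (alternatingGroup α).subtype
  have memJ : ∀ g : alternatingGroup α, g ∈ M → (g : Perm α) ∈ J := fun g hg => ⟨g, hg, rfl⟩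
  -- elements of type (a c)(u v) in a class of r'
  have dbl : ∀ a c u v, r' a c → r' a u → r' a v → a ≠ c → u ≠ v →
      swap a c * swap u v ∈ J := by
    intro a c u v hc hu hv hac huv
    have hev := double_swap_mem hac huv
    refine memJ ⟨_, hev⟩ (hM2 ?_)
    exact double_swap_pres hr' hc hu hv
  -- smul on α
  have smulJ : ∀ (g : J) (x : α), g • x = (g : Perm α) x := fun _ _ => rfl
  haveI hpret : IsPretransitive J α := by
    constructor
    intro x y
    by_cases hxy : x = y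
    · exact ⟨1, by simp [hxy]⟩
    by_cases hc : r' x y
    · obtain ⟨u, v, hu, hv, huv, h1, h2, _, h4, h5', _⟩ := exists_two_avoid x (h5 x) x y x
      refine ⟨⟨_, dbl x y u v hc hu hv hxy huv⟩, ?_⟩
      rw [smulJ]
      exact swap_swap_apply_left (Ne.symm h1) (Ne.symm h4)
    · have hn : ¬ r x y := fun h => hc (hle _ _ h)
      obtain ⟨g, hg, hgx, _⟩ := exists_tri hr h3 hn
      exact ⟨⟨_, memJ g (hM1 hg)⟩, hgx⟩
  -- block analysis
  have hprim : IsPreprimitive J α := by
    refine { hpret with isTrivialBlock_of_isBlock := ?_ }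
    intro B hB
    by_contra hnt
    rw [IsTrivialBlock, not_or] at hnt
    obtain ⟨hns, hnu⟩ := hnt
    -- stabilization property
    have hstab : ∀ (g : Perm α), g ∈ J → ∀ w ∈ B, g w ∈ B → ∀ z ∈ B, g z ∈ B := by
      intro g hg w hw hgw z hz
      have hd := hB.smul_eq_or_disjoint (⟨g, hg⟩ : J)
      rcases hd with hd | hd
      · rw [← hd]
        exact ⟨z, hz, rfl⟩
      · exfalso
        have h1 : g w ∈ (⟨g, hg⟩ : J) • B := ⟨w, hw, rfl⟩
        exact Set.disjoint_left.mp hd h1 hgw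
    -- B is a union of r' classes
    have hcl : ∀ a ∈ B, ∀ c, r' a c → c ∈ B := by
      intro a ha c hac
      rw [Set.not_subsingleton_iff] at hns
      obtain ⟨b, hb, hba⟩ : ∃ b ∈ B, b ≠ a := by
        obtain ⟨p, hp, q, hq, hpq⟩ := hns
        by_cases h : p = a
        · exact ⟨q, hq, fun e => hpq (h.trans e.symm)⟩
        · exact ⟨p, hp, h⟩
      by_cases hca : c = a
      · rwa [hca]
      by_cases hcb : c = b
      · rwa [hcb]
      obtain ⟨u, v, hu, hv, huv, hua, huc, hub, hva, hvc, hvb⟩ := exists_two_avoid a (h5 a) a c b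
      have hmem := dbl a c u v hac hu hv (Ne.symm hca) huv
      have hfix : (swap a c * swap u v) b = b :=
        swap_swap_apply_fix hba (Ne.symm hcb) (Ne.symm hub) (Ne.symm hvb)
      have := hstab _ hmem b hb (by rw [hfix]; exact hb) a ha
      rwa [swap_swap_apply_left (Ne.symm hua) (Ne.symm hva)] at this
    -- now contradiction
    obtain ⟨y, hy⟩ : ∃ y, y ∉ B := by
      by_contra h
      push Not at h
      exact hnu (Set.eq_univ_of_forall h)
    obtain ⟨a, ha⟩ : ∃ a, a ∈ B := by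
      by_contra h
      push Not at h
      exact hns (fun p hp => absurd hp (h p))
    have hay : ¬ r' a y := fun h => hy (hcl a ha y h)
    have hn : ¬ r a y := fun h => hay (hle _ _ h)
    obtain ⟨g, hg, hga, hgfix⟩ := exists_tri hr h3 hn
    -- a witness in the class of a outside the triple
    obtain ⟨a₂, a₃, _, _, _, hcla⟩ := class_three hr a (h3 a)
    obtain ⟨w, _, hw, _, _, hwa, hw2, hw3, _⟩ := exists_two_avoid a (h5 a) a a₂ a₃
    have hwB : w ∈ B := hcl a ha w hw
    have hw1 : ¬ r a w := by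
      intro h
      rcases (hcla w).1 h with h | h | h
      · exact hwa h
      · exact hw2 h
      · exact hw3 h
    have hw2' : ¬ r y w := by
      intro h
      have h' : r' y w := hle _ _ h
      exact hy (hcl w hwB y (hr'.symm h'))
    have hfix := hgfix w hw1 hw2'
    have := hstab _ (memJ g (hM1 hg)) w hwB (by rw [hfix]; exact hwB) a ha
    rw [hga] at this
    exact hy this
  -- a 3-cycle
  obtain ⟨x⟩ : Nonempty α := inferInstance
  obtain ⟨u, v, hu, hv, huv, hux, _, _, hvx, _, _⟩ := exists_two_avoid x (h5 x) x x x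
  have h3c : (swap x u * swap x v).IsThreeCycle :=
    isThreeCycle_swap_mul_swap_same (Ne.symm hux) (Ne.symm hvx) huv
  have hmem : swap x u * swap x v ∈ J := dbl x u x v hu (hr'.refl x) hv (Ne.symm hux) (Ne.symm hvx)
  have hle' : alternatingGroup α ≤ J :=
    alternatingGroup_le_of_isPreprimitive_of_isThreeCycle_mem hprim h3c hmem
  rw [eq_top_iff]
  intro g _
  obtain ⟨m, hm, hme⟩ := hle' g.2
  have : m = g := Subtype.ext hme
  rwa [← this]

end Cfsg.Agent.Lib.Perm.ThreeMinA
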