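import Cfsg.Agent.Lib.Perm.ThreeMinA

set_option autoImplicit false

namespace Cfsg.Agent.Lib.Perm.ThreeMinB

open Equiv Equiv.Perm MulAction Cfsg.Agent.Lib.Perm.ThreeMinA
open scoped Pointwise

section rel

variable {P α : Type*} [Group P] [MulAction P α]

/-- orbit class -/
abbrev qu (u : α) : orbitRel.Quotient P α := Quotient.mk (orbitRel P α) u

/-- orbit representative -/
noncomputable abbrev rep (i : orbitRel.Quotient P α) : α := Quotient.out i

lemma qu_smul (g : P) (x : α) : (qu (g • x) : orbitRel.Quotient P α) = qu x := by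
  apply Quotient.sound
  show g • x ∈ orbit P x
  exact mem_orbit x g

lemma qu_rep (i : orbitRel.Quotient P α) : (qu (rep i) : orbitRel.Quotient P α) = i :=
  Quotient.out_eq i

lemma exists_rep (u : α) : ∃ g : P, u = g • rep (qu u : orbitRel.Quotient P α) := by
  have h : (qu (rep (qu u : orbitRel.Quotient P α)) : orbitRel.Quotient P α) = qu u := qu_rep _
  have h2 : u ∈ orbit P (rep (qu u : orbitRel.Quotient P α)) := by
    have := Quotient.exact h.symm
    exact this
  obtain ⟨g, hg⟩ := h2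
  exact ⟨g, hg.symm⟩

/-- relation from subgroups at orbit representatives -/
def relL (L : orbitRel.Quotient P α → Subgroup P) (u v : α) : Prop :=
  ∃ (i : orbitRel.Quotient P α) (g l : P), l ∈ L i ∧ u = g • rep i ∧ v = (g * l) • rep i

lemma relL_orbit {L : orbitRel.Quotient P α → Subgroup P} {u v : α} (h : relL L u v) :
    (qu u : orbitRel.Quotient P α) = qu v := by
  obtain ⟨i, g, l, _, rfl, rfl⟩ := h
  rw [qu_smul, qu_smul]

lemma relL_smul {L : orbitRel.Quotient P α → Subgroup P} {u v : α} (h : relL L u v) (s : P) :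
    relL L (s • u) (s • v) := by
  obtain ⟨i, g, l, hl, rfl, rfl⟩ := h
  exact ⟨i, s * g, l, hl, by rw [mul_smul], by rw [mul_smul, mul_smul, mul_smul]⟩

lemma relL_mono {L L' : orbitRel.Quotient P α → Subgroup P} (h : ∀ i, L i ≤ L' i) {u v : α}
    (huv : relL L u v) : relL L' u v := by
  obtain ⟨i, g, l, hl, hu, hv⟩ := huv
  exact ⟨i, g, l, h i hl, hu, hv⟩

/-- index determined -/
lemma rel_index {i j : orbitRel.Quotient P α} {g g' : P} (h : g • rep i = g' • rep j) : i = j := by
  have := congrArg (fun x : α => (qu x : orbitRel.Quotient P α)) h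
  simp only [qu_smul, qu_rep] at this
  exact this

lemma relL_equiv {L : orbitRel.Quotient P α → Subgroup P}
    (hSt : ∀ i, stabilizer P (rep i : α) ≤ L i) : Equivalence (relL L) := by
  refine ⟨?_, ?_, ?_⟩
  · intro u
    obtain ⟨g, hg⟩ := exists_rep (P := P) u
    exact ⟨qu u, g, 1, Subgroup.one_mem _, hg, by rwa [mul_one]⟩
  · rintro u v ⟨i, g, l, hl, rfl, rfl⟩
    refine ⟨i, g * l, l⁻¹, Subgroup.inv_mem _ hl, rfl, ?_⟩
    rw [mul_assoc, mul_inv_cancel, mul_one]
  · rintro u v w ⟨i, g, l, hl, rfl, hv⟩ ⟨j, g', l', hl', hv', rfl⟩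
    have e : (g * l) • rep i = g' • rep j := hv.symm.trans hv'
    obtain rfl : i = j := rel_index e
    have hs : (g * l)⁻¹ * g' ∈ stabilizer P (rep i : α) := by
      rw [mem_stabilizer_iff, mul_smul, ← e, ← mul_smul, inv_mul_cancel, one_smul]
    have hs' := hSt i hs
    refine ⟨i, g, l * ((g * l)⁻¹ * g') * l', ?_, rfl, ?_⟩
    · exact Subgroup.mul_mem _ (Subgroup.mul_mem _ hl hs') hl'
    · congr 1
      group

/-- size of the classes -/
lemma card_class {L : orbitRel.Quotient P α → Subgroup P}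
    (hSt : ∀ i, stabilizer P (rep i : α) ≤ L i) (u : α) :
    Nat.card {v // relL L u v} =
      Nat.card (orbit (L (qu u)) (rep (qu u : orbitRel.Quotient P α))) := by
  obtain ⟨g, hg⟩ := exists_rep (P := P) u
  set i : orbitRel.Quotient P α := qu u with hi
  have hmem : ∀ v, relL L u v ↔ g⁻¹ • v ∈ orbit (L i) (rep i : α) := by
    intro v
    constructor
    · rintro ⟨j, g', l, hl, hu, rfl⟩
      have e : g • rep i = g' • rep j := hg.symm.trans hu
      obtain rfl : i = j := rel_index e
      have hs : g⁻¹ * g' ∈ stabilizer P (rep i : α) := by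
        rw [mem_stabilizer_iff, mul_smul, ← e, ← mul_smul, inv_mul_cancel, one_smul]
      refine ⟨⟨g⁻¹ * g' * l, Subgroup.mul_mem _ (hSt i hs) hl⟩, ?_⟩
      show (g⁻¹ * g' * l) • rep i = g⁻¹ • (g' * l) • rep i
      rw [← mul_smul]
      congr 1
      group
    · rintro ⟨⟨l, hl⟩, hy⟩
      have hy' : l • rep i = g⁻¹ • v := hy
      refine ⟨i, g, l, hl, hg, ?_⟩
      rw [mul_smul, hy', smul_inv_smul]
  refine Nat.card_congr ⟨fun v => ⟨g⁻¹ • v.1, (hmem v.1).1 v.2⟩,
    fun y => ⟨g • y.1, (hmem _).2 (by rw [inv_smul_smul]; exact y.2)⟩, ?_, ?_⟩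
  · intro v; simp
  · intro y; simp

end rel

section chain

variable {P α : Type*} [Group P] [Finite P] [MulAction P α]

lemma orbit_card_mul (x : α) (L : Subgroup P) (h : stabilizer P x ≤ L) :
    Nat.card (orbit L x) * Nat.card (stabilizer P x) = Nat.card L := by
  have h1 : stabilizer L x = (stabilizer P x).subgroupOf L := by
    ext y
    simp [Subgroup.mem_subgroupOf, mem_stabilizer_iff, Subgroup.smul_def]
  have h2 : Nat.card (stabilizer L x) = Nat.card (stabilizer P x) := by
    rw [h1]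
    exact Nat.card_congr (Subgroup.subgroupOfEquivOfLe h).toEquiv
  have h3 := Subgroup.card_mul_index (stabilizer L x)
  rw [index_stabilizer, h2, ← Nat.card_coe_set_eq] at h3
  rw [mul_comm]
  exact h3

lemma exists_over {p : ℕ} [Fact p.Prime] (hP : IsPGroup p P) (x : α) (L₀ : Subgroup P)
    (h0 : stabilizer P x ≤ L₀) {k a : ℕ} (h1 : Nat.card (orbit L₀ x) = p ^ k)
    (h2 : Nat.card (orbit P x) = p ^ a) (hka : k < a) :
    ∃ L₁ : Subgroup P, L₀ ≤ L₁ ∧ Nat.card (orbit L₁ x) = p ^ (k + 1) := by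
  have hp := (Fact.out : p.Prime)
  have hSt : IsPGroup p (stabilizer P x) := hP.to_subgroup _
  obtain ⟨c, hc⟩ := IsPGroup.iff_card.mp hSt
  have hL := orbit_card_mul x L₀ h0
  rw [h1, hc, ← pow_add] at hL
  have hTop : Nat.card P = p ^ (a + c) := by
    have := orbit_card_mul x (⊤ : Subgroup P) le_top
    have h3 : Nat.card (orbit (⊤ : Subgroup P) x) = Nat.card (orbit P x) := by
      have e : orbit (⊤ : Subgroup P) x = orbit P x := by
        ext y
        constructor
        · rintro ⟨⟨g, _⟩, rfl⟩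
          exact ⟨g, rfl⟩
        · rintro ⟨g, rfl⟩
          exact ⟨⟨g, trivial⟩, rfl⟩
      rw [e]
    rw [h3, h2, hc, ← pow_add, Nat.card_congr (Subgroup.topEquiv.toEquiv)] at this
    exact this.symm
  obtain ⟨L₁, hL₁, hle⟩ := Sylow.exists_subgroup_card_pow_prime_le p (n := k + c) (m := k + 1 + c)
    (by rw [hTop]; exact pow_dvd_pow p (by omega)) L₀ hL.symm (by omega)
  refine ⟨L₁, hle, ?_⟩
  have h4 := orbit_card_mul x L₁ (h0.trans hle)
  rw [hL₁, hc, add_comm (k + 1) c, pow_add] at h4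
  rw [mul_comm] at h4
  exact Nat.eq_of_mul_eq_mul_left (pow_pos hp.pos c) h4

lemma orbit_stab_card (x : α) : Nat.card (orbit (stabilizer P x) x) = 1 := by
  have : orbit (stabilizer P x) x = {x} := by
    ext y
    constructor
    · rintro ⟨⟨g, hg⟩, rfl⟩
      exact hg
    · rintro rfl
      exact mem_orbit_self y
  rw [this]
  simp

end chain

section main

variable {α : Type*} [Fintype α] [DecidableEq α]

lemma S_le_pres (S : Subgroup (alternatingGroup α)) {r : α → α → Prop}
    (hinv : ∀ (s : S) (u v : α), r u v → r (s • u) (s • v)) : S ≤ presA r := by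
  intro s hs
  rw [mem_presA]
  intro x y
  constructor
  · exact hinv ⟨s, hs⟩ x y
  · intro h
    have := hinv ⟨s, hs⟩⁻¹ _ _ h
    have e : ∀ z, ((⟨s, hs⟩ : S)⁻¹ : S) • ((s : Perm α) z) = z := by
      intro z
      show (((s : Perm α)⁻¹)) ((s : Perm α) z) = z
      simp
    rwa [e, e] at this

lemma pres_ne_top {r : α → α → Prop} (hr : Equivalence r) {a b d : α} (hab : r a b) (hne : a ≠ b)
    (had : ¬ r a d) : presA r ≠ ⊤ := by
  intro htop
  have hbd : b ≠ d := fun e => had (e ▸ hab)
  have hadne : a ≠ d := fun e => had (e ▸ hr.refl a)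
  have hev := double_swap_mem (α := α) hne hbd
  have hmem : (⟨_, hev⟩ : alternatingGroup α) ∈ presA r := by rw [htop]; trivial
  have h1 := (hmem a b).1 hab
  have e1 : (swap a b * swap b d) a = b := by
    rw [Perm.mul_apply, swap_apply_of_ne_of_ne hne hadne, swap_apply_left]
  have e2 : (swap a b * swap b d) b = d := by
    rw [Perm.mul_apply, swap_apply_left, swap_apply_of_ne_of_ne hadne.symm hbd.symm]
  change r ((swap a b * swap b d) a) ((swap a b * swap b d) b) at h1
  rw [e1, e2] at h1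
  exact had (hr.trans hab h1)

lemma pres_ne_top' {r : α → α → Prop} (hr : Equivalence r) (a : α)
    (h1 : 2 ≤ Nat.card {y // r a y}) (h2 : Nat.card {y // r a y} < Fintype.card α) :
    presA r ≠ ⊤ := by
  classical
  rw [Nat.card_eq_fintype_card, Fintype.card_subtype] at h1 h2
  obtain ⟨b, hb, c, hc, hbc⟩ := Finset.one_lt_card.mp (by omega :
    1 < (Finset.univ.filter (fun y => r a y)).card)
  simp only [Finset.mem_filter, Finset.mem_univ, true_and] at hb hc
  have hd : ∃ d, ¬ r a d := by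
    by_contra hcon
    push Not at hcon
    have : (Finset.univ.filter (fun y => r a y)) = Finset.univ := by
      ext y; simp [hcon y]
    rw [this] at h2
    exact lt_irrefl _ h2
  obtain ⟨d, hd⟩ := hd
  by_cases hab : a = b
  · refine pres_ne_top hr (b := c) hc ?_ hd
    rw [hab]; exact hbc
  · exact pres_ne_top hr hb hab hd

lemma mem_stab_of_iff (g : alternatingGroup α) (O : Set α)
    (h : ∀ z, z ∈ O ↔ (g : Perm α) z ∈ O) : g ∈ stabilizer (alternatingGroup α) O := by
  rw [mem_stabilizer_iff]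
  ext y
  rw [Set.mem_smul_set_iff_inv_smul_mem, h]
  have : (g : Perm α) (g⁻¹ • y) = y := by
    show (g : Perm α) (((g : Perm α)⁻¹) y) = y
    simp
  rw [this]

lemma mem_of_mem_stab {g : alternatingGroup α} {O : Set α}
    (hg : g ∈ stabilizer (alternatingGroup α) O) {z : α} (hz : z ∈ O) : (g : Perm α) z ∈ O := by
  rw [mem_stabilizer_iff] at hg
  rw [← hg]
  exact ⟨z, hz, rfl⟩

lemma S_le_stab (S : Subgroup (alternatingGroup α)) (O : Set α)
    (h : ∀ (s : S) (x : α), x ∈ O → s • x ∈ O) : S ≤ stabilizer (alternatingGroup α) O := by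
  intro s hs
  apply mem_stab_of_iff
  intro z
  constructor
  · exact h ⟨s, hs⟩ z
  · intro hz
    have := h ⟨s, hs⟩⁻¹ _ hz
    have e : ((⟨s, hs⟩ : S)⁻¹ : S) • ((s : Perm α) z) = z := by
      show (((s : Perm α)⁻¹)) ((s : Perm α) z) = z
      simp
    rwa [e] at this

/-- three invariant disjoint sets are impossible -/
lemma three_sets (hn : 5 ≤ Fintype.card α) (S M₀ : Subgroup (alternatingGroup α)) (hM₀ : M₀ ≠ ⊤)
    (hM : ∀ H, S ≤ H → H ≠ ⊤ → H ≤ M₀)
    (O₁ O₂ O₃ : Set α) (h1 : O₁.Nonempty) (h2 : O₂.Nonempty) (h3 : O₃.Nonempty)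
    (d12 : Disjoint O₁ O₂) (d13 : Disjoint O₁ O₃) (d23 : Disjoint O₂ O₃)
    (i1 : ∀ (s : S) (x : α), x ∈ O₁ → s • x ∈ O₁) (i2 : ∀ (s : S) (x : α), x ∈ O₂ → s • x ∈ O₂)
    (s1 : Nat.card α ≠ 2 * O₁.ncard) (s2 : Nat.card α ≠ 2 * O₂.ncard) : False := by
  classical
  have c1 : (O₁ᶜ).Nonempty := ⟨h2.some, Set.disjoint_right.mp d12 h2.some_mem⟩
  have c2 : (O₂ᶜ).Nonempty := ⟨h1.some, Set.disjoint_left.mp d12 h1.some_mem⟩
  have C1 := alternatingGroup.isCoatom_stabilizer h1 c1 s1
  have C2 := alternatingGroup.isCoatom_stabilizer h2 c2 s2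
  have e1 := (C1.le_iff_eq hM₀).1 (hM _ (S_le_stab S O₁ i1) C1.1)
  have e2 := (C2.le_iff_eq hM₀).1 (hM _ (S_le_stab S O₂ i2) C2.1)
  obtain ⟨a, ha⟩ := h1
  obtain ⟨c, hc⟩ := h3
  have hac : a ≠ c := fun e => Set.disjoint_left.mp d13 ha (e ▸ hc)
  have ha2 : a ∉ O₂ := Set.disjoint_left.mp d12 ha
  have hc2 : c ∉ O₂ := Set.disjoint_right.mp d23 hc
  have hc1 : c ∉ O₁ := Set.disjoint_right.mp d13 hc
  -- three other points
  have hcard : 2 < ((Finset.univ : Finset α) \ {a, c}).card := by
    have := Finset.le_card_sdiff ({a, c} : Finset α) (Finset.univ : Finset α)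
    have h4 : ({a, c} : Finset α).card ≤ 2 := Finset.card_le_two
    rw [Finset.card_univ] at this
    omega
  obtain ⟨p, hp, q, hq, t, ht, hpq, hpt, hqt⟩ := Finset.two_lt_card.mp hcard
  simp only [Finset.mem_sdiff, Finset.mem_univ, true_and, Finset.mem_insert, Finset.mem_singleton,
    not_or] at hp hq ht
  -- choose x, y on the same side
  obtain ⟨x, y, hxa, hxc, hya, hyc, hxy, hside⟩ : ∃ x y : α, x ≠ a ∧ x ≠ c ∧ y ≠ a ∧ y ≠ c ∧ x ≠ y ∧
      (x ∈ O₂ ↔ y ∈ O₂) := by
    by_cases h1 : p ∈ O₂ <;> by_cases h2 : q ∈ O₂ <;> by_cases h3 : t ∈ O₂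
    all_goals first
      | exact ⟨p, q, hp.1, hp.2, hq.1, hq.2, hpq, iff_of_true h1 h2⟩
      | exact ⟨p, q, hp.1, hp.2, hq.1, hq.2, hpq, iff_of_false h1 h2⟩
      | exact ⟨p, t, hp.1, hp.2, ht.1, ht.2, hpt, iff_of_true h1 h3⟩
      | exact ⟨p, t, hp.1, hp.2, ht.1, ht.2, hpt, iff_of_false h1 h3⟩
      | exact ⟨q, t, hq.1, hq.2, ht.1, ht.2, hqt, iff_of_true h2 h3⟩
      | exact ⟨q, t, hq.1, hq.2, ht.1, ht.2, hqt, iff_of_false h2 h3⟩
  have hev := double_swap_mem (α := α) hac hxy
  let g : alternatingGroup α := ⟨_, hev⟩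
  have hg2 : g ∈ stabilizer (alternatingGroup α) O₂ := by
    apply mem_stab_of_iff
    intro z
    show z ∈ O₂ ↔ (swap a c * swap x y) z ∈ O₂
    rw [Perm.mul_apply]
    by_cases hzx : z = x
    · subst hzx
      rw [swap_apply_left, swap_apply_of_ne_of_ne hya hyc]
      exact hside
    by_cases hzy : z = y
    · subst hzy
      rw [swap_apply_right, swap_apply_of_ne_of_ne hxa hxc]
      exact hside.symm
    rw [swap_apply_of_ne_of_ne hzx hzy]
    by_cases hza : z = a
    · subst hza
      rw [swap_apply_left]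
      simp [ha2, hc2]
    by_cases hzc : z = c
    · subst hzc
      rw [swap_apply_right]
      simp [ha2, hc2]
    rw [swap_apply_of_ne_of_ne hza hzc]
  have hg1 : g ∈ stabilizer (alternatingGroup α) O₁ := by rw [← e1, e2]; exact hg2
  have := mem_of_mem_stab hg1 ha
  have e : (g : Perm α) a = c := swap_swap_apply_left hxa.symm hya.symm
  rw [e] at this
  exact hc1 this

/-- **Main theorem on alternating groups** -/
theorem alt_three_min (hn : 5 ≤ Fintype.card α) (S M₀ : Subgroup (alternatingGroup α))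
    (hS : IsPGroup 3 S) (hM₀ : M₀ ≠ ⊤) (hM : ∀ H, S ≤ H → H ≠ ⊤ → H ≤ M₀) :
    Fintype.card α = 6 ∨ Fintype.card α = 9 ∨ ∃ a : ℕ, 2 ≤ a ∧ Fintype.card α = 3 ^ a + 1 := by
  classical
  haveI : Fact (Nat.Prime 3) := ⟨by norm_num⟩
  haveI : Nonempty α := by
    rw [← Fintype.card_pos_iff]; omega
  have hcardN : Nat.card α = Fintype.card α := Nat.card_eq_fintype_card
  -- no element of the form:
  have orbit_inv : ∀ (x : α) (s : S) (z : α), z ∈ orbit S x → s • z ∈ orbit S x := by
    intro x s z hz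
    obtain ⟨g, rfl⟩ := hz
    exact ⟨s * g, mul_smul _ _ _⟩
  have orbit_iff : ∀ (x : α) (s : S) (z : α), s • z ∈ orbit S x ↔ z ∈ orbit S x := by
    intro x s z
    refine ⟨fun h => ?_, orbit_inv x s z⟩
    have := orbit_inv x s⁻¹ _ h
    rwa [inv_smul_smul] at this
  have orbit_ncard : ∀ x : α, ∃ a : ℕ, (orbit S x).ncard = 3 ^ a := by
    intro x
    obtain ⟨a, ha⟩ := hS.card_orbit x
    exact ⟨a, by rw [← Nat.card_coe_set_eq]; exact ha⟩
  have orbit_disj : ∀ x y : α, y ∉ orbit S x → Disjoint (orbit S x) (orbit S y) := by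
    intro x y hy
    rw [Set.disjoint_left]
    intro z hzx hzy
    apply hy
    have e1 : orbit S z = orbit S x := orbit_eq_iff.mpr hzx
    have e2 : orbit S z = orbit S y := orbit_eq_iff.mpr hzy
    rw [← e1, e2]
    exact mem_orbit_self y
  have ncard_pos' : ∀ x : α, 0 < (orbit S x).ncard := by
    intro x
    rw [Set.ncard_pos]
    exact ⟨x, mem_orbit_self x⟩
  obtain ⟨x₀⟩ : Nonempty α := inferInstance
  obtain ⟨a, ha⟩ := orbit_ncard x₀
  -- building relation lemma on the orbits of S
  have hLex : ∀ k : ℕ, (∀ i : orbitRel.Quotient S α, ∃ a, k ≤ a ∧ (orbit S (rep i : α)).ncard = 3 ^ a) →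
      1 ≤ k → ∃ L : orbitRel.Quotient S α → Subgroup S, (∀ i, stabilizer S (rep i : α) ≤ L i) ∧
        ∀ i, Nat.card (orbit (L i) (rep i : α)) = 3 := by
    intro k h hk
    have : ∀ i : orbitRel.Quotient S α, ∃ L : Subgroup S, stabilizer S (rep i : α) ≤ L ∧
        Nat.card (orbit L (rep i : α)) = 3 := by
      intro i
      obtain ⟨a, hka, ha⟩ := h i
      obtain ⟨L, hL, hc⟩ := exists_over hS (rep i : α) (stabilizer S (rep i : α)) le_rfl
        (k := 0) (a := a) (by rw [orbit_stab_card]; simp)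
        (by rw [Nat.card_coe_set_eq]; exact ha) (by omega)
      exact ⟨L, hL, by simpa using hc⟩
    choose L hL using this
    exact ⟨L, fun i => (hL i).1, fun i => (hL i).2⟩
  by_cases h1 : ∀ x : α, x ∈ orbit S x₀
  · -- transitive
    have hallorb : ∀ y : α, orbit S y = Set.univ := by
      intro y
      ext z
      simp only [Set.mem_univ, iff_true]
      have e1 : orbit S y = orbit S x₀ := orbit_eq_iff.mpr (h1 y)
      rw [e1]
      exact h1 z
    have hc : Fintype.card α = 3 ^ a := by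
      rw [← ha, show orbit S x₀ = Set.univ from hallorb x₀, Set.ncard_univ, hcardN]
    by_cases ha2 : a = 2
    · right; left; rw [hc, ha2]; norm_num
    have ha3 : 3 ≤ a := by
      by_contra hlt
      have : a ≤ 1 := by omega
      have h3 : 3 ^ a ≤ 3 ^ 1 := Nat.pow_le_pow_right (by norm_num) this
      omega
    exfalso
    -- build L₁ ≤ L₂
    have hall : ∀ i : orbitRel.Quotient S α, (orbit S (rep i : α)).ncard = 3 ^ a := by
      intro i
      rw [hallorb, Set.ncard_univ, hcardN, hc]
    have hex : ∀ i : orbitRel.Quotient S α, ∃ L L' : Subgroup S, stabilizer S (rep i : α) ≤ L ∧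
        L ≤ L' ∧ Nat.card (orbit L (rep i : α)) = 3 ∧ Nat.card (orbit L' (rep i : α)) = 9 := by
      intro i
      obtain ⟨L, hL, hc1⟩ := exists_over hS (rep i : α) (stabilizer S (rep i : α)) le_rfl
        (k := 0) (a := a) (by rw [orbit_stab_card]; simp)
        (by rw [Nat.card_coe_set_eq]; exact hall i) (by omega)
      obtain ⟨L', hL', hc2⟩ := exists_over hS (rep i : α) L hL
        (k := 1) (a := a) (by rw [hc1])
        (by rw [Nat.card_coe_set_eq]; exact hall i) (by omega)
      exact ⟨L, L', hL, hL', hc1, by simpa using hc2⟩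
    choose L L' hL hLL' hc1 hc2 using hex
    have hL2 : ∀ i, stabilizer S (rep i : α) ≤ L' i := fun i => (hL i).trans (hLL' i)
    have er := relL_equiv hL
    have er' := relL_equiv hL2
    have c3 : ∀ x, Nat.card {y // relL L x y} = 3 := fun x => by rw [card_class hL, hc1]
    have c9 : ∀ x, Nat.card {y // relL L' x y} = 9 := fun x => by rw [card_class hL2, hc2]
    have h27 : 27 ≤ Fintype.card α := by
      rw [hc]
      calc 27 = 3 ^ 3 := by norm_num
        _ ≤ 3 ^ a := Nat.pow_le_pow_right (by norm_num) ha3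
    have hp1 := pres_ne_top' er x₀ (by rw [c3]; norm_num) (by rw [c3]; omega)
    have hp2 := pres_ne_top' er' x₀ (by rw [c9]; norm_num) (by rw [c9]; omega)
    have hs1 : S ≤ presA (relL L) := S_le_pres S (fun s u v h => relL_smul h s)
    have hs2 : S ≤ presA (relL L') := S_le_pres S (fun s u v h => relL_smul h s)
    exact hM₀ (join_eq_top er er' (fun x y h => relL_mono hLL' h) c3 (fun x => by rw [c9]; norm_num)
      M₀ (hM _ hs1 hp1) (hM _ hs2 hp2))
  push Not at h1
  obtain ⟨x₁, hx₁⟩ := h1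
  obtain ⟨b, hb⟩ := orbit_ncard x₁
  have d12 := orbit_disj x₀ x₁ hx₁
  by_cases h2 : ∀ x : α, x ∈ orbit S x₀ ∨ x ∈ orbit S x₁
  · -- two orbits
    have hunion : orbit S x₀ ∪ orbit S x₁ = Set.univ := Set.eq_univ_of_forall h2
    have hc : Fintype.card α = 3 ^ a + 3 ^ b := by
      rw [← ha, ← hb, ← Set.ncard_union_eq d12 (Set.toFinite _) (Set.toFinite _), hunion,
        Set.ncard_univ, hcardN]
    by_cases ha0 : a = 0
    · right; right
      subst ha0
      have hb2 : 2 ≤ b := by
        by_contra hlt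
        have : b ≤ 1 := by omega
        have h3 : 3 ^ b ≤ 3 ^ 1 := Nat.pow_le_pow_right (by norm_num) this
        simp at hc
        omega
      exact ⟨b, hb2, by rw [hc]; simp [add_comm]⟩
    by_cases hb0 : b = 0
    · right; right
      subst hb0
      have ha2 : 2 ≤ a := by
        by_contra hlt
        have : a ≤ 1 := by omega
        have h3 : 3 ^ a ≤ 3 ^ 1 := Nat.pow_le_pow_right (by norm_num) this
        simp at hc
        omega
      exact ⟨a, ha2, by rw [hc]; simp⟩
    by_cases h11 : a = 1 ∧ b = 1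
    · left; rw [hc, h11.1, h11.2]; norm_num
    exfalso
    -- triple relation
    have hq : ∀ i : orbitRel.Quotient S α, ∃ c, 1 ≤ c ∧ (orbit S (rep i : α)).ncard = 3 ^ c := by
      intro i
      rcases h2 (rep i : α) with h | h
      · refine ⟨a, by omega, ?_⟩
        rw [orbit_eq_iff.mpr h, ha]
      · refine ⟨b, by omega, ?_⟩
        rw [orbit_eq_iff.mpr h, hb]
    obtain ⟨L, hL, hcL⟩ := hLex 1 hq le_rfl
    have er := relL_equiv hL
    have c3 : ∀ x, Nat.card {y // relL L x y} = 3 := fun x => by rw [card_class hL, hcL]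
    have hp1 := pres_ne_top' er x₀ (by rw [c3]; norm_num) (by rw [c3]; omega)
    have hs1 : S ≤ presA (relL L) := S_le_pres S (fun s u v h => relL_smul h s)
    have hsame : ∀ x y : α, relL L x y → (x ∈ orbit S x₀ ↔ y ∈ orbit S x₀) := by
      intro x y h
      have hxy : y ∈ orbit S x := by
        have := relL_orbit h
        exact Quotient.exact this.symm
      have e : orbit S y = orbit S x := orbit_eq_iff.mpr hxy
      constructor
      · intro hx
        rw [← orbit_eq_iff.mpr hx, ← e]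
        exact mem_orbit_self y
      · intro hy
        rw [← orbit_eq_iff.mpr hy, e]
        exact mem_orbit_self x
    by_cases hab : a = b
    · -- equal sizes: the coarser relation
      subst hab
      have ha2 : 2 ≤ a := by
        by_contra hlt
        exact h11 ⟨by omega, by omega⟩
      let r' : α → α → Prop := fun x y => (x ∈ orbit S x₀ ↔ y ∈ orbit S x₀)
      have er' : Equivalence r' :=
        ⟨fun _ => Iff.rfl, fun h => h.symm, fun h k => h.trans k⟩
      have h9 : 9 ≤ 3 ^ a := by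
        calc 9 = 3 ^ 2 := by norm_num
          _ ≤ 3 ^ a := Nat.pow_le_pow_right (by norm_num) ha2
      have c' : ∀ x, Nat.card {y // r' x y} = 3 ^ a := by
        intro x
        have e : ∀ T : Set α, (∀ y, r' x y ↔ y ∈ T) → Nat.card {y // r' x y} = T.ncard := by
          intro T hT
          rw [← Nat.card_coe_set_eq]
          exact Nat.card_congr (Equiv.subtypeEquivRight hT)
        by_cases hx : x ∈ orbit S x₀
        · rw [e (orbit S x₀), ha]
          intro y
          show (x ∈ orbit S x₀ ↔ y ∈ orbit S x₀) ↔ _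
          simp [hx]
        · rw [e (orbit S x₁), hb]
          intro y
          show (x ∈ orbit S x₀ ↔ y ∈ orbit S x₀) ↔ _
          constructor
          · intro hy
            rcases h2 y with h | h
            · exact absurd (hy.2 h) hx
            · exact h
          · intro hy
            exact ⟨fun h => absurd h hx, fun h => absurd hy (Set.disjoint_left.mp d12 h)⟩
      have hp2 := pres_ne_top' er' x₀ (by rw [c']; omega) (by rw [c']; omega)
      have hs2 : S ≤ presA r' := S_le_pres S (fun s u v h => by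
        show s • u ∈ orbit S x₀ ↔ s • v ∈ orbit S x₀
        rw [orbit_iff, orbit_iff]
        exact h)
      exact hM₀ (join_eq_top er er' hsame c3 (fun x => by rw [c']; omega)
        M₀ (hM _ hs1 hp1) (hM _ hs2 hp2))
    · -- different sizes
      have h4 : (orbit S x₁).Nonempty := ⟨x₁, mem_orbit_self x₁⟩
      have C1 := alternatingGroup.isCoatom_stabilizer (s := orbit S x₀) ⟨x₀, mem_orbit_self x₀⟩
        ⟨x₁, hx₁⟩ (by
          rw [ha, hcardN, hc]
          intro e
          have : 3 ^ a = 3 ^ b := by omega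
          exact hab (Nat.pow_right_injective (by norm_num : 2 ≤ 3) this))
      have e1 := (C1.le_iff_eq hM₀).1 (hM _ (S_le_stab S _ (orbit_inv x₀)) C1.1)
      have hnr : ¬ relL L x₀ x₁ := by
        intro h
        exact hx₁ ((hsame _ _ h).1 (mem_orbit_self x₀))
      obtain ⟨g, hg, hgx, _⟩ := exists_tri er c3 hnr
      have hg1 : g ∈ stabilizer (alternatingGroup α) (orbit S x₀) := by
        rw [← e1]; exact hM _ hs1 hp1 hg
      have := mem_of_mem_stab hg1 (mem_orbit_self x₀)
      rw [hgx] at this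
      exact hx₁ this
  · -- three orbits
    exfalso
    push Not at h2
    obtain ⟨x₂, h20, h21⟩ := h2
    obtain ⟨c, hc⟩ := orbit_ncard x₂
    have d13 := orbit_disj x₀ x₂ h20
    have d23 := orbit_disj x₁ x₂ h21
    have pos1 := ncard_pos' x₀
    have pos2 := ncard_pos' x₁
    have pos3 := ncard_pos' x₂
    have hsum : (orbit S x₀).ncard + (orbit S x₁).ncard + (orbit S x₂).ncard ≤ Nat.card α := by
      rw [← Set.ncard_union_eq d12 (Set.toFinite _) (Set.toFinite _),
        ← Set.ncard_union_eq (by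
          rw [Set.disjoint_union_left]; exact ⟨d13, d23⟩) (Set.toFinite _) (Set.toFinite _)]
      rw [← Set.ncard_univ]
      exact Set.ncard_le_ncard (Set.subset_univ _) (Set.toFinite _)
    have ne1 : ∀ x : α, (x ∈ ({x₀, x₁, x₂} : Set α)) → (orbit S x).Nonempty :=
      fun x _ => ⟨x, mem_orbit_self x⟩
    by_cases s1 : Nat.card α = 2 * (orbit S x₀).ncard
    · exact three_sets hn S M₀ hM₀ hM (orbit S x₁) (orbit S x₂) (orbit S x₀)
        ⟨x₁, mem_orbit_self _⟩ ⟨x₂, mem_orbit_self _⟩ ⟨x₀, mem_orbit_self _⟩ d23 d12.symm d13.symm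
        (orbit_inv x₁) (orbit_inv x₂) (by omega) (by omega)
    · by_cases s2 : Nat.card α = 2 * (orbit S x₁).ncard
      · exact three_sets hn S M₀ hM₀ hM (orbit S x₀) (orbit S x₂) (orbit S x₁)
          ⟨x₀, mem_orbit_self _⟩ ⟨x₂, mem_orbit_self _⟩ ⟨x₁, mem_orbit_self _⟩ d13 d12 d23.symm
          (orbit_inv x₀) (orbit_inv x₂) s1 (by omega)
      · exact three_sets hn S M₀ hM₀ hM (orbit S x₀) (orbit S x₁) (orbit S x₂)
          ⟨x₀, mem_orbit_self _⟩ ⟨x₁, mem_orbit_self _⟩ ⟨x₂, mem_orbit_self _⟩ d12 d13 d23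
          (orbit_inv x₀) (orbit_inv x₁) s1 s2

end main

end Cfsg.Agent.Lib.Perm.ThreeMinB
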